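import Cfsg.Agent.Helper77.LocalRing
import Cfsg.Agent.Helper3.Burnside2
import Cfsg.Agent.Helper81.CharBasic

/-!
# Prime-power degree characters in the principal block of a simple group

`irr_eq_zero_of_coprime_of_simple` (Burnside vanishing), `exists_ne_one_not_dvd_index_centralizer`,
`eq_one_of_principal_of_prime_pow`.
-/

set_option autoImplicit false
open Cfsg

namespace Cfsg.Agent.Helper77

/-- Burnside vanishing in a non-abelian simple group: a non-principal irreducible character
vanishes at `g ≠ 1` when its degree is coprime to the class size of `g`. -/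
theorem irr_eq_zero_of_coprime_of_simple {G : Type*} [Group G] [Finite G] [IsSimpleGroup G]
    (hnc : ¬ ∀ a b : G, a * b = b * a) (g : G) (hg : g ≠ 1)
    (χ : Cfsg.IrrCharacter G) (hχ : (χ : G → ℂ) ≠ fun _ => 1)
    (hcop : Nat.Coprime (Cfsg.charDegree (χ : G → ℂ)) (Subgroup.centralizer ({g} : Set G)).index) :
    (χ : G → ℂ) g = 0 := by
  classical
  have : Fintype G := Fintype.ofFinite G
  obtain ⟨n, ρ, hρ, hχeq⟩ := χ.2
  have := hρ
  have hdeg : Cfsg.charDegree (χ : G → ℂ) = Module.finrank ℂ (Fin n → ℂ) := by
    have h1 := Helper81.irr_one_eq_charDegree χ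
    have h2 : (χ : G → ℂ) 1 = (Module.finrank ℂ (Fin n → ℂ) : ℂ) := by
      rw [← hχeq, Representation.char_one]
    rw [h2] at h1
    exact_mod_cast h1.symm
  rw [hdeg] at hcop
  rw [← hχeq]
  rcases Helper3.burnside_coprime ρ g hcop with h0 | hnorm
  · exact h0
  · exfalso
    obtain ⟨ω, hω⟩ := Helper3.rep_scalar_of_norm_eq ρ g hnorm
    rcases IsSimpleGroup.eq_bot_or_eq_top_of_normal (MonoidHom.ker ρ) inferInstance with hK | hK
    · have hcen : g ∈ Subgroup.center G := by
        rw [Subgroup.mem_center_iff]
        intro h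
        have h1 : ρ (h * g) = ρ (g * h) := by
          rw [map_mul, map_mul, hω]
          ext v
          simp
        have h2 : (h * g) * (g * h)⁻¹ ∈ MonoidHom.ker ρ := by
          rw [MonoidHom.mem_ker, map_mul, h1, ← map_mul, mul_inv_cancel, map_one]
        rw [hK, Subgroup.mem_bot] at h2
        exact mul_inv_eq_one.mp h2
      rcases IsSimpleGroup.eq_bot_or_eq_top_of_normal (Subgroup.center G) inferInstance
        with hZ | hZ
      · rw [hZ, Subgroup.mem_bot] at hcen
        exact hg hcen
      · apply hnc
        intro a b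
        have ha : a ∈ Subgroup.center G := by rw [hZ]; trivial
        exact (Subgroup.mem_center_iff.mp ha b).symm
    · have htriv : ∀ h : G, ρ h = 1 := by
        intro h
        have : h ∈ MonoidHom.ker ρ := by rw [hK]; trivial
        exact MonoidHom.mem_ker.mp this
      have hconst : ∀ h : G, ρ.character h = (Module.finrank ℂ (Fin n → ℂ) : ℂ) := by
        intro h
        rw [Representation.character, htriv h]
        exact LinearMap.trace_one ℂ _
      have hsum := Helper3.sum_character_mul_inv ρ
      simp only [hconst] at hsum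
      rw [Finset.sum_const, Finset.card_univ, nsmul_eq_mul, Nat.card_eq_fintype_card] at hsum
      have hG : (Fintype.card G : ℂ) ≠ 0 := by exact_mod_cast Fintype.card_ne_zero
      have hd : (Module.finrank ℂ (Fin n → ℂ) : ℂ) * (Module.finrank ℂ (Fin n → ℂ) : ℂ) = 1 := by
        have := mul_left_cancel₀ hG (hsum.trans (mul_one _).symm)
        exact this
      have hd' : Module.finrank ℂ (Fin n → ℂ) * Module.finrank ℂ (Fin n → ℂ) = 1 := by
        exact_mod_cast hd
      have hd1 : Module.finrank ℂ (Fin n → ℂ) = 1 := by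
        exact Nat.eq_one_of_mul_eq_one_left hd'
      apply hχ
      rw [← hχeq]
      funext h
      rw [hconst h, hd1]
      simp

/-- Every finite group has a non-identity element whose class size is prime to `p`, unless it is
trivial. -/
theorem exists_ne_one_not_dvd_index_centralizer {G : Type*} [Group G] [Finite G] [Nontrivial G]
    (p : ℕ) [Fact p.Prime] :
    ∃ g : G, g ≠ 1 ∧ ¬ p ∣ (Subgroup.centralizer ({g} : Set G)).index := by
  by_cases hp : p ∣ Nat.card G
  · obtain ⟨P⟩ : Nonempty (Sylow p G) := inferInstance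
    have hPnt : Nontrivial (P : Subgroup G) := by
      have hcard := P.card_eq_multiplicity
      have h1 : 1 < Nat.card (P : Subgroup G) := by
        rw [hcard]
        have hpos : 0 < (Nat.card G).factorization p :=
          (Nat.Prime.factorization_pos_of_dvd Fact.out Nat.card_pos.ne' hp)
        exact Nat.one_lt_pow hpos.ne' (Fact.out : p.Prime).one_lt
      exact Finite.one_lt_card_iff_nontrivial.mp h1
    have hZ := IsPGroup.center_nontrivial (P.isPGroup')
    obtain ⟨z, hz⟩ := exists_ne (1 : Subgroup.center (P : Subgroup G))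
    refine ⟨((z : (P : Subgroup G)) : G), ?_, ?_⟩
    · intro h
      apply hz
      ext
      exact_mod_cast h
    · have hle : (P : Subgroup G) ≤ Subgroup.centralizer ({((z : (P : Subgroup G)) : G)} : Set G) := by
        intro u hu
        rw [Subgroup.mem_centralizer_iff]
        intro w hw
        rw [Set.mem_singleton_iff] at hw
        subst hw
        have := Subgroup.mem_center_iff.mp z.2 ⟨u, hu⟩
        have h2 := congrArg (Subtype.val) this
        simpa using h2.symm
      intro hdvd
      exact P.not_dvd_index (hdvd.trans (Subgroup.index_dvd_of_le hle))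
  · obtain ⟨g, hg⟩ := exists_ne (1 : G)
    exact ⟨g, hg, fun h => hp (h.trans (Subgroup.index_dvd_card _))⟩

theorem eq_one_of_principal_of_prime_pow {G : Type*} [Group G] [Finite G] (p : ℕ) [Fact p.Prime] (M : Ideal Cfsg.AlgInt) (hM : Cfsg.IsPModular p M) [IsSimpleGroup G] (hna : ∃ a b : G, a * b ≠ b * a) (χ : Cfsg.IrrCharacter G) (hχ : χ ∈ Cfsg.principalBlock M G) (k : ℕ) (hdeg : (χ : G → ℂ) 1 = (p : ℂ) ^ k) : (χ : G → ℂ) = fun _ => 1 := by
  by_contra hne
  have hnc : ¬ ∀ a b : G, a * b = b * a := by
    obtain ⟨a, b, hab⟩ := hna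
    exact fun h => hab (h a b)
  obtain ⟨g, hg, hp⟩ := exists_ne_one_not_dvd_index_centralizer (G := G) p
  have hd : Cfsg.charDegree (χ : G → ℂ) = p ^ k := by
    have h1 := Helper81.irr_one_eq_charDegree χ
    rw [hdeg] at h1
    exact_mod_cast h1.symm
  have hcop : Nat.Coprime (Cfsg.charDegree (χ : G → ℂ))
      (Subgroup.centralizer ({g} : Set G)).index := by
    rw [hd]
    exact Nat.Coprime.pow_left k ((Nat.Prime.coprime_iff_not_dvd Fact.out).2 hp)
  have h0 := irr_eq_zero_of_coprime_of_simple hnc g hg χ hne hcop
  have hb := hχ g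
  have h1 : Cfsg.centralChar (fun _ : G => (1 : ℂ)) g - Cfsg.centralChar (χ : G → ℂ) g
      = ((Subgroup.centralizer ({g} : Set G)).index : ℂ) := by
    simp [Cfsg.centralChar, h0]
  rw [h1] at hb
  exact not_memLocalIdeal_natCast hM hp hb

end Cfsg.Agent.Helper77
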