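import Cfsg.Agent.Helper55.N9Defs
import Cfsg.Prelude.Def_Solvable
import Cfsg.Agent.Helper1.Basic
import Cfsg.Agent.Helper51.Replace

set_option autoImplicit false

namespace Cfsg.Agent.Helper77.N9

open Subgroup Cfsg.Agent.Helper55.N9

section
variable {S : Type*} [Group S] [Finite S]

theorem n9_core_setting
    (h8 : ∃ A : Subgroup S, IsMulCommutative ↥A ∧ ¬ IsCyclic ↥A ∧ Nat.card ↥A = 8)
    (hmin : ∀ R : Subgroup S, R ≠ ⊤ → (∃ k : ℕ, R.index = 2 ^ k) →
      ¬ ∃ A : Subgroup S, A ≤ R ∧ IsMulCommutative ↥A ∧ ¬ IsCyclic ↥A ∧ Nat.card ↥A = 8)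
    (hhh : centralizer ((Cfsg.pCore 2 S : Subgroup S) : Set S) ≤ Cfsg.pCore 2 S)
    (X : Sylow 2 S) (hXn : (X : Subgroup S).Normal) :
    ∃ K : Subgroup S, Core (X : Subgroup S) K := by
  classical
  haveI : Fact (Nat.Prime 2) := ⟨Nat.prime_two⟩
  have hXp : IsPGroup 2 (X : Subgroup S) := X.isPGroup'
  obtain ⟨n, hn⟩ := IsPGroup.iff_card.mp hXp
  have hnd : ¬ 2 ∣ (X : Subgroup S).index := X.not_dvd_index
  have hcop : Nat.Coprime (Nat.card (X : Subgroup S)) (X : Subgroup S).index := by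
    rw [hn]
    exact Nat.Coprime.pow_left _ ((Nat.Prime.coprime_iff_not_dvd Nat.prime_two).mpr hnd)
  obtain ⟨K, hK⟩ := Subgroup.exists_right_complement'_of_coprime hcop
  have hKcard : Nat.card K = (X : Subgroup S).index := (hK.symm.index_eq_card).symm
  have hKidx : K.index = Nat.card (X : Subgroup S) := hK.index_eq_card
  have hKodd : Odd (Nat.card K) := by
    rw [hKcard, Nat.odd_iff, ← Nat.two_dvd_ne_zero]; exact hnd
  have hdisj : (X : Subgroup S) ⊓ K = ⊥ := hK.disjoint.eq_bot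
  have hQ : Cfsg.pCore 2 S = (X : Subgroup S) := by
    apply le_antisymm
    · rw [Cfsg.Agent.Helper1.pCore_eq_iInf_sylow]; exact iInf_le _ X
    · exact Cfsg.Agent.Helper1.le_pCore hXn hXp
  rw [hQ] at hhh
  refine ⟨K, ⟨hXp, hKodd, ?_, ?_, ?_, ?_⟩⟩
  · rw [Subgroup.normalizer_eq_top]; exact le_top
  · intro k hk hcomm
    have hkc : k ∈ centralizer ((X : Subgroup S) : Set S) := by
      rw [Subgroup.mem_centralizer_iff]
      intro x hx
      exact (hcomm x hx).symm
    have hkX : k ∈ (X : Subgroup S) := hhh hkc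
    have hkb : k ∈ (X : Subgroup S) ⊓ K := ⟨hkX, hk⟩
    rw [hdisj] at hkb
    exact Subgroup.mem_bot.mp hkb
  · intro Y hYX hYne hKY
    have hidx : ∃ k : ℕ, (Y ⊔ K).index = 2 ^ k := by
      have h1 : (Y ⊔ K).index ∣ K.index := Subgroup.index_dvd_of_le le_sup_right
      rw [hKidx, hn] at h1
      obtain ⟨j, -, hj⟩ := (Nat.dvd_prime_pow Nat.prime_two).mp h1
      exact ⟨j, hj⟩
    have hRne : Y ⊔ K ≠ ⊤ := by
      intro htop
      apply hYne
      have h1 := Cfsg.Agent.Helper51.card_sup_mul_card_inf_of_le_normalizer K Y hKY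
      have h2 : K ⊓ Y = ⊥ := by
        apply le_antisymm _ bot_le
        rw [← hdisj]
        exact le_inf (inf_le_right.trans hYX) inf_le_left
      rw [sup_comm, htop, h2, Subgroup.card_top, Subgroup.card_bot, mul_one] at h1
      have h3 : Nat.card (X : Subgroup S) * Nat.card K = Nat.card S := hK.card_mul_card
      have hKpos : 0 < Nat.card K := Nat.card_pos
      have h4 : Nat.card Y = Nat.card (X : Subgroup S) := by
        have h5 : Nat.card K * Nat.card Y = Nat.card K * Nat.card (X : Subgroup S) := by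
          rw [← h1, ← h3, mul_comm]
        exact Nat.eq_of_mul_eq_mul_left hKpos h5
      exact Subgroup.eq_of_le_of_card_ge hYX (le_of_eq h4.symm)
    have hno := hmin (Y ⊔ K) hRne hidx
    rintro ⟨A, hA, h1, h2, h3⟩
    exact hno ⟨A, hA.trans le_sup_left, h1, h2, h3⟩
  · intro hNo
    obtain ⟨A, hA1, hA2, hA3⟩ := h8
    have hAp : IsPGroup 2 A := IsPGroup.of_card (n := 3) (by rw [hA3]; norm_num)
    obtain ⟨P, hP⟩ := hAp.exists_le_sylow
    haveI := Sylow.unique_of_normal X hXn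
    have hPX : P = X := Subsingleton.elim _ _
    rw [hPX] at hP
    exact hNo ⟨A, hP, hA1, hA2, hA3⟩

end

end Cfsg.Agent.Helper77.N9
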