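import Cfsg.Agent.Helper77.ClassSum
import Mathlib.Algebra.MonoidAlgebra.MapDomain
import Mathlib.Data.ZMod.Basic
import Cfsg.Prelude.Def_Solvable

/-!
# Powers of class sums

`convPow a n` is the `n`-th convolution power.  If the class sum of `g` is nilpotent in the group
algebra over `ZMod p`, then every central character value `ω_ψ(g)` lies in the local ideal.
-/

set_option autoImplicit false
open Cfsg
open scoped ComplexConjugate

namespace Cfsg.Agent.Helper77

universe u

variable {G : Type u} [Group G] [Fintype G]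

/-- The `n`-th convolution power of a function on `G`. -/
noncomputable def convPow (a : G → ℂ) : ℕ → G → ℂ
  | 0 => Helper81.deltaOne 1
  | (n + 1) => Helper81.conv a (convPow a n)

theorem convPow_isClassFunction {a : G → ℂ} (ha : Cfsg.IsClassFunction G a) (n : ℕ) :
    Cfsg.IsClassFunction G (convPow a n) := by
  induction n with
  | zero => exact Helper81.deltaOne_isClassFunction 1
  | succ n ih => exact Helper81.conv_isClassFunction ha ih

theorem omega_convPow (ψ : Cfsg.IrrCharacter G) {a : G → ℂ} (ha : Cfsg.IsClassFunction G a)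
    (n : ℕ) : Helper81.omega (ψ : G → ℂ) (convPow a n) = Helper81.omega (ψ : G → ℂ) a ^ n := by
  induction n with
  | zero => rw [pow_zero]; exact Helper81.omega_deltaOne ψ 1
  | succ n ih =>
    change Helper81.omega (ψ : G → ℂ) (Helper81.conv a (convPow a n)) = _
    rw [Helper81.omega_conv ψ ha (convPow_isClassFunction ha n), ih, pow_succ']

/-- If some convolution power of the class sum of `g` has all its values in the local ideal, then
the central character values at `g` lie in the local ideal. -/
theorem centralChar_memLocalIdeal_of_convPow {M : Ideal Cfsg.AlgInt} (hM : M.IsMaximal) (g : G)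
    (n : ℕ) (hn : ∀ y, Cfsg.MemLocalIdeal M (convPow (Helper81.classInd g) n y))
    (ψ : Cfsg.IrrCharacter G) : Cfsg.MemLocalIdeal M (Cfsg.centralChar (ψ : G → ℂ) g) := by
  classical
  have hK := Helper81.classInd_isClassFunction g
  have h1 := omega_convPow ψ hK n
  rw [Helper81.omega_classInd, omega_eq_sum_conjClasses ψ (convPow_isClassFunction hK n)] at h1
  have hω : ∀ y : G, Cfsg.MemLocalRing M (Cfsg.centralChar (ψ : G → ℂ) y) := fun y =>
    memLocalRing_of_isIntegral hM (Helper81.centralChar_isIntegral ψ y)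
  have h2 : Cfsg.MemLocalIdeal M (Cfsg.centralChar (ψ : G → ℂ) g ^ n) := by
    rw [← h1]
    exact memLocalIdeal_sum hM _ _ fun c _ => memLocalIdeal_mul' hM (hn _) (hω _)
  by_contra h3
  have h4 := prod_memLocalRing_not_memLocalIdeal hM (Finset.range n)
    (fun _ => Cfsg.centralChar (ψ : G → ℂ) g) (fun _ _ => ⟨hω g, h3⟩)
  rw [Finset.prod_const, Finset.card_range] at h4
  exact h4.2 h2

open Classical in
/-- The class sum of `g` in the group algebra over `R`. -/
noncomputable def classSumAlg (R : Type*) [Semiring R] (g : G) : MonoidAlgebra R G :=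
  ∑ x : G, if IsConj g x then MonoidAlgebra.single x (1 : R) else 0

theorem mapRingHom_classSumAlg {R S : Type*} [Semiring R] [Semiring S] (f : R →+* S) (g : G) :
    MonoidAlgebra.mapRingHom G f (classSumAlg R g) = classSumAlg S g := by
  classical
  rw [classSumAlg, classSumAlg, map_sum]
  refine Finset.sum_congr rfl fun x _ => ?_
  split_ifs
  · rw [MonoidAlgebra.mapRingHom_single, map_one]
  · rw [map_zero]

open Classical in
theorem coeff_classSumAlg_mul {R : Type*} [Semiring R] (g : G) (X : MonoidAlgebra R G) (y : G) :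
    (classSumAlg R g * X).coeff y = ∑ x : G, if IsConj g x then X.coeff (x⁻¹ * y) else 0 := by
  classical
  rw [classSumAlg, Finset.sum_mul, MonoidAlgebra.coeff_sum, Finset.sum_apply']
  refine Finset.sum_congr rfl fun x _ => ?_
  split_ifs
  · rw [MonoidAlgebra.coeff_single_mul_apply, one_mul]
  · rw [zero_mul]; rfl

theorem convPow_classInd_eq (g : G) (n : ℕ) (y : G) :
    convPow (Helper81.classInd g) n y = (((classSumAlg ℤ g) ^ n).coeff y : ℂ) := by
  classical
  induction n generalizing y with
  | zero =>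
    rw [pow_zero, MonoidAlgebra.one_def, MonoidAlgebra.coeff_single, Finsupp.single_apply]
    change Helper81.deltaOne 1 y = _
    simp only [Helper81.deltaOne]
    by_cases hy : y = 1
    · subst hy; simp
    · rw [if_neg hy, if_neg (fun h => hy h.symm)]; simp
  | succ n ih =>
    change Helper81.conv (Helper81.classInd g) (convPow (Helper81.classInd g) n) y = _
    rw [pow_succ', coeff_classSumAlg_mul, Helper81.conv]
    push_cast
    refine Finset.sum_congr rfl fun x _ => ?_
    rw [ih, Helper81.classInd]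
    split_ifs
    · rw [one_mul]
    · rw [zero_mul]

/-- The class sum in the form used in the statements (a `finsum` over the carrier of the
conjugacy class) equals `classSumAlg`. -/
theorem finsum_carrier_eq_classSumAlg (R : Type*) [Semiring R] (g : G) :
    (∑ᶠ x ∈ ConjClasses.carrier (ConjClasses.mk g), MonoidAlgebra.single x (1 : R) :
      MonoidAlgebra R G) = classSumAlg R g := by
  classical
  rw [finsum_eq_sum_of_fintype, classSumAlg]
  refine Finset.sum_congr rfl fun x _ => ?_
  rw [finsum_eq_if]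
  have : x ∈ ConjClasses.carrier (ConjClasses.mk g) ↔ IsConj g x := by
    rw [ConjClasses.mem_carrier_iff_mk_eq, ConjClasses.mk_eq_mk_iff_isConj]
    exact ⟨fun h => h.symm, fun h => h.symm⟩
  simp only [this]

/-- **Nilpotent class sums have central character values in the local ideal.** -/
theorem centralChar_memLocalIdeal_of_isNilpotent {p : ℕ} [Fact p.Prime] {M : Ideal Cfsg.AlgInt}
    (hM : Cfsg.IsPModular p M) (g : G)
    (hnil : IsNilpotent (∑ᶠ x ∈ ConjClasses.carrier (ConjClasses.mk g),
      MonoidAlgebra.single x (1 : ZMod p) : MonoidAlgebra (ZMod p) G))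
    (ψ : Cfsg.IrrCharacter G) : Cfsg.MemLocalIdeal M (Cfsg.centralChar (ψ : G → ℂ) g) := by
  classical
  rw [finsum_carrier_eq_classSumAlg] at hnil
  obtain ⟨n, hn⟩ := hnil
  apply centralChar_memLocalIdeal_of_convPow hM.2.1 g n _ ψ
  intro y
  rw [convPow_classInd_eq]
  have h1 : MonoidAlgebra.mapRingHom G (Int.castRingHom (ZMod p)) ((classSumAlg ℤ g) ^ n) = 0 := by
    rw [map_pow, mapRingHom_classSumAlg, hn]
  have h2 := congrArg (fun X : MonoidAlgebra (ZMod p) G => X.coeff y) h1
  simp only [MonoidAlgebra.coeff_mapRingHom, MonoidAlgebra.coeff_zero, Finsupp.coe_zero,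
    Pi.zero_apply, eq_intCast] at h2
  obtain ⟨k, hk⟩ := (ZMod.intCast_zmod_eq_zero_iff_dvd _ p).mp h2
  rw [hk]
  push_cast
  have hint : Cfsg.MemLocalRing M (k : ℂ) :=
    memLocalRing_of_isIntegral hM.2.1 (isIntegral_algebraMap (x := k))
  exact memLocalIdeal_mul' hM.2.1 (memLocalIdeal_prime hM) hint

omit [Fintype G] in
/-- `O_p(G)` is a normal `p`-subgroup. -/
theorem pCore_normal' (p : ℕ) : (Cfsg.pCore p G).Normal :=
  Subgroup.sSup_normal _ (fun _ hH => hH.1)

omit [Fintype G] in
theorem pCore_isPGroup' (p : ℕ) : IsPGroup p (Cfsg.pCore p G) :=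
  Sylow.sSup_of_normal _ (fun _ hH => hH.2) (fun _ hH => hH.1)

/-- **`O_p(G)` is contained in every defect group**, given the nilpotency (modulo `p`) of the
class sums of the classes missing `C_G(O_p(G))`. -/
theorem pCore_le_defectGroup {p : ℕ} [Fact p.Prime] {M : Ideal Cfsg.AlgInt}
    (hM : Cfsg.IsPModular p M)
    (hnil : ∀ g : G, (∀ x : G, IsConj g x → x ∉ Subgroup.centralizer (Cfsg.pCore p G : Set G)) →
      IsNilpotent (∑ᶠ x ∈ ConjClasses.carrier (ConjClasses.mk g),
        MonoidAlgebra.single x (1 : ZMod p) : MonoidAlgebra (ZMod p) G))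
    {B : Set (Cfsg.IrrCharacter G)} (hB : Cfsg.IsPBlock M B) {D : Subgroup G}
    (hD : Cfsg.IsDefectGroup p M B D) : Cfsg.pCore p G ≤ D := by
  obtain ⟨g, hg, P, rfl⟩ := hD
  obtain ⟨χ₀, hχ₀⟩ : ∃ χ₀, χ₀ ∈ B := by
    obtain ⟨χ₀, rfl⟩ := hB
    haveI := hM.2.1.isPrime
    exact ⟨χ₀, Helper81.mem_blockOf_self χ₀⟩
  haveI hQn : (Cfsg.pCore p G).Normal := pCore_normal' p
  have hQp : IsPGroup p (Cfsg.pCore p G) := pCore_isPGroup' p
  have hgQ : g ∈ Subgroup.centralizer (Cfsg.pCore p G : Set G) := by
    by_contra hgQ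
    apply hg.2.2 χ₀ hχ₀
    apply centralChar_memLocalIdeal_of_isNilpotent hM g (hnil g _) χ₀
    intro x hx hxQ
    apply hgQ
    obtain ⟨t, ht⟩ := isConj_iff.mp hx
    rw [Subgroup.mem_centralizer_iff] at hxQ ⊢
    intro u hu
    have h1 := hxQ (t * u * t⁻¹) (hQn.conj_mem u hu t)
    rw [← ht] at h1
    have h2 : u * g = t⁻¹ * (t * u * t⁻¹ * (t * g * t⁻¹)) * t := by group
    rw [h2, h1]
    group
  have hle : Cfsg.pCore p G ≤ Subgroup.centralizer ({g} : Set G) := by
    intro u hu
    rw [Subgroup.mem_centralizer_iff] at hgQ ⊢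
    intro y hy
    rw [Set.mem_singleton_iff] at hy
    rw [hy]
    exact (hgQ u hu).symm
  have h3 : (Cfsg.pCore p G).subgroupOf (Subgroup.centralizer ({g} : Set G)) ≤ P :=
    IsPGroup.le_sylow_of_normal hQp.comap_subtype P
  intro u hu
  exact ⟨⟨u, hle hu⟩, h3 (by rw [Subgroup.mem_subgroupOf]; exact hu), rfl⟩

end Cfsg.Agent.Helper77
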