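import Cfsg.Agent.Helper77.StabSylow

/-!
# Brauer pairs above `(Q, f)` inside `C_G(Q)`

* `centCompat_centralizer`: for `Q ≤ R ≤ C_G(Q)`, `C_{C_G(Q)}(R) = C_G(R)`.
* `isDefectGroup_centralizer_of_le_centralizer`: if `(Q, f) ≤ (P, e)`, `(P, e)` maximal and `P`
  centralizes `Q`, then `P` is a defect group of `f`.
* `exists_conjPair_eq_of_le_centralizer`: two maximal Brauer pairs above `(Q, f)` whose subgroups
  centralize `Q` are conjugate under `C_G(Q)`.
* `exists_stabilizer_mul_centralizer`: for `P` abelian, `N_G(Q, f) ⊆ N_G(P, e) C_G(Q)`.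
-/

set_option autoImplicit false
set_option linter.style.haveILetI false
open Cfsg

namespace Cfsg.Agent.Helper77

universe u

variable {G : Type u} [Group G]

/-- For `Q ≤ R ≤ C_G(Q)`: `C_{C_G(Q)}(R) = C_G(R)`. -/
theorem centCompat_centralizer (Q R : Subgroup G) (hQR : Q ≤ R)
    (hRC : R ≤ (Subgroup.centralizer (Q : Set G))) :
    CentCompat (Subgroup.centralizer (Q : Set G)) (R.subgroupOf (Subgroup.centralizer (Q : Set G))) R := by
  intro g
  constructor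
  · intro hg
    have hgC : g ∈ (Subgroup.centralizer (Q : Set G)) :=
      Subgroup.centralizer_le (by exact_mod_cast hQR) hg
    refine ⟨hgC, ?_⟩
    rw [Subgroup.mem_centralizer_iff]
    intro r hr
    apply Subtype.ext
    exact Subgroup.mem_centralizer_iff.mp hg r (Subgroup.mem_subgroupOf.mp hr)
  · rintro ⟨hgC, hc⟩
    rw [Subgroup.mem_centralizer_iff]
    intro r hr
    have := Subgroup.mem_centralizer_iff.mp hc ⟨r, hRC hr⟩ (Subgroup.mem_subgroupOf.mpr hr)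
    exact congrArg Subtype.val this

theorem map_conj_eq_of_subgroupOf (H : Subgroup G) {R₁ R₂ : Subgroup G} (h₁ : R₁ ≤ H)
    (h₂ : R₂ ≤ H) (t : H)
    (h : (R₂.subgroupOf H).map (MulAut.conj t).toMonoidHom = R₁.subgroupOf H) :
    R₂.map (MulAut.conj (t : G)).toMonoidHom = R₁ := by
  ext w
  rw [mem_map_conj_iff]
  constructor
  · intro hw
    have hwH : w ∈ H := by
      have := H.mul_mem (H.mul_mem t.2 (h₂ hw)) (H.inv_mem t.2)
      rwa [show (t : G) * ((t : G)⁻¹ * w * (t : G)) * (t : G)⁻¹ = w by group] at this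
    have h1 : (⟨w, hwH⟩ : H) ∈ (R₂.subgroupOf H).map (MulAut.conj t).toMonoidHom := by
      rw [mem_map_conj_iff, Subgroup.mem_subgroupOf]
      exact hw
    rw [h] at h1
    exact Subgroup.mem_subgroupOf.mp h1
  · intro hw
    have h1 : (⟨w, h₁ hw⟩ : H) ∈ R₁.subgroupOf H := Subgroup.mem_subgroupOf.mpr hw
    rw [← h, mem_map_conj_iff, Subgroup.mem_subgroupOf] at h1
    exact h1

variable [Fintype G]

/-- If `(Q, f) ≤ (P, e)` with `(P, e)` maximal and `P` centralizing `Q`, then `P` is a defect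
group of `f`. -/
theorem isDefectGroup_centralizer_of_le_centralizer {p : ℕ} [Fact p.Prime]
    {M : Ideal Cfsg.AlgInt} (hM : Cfsg.IsPModular p M) {B : Set (Cfsg.IrrCharacter G)}
    {P Q : Subgroup G} {e : Set (Cfsg.IrrCharacter (Subgroup.centralizer (P : Set G)))}
    {f : Set (Cfsg.IrrCharacter (Subgroup.centralizer (Q : Set G)))} (hmax : Cfsg.IsMaximalBrauerPair p M B P e)
    (hle : Cfsg.SubpairLE p M Q f P e) (hPC : P ≤ (Subgroup.centralizer (Q : Set G))) :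
    Cfsg.IsDefectGroup p M f (P.subgroupOf (Subgroup.centralizer (Q : Set G))) := by
  classical
  have hPe := hmax.1.1
  have hB := hmax.1.2.1
  have hQP : Q ≤ P := Helper75.subpairLE_fst_le (a := ⟨Q, f⟩) (b := ⟨P, e⟩) hle
  have hf : Cfsg.IsPBlock M f :=
    ((isBrauerPairOf_iff_of_reflTransGen hM (a := ⟨Q, f⟩) (b := ⟨P, e⟩) hle B hB).mp hmax.1).1.2
  letI : Fintype (Subgroup.centralizer (Q : Set G)) := Fintype.ofFinite _
  obtain ⟨x, hle', hDx⟩ := exists_conj_isDefectGroup_centralizer hM B P Q e f hmax hle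
  obtain ⟨D, hD, hXD⟩ := exists_isDefectGroup_centralizer_ge hM hPe hQP hle
  have hD' := isDefectGroup_of_conjBlock Q x hDx
  have hcard := Helper16.isDefectGroup_card_eq hM hf hD hD'
  rw [card_comap_mulEquiv, card_subgroupOf_inf] at hcard
  have hXeq : (P ⊓ (Subgroup.centralizer (Q : Set G))).subgroupOf (Subgroup.centralizer (Q : Set G)) = D := by
    apply Subgroup.eq_of_le_of_card_ge hXD
    rw [hcard, card_subgroupOf_inf, inf_eq_left.2 hPC]
    exact Subgroup.card_le_of_le inf_le_left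
  rw [← Subgroup.inf_subgroupOf_right, hXeq]
  exact hD

/-- Two maximal Brauer pairs above `(Q, f)` whose subgroups centralize `Q` are conjugate under
`C_G(Q)`. -/
theorem exists_conjPair_eq_of_le_centralizer {p : ℕ} [Fact p.Prime]
    {M : Ideal Cfsg.AlgInt} (hM : Cfsg.IsPModular p M) {B : Set (Cfsg.IrrCharacter G)}
    {P₁ P₂ Q : Subgroup G} {e₁ : Set (Cfsg.IrrCharacter (Subgroup.centralizer (P₁ : Set G)))}
    {e₂ : Set (Cfsg.IrrCharacter (Subgroup.centralizer (P₂ : Set G)))}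
    {f : Set (Cfsg.IrrCharacter (Subgroup.centralizer (Q : Set G)))}
    (hmax₁ : Cfsg.IsMaximalBrauerPair p M B P₁ e₁) (hmax₂ : Cfsg.IsMaximalBrauerPair p M B P₂ e₂)
    (hle₁ : Cfsg.SubpairLE p M Q f P₁ e₁) (hle₂ : Cfsg.SubpairLE p M Q f P₂ e₂)
    (hC₁ : P₁ ≤ (Subgroup.centralizer (Q : Set G))) (hC₂ : P₂ ≤ (Subgroup.centralizer (Q : Set G))) :
    ∃ z ∈ (Subgroup.centralizer (Q : Set G)), (⟨P₂.map (MulAut.conj z).toMonoidHom, Cfsg.conjBlock P₂ z e₂⟩ :
      Cfsg.BrauerPairIdx G) = ⟨P₁, e₁⟩ := by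
  classical
  letI : Fintype (Subgroup.centralizer (Q : Set G)) := Fintype.ofFinite _
  have hQ₁ : Q ≤ P₁ := Helper75.subpairLE_fst_le (a := ⟨Q, f⟩) (b := ⟨P₁, e₁⟩) hle₁
  have hQ₂ : Q ≤ P₂ := Helper75.subpairLE_fst_le (a := ⟨Q, f⟩) (b := ⟨P₂, e₂⟩) hle₂
  have hB := hmax₁.1.2.1
  have hf : Cfsg.IsPBlock M f :=
    ((isBrauerPairOf_iff_of_reflTransGen hM (a := ⟨Q, f⟩) (b := ⟨P₁, e₁⟩) hle₁ B hB).mp
      hmax₁.1).1.2
  have hn₁ : Cfsg.IsNormalSubpair p M Q f P₁ e₁ :=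
    isNormalSubpair_of_reflTransGen hM (a := ⟨Q, f⟩) (b := ⟨P₁, e₁⟩) hle₁ hmax₁.1.1
      (hC₁.trans (Subgroup.centralizer_le_normalizer _))
  have hn₂ : Cfsg.IsNormalSubpair p M Q f P₂ e₂ :=
    isNormalSubpair_of_reflTransGen hM (a := ⟨Q, f⟩) (b := ⟨P₂, e₂⟩) hle₂ hmax₂.1.1
      (hC₂.trans (Subgroup.centralizer_le_normalizer _))
  have hβ : ∀ x : (Subgroup.centralizer (Q : Set G)), Cfsg.blockCoeff f x
      = Cfsg.subgroupBlockCoeff (Subgroup.centralizer (Q : Set G)) f (x : G) := fun x => (sbc_of_mem _ f x.2).symm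
  have hp₁ : Cfsg.IsBrauerPairOf p M f (P₁.subgroupOf (Subgroup.centralizer (Q : Set G)))
      (subBlock (centCompat_centralizer Q P₁ hQ₁ hC₁) e₁) :=
    (isBrauerPairOf_subBlock_iff _ hβ e₁).2
      ⟨⟨hmax₁.1.1.1.comap_subtype, hmax₁.1.1.2⟩, hf, hn₁.2.2.2.2.2⟩
  have hp₂ : Cfsg.IsBrauerPairOf p M f (P₂.subgroupOf (Subgroup.centralizer (Q : Set G)))
      (subBlock (centCompat_centralizer Q P₂ hQ₂ hC₂) e₂) :=
    (isBrauerPairOf_subBlock_iff _ hβ e₂).2
      ⟨⟨hmax₂.1.1.1.comap_subtype, hmax₂.1.1.2⟩, hf, hn₂.2.2.2.2.2⟩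
  have hD₁ := isDefectGroup_centralizer_of_le_centralizer hM hmax₁ hle₁ hC₁
  have hD₂ := isDefectGroup_centralizer_of_le_centralizer hM hmax₂ hle₂ hC₂
  obtain ⟨z, hz⟩ := exists_conjPair_eq hM hD₁ hD₂ hp₁ hp₂
  refine ⟨(z : G), z.2, conjPair_eq_of_subBlock _ _ z e₁ e₂ ?_ hz⟩
  exact map_conj_eq_of_subgroupOf _ hC₁ hC₂ z (pair_eq_iff hz).1

/-- If `y` fixes `(P, e)` and normalizes `Q`, where `(Q, f) ≤ (P, e)`, then `y` stabilizes `f`. -/
theorem stabilizesBlock_of_stabilizes_above {p : ℕ} [Fact p.Prime]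
    {M : Ideal Cfsg.AlgInt} (hM : Cfsg.IsPModular p M)
    {P Q : Subgroup G} {e : Set (Cfsg.IrrCharacter (Subgroup.centralizer (P : Set G)))}
    {f : Set (Cfsg.IrrCharacter (Subgroup.centralizer (Q : Set G)))} (hPe : Cfsg.IsBrauerPair p M P e)
    (hle : Cfsg.SubpairLE p M Q f P e) {y : G} (hyP : y ∈ Subgroup.normalizer (P : Set G))
    (hyst : Cfsg.StabilizesBlock (Subgroup.centralizer (P : Set G)) e y)
    (hyQ : y ∈ Subgroup.normalizer (Q : Set G)) :
    Cfsg.StabilizesBlock (Subgroup.centralizer (Q : Set G)) f y := by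
  have h := subpairLE_conjPair y hle
  rw [show conjPair y ⟨P, e⟩ = ⟨P, e⟩ from (conjPair_eq_self_iff P e y).2 ⟨hyP, hyst⟩] at h
  have hQ := (map_conj_eq_self_iff Q y).2 hyQ
  have key : ∀ (Q' : Subgroup G)
      (f' : Set (Cfsg.IrrCharacter (Subgroup.centralizer (Q' : Set G)))), Q' = Q →
      Cfsg.SubpairLE p M Q' f' P e → (⟨Q', f'⟩ : Cfsg.BrauerPairIdx G) = ⟨Q, f⟩ := by
    intro Q' f' hQ' hle'
    subst hQ'
    rw [subpairLE_unique hM _ P e rfl hPe Q' f' f hle' hle]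
  exact ((conjPair_eq_self_iff Q f y).1 (key _ _ hQ h)).2

/-- For `P` abelian and `(Q, f) ≤ (P, e)`: `N_G(Q, f) ⊆ N_G(P, e) C_G(Q)`. -/
theorem exists_stabilizer_mul_centralizer {p : ℕ} [Fact p.Prime]
    {M : Ideal Cfsg.AlgInt} (hM : Cfsg.IsPModular p M) {B : Set (Cfsg.IrrCharacter G)}
    {P : Subgroup G} {e : Set (Cfsg.IrrCharacter (Subgroup.centralizer (P : Set G)))}
    (hmax : Cfsg.IsMaximalBrauerPair p M B P e) (hab : ∀ x ∈ P, ∀ y ∈ P, x * y = y * x)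
    {Q : Subgroup G} {f : Set (Cfsg.IrrCharacter (Subgroup.centralizer (Q : Set G)))}
    (hle : Cfsg.SubpairLE p M Q f P e) {x : G} (hxN : x ∈ Subgroup.normalizer (Q : Set G))
    (hxst : Cfsg.StabilizesBlock (Subgroup.centralizer (Q : Set G)) f x) :
    ∃ y : G, (y ∈ Subgroup.normalizer (P : Set G) ∧
        Cfsg.StabilizesBlock (Subgroup.centralizer (P : Set G)) e y) ∧
      ∃ c ∈ (Subgroup.centralizer (Q : Set G)), x = y * c := by
  have hQP : Q ≤ P := Helper75.subpairLE_fst_le (a := ⟨Q, f⟩) (b := ⟨P, e⟩) hle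
  have hPC : P ≤ (Subgroup.centralizer (Q : Set G)) := fun u hu =>
    Subgroup.mem_centralizer_iff.mpr (fun q hq => hab q (hQP hq) u hu)
  have hmax₂ := isMaximalBrauerPair_conj hM hmax x
  have hle₂ : Cfsg.SubpairLE p M Q f (P.map (MulAut.conj x).toMonoidHom)
      (Cfsg.conjBlock P x e) := by
    have h := subpairLE_conjPair x hle
    rw [show conjPair x ⟨Q, f⟩ = ⟨Q, f⟩ from (conjPair_eq_self_iff Q f x).2 ⟨hxN, hxst⟩] at h
    exact h
  have hC₂ : P.map (MulAut.conj x).toMonoidHom ≤ (Subgroup.centralizer (Q : Set G)) := by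
    intro w hw
    rw [mem_map_conj_iff] at hw
    have h1 := hPC hw
    have hxC := Helper75.normalizer_le_normalizer_centralizer' Q hxN
    have := (Subgroup.mem_normalizer_iff.mp hxC (x⁻¹ * w * x)).1 h1
    rwa [show x * (x⁻¹ * w * x) * x⁻¹ = w by group] at this
  obtain ⟨z, hzC, hz⟩ := exists_conjPair_eq_of_le_centralizer hM hmax hmax₂ hle hle₂ hPC hC₂
  have hzx : conjPair (z * x) ⟨P, e⟩ = ⟨P, e⟩ := by
    rw [conjPair_mul]
    exact hz
  obtain ⟨hyN, hyst⟩ := (conjPair_eq_self_iff P e (z * x)).1 hzx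
  refine ⟨z * x, ⟨hyN, hyst⟩, (z * x)⁻¹ * z⁻¹ * (z * x), ?_, by group⟩
  have hzxN : z * x ∈ Subgroup.normalizer (Q : Set G) :=
    (Subgroup.normalizer (Q : Set G)).mul_mem (Subgroup.centralizer_le_normalizer _ hzC) hxN
  have hC := Helper75.normalizer_le_normalizer_centralizer' Q
    ((Subgroup.normalizer (Q : Set G)).inv_mem hzxN)
  have := (Subgroup.mem_normalizer_iff.mp hC z⁻¹).1 ((Subgroup.centralizer (Q : Set G)).inv_mem hzC)
  rwa [inv_inv] at this

end Cfsg.Agent.Helper77
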