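import Cfsg.Agent.Helper77.PairNormalizer

/-!
# The fusion system of a block: fully normalized subgroups

* `mem_stabilizer_conj_iff`: the stabilizer of the conjugate pair is the conjugate stabilizer.
* `isFullyNormalized_iff`: `Q` is fully normalized iff `N_P(Q)` is a defect group of the block of
  the stabilizer of `f` in `N_G(Q)` whose idempotent is that of `f`.
-/

set_option autoImplicit false
set_option linter.style.haveILetI false
open Cfsg

namespace Cfsg.Agent.Helper77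

universe u

variable {G : Type u} [Group G]

theorem mem_stabilizer_conj_iff (Q : Subgroup G) (x : G) (f : Set (Cfsg.IrrCharacter (Subgroup.centralizer (Q : Set G))))
    (T T' : Subgroup G)
    (hT : ∀ y : G, y ∈ T ↔ y ∈ Subgroup.normalizer (Q : Set G) ∧
      Cfsg.StabilizesBlock (Subgroup.centralizer (Q : Set G)) f y)
    (hT' : ∀ y : G, y ∈ T' ↔ y ∈ (Subgroup.normalizer ((Q.map (MulAut.conj x).toMonoidHom : Subgroup G) : Set G)) ∧
      Cfsg.StabilizesBlock (Subgroup.centralizer ((Q.map (MulAut.conj x).toMonoidHom : Subgroup G) : Set G)) (Cfsg.conjBlock Q x f) y) (y : G) :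
    y ∈ T' ↔ x⁻¹ * y * x ∈ T := by
  rw [hT', hT]
  constructor
  · rintro ⟨h1, h2⟩
    exact ⟨(mem_normalizer_map_conj_iff Q x y).mp h1,
      (stabilizesBlock_conjBlock_iff Q x f y h1).mp h2⟩
  · rintro ⟨h1, h2⟩
    have h1' := (mem_normalizer_map_conj_iff Q x y).mpr h1
    exact ⟨h1', (stabilizesBlock_conjBlock_iff Q x f y h1').mpr h2⟩

variable [Fintype G]

/-- **Fully normalized subgroups.** -/
theorem isFullyNormalized_iff {p : ℕ} [Fact p.Prime] {M : Ideal Cfsg.AlgInt}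
    (hM : Cfsg.IsPModular p M) {B : Set (Cfsg.IrrCharacter G)} {P : Subgroup G}
    {e : Set (Cfsg.IrrCharacter (Subgroup.centralizer (P : Set G)))} {F : Cfsg.FusionSystem P}
    (hF : Cfsg.IsBlockFusionSystemOn p M B P e F) {Q : Subgroup G}
    {f : Set (Cfsg.IrrCharacter (Subgroup.centralizer (Q : Set G)))} (hQP : Q ≤ P) (hle : Cfsg.SubpairLE p M Q f P e)
    (T : Subgroup G)
    (hT : ∀ y : G, y ∈ T ↔ y ∈ Subgroup.normalizer (Q : Set G) ∧
      Cfsg.StabilizesBlock (Subgroup.centralizer (Q : Set G)) f y) :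
    F.IsFullyNormalized Q ↔ ∃ F' : Set (Cfsg.IrrCharacter T), Cfsg.IsPBlock M F' ∧
      (∀ t : T, Cfsg.blockCoeff F' t = Cfsg.subgroupBlockCoeff (Subgroup.centralizer (Q : Set G)) f (t : G)) ∧
      Cfsg.IsDefectGroup p M F' ((P ⊓ Subgroup.normalizer (Q : Set G)).subgroupOf T) := by
  classical
  have hmax := hF.1
  have hPe := hmax.1.1
  have hB := hmax.1.2.1
  have hQf : Cfsg.IsBrauerPairOf p M B Q f :=
    (isBrauerPairOf_iff_of_reflTransGen hM (a := ⟨Q, f⟩) (b := ⟨P, e⟩) hle B hB).mp hmax.1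
  letI : Fintype T := Fintype.ofFinite _
  have hNT : P ⊓ Subgroup.normalizer (Q : Set G) ≤ T :=
    inf_normalizer_le_stabilizer hM hPe hQP hle T hT
  have hcardT : Nat.card ((P ⊓ Subgroup.normalizer (Q : Set G)).subgroupOf T)
      = Nat.card (P ⊓ Subgroup.normalizer (Q : Set G) : Subgroup G) :=
    Nat.card_congr (Subgroup.subgroupOfEquivOfLe hNT).toEquiv
  constructor
  · rintro ⟨-, hfn⟩
    obtain ⟨x, hle', hx⟩ := exists_conj_isDefectGroup_stabilizer hM B P Q e f hmax hle T hT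
    have hxQP : Q.map (MulAut.conj x).toMonoidHom ≤ P :=
      Helper75.subpairLE_fst_le (a := ⟨_, _⟩) (b := ⟨P, e⟩) hle'
    have h1 := hfn _ ((isConj_iff_of_isBlockFusionSystemOn hM hF hQP hle _).mpr ⟨x, rfl, hle'⟩)
    obtain ⟨F₁, hF₁, hF₁c⟩ := exists_block_of_isStabilizer hM hQf.1 T hT
    obtain ⟨D, hD, hXD⟩ := exists_isDefectGroup_stabilizer_ge hM hPe hQP hle T hT hF₁ hF₁c
    have hxQf := isBrauerPairOf_conj x hQf
    have hT' : ∀ y : G, y ∈ ((Subgroup.normalizer ((Q.map (MulAut.conj x).toMonoidHom : Subgroup G) : Set G)) ⊓ stabSubgroup (Subgroup.centralizer ((Q.map (MulAut.conj x).toMonoidHom : Subgroup G) : Set G)) (Cfsg.conjBlock Q x f)) ↔ y ∈ (Subgroup.normalizer ((Q.map (MulAut.conj x).toMonoidHom : Subgroup G) : Set G)) ∧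
        Cfsg.StabilizesBlock (Subgroup.centralizer ((Q.map (MulAut.conj x).toMonoidHom : Subgroup G) : Set G)) (Cfsg.conjBlock Q x f) y := fun y => Iff.rfl
    letI : Fintype ((Subgroup.normalizer ((Q.map (MulAut.conj x).toMonoidHom : Subgroup G) : Set G)) ⊓ stabSubgroup (Subgroup.centralizer ((Q.map (MulAut.conj x).toMonoidHom : Subgroup G) : Set G)) (Cfsg.conjBlock Q x f) : Subgroup G) :=
      Fintype.ofFinite _
    obtain ⟨F'₁, hF'₁, hF'₁c⟩ := exists_block_of_isStabilizer hM hxQf.1 _ hT'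
    have hDx := hx _ hT' F'₁ hF'₁ hF'₁c
    have hD₂ := isDefectGroup_stabilizer_conj Q x f T _
      (mem_stabilizer_conj_iff Q x f T _ hT hT') hF₁c hF'₁c hD
    have hcard := Helper16.isDefectGroup_card_eq hM hF'₁ hD₂ hDx
    have hNT' := inf_normalizer_le_stabilizer hM hPe hxQP hle' _ hT'
    rw [card_comap_mulEquiv, Nat.card_congr (Subgroup.subgroupOfEquivOfLe hNT').toEquiv]
      at hcard
    have hXeq : (P ⊓ Subgroup.normalizer (Q : Set G)).subgroupOf T = D := by
      apply Subgroup.eq_of_le_of_card_ge hXD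
      rw [hcard, hcardT]
      exact h1
    refine ⟨F₁, hF₁, hF₁c, ?_⟩
    rw [hXeq]
    exact hD
  · rintro ⟨F', hF', hF'c, hD⟩
    refine ⟨hQP, fun Q' hconj => ?_⟩
    obtain ⟨x, rfl, hle'⟩ := (isConj_iff_of_isBlockFusionSystemOn hM hF hQP hle _).mp hconj
    have hxQP : Q.map (MulAut.conj x).toMonoidHom ≤ P :=
      Helper75.subpairLE_fst_le (a := ⟨_, _⟩) (b := ⟨P, e⟩) hle'
    have hxQf := isBrauerPairOf_conj x hQf
    have hT' : ∀ y : G, y ∈ ((Subgroup.normalizer ((Q.map (MulAut.conj x).toMonoidHom : Subgroup G) : Set G)) ⊓ stabSubgroup (Subgroup.centralizer ((Q.map (MulAut.conj x).toMonoidHom : Subgroup G) : Set G)) (Cfsg.conjBlock Q x f)) ↔ y ∈ (Subgroup.normalizer ((Q.map (MulAut.conj x).toMonoidHom : Subgroup G) : Set G)) ∧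
        Cfsg.StabilizesBlock (Subgroup.centralizer ((Q.map (MulAut.conj x).toMonoidHom : Subgroup G) : Set G)) (Cfsg.conjBlock Q x f) y := fun y => Iff.rfl
    letI : Fintype ((Subgroup.normalizer ((Q.map (MulAut.conj x).toMonoidHom : Subgroup G) : Set G)) ⊓ stabSubgroup (Subgroup.centralizer ((Q.map (MulAut.conj x).toMonoidHom : Subgroup G) : Set G)) (Cfsg.conjBlock Q x f) : Subgroup G) :=
      Fintype.ofFinite _
    obtain ⟨F'₁, hF'₁, hF'₁c⟩ := exists_block_of_isStabilizer hM hxQf.1 _ hT'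
    obtain ⟨D', hD', hXD'⟩ := exists_isDefectGroup_stabilizer_ge hM hPe hxQP hle' _ hT' hF'₁
      hF'₁c
    have hD₂ := isDefectGroup_stabilizer_conj Q x f T _
      (mem_stabilizer_conj_iff Q x f T _ hT hT') hF'c hF'₁c hD
    have hcard := Helper16.isDefectGroup_card_eq hM hF'₁ hD' hD₂
    rw [card_comap_mulEquiv, hcardT] at hcard
    have hNT' := inf_normalizer_le_stabilizer hM hPe hxQP hle' _ hT'
    have h3 := Subgroup.card_le_of_le hXD'
    rw [Nat.card_congr (Subgroup.subgroupOfEquivOfLe hNT').toEquiv, hcard] at h3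
    exact h3

end Cfsg.Agent.Helper77
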