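import Cfsg.Agent.Helper77.Receptive
import Cfsg.Agent.Helper77.BlockFusion2
import Cfsg.Agent.Helper84.FusionSat2

/-!
# The fusion system of a block on a maximal Brauer pair: existence and saturation (S4677)

* `blockFusionSystem`: the fusion system on `P` whose maps with source `Q ≤ P` are the
  conjugations carrying the pair at `Q` below `(P, e)` to a pair below `(P, e)`.
* `blockFS_fullyAutomized`, `blockFS_receptive`: a subgroup `Q ≤ P` for which `N_P(Q)` is a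
  defect group of the block of the stabilizer of its pair is fully automized and receptive.
* `blockFS_saturated`: the fusion system of a block is saturated.
-/

set_option autoImplicit false
set_option linter.style.haveILetI false
set_option maxHeartbeats 1000000
open Cfsg

namespace Cfsg.Agent.Helper77

universe u

variable {G : Type u} [Group G] [Fintype G]

/-- Two pairs below `(P, e)` with the same subgroup are equal. -/
theorem pair_eq_of_subpairLE {p : ℕ} [Fact p.Prime] {M : Ideal Cfsg.AlgInt}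
    (hM : Cfsg.IsPModular p M) {P : Subgroup G} {e : Set (Cfsg.IrrCharacter (Subgroup.centralizer (P : Set G)))}
    (hPe : Cfsg.IsBrauerPair p M P e) {a b : Cfsg.BrauerPairIdx G}
    (ha : Relation.ReflTransGen (Cfsg.NormalSubpairRel p M) a ⟨P, e⟩)
    (hb : Relation.ReflTransGen (Cfsg.NormalSubpairRel p M) b ⟨P, e⟩) (h : a.1 = b.1) :
    a = b := by
  obtain ⟨Q, f⟩ := a
  obtain ⟨Q', f'⟩ := b
  dsimp only at h
  subst h
  have h1 := subpairLE_unique hM (Nat.card P) P e rfl hPe Q f f' ha hb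
  rw [h1]

/-- Two pairs below the maximal pair `(P, e)` whose subgroups are contained in one another are
contained in one another. -/
theorem subpairLE_of_fst_le {p : ℕ} [Fact p.Prime] {M : Ideal Cfsg.AlgInt}
    (hM : Cfsg.IsPModular p M) {B : Set (Cfsg.IrrCharacter G)} {P : Subgroup G}
    {e : Set (Cfsg.IrrCharacter (Subgroup.centralizer (P : Set G)))} (hmax : Cfsg.IsMaximalBrauerPair p M B P e)
    {a b : Cfsg.BrauerPairIdx G}
    (ha : Relation.ReflTransGen (Cfsg.NormalSubpairRel p M) a ⟨P, e⟩)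
    (hb : Relation.ReflTransGen (Cfsg.NormalSubpairRel p M) b ⟨P, e⟩) (h : a.1 ≤ b.1) :
    Relation.ReflTransGen (Cfsg.NormalSubpairRel p M) a b := by
  obtain ⟨Q₁, f₁⟩ := a
  obtain ⟨Q₂, f₂⟩ := b
  dsimp only at h
  have hB := hmax.1.2.1
  have hb' : Cfsg.IsBrauerPairOf p M B Q₂ f₂ :=
    (isBrauerPairOf_iff_of_reflTransGen hM (a := ⟨Q₂, f₂⟩) (b := ⟨P, e⟩) hb B hB).mp hmax.1
  obtain ⟨f', -, hf'⟩ := exists_subpairLE hM Q₂ f₂ hb'.1 Q₁ h
  have h1 : f' = f₁ := subpairLE_unique hM _ P e rfl hmax.1.1 Q₁ f' f₁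
    (Relation.ReflTransGen.trans hf' hb) ha
  rw [← h1]
  exact hf'

/-- The maps with source `Q` of the fusion system of a block on the pair `(P, e)`. -/
def blockHom (p : ℕ) (M : Ideal Cfsg.AlgInt) (P : Subgroup G)
    (e : Set (Cfsg.IrrCharacter (Subgroup.centralizer (P : Set G)))) (Q : Subgroup G) : Set (Q →* G) :=
  {φ | Q ≤ P ∧ ∃ g : G, (∀ u : Q, φ u = g * (u : G) * g⁻¹) ∧
    Q.map (MulAut.conj g).toMonoidHom ≤ P ∧
    ∃ f : Set (Cfsg.IrrCharacter (Subgroup.centralizer (Q : Set G))), Cfsg.SubpairLE p M Q f P e ∧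
      Cfsg.SubpairLE p M (Q.map (MulAut.conj g).toMonoidHom) (Cfsg.conjBlock Q g f) P e}

theorem blockHom_conj_mem {p : ℕ} [Fact p.Prime] {M : Ideal Cfsg.AlgInt}
    (hM : Cfsg.IsPModular p M) {P : Subgroup G} {e : Set (Cfsg.IrrCharacter (Subgroup.centralizer (P : Set G)))}
    (hPe : Cfsg.IsBrauerPair p M P e) {Q : Subgroup G} {g : G} (hQ : Q ≤ P) (hg : g ∈ P) :
    Cfsg.conjHom Q g ∈ blockHom p M P e Q := by
  obtain ⟨f, -, hf⟩ := exists_subpairLE hM P e hPe Q hQ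
  have h1 := subpairLE_conjPair g hf
  rw [conjPair_of_mem P e hg] at h1
  have h2 : Q.map (MulAut.conj g).toMonoidHom ≤ P :=
    Helper75.subpairLE_fst_le (a := ⟨_, _⟩) (b := ⟨P, e⟩) h1
  exact ⟨hQ, g, fun u => rfl, h2, f, hf, h1⟩

theorem blockHom_comp_mem {p : ℕ} [Fact p.Prime] {M : Ideal Cfsg.AlgInt}
    (hM : Cfsg.IsPModular p M) {B : Set (Cfsg.IrrCharacter G)} {P : Subgroup G}
    {e : Set (Cfsg.IrrCharacter (Subgroup.centralizer (P : Set G)))} (hmax : Cfsg.IsMaximalBrauerPair p M B P e)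
    {Q₁ Q₂ : Subgroup G} {φ : Q₁ →* G} {ψ : Q₂ →* G} (hφ : φ ∈ blockHom p M P e Q₁)
    (hψ : ψ ∈ blockHom p M P e Q₂) (h : ∀ x : Q₁, φ x ∈ Q₂) :
    ψ.comp (φ.codRestrict Q₂ h) ∈ blockHom p M P e Q₁ := by
  obtain ⟨hQ₁, g, hφg, hgP, f₁, hf₁, hf₁'⟩ := hφ
  obtain ⟨hQ₂, k, hψk, hkP, f₂, hf₂, hf₂'⟩ := hψ
  have hQ₁g : Q₁.map (MulAut.conj g).toMonoidHom ≤ Q₂ := by
    rintro _ ⟨u, hu, rfl⟩
    have h1 := h ⟨u, hu⟩
    rwa [hφg] at h1
  have h1 : Relation.ReflTransGen (Cfsg.NormalSubpairRel p M)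
      (conjPair g (⟨Q₁, f₁⟩ : Cfsg.BrauerPairIdx G)) ⟨Q₂, f₂⟩ :=
    subpairLE_of_fst_le hM hmax hf₁' hf₂ hQ₁g
  have h2 := subpairLE_conjPair k h1
  have h3 : Relation.ReflTransGen (Cfsg.NormalSubpairRel p M)
      (conjPair (k * g) (⟨Q₁, f₁⟩ : Cfsg.BrauerPairIdx G)) ⟨P, e⟩ := by
    rw [conjPair_mul]
    exact Relation.ReflTransGen.trans h2 hf₂'
  have h4 : Q₁.map (MulAut.conj (k * g)).toMonoidHom ≤ P :=
    Helper75.subpairLE_fst_le (a := ⟨_, _⟩) (b := ⟨P, e⟩) h3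
  refine ⟨hQ₁, k * g, fun u => ?_, h4, f₁, hf₁, h3⟩
  show ψ ⟨φ u, h u⟩ = _
  rw [hψk]
  show k * φ u * k⁻¹ = _
  rw [hφg]
  group

theorem blockHom_inv_mem {p : ℕ} [Fact p.Prime] {M : Ideal Cfsg.AlgInt}
    {P : Subgroup G} {e : Set (Cfsg.IrrCharacter (Subgroup.centralizer (P : Set G)))}
    {Q : Subgroup G} {φ : Q →* G} (hφ : φ ∈ blockHom p M P e Q) :
    ∃ ψ ∈ blockHom p M P e φ.range, ∀ x : Q, ψ ⟨φ x, ⟨x, rfl⟩⟩ = (x : G) := by
  obtain ⟨hQ, g, hφg, hgP, f, hf, hf'⟩ := hφ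
  have hr : φ.range = Q.map (MulAut.conj g).toMonoidHom := range_eq_map_conj Q g φ hφg
  have key : ∀ R : Subgroup G, R = Q.map (MulAut.conj g).toMonoidHom →
      Cfsg.conjHom R g⁻¹ ∈ blockHom p M P e R := by
    rintro R rfl
    have h1 : Relation.ReflTransGen (Cfsg.NormalSubpairRel p M)
        (conjPair g⁻¹ (conjPair g (⟨Q, f⟩ : Cfsg.BrauerPairIdx G))) ⟨P, e⟩ := by
      rw [conjPair_inv_conjPair]
      exact hf
    have h2 : (Q.map (MulAut.conj g).toMonoidHom).map (MulAut.conj g⁻¹).toMonoidHom ≤ P :=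
      Helper75.subpairLE_fst_le (a := ⟨_, _⟩) (b := ⟨P, e⟩) h1
    exact ⟨hgP, g⁻¹, fun u => rfl, h2, Cfsg.conjBlock Q g f, hf', h1⟩
  refine ⟨Cfsg.conjHom φ.range g⁻¹, key _ hr, fun x => ?_⟩
  show g⁻¹ * φ x * g⁻¹⁻¹ = x
  rw [hφg]
  group

/-- The fusion system of the block `B` on the maximal Brauer pair `(P, e)`. -/
def blockFusionSystem {p : ℕ} [Fact p.Prime] {M : Ideal Cfsg.AlgInt}
    (hM : Cfsg.IsPModular p M) {B : Set (Cfsg.IrrCharacter G)} {P : Subgroup G}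
    {e : Set (Cfsg.IrrCharacter (Subgroup.centralizer (P : Set G)))} (hmax : Cfsg.IsMaximalBrauerPair p M B P e) :
    Cfsg.FusionSystem P where
  Hom := blockHom p M P e
  le_of_mem := by
    rintro Q φ ⟨hQ, g, hφg, hgP, -⟩
    refine ⟨hQ, fun x => ?_⟩
    rw [hφg]
    exact hgP ⟨x, x.2, rfl⟩
  injective_of_mem := by
    rintro Q φ ⟨hQ, g, hφg, -⟩ x y hxy
    rw [hφg, hφg] at hxy
    apply Subtype.ext
    exact mul_left_cancel (mul_right_cancel hxy)
  conj_mem := fun hQ hg => blockHom_conj_mem hM hmax.1.1 hQ hg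
  comp_mem := fun hφ hψ h => blockHom_comp_mem hM hmax hφ hψ h
  inv_mem := fun hφ => blockHom_inv_mem hφ

theorem isBlockFusionSystemOn_blockFusionSystem {p : ℕ} [Fact p.Prime] {M : Ideal Cfsg.AlgInt}
    (hM : Cfsg.IsPModular p M) {B : Set (Cfsg.IrrCharacter G)} {P : Subgroup G}
    {e : Set (Cfsg.IrrCharacter (Subgroup.centralizer (P : Set G)))} (hmax : Cfsg.IsMaximalBrauerPair p M B P e) :
    Cfsg.IsBlockFusionSystemOn p M B P e (blockFusionSystem hM hmax) :=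
  ⟨hmax, fun _ _ => Iff.rfl⟩

/-- A subgroup `Q ≤ P` such that `N_P(Q)` is a defect group of the block of the stabilizer of
its pair is fully automized. -/
theorem blockFS_fullyAutomized {p : ℕ} [Fact p.Prime] {M : Ideal Cfsg.AlgInt}
    (hM : Cfsg.IsPModular p M) {B : Set (Cfsg.IrrCharacter G)} {P : Subgroup G}
    {e : Set (Cfsg.IrrCharacter (Subgroup.centralizer (P : Set G)))} {F : Cfsg.FusionSystem P}
    (hF : Cfsg.IsBlockFusionSystemOn p M B P e F)
    {Q : Subgroup G} {f : Set (Cfsg.IrrCharacter (Subgroup.centralizer (Q : Set G)))} (hle : Cfsg.SubpairLE p M Q f P e)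
    (T : Subgroup G)
    (hT : ∀ y : G, y ∈ T ↔ y ∈ Subgroup.normalizer (Q : Set G) ∧
      Cfsg.StabilizesBlock (Subgroup.centralizer (Q : Set G)) f y)
    {FT : Set (Cfsg.IrrCharacter T)} (hFT : Cfsg.IsPBlock M FT)
    (hFc : ∀ t : T, Cfsg.blockCoeff FT t = Cfsg.subgroupBlockCoeff (Subgroup.centralizer (Q : Set G)) f (t : G))
    (hN : Cfsg.IsDefectGroup p M FT ((P ⊓ Subgroup.normalizer (Q : Set G)).subgroupOf T)) : F.IsFullyAutomized p Q := by
  classical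
  have hmax := hF.1
  have hPe := hmax.1.1
  have hB := hmax.1.2.1
  have hQP : Q ≤ P := Helper75.subpairLE_fst_le (a := ⟨Q, f⟩) (b := ⟨P, e⟩) hle
  have hQf : Cfsg.IsBrauerPairOf p M B Q f :=
    (isBrauerPairOf_iff_of_reflTransGen hM (a := ⟨Q, f⟩) (b := ⟨P, e⟩) hle B hB).mp hmax.1
  have hS : IsPGroup p P := hPe.1
  rw [Helper84.fullyAutomized_iff hS F hQP]
  intro Y hY hYp
  have hTN : T ≤ Subgroup.normalizer (Q : Set G) := fun y hy => ((hT y).1 hy).1
  obtain ⟨ρ, hρ⟩ : ∃ ρ : T →* MulAut Q, ∀ (t : T) (u : Q), ((ρ t u : Q) : G) = (t : G) * u * (t : G)⁻¹ :=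
    ⟨Q.normalizerMonoidHom.comp (Subgroup.inclusion hTN), fun t u => rfl⟩
  have hker : ρ.ker = ((Subgroup.centralizer (Q : Set G))).subgroupOf T := by
    ext t
    rw [MonoidHom.mem_ker, Subgroup.mem_subgroupOf, Subgroup.mem_centralizer_iff]
    constructor
    · intro h u hu
      have h1 := hρ t ⟨u, hu⟩
      rw [h] at h1
      have h2 : u = (t : G) * u * (t : G)⁻¹ := h1
      calc u * (t : G) = (t : G) * u * (t : G)⁻¹ * (t : G) := by rw [← h2]
        _ = (t : G) * u := by group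
    · intro h
      ext u
      rw [hρ]
      have h1 := h u u.2
      show (t : G) * u * (t : G)⁻¹ = u
      rw [← h1]
      group
  have hDp : IsPGroup p ((P ⊓ Subgroup.normalizer (Q : Set G)).subgroupOf T) := (hS.to_le inf_le_left).comap_subtype
  have hidx : ¬ p ∣ ((P ⊓ Subgroup.normalizer (Q : Set G)).subgroupOf T ⊔ ρ.ker).index := by
    rw [hker]
    exact stabilizer_index_not_dvd hM hQf.1.2 T hT hFT hFc hN
  have hYr : Y ≤ ρ.range := by
    intro α hα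
    have h1 := hY hα
    rw [Helper84.mem_autGroup_iff F hQP] at h1
    obtain ⟨-, g, hαg, hgP, f₀, hle₀, hle₀'⟩ := (hF.2 Q _).mp h1
    have h2 : f₀ = f := subpairLE_unique hM _ P e rfl hPe Q f₀ f hle₀ hle
    subst h2
    have hmapQ : Q.map (MulAut.conj g).toMonoidHom = Q := by
      rw [← range_eq_map_conj Q g _ hαg]
      ext y
      constructor
      · rintro ⟨u, rfl⟩
        exact (α u).2
      · intro hy
        refine ⟨α.symm ⟨y, hy⟩, ?_⟩
        show ((α (α.symm ⟨y, hy⟩) : Q) : G) = y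
        rw [MulEquiv.apply_symm_apply]
    have hpair : conjPair g (⟨Q, f₀⟩ : Cfsg.BrauerPairIdx G) = ⟨Q, f₀⟩ :=
      pair_eq_of_subpairLE hM hPe hle₀' hle hmapQ
    obtain ⟨hgN, hgst⟩ := (conjPair_eq_self_iff Q f₀ g).1 hpair
    have hgT : g ∈ T := (hT g).2 ⟨hgN, hgst⟩
    refine ⟨⟨g, hgT⟩, ?_⟩
    ext u
    rw [hρ]
    exact (hαg u).symm
  have hcard := card_le_card_map_of_not_dvd_index ρ ((P ⊓ Subgroup.normalizer (Q : Set G)).subgroupOf T) hDp hidx Y hYr hYp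
  have hle2 : ((P ⊓ Subgroup.normalizer (Q : Set G)).subgroupOf T).map ρ ≤ Cfsg.autInducedBy P Q := by
    rintro _ ⟨t, ht, rfl⟩
    exact Subgroup.subset_closure ⟨(t : G), (Subgroup.mem_subgroupOf.mp ht).1, fun x => hρ t x⟩
  exact hcard.trans (Subgroup.card_le_of_le hle2)

/-- A subgroup `Q ≤ P` such that `N_P(Q)` is a defect group of the block of the stabilizer of
its pair is receptive. -/
theorem blockFS_receptive {p : ℕ} [Fact p.Prime] {M : Ideal Cfsg.AlgInt}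
    (hM : Cfsg.IsPModular p M) {B : Set (Cfsg.IrrCharacter G)} {P : Subgroup G}
    {e : Set (Cfsg.IrrCharacter (Subgroup.centralizer (P : Set G)))} {F : Cfsg.FusionSystem P}
    (hF : Cfsg.IsBlockFusionSystemOn p M B P e F)
    {Q : Subgroup G} {f : Set (Cfsg.IrrCharacter (Subgroup.centralizer (Q : Set G)))} (hle : Cfsg.SubpairLE p M Q f P e)
    (T : Subgroup G)
    (hT : ∀ y : G, y ∈ T ↔ y ∈ Subgroup.normalizer (Q : Set G) ∧
      Cfsg.StabilizesBlock (Subgroup.centralizer (Q : Set G)) f y)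
    {FT : Set (Cfsg.IrrCharacter T)} (hFT : Cfsg.IsPBlock M FT)
    (hFc : ∀ t : T, Cfsg.blockCoeff FT t = Cfsg.subgroupBlockCoeff (Subgroup.centralizer (Q : Set G)) f (t : G))
    (hN : Cfsg.IsDefectGroup p M FT ((P ⊓ Subgroup.normalizer (Q : Set G)).subgroupOf T)) : F.IsReceptive Q := by
  classical
  have hmax := hF.1
  have hPe := hmax.1.1
  have hQP : Q ≤ P := Helper75.subpairLE_fst_le (a := ⟨Q, f⟩) (b := ⟨P, e⟩) hle
  refine ⟨hQP, fun R φ hφ hr => ?_⟩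
  obtain ⟨hRP, g, hφg, hgP, fR, hleR, hleR'⟩ := (hF.2 R φ).mp hφ
  have hRQ : R.map (MulAut.conj g).toMonoidHom = Q :=
    (range_eq_map_conj R g φ hφg).symm.trans hr
  have hg : conjPair g (⟨R, fR⟩ : Cfsg.BrauerPairIdx G) = ⟨Q, f⟩ :=
    pair_eq_of_subpairLE hM hPe hleR' hle hRQ
  have hKP : Cfsg.FusionSystem.extender P R φ ≤ P := Helper84.extender_le_S P R φ
  have hRK : R ≤ Cfsg.FusionSystem.extender P R φ := Helper84.le_extender hRP φ (fun x => by
    rw [hφg]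
    exact hgP ⟨x, x.2, rfl⟩)
  have hKN : Cfsg.FusionSystem.extender P R φ ≤ Subgroup.normalizer (R : Set G) := fun n hn =>
    ((Helper84.mem_extender_iff P R φ n).1 hn).2.1
  have hK : ∀ n ∈ Cfsg.FusionSystem.extender P R φ, ∃ h ∈ P, ∀ x ∈ R,
      g * (n * x * n⁻¹) * g⁻¹ = h * (g * x * g⁻¹) * h⁻¹ := by
    intro n hn
    obtain ⟨-, hnN, h, hhP, hh⟩ := (Helper84.mem_extender_iff P R φ n).1 hn
    refine ⟨h, hhP, fun x hx => ?_⟩
    have hx' : n * x * n⁻¹ ∈ R := (Subgroup.mem_normalizer_iff.mp hnN x).mp hx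
    have h1 := hh ⟨x, hx⟩ hx'
    rw [hφg, hφg] at h1
    exact h1
  obtain ⟨c, hc, k, hleK, hleK'⟩ := receptive_core hM hmax hle T hT hFT hFc hN hleR g hg
    hRK hKP hKN hK
  have hcgP : (Cfsg.FusionSystem.extender P R φ).map (MulAut.conj (c * g)).toMonoidHom ≤ P :=
    Helper75.subpairLE_fst_le (a := ⟨_, _⟩) (b := ⟨P, e⟩) hleK'
  refine ⟨Cfsg.conjHom (Cfsg.FusionSystem.extender P R φ) (c * g),
    (hF.2 _ _).mpr ⟨hKP, c * g, fun u => rfl, hcgP, k, hleK, hleK'⟩, fun x hP hN => ?_⟩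
  show (c * g) * x * (c * g)⁻¹ = φ ⟨x, hP⟩
  rw [hφg]
  have hq : g * x * g⁻¹ ∈ Q := by
    rw [← hRQ]
    exact ⟨x, hP, rfl⟩
  have hcq := Subgroup.mem_centralizer_iff.mp hc _ hq
  calc (c * g) * x * (c * g)⁻¹ = c * (g * x * g⁻¹) * c⁻¹ := by group
    _ = (g * x * g⁻¹) * c * c⁻¹ := by rw [hcq]
    _ = g * x * g⁻¹ := by group

/-- **The fusion system of a block is saturated.** -/
theorem blockFS_saturated {p : ℕ} [Fact p.Prime] {M : Ideal Cfsg.AlgInt}
    (hM : Cfsg.IsPModular p M) {B : Set (Cfsg.IrrCharacter G)} {P : Subgroup G}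
    {e : Set (Cfsg.IrrCharacter (Subgroup.centralizer (P : Set G)))} {F : Cfsg.FusionSystem P}
    (hF : Cfsg.IsBlockFusionSystemOn p M B P e F) : F.IsSaturated p := by
  classical
  intro Q₀ hQ₀
  have hmax := hF.1
  have hPe := hmax.1.1
  have hB := hmax.1.2.1
  obtain ⟨f₀, -, hle₀⟩ := exists_subpairLE hM P e hPe Q₀ hQ₀
  obtain ⟨x, hlex, hall⟩ := exists_conj_isDefectGroup_stabilizer hM B P Q₀ e f₀ hmax hle₀
    (Subgroup.normalizer (Q₀ : Set G) ⊓ stabSubgroup (Subgroup.centralizer (Q₀ : Set G)) f₀) (fun y => Iff.rfl)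
  have hQf : Cfsg.IsBrauerPairOf p M B (Q₀.map (MulAut.conj x).toMonoidHom) (Cfsg.conjBlock Q₀ x f₀) :=
    (isBrauerPairOf_iff_of_reflTransGen hM (a := ⟨(Q₀.map (MulAut.conj x).toMonoidHom), Cfsg.conjBlock Q₀ x f₀⟩)
      (b := ⟨P, e⟩) hlex B hB).mp hmax.1
  have hT : ∀ y : G, y ∈ (Subgroup.normalizer ((Q₀.map (MulAut.conj x).toMonoidHom) : Set G) ⊓
        stabSubgroup (Subgroup.centralizer ((Q₀.map (MulAut.conj x).toMonoidHom : Subgroup G) : Set G)) (Cfsg.conjBlock Q₀ x f₀)) ↔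
      y ∈ Subgroup.normalizer ((Q₀.map (MulAut.conj x).toMonoidHom) : Set G) ∧
        Cfsg.StabilizesBlock (Subgroup.centralizer ((Q₀.map (MulAut.conj x).toMonoidHom : Subgroup G) : Set G)) (Cfsg.conjBlock Q₀ x f₀) y := fun y => Iff.rfl
  obtain ⟨FT, hFT, hFc⟩ := exists_block_of_isStabilizer hM hQf.1 _ hT
  have hN := hall _ hT FT hFT hFc
  exact ⟨(Q₀.map (MulAut.conj x).toMonoidHom), (isConj_iff_of_isBlockFusionSystemOn hM hF hQ₀ hle₀ _).mpr ⟨x, rfl, hlex⟩,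
    blockFS_fullyAutomized hM hF hlex _ hT hFT hFc hN,
    blockFS_receptive hM hF hlex _ hT hFT hFc hN⟩

end Cfsg.Agent.Helper77
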