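import Cfsg.Agent.Helper77.PairDefect
import Cfsg.Prelude.Def_BlockFusion

/-!
# The fusion system of a block: fully centralized and centric subgroups

* `isDefectGroup_conjBlock`, `isDefectGroup_of_conjBlock`: transport of defect groups along
  conjugation of Brauer pairs.
* `isFullyCentralized_iff`: `Q` is fully centralized iff `C_P(Q)` is a defect group of `f`.
* `isCentric_iff`: `Q` is centric iff `Z(Q)` is a defect group of `f`.
-/

set_option autoImplicit false
set_option linter.style.haveILetI false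
open Cfsg

namespace Cfsg.Agent.Helper77

universe u

variable {G : Type u} [Group G]

theorem card_subgroupOf_inf (P C : Subgroup G) :
    Nat.card ((P ⊓ C).subgroupOf C) = Nat.card (P ⊓ C : Subgroup G) :=
  Nat.card_congr (Subgroup.subgroupOfEquivOfLe inf_le_right).toEquiv

theorem card_comap_mulEquiv {H K : Type*} [Group H] [Group K] (σ : H ≃* K) (D : Subgroup K) :
    Nat.card (D.comap σ.toMonoidHom) = Nat.card D := by
  rw [Subgroup.comap_equiv_eq_map_symm']
  exact Subgroup.card_map_of_injective σ.symm.injective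

theorem range_eq_map_conj (Q : Subgroup G) (g : G) (φ : Q →* G)
    (h : ∀ u : Q, φ u = g * (u : G) * g⁻¹) : φ.range = Q.map (MulAut.conj g).toMonoidHom := by
  ext y
  constructor
  · rintro ⟨u, rfl⟩
    exact ⟨u, u.2, (h u).symm⟩
  · rintro ⟨q, hq, rfl⟩
    exact ⟨⟨q, hq⟩, h ⟨q, hq⟩⟩

variable [Fintype G]

/-- Transport of a defect group to the conjugate block. -/
theorem isDefectGroup_conjBlock {p : ℕ} [Fact p.Prime] {M : Ideal Cfsg.AlgInt} (Q : Subgroup G)
    (x : G) {f : Set (Cfsg.IrrCharacter (Subgroup.centralizer (Q : Set G)))} {D : Subgroup (Subgroup.centralizer (Q : Set G))}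
    (hD : Cfsg.IsDefectGroup p M f D) :
    Cfsg.IsDefectGroup p M (Cfsg.conjBlock Q x f)
      (D.comap (Helper75.centralizerConjEquiv Q x).toMonoidHom) := by
  classical
  letI : Fintype (Subgroup.centralizer (Q : Set G)) := Fintype.ofFinite _
  letI : Fintype (Subgroup.centralizer ((Q.map (MulAut.conj x).toMonoidHom : Subgroup G) : Set G)) := Fintype.ofFinite _
  rw [conjBlock_eq_image]
  exact Helper75.isDefectGroup_image_irrComp _ hD

/-- Transport of a defect group from the conjugate block. -/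
theorem isDefectGroup_of_conjBlock {p : ℕ} [Fact p.Prime] {M : Ideal Cfsg.AlgInt}
    (Q : Subgroup G) (x : G) {f : Set (Cfsg.IrrCharacter (Subgroup.centralizer (Q : Set G)))} {D' : Subgroup (Subgroup.centralizer ((Q.map (MulAut.conj x).toMonoidHom : Subgroup G) : Set G))}
    (hD : Cfsg.IsDefectGroup p M (Cfsg.conjBlock Q x f) D') :
    Cfsg.IsDefectGroup p M f (D'.comap (Helper75.centralizerConjEquiv Q x).symm.toMonoidHom) := by
  classical
  letI : Fintype (Subgroup.centralizer (Q : Set G)) := Fintype.ofFinite _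
  letI : Fintype (Subgroup.centralizer ((Q.map (MulAut.conj x).toMonoidHom : Subgroup G) : Set G)) := Fintype.ofFinite _
  rw [conjBlock_eq_image] at hD
  have h := Helper75.isDefectGroup_image_irrComp (Helper75.centralizerConjEquiv Q x).symm hD
  rw [Helper75.image_irrComp_symm_image] at h
  exact h

theorem isPBlock_conjBlock {M : Ideal Cfsg.AlgInt} (Q : Subgroup G) (x : G)
    {f : Set (Cfsg.IrrCharacter (Subgroup.centralizer (Q : Set G)))} (hf : Cfsg.IsPBlock M f) :
    Cfsg.IsPBlock M (Cfsg.conjBlock Q x f) := by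
  rw [conjBlock_eq_image]
  exact Helper75.isPBlock_image_irrComp _ hf

/-- The maps of the fusion system of a block with source `Q`, for `(Q, f) ≤ (P, e)`. -/
theorem isConj_iff_of_isBlockFusionSystemOn {p : ℕ} [Fact p.Prime] {M : Ideal Cfsg.AlgInt}
    (hM : Cfsg.IsPModular p M) {B : Set (Cfsg.IrrCharacter G)} {P : Subgroup G}
    {e : Set (Cfsg.IrrCharacter (Subgroup.centralizer (P : Set G)))} {F : Cfsg.FusionSystem P}
    (hF : Cfsg.IsBlockFusionSystemOn p M B P e F) {Q : Subgroup G}
    {f : Set (Cfsg.IrrCharacter (Subgroup.centralizer (Q : Set G)))} (hQP : Q ≤ P) (hle : Cfsg.SubpairLE p M Q f P e)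
    (Q' : Subgroup G) :
    F.IsConj Q Q' ↔ ∃ g : G, Q' = Q.map (MulAut.conj g).toMonoidHom ∧
      Cfsg.SubpairLE p M (Q.map (MulAut.conj g).toMonoidHom) (Cfsg.conjBlock Q g f) P e := by
  have hPe := hF.1.1.1
  constructor
  · rintro ⟨φ, hφ, hrange⟩
    obtain ⟨-, g, hφg, hgQP, f₀, hle₀, hle₀'⟩ := (hF.2 Q φ).mp hφ
    have h2 : f₀ = f := subpairLE_unique hM _ P e rfl hPe Q f₀ f hle₀ hle
    subst h2
    exact ⟨g, hrange.symm.trans (range_eq_map_conj Q g φ hφg), hle₀'⟩
  · rintro ⟨g, rfl, hle'⟩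
    have hgQP : Q.map (MulAut.conj g).toMonoidHom ≤ P :=
      Helper75.subpairLE_fst_le (a := ⟨_, _⟩) (b := ⟨P, e⟩) hle'
    exact ⟨Cfsg.conjHom Q g, (hF.2 Q _).mpr ⟨hQP, g, fun u => rfl, hgQP, f, hle, hle'⟩,
      range_eq_map_conj Q g _ (fun u => rfl)⟩

/-- **Fully centralized subgroups.** -/
theorem isFullyCentralized_iff {p : ℕ} [Fact p.Prime] {M : Ideal Cfsg.AlgInt}
    (hM : Cfsg.IsPModular p M) {B : Set (Cfsg.IrrCharacter G)} {P : Subgroup G}
    {e : Set (Cfsg.IrrCharacter (Subgroup.centralizer (P : Set G)))} {F : Cfsg.FusionSystem P}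
    (hF : Cfsg.IsBlockFusionSystemOn p M B P e F) {Q : Subgroup G}
    {f : Set (Cfsg.IrrCharacter (Subgroup.centralizer (Q : Set G)))} (hQP : Q ≤ P) (hle : Cfsg.SubpairLE p M Q f P e) :
    F.IsFullyCentralized Q ↔
      Cfsg.IsDefectGroup p M f ((P ⊓ (Subgroup.centralizer (Q : Set G))).subgroupOf (Subgroup.centralizer (Q : Set G))) := by
  classical
  have hmax := hF.1
  have hPe := hmax.1.1
  have hB := hmax.1.2.1
  have hf : Cfsg.IsPBlock M f :=
    ((isBrauerPairOf_iff_of_reflTransGen hM (a := ⟨Q, f⟩) (b := ⟨P, e⟩) hle B hB).mp hmax.1).1.2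
  letI : Fintype (Subgroup.centralizer (Q : Set G)) := Fintype.ofFinite _
  constructor
  · rintro ⟨-, hfc⟩
    obtain ⟨x, hle', hDx⟩ := exists_conj_isDefectGroup_centralizer hM B P Q e f hmax hle
    have h1 := hfc _ ((isConj_iff_of_isBlockFusionSystemOn hM hF hQP hle _).mpr ⟨x, rfl, hle'⟩)
    obtain ⟨D, hD, hXD⟩ := exists_isDefectGroup_centralizer_ge hM hPe hQP hle
    have hD' := isDefectGroup_of_conjBlock Q x hDx
    have hcard := Helper16.isDefectGroup_card_eq hM hf hD hD'
    rw [card_comap_mulEquiv, card_subgroupOf_inf] at hcard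
    have hXeq : (P ⊓ (Subgroup.centralizer (Q : Set G))).subgroupOf (Subgroup.centralizer (Q : Set G)) = D := by
      apply Subgroup.eq_of_le_of_card_ge hXD
      rw [hcard, card_subgroupOf_inf]
      exact h1
    rw [hXeq]
    exact hD
  · intro hD
    refine ⟨hQP, fun Q' hconj => ?_⟩
    obtain ⟨g, rfl, hle'⟩ := (isConj_iff_of_isBlockFusionSystemOn hM hF hQP hle _).mp hconj
    have hgQP : Q.map (MulAut.conj g).toMonoidHom ≤ P :=
      Helper75.subpairLE_fst_le (a := ⟨_, _⟩) (b := ⟨P, e⟩) hle'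
    letI : Fintype (Subgroup.centralizer
      ((Q.map (MulAut.conj g).toMonoidHom : Subgroup G) : Set G)) := Fintype.ofFinite _
    obtain ⟨D', hD', hXD'⟩ := exists_isDefectGroup_centralizer_ge hM hPe hgQP hle'
    have hD₂ := isDefectGroup_conjBlock Q g hD
    have hcard := Helper16.isDefectGroup_card_eq hM (isPBlock_conjBlock Q g hf) hD' hD₂
    rw [card_comap_mulEquiv, card_subgroupOf_inf] at hcard
    have h3 := Subgroup.card_le_of_le hXD'
    rw [card_subgroupOf_inf, hcard] at h3
    exact h3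

/-- **Centric subgroups.** -/
theorem isCentric_iff {p : ℕ} [Fact p.Prime] {M : Ideal Cfsg.AlgInt}
    (hM : Cfsg.IsPModular p M) {B : Set (Cfsg.IrrCharacter G)} {P : Subgroup G}
    {e : Set (Cfsg.IrrCharacter (Subgroup.centralizer (P : Set G)))} {F : Cfsg.FusionSystem P}
    (hF : Cfsg.IsBlockFusionSystemOn p M B P e F) {Q : Subgroup G}
    {f : Set (Cfsg.IrrCharacter (Subgroup.centralizer (Q : Set G)))} (hQP : Q ≤ P) (hle : Cfsg.SubpairLE p M Q f P e) :
    F.IsCentric Q ↔
      Cfsg.IsDefectGroup p M f ((Q ⊓ (Subgroup.centralizer (Q : Set G))).subgroupOf (Subgroup.centralizer (Q : Set G))) := by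
  classical
  have hmax := hF.1
  have hPe := hmax.1.1
  have hB := hmax.1.2.1
  have hf : Cfsg.IsPBlock M f :=
    ((isBrauerPairOf_iff_of_reflTransGen hM (a := ⟨Q, f⟩) (b := ⟨P, e⟩) hle B hB).mp hmax.1).1.2
  letI : Fintype (Subgroup.centralizer (Q : Set G)) := Fintype.ofFinite _
  constructor
  · rintro ⟨-, hcen⟩
    obtain ⟨x, hle', hDx⟩ := exists_conj_isDefectGroup_centralizer hM B P Q e f hmax hle
    have hxQP : Q.map (MulAut.conj x).toMonoidHom ≤ P :=
      Helper75.subpairLE_fst_le (a := ⟨_, _⟩) (b := ⟨P, e⟩) hle'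
    have h1 := hcen _ ((isConj_iff_of_isBlockFusionSystemOn hM hF hQP hle _).mpr ⟨x, rfl, hle'⟩)
    have hD' := isDefectGroup_of_conjBlock Q x hDx
    have hEq : ((P ⊓ (Subgroup.centralizer ((Q.map (MulAut.conj x).toMonoidHom : Subgroup G) : Set G))).subgroupOf (Subgroup.centralizer ((Q.map (MulAut.conj x).toMonoidHom : Subgroup G) : Set G))).comap
        (Helper75.centralizerConjEquiv Q x).symm.toMonoidHom
        = (Q ⊓ (Subgroup.centralizer (Q : Set G))).subgroupOf (Subgroup.centralizer (Q : Set G)) := by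
      ext c
      rw [Subgroup.mem_comap, Subgroup.mem_subgroupOf, Subgroup.mem_subgroupOf]
      constructor
      · intro hc
        have h2 : x * (c : G) * x⁻¹ ∈ Q.map (MulAut.conj x).toMonoidHom := h1 hc
        rw [mem_map_conj_iff] at h2
        have e1 : x⁻¹ * (x * (c : G) * x⁻¹) * x = c := by group
        rw [e1] at h2
        exact ⟨h2, c.2⟩
      · intro hc
        exact ⟨hxQP ⟨(c : G), hc.1, rfl⟩,
          ((Helper75.centralizerConjEquiv Q x).symm c).2⟩
    rw [hEq] at hD'
    exact hD'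
  · intro hD
    refine ⟨hQP, fun Q' hconj => ?_⟩
    obtain ⟨g, rfl, hle'⟩ := (isConj_iff_of_isBlockFusionSystemOn hM hF hQP hle _).mp hconj
    have hgQP : Q.map (MulAut.conj g).toMonoidHom ≤ P :=
      Helper75.subpairLE_fst_le (a := ⟨_, _⟩) (b := ⟨P, e⟩) hle'
    letI : Fintype (Subgroup.centralizer
      ((Q.map (MulAut.conj g).toMonoidHom : Subgroup G) : Set G)) := Fintype.ofFinite _
    obtain ⟨D', hD', hXD'⟩ := exists_isDefectGroup_centralizer_ge hM hPe hgQP hle'
    have hD₂ := isDefectGroup_conjBlock Q g hD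
    have hcard := Helper16.isDefectGroup_card_eq hM (isPBlock_conjBlock Q g hf) hD₂ hD'
    have hle1 : ((Q ⊓ (Subgroup.centralizer (Q : Set G))).subgroupOf (Subgroup.centralizer (Q : Set G))).comap
        (Helper75.centralizerConjEquiv Q g).toMonoidHom
        ≤ (P ⊓ Subgroup.centralizer ((Q.map (MulAut.conj g).toMonoidHom : Subgroup G) : Set G)
          ).subgroupOf (Subgroup.centralizer
            ((Q.map (MulAut.conj g).toMonoidHom : Subgroup G) : Set G)) := by
      intro c' hc'
      rw [Subgroup.mem_comap, Subgroup.mem_subgroupOf] at hc'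
      rw [Subgroup.mem_subgroupOf]
      refine ⟨hgQP ?_, c'.2⟩
      rw [mem_map_conj_iff]
      exact hc'.1
    have hEq : ((Q ⊓ (Subgroup.centralizer (Q : Set G))).subgroupOf (Subgroup.centralizer (Q : Set G))).comap
        (Helper75.centralizerConjEquiv Q g).toMonoidHom = D' :=
      Subgroup.eq_of_le_of_card_ge (hle1.trans hXD') (le_of_eq hcard.symm)
    intro y hy
    have hy' : y ∈ P ⊓ Subgroup.centralizer
        ((Q.map (MulAut.conj g).toMonoidHom : Subgroup G) : Set G) := hy
    have h4 : (⟨y, hy'.2⟩ : Subgroup.centralizer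
        ((Q.map (MulAut.conj g).toMonoidHom : Subgroup G) : Set G)) ∈ D' :=
      hXD' (Subgroup.mem_subgroupOf.mpr hy')
    rw [← hEq, Subgroup.mem_comap, Subgroup.mem_subgroupOf] at h4
    rw [mem_map_conj_iff]
    exact h4.1

end Cfsg.Agent.Helper77
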