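import Cfsg.Agent.Helper77.AbelianPair

/-!
# A centric Brauer pair whose stabilizer is the whole group

* `mem_centralizer_of_pRegular`: an element of order prime to `p` acting on `Q` as an element of
  `p`-power order centralizes `Q`.
* `centric_normal_nilpotent`: S4693.
-/

set_option autoImplicit false
set_option linter.style.haveILetI false
open Cfsg

namespace Cfsg.Agent.Helper77

universe u

variable {G : Type u} [Group G]

/-- An element `x` of order prime to `p` that acts on `Q` by conjugation as an element `u` of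
`p`-power order centralizes `Q`. -/
theorem mem_centralizer_of_pRegular {p : ℕ} [hp : Fact p.Prime] (Q : Subgroup G) (x u : G)
    (hu : ∃ k : ℕ, u ^ p ^ k = 1) (hx : ¬ p ∣ orderOf x)
    (huN : ∀ w ∈ Q, u * w * u⁻¹ ∈ Q) (h : ∀ w ∈ Q, x * w * x⁻¹ = u * w * u⁻¹) :
    x ∈ Subgroup.centralizer (Q : Set G) := by
  have key : ∀ n : ℕ, ∀ w ∈ Q, x ^ n * w * (x ^ n)⁻¹ = u ^ n * w * (u ^ n)⁻¹ := by
    intro n
    induction n with
    | zero => intro w _; simp
    | succ n ih =>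
      intro w hw
      have e1 : x ^ (n + 1) * w * (x ^ (n + 1))⁻¹ = x ^ n * (x * w * x⁻¹) * (x ^ n)⁻¹ := by
        rw [pow_succ]; group
      have e2 : u ^ (n + 1) * w * (u ^ (n + 1))⁻¹ = u ^ n * (u * w * u⁻¹) * (u ^ n)⁻¹ := by
        rw [pow_succ]; group
      rw [e1, e2, h w hw, ih _ (huN w hw)]
  obtain ⟨k, hk⟩ := hu
  have h2 : x ^ p ^ k ∈ Subgroup.centralizer (Q : Set G) := by
    rw [Subgroup.mem_centralizer_iff]
    intro w hw
    have h3 := key (p ^ k) w hw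
    rw [hk] at h3
    have h4 : x ^ p ^ k * w * (x ^ p ^ k)⁻¹ = w := by simpa using h3
    calc w * x ^ p ^ k = (x ^ p ^ k * w * (x ^ p ^ k)⁻¹) * x ^ p ^ k := by rw [h4]
      _ = x ^ p ^ k * w := by group
  obtain ⟨m, hm⟩ := exists_pow_eq_self_of_coprime (x := x) (n := p ^ k)
    (Nat.Coprime.pow_left k ((Nat.Prime.coprime_iff_not_dvd hp.out).2 hx))
  rw [← hm]
  exact Subgroup.pow_mem _ h2 m

variable [Fintype G]

/-- **S4693.** A centric Brauer pair `(Q, f) ≤ (P, e)` stabilized by all of `G`. -/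
theorem centric_normal_nilpotent {p : ℕ} [Fact p.Prime] {M : Ideal Cfsg.AlgInt}
    (hM : Cfsg.IsPModular p M) {B : Set (Cfsg.IrrCharacter G)} {P : Subgroup G}
    {e : Set (Cfsg.IrrCharacter (Subgroup.centralizer (P : Set G)))}
    (hmax : Cfsg.IsMaximalBrauerPair p M B P e) {F : Cfsg.FusionSystem P}
    (hF : Cfsg.IsBlockFusionSystemOn p M B P e F) {Q : Subgroup G}
    {f : Set (Cfsg.IrrCharacter (Subgroup.centralizer (Q : Set G)))} (hQP : Q ≤ P) (hf : Cfsg.IsPBlock M f)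
    (hle : Cfsg.SubpairLE p M Q f P e) (hcen : F.IsCentric Q)
    (hG : ∀ x : G, x ∈ Subgroup.normalizer (Q : Set G) ∧ Cfsg.StabilizesBlock (Subgroup.centralizer (Q : Set G)) f x) :
    (∀ g : G, Cfsg.MemLocalIdeal M (Cfsg.blockCoeff B g - Cfsg.subgroupBlockCoeff (Subgroup.centralizer (Q : Set G)) f g)) ∧
      ∃ F' : Set (Cfsg.IrrCharacter ↥(Q ⊔ Subgroup.centralizer (Q : Set G))), Cfsg.IsPBlock M F' ∧
        (∀ t : ↥(Q ⊔ Subgroup.centralizer (Q : Set G)), Cfsg.blockCoeff F' t = Cfsg.subgroupBlockCoeff (Subgroup.centralizer (Q : Set G)) f (t : G)) ∧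
        Cfsg.IsNilpotentBlock p M F' := by
  classical
  have hMm := hM.2.1
  have hB := hmax.1.2.1
  have hQf : Cfsg.IsBrauerPairOf p M B Q f :=
    (isBrauerPairOf_iff_of_reflTransGen hM (a := ⟨Q, f⟩) (b := ⟨P, e⟩) hle B hB).mp hmax.1
  have hQp : IsPGroup p Q := hQf.1.1
  haveI hQn : Q.Normal := ⟨fun n hn g => (Subgroup.mem_normalizer_iff.mp (hG g).1 n).1 hn⟩
  have hCn : (⊤ : Subgroup G) ≤ Subgroup.normalizer (((Subgroup.centralizer (Q : Set G)) : Subgroup G) : Set G) :=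
    fun x _ => (hG x).2.1
  haveI hCnorm : (Subgroup.centralizer (Q : Set G)).Normal :=
    ⟨fun n hn g => (Subgroup.mem_normalizer_iff.mp (hG g).2.1 n).1 hn⟩
  letI : Fintype (Subgroup.centralizer (Q : Set G)) := Fintype.ofFinite _
  constructor
  · intro g
    have h1 := blockCoeff_eq_sbc_orbitUnion_top hM Q hQf hCn
    rw [orbitUnion_eq_self hCn f (fun x _ => (hG x).2)] at h1
    rw [h1, sub_self]
    exact memLocalIdeal_zero hMm
  · have hpreg : ∀ x : G, x ∈ (Q ⊔ Subgroup.centralizer (Q : Set G)) → ¬ p ∣ orderOf x → x ∈ (Subgroup.centralizer (Q : Set G)) := by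
      intro x hx hreg
      obtain ⟨q, hq, c, hc, rfl⟩ := Subgroup.mem_sup_of_normal_right.mp hx
      obtain ⟨k, hk⟩ := hQp ⟨q, hq⟩
      refine mem_centralizer_of_pRegular Q (q * c) q
        ⟨k, by simpa using congrArg Subtype.val hk⟩ hreg (fun w hw => hQn.conj_mem w hw q)
        (fun w hw => ?_)
      have h3 := Subgroup.mem_centralizer_iff.mp hc w hw
      calc q * c * w * (q * c)⁻¹ = q * (c * w) * c⁻¹ * q⁻¹ := by group
        _ = q * (w * c) * c⁻¹ * q⁻¹ := by rw [h3]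
        _ = q * w * q⁻¹ := by group
    letI : Fintype ↥(Q ⊔ Subgroup.centralizer (Q : Set G)) := Fintype.ofFinite _
    have hCX : (Subgroup.centralizer (Q : Set G)) ≤ (Q ⊔ Subgroup.centralizer (Q : Set G)) := le_sup_right
    letI : Fintype ↥((Subgroup.centralizer (Q : Set G)).subgroupOf (Q ⊔ Subgroup.centralizer (Q : Set G))) := Fintype.ofFinite _
    have hidx : ∃ k : ℕ, ((Subgroup.centralizer (Q : Set G)).subgroupOf (Q ⊔ Subgroup.centralizer (Q : Set G))).index = p ^ k :=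
      index_eq_pow_of_forall_pRegular_mem _ (fun x hx => Subgroup.mem_subgroupOf.mpr
        (hpreg x x.2 (by rwa [Subgroup.orderOf_coe])))
    have hst : ∀ x : ↥(Q ⊔ Subgroup.centralizer (Q : Set G)), Cfsg.StabilizesBlock ((Subgroup.centralizer (Q : Set G)).subgroupOf (Q ⊔ Subgroup.centralizer (Q : Set G))) (ofBlock hCX f) x :=
      fun x => stabilizesBlock_ofBlock hCX f x (hG x).2
    obtain ⟨⟨F', hF', hF'c⟩, huniq⟩ := Cfsg.Agent.S4672.result p M hM _ hidx (ofBlock hCX f)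
      (isPBlock_ofBlock hCX hf) hst
    refine ⟨F', hF', fun t => by rw [hF'c, sbc_ofBlock], hF', ?_⟩
    intro R g hRg x _ _ hreg
    have hdef : ∀ D : Subgroup ↥(Q ⊔ Subgroup.centralizer (Q : Set G)), Cfsg.IsDefectGroup p M F' D → D ≤ Q.subgroupOf (Q ⊔ Subgroup.centralizer (Q : Set G)) := by
      intro D hD
      obtain ⟨-, hDN⟩ := huniq F' hF' hF'c D hD
      have hZ := (isCentric_iff hM hF hQP hle).1 hcen
      have hZ' : Cfsg.IsDefectGroup p M (ofBlock hCX f) _ :=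
        Helper75.isDefectGroup_image_irrComp (Subgroup.subgroupOfEquivOfLe hCX) hZ
      obtain ⟨y, hy⟩ := Helper16.isDefectGroup_conjLE hM (isPBlock_ofBlock hCX hf) hDN hZ'
      have hDNQ : ∀ d : ↥(Q ⊔ Subgroup.centralizer (Q : Set G)), d ∈ D → (d : G) ∈ (Subgroup.centralizer (Q : Set G)) → (d : G) ∈ Q := by
        intro d hdD hdC
        have hdN : d ∈ (Subgroup.centralizer (Q : Set G)).subgroupOf (Q ⊔ Subgroup.centralizer (Q : Set G)) := Subgroup.mem_subgroupOf.mpr hdC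
        have h1 := hy ⟨d, hdN⟩ (Subgroup.mem_subgroupOf.mpr ⟨hdD, hdN⟩)
        have h2 : ((y : ↥(Q ⊔ Subgroup.centralizer (Q : Set G))) : G) * (d : G) * ((y : ↥(Q ⊔ Subgroup.centralizer (Q : Set G))) : G)⁻¹ ∈ Q :=
          (Subgroup.mem_subgroupOf.mp (Subgroup.mem_comap.mp h1)).1
        have h3 := hQn.conj_mem _ h2 ((y : ↥(Q ⊔ Subgroup.centralizer (Q : Set G))) : G)⁻¹
        rwa [show ((y : ↥(Q ⊔ Subgroup.centralizer (Q : Set G))) : G)⁻¹ * (((y : ↥(Q ⊔ Subgroup.centralizer (Q : Set G))) : G) * (d : G) * ((y : ↥(Q ⊔ Subgroup.centralizer (Q : Set G))) : G)⁻¹)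
          * ((y : ↥(Q ⊔ Subgroup.centralizer (Q : Set G))) : G)⁻¹⁻¹ = (d : G) by group] at h3
      have hQD : Q.subgroupOf (Q ⊔ Subgroup.centralizer (Q : Set G)) ≤ D :=
        Helper16.normal_pSubgroup_le_defectGroup hM _ hQp.comap_subtype hF' hD
      intro d hd
      obtain ⟨q, hq, c, hc, hqc⟩ := Subgroup.mem_sup_of_normal_right.mp d.2
      have hqX : q ∈ (Q ⊔ Subgroup.centralizer (Q : Set G)) := (le_sup_left : Q ≤ (Q ⊔ Subgroup.centralizer (Q : Set G))) hq
      have hcX : c ∈ (Q ⊔ Subgroup.centralizer (Q : Set G)) := hCX hc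
      have hcD : (⟨c, hcX⟩ : ↥(Q ⊔ Subgroup.centralizer (Q : Set G))) ∈ D := by
        have e1 : (⟨c, hcX⟩ : ↥(Q ⊔ Subgroup.centralizer (Q : Set G))) = (⟨q, hqX⟩ : ↥(Q ⊔ Subgroup.centralizer (Q : Set G)))⁻¹ * d := Subtype.ext (by
          show c = q⁻¹ * (d : G)
          rw [← hqc]
          group)
        rw [e1]
        exact D.mul_mem (D.inv_mem (hQD (Subgroup.mem_subgroupOf.mpr hq))) hd
      have hcQ : c ∈ Q := hDNQ ⟨c, hcX⟩ hcD hc
      rw [Subgroup.mem_subgroupOf, ← hqc]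
      exact Q.mul_mem hq hcQ
    obtain ⟨P₀, e₀, hmax₀, hle₀⟩ := exists_isMaximalBrauerPair_ge hRg
    have hRP₀ : R ≤ P₀ := Helper75.subpairLE_fst_le (a := ⟨R, g⟩) (b := ⟨P₀, e₀⟩) hle₀
    have hP₀ := hdef P₀ (isDefectGroup_of_isMaximalBrauerPair hM F' P₀ e₀ hmax₀)
    have hxC : (x : G) ∈ (Subgroup.centralizer (Q : Set G)) := hpreg x x.2 (by
      have h5 : ¬ p ∣ orderOf x := hreg
      rwa [Subgroup.orderOf_coe])
    rw [Subgroup.mem_centralizer_iff]
    intro r hr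
    apply Subtype.ext
    exact Subgroup.mem_centralizer_iff.mp hxC r (Subgroup.mem_subgroupOf.mp (hP₀ (hRP₀ hr)))

end Cfsg.Agent.Helper77
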