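import Mathlib.Algebra.Algebra.Basic
import Mathlib.Algebra.BigOperators.Group.Finset.Basic
import Mathlib.Algebra.BigOperators.Ring.Finset
import Mathlib.Algebra.BigOperators.Pi
import Mathlib.Algebra.Group.Action.Pi
import Mathlib.Algebra.Module.Pi
import Mathlib.Algebra.Module.TransferInstance
import Mathlib.LinearAlgebra.FiniteDimensional.Defs
import Mathlib.LinearAlgebra.Pi
import Mathlib.LinearAlgebra.FreeModule.Finite.Basic
import Mathlib.Tactic.Group
import Mathlib.Tactic.Ring

/-!
# The group algebra of a finite group as functions with the convolution product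

`ConvAlg k G` is a one-field structure around the functions `G → k`, with pointwise addition and
the convolution product `(a * b) g = ∑ x, a x * b (x⁻¹ * g)` (the same formula as
`Helper81.conv`).  It is a `k`-algebra, finite over `k`, with the symmetrizing form `a ↦ a 1`.
-/

set_option autoImplicit false
set_option linter.unusedSectionVars false

namespace Cfsg.Agent.Helper77

universe u v

/-- Functions on a finite group with the convolution product. -/
structure ConvAlg (k : Type v) (G : Type u) where
  /-- the element with given coefficients -/
  ofFun ::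
  /-- the coefficients -/
  toFun : G → k

namespace ConvAlg

variable {k : Type v} {G : Type u}

instance instCoeFun : CoeFun (ConvAlg k G) (fun _ => G → k) := ⟨ConvAlg.toFun⟩

@[ext] theorem ext {a b : ConvAlg k G} (h : ∀ g, a g = b g) : a = b := by
  cases a; cases b
  congr
  funext g
  exact h g

theorem ofFun_apply (f : G → k) (g : G) : (ofFun f : ConvAlg k G) g = f g := rfl

/-- The coefficient bijection. -/
def equivFun (k : Type v) (G : Type u) : ConvAlg k G ≃ (G → k) where
  toFun := ConvAlg.toFun
  invFun := ConvAlg.ofFun
  left_inv := fun _ => rfl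
  right_inv := fun _ => rfl

instance instAddCommGroup [CommRing k] : AddCommGroup (ConvAlg k G) :=
  (equivFun k G).addCommGroup

instance instModule [CommRing k] : Module k (ConvAlg k G) :=
  (equivFun k G).module k

variable [CommRing k]

theorem add_apply (a b : ConvAlg k G) (g : G) : (a + b) g = a g + b g := rfl

theorem sub_apply (a b : ConvAlg k G) (g : G) : (a - b) g = a g - b g := rfl

theorem neg_apply (a : ConvAlg k G) (g : G) : (-a) g = -a g := rfl

theorem zero_apply (g : G) : (0 : ConvAlg k G) g = 0 := rfl

theorem smul_apply (c : k) (a : ConvAlg k G) (g : G) : (c • a) g = c * a g := rfl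

/-- The coefficient map as a linear equivalence. -/
def linEquivFun (k : Type v) (G : Type u) [CommRing k] : ConvAlg k G ≃ₗ[k] (G → k) :=
  (equivFun k G).linearEquiv k

theorem linEquivFun_apply (a : ConvAlg k G) (g : G) : linEquivFun k G a g = a g := rfl

theorem sum_apply {ι : Type*} (s : Finset ι) (f : ι → ConvAlg k G) (g : G) :
    (∑ i ∈ s, f i) g = ∑ i ∈ s, f i g := by
  classical
  induction s using Finset.induction_on with
  | empty => simp [zero_apply]
  | insert i s hi ih => rw [Finset.sum_insert hi, Finset.sum_insert hi, add_apply, ih]

variable [Group G] [Fintype G]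

instance instMul : Mul (ConvAlg k G) :=
  ⟨fun a b => ofFun (fun g => ∑ x : G, a x * b (x⁻¹ * g))⟩

open Classical in
noncomputable instance instOne : One (ConvAlg k G) :=
  ⟨ofFun (fun g => if g = 1 then 1 else 0)⟩

theorem mul_apply (a b : ConvAlg k G) (g : G) : (a * b) g = ∑ x : G, a x * b (x⁻¹ * g) := rfl

open Classical in
theorem one_apply (g : G) : (1 : ConvAlg k G) g = if g = 1 then 1 else 0 := rfl

noncomputable instance instRing : Ring (ConvAlg k G) :=
  { (instAddCommGroup : AddCommGroup (ConvAlg k G)), (instMul : Mul (ConvAlg k G)),
    (instOne : One (ConvAlg k G)) with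
    left_distrib := by
      intro a b c
      ext g
      simp only [mul_apply, add_apply, mul_add, Finset.sum_add_distrib]
    right_distrib := by
      intro a b c
      ext g
      simp only [mul_apply, add_apply, add_mul, Finset.sum_add_distrib]
    zero_mul := by
      intro a
      ext g
      simp [mul_apply, zero_apply]
    mul_zero := by
      intro a
      ext g
      simp [mul_apply, zero_apply]
    mul_assoc := by
      intro a b c
      ext g
      simp only [mul_apply, Finset.sum_mul, Finset.mul_sum]
      rw [Finset.sum_comm]
      refine Finset.sum_congr rfl fun y _ => ?_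
      rw [← Equiv.sum_comp (Equiv.mulLeft y)]
      refine Finset.sum_congr rfl fun w _ => ?_
      rw [Equiv.coe_mulLeft]
      have e1 : y⁻¹ * (y * w) = w := by group
      have e2 : (y * w)⁻¹ * g = w⁻¹ * (y⁻¹ * g) := by group
      rw [e1, e2, mul_assoc]
    one_mul := by
      intro a
      ext g
      rw [mul_apply, Finset.sum_eq_single 1]
      · simp [one_apply]
      · intro x _ hx
        rw [one_apply, if_neg hx, zero_mul]
      · intro h; exact absurd (Finset.mem_univ _) h
    mul_one := by
      intro a
      ext g
      rw [mul_apply, Finset.sum_eq_single g]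
      · simp [one_apply]
      · intro x _ hx
        have : ¬ x⁻¹ * g = 1 := by
          intro h
          apply hx
          calc x = x * (x⁻¹ * g) := by rw [h, mul_one]
            _ = g := by group
        rw [one_apply, if_neg this, mul_zero]
      · intro h; exact absurd (Finset.mem_univ _) h }

noncomputable instance instAlgebra : Algebra k (ConvAlg k G) :=
  Algebra.ofModule
    (by
      intro r x y
      ext g
      simp only [mul_apply, smul_apply]
      rw [Finset.mul_sum]
      exact Finset.sum_congr rfl fun t _ => by ring)
    (by
      intro r x y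
      ext g
      simp only [mul_apply, smul_apply]
      rw [Finset.mul_sum]
      exact Finset.sum_congr rfl fun t _ => by ring)

instance instFinite : Module.Finite k (ConvAlg k G) :=
  Module.Finite.equiv (linEquivFun k G).symm

/-- The symmetrizing form: the coefficient of the identity. -/
def lamOne (k : Type v) (G : Type u) [CommRing k] [Group G] : ConvAlg k G →ₗ[k] k where
  toFun := fun a => a 1
  map_add' := fun _ _ => rfl
  map_smul' := fun _ _ => rfl

theorem lamOne_apply (a : ConvAlg k G) : lamOne k G a = a 1 := rfl

theorem lamOne_mul_comm (a b : ConvAlg k G) : lamOne k G (a * b) = lamOne k G (b * a) := by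
  rw [lamOne_apply, lamOne_apply, mul_apply, mul_apply]
  rw [← Equiv.sum_comp (Equiv.inv G)]
  refine Finset.sum_congr rfl fun x _ => ?_
  simp only [Equiv.inv_apply, inv_inv, mul_one]
  exact mul_comm _ _

/-- The indicator function of a group element. -/
noncomputable def delta (k : Type v) [CommRing k] (h : G) : ConvAlg k G :=
  ofFun (fun t => by classical exact if t = h then 1 else 0)

theorem delta_apply_self (h : G) : delta k h h = 1 := by
  simp [delta, ofFun_apply]

theorem delta_apply_ne {h t : G} (ht : t ≠ h) : delta k h t = 0 := by
  simp [delta, ofFun_apply, ht]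

theorem mul_delta_apply (a : ConvAlg k G) (h g : G) : (a * delta k h) g = a (g * h⁻¹) := by
  rw [mul_apply, Finset.sum_eq_single (g * h⁻¹)]
  · have : (g * h⁻¹)⁻¹ * g = h := by group
    rw [this, delta_apply_self, mul_one]
  · intro x _ hx
    have : x⁻¹ * g ≠ h := by
      intro h2
      apply hx
      rw [← h2]
      group
    rw [delta_apply_ne this, mul_zero]
  · intro h2; exact absurd (Finset.mem_univ _) h2

theorem delta_mul_apply (a : ConvAlg k G) (h g : G) : (delta k h * a) g = a (h⁻¹ * g) := by
  rw [mul_apply, Finset.sum_eq_single h]
  · rw [delta_apply_self, one_mul]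
  · intro x _ hx
    rw [delta_apply_ne hx, zero_mul]
  · intro h2; exact absurd (Finset.mem_univ _) h2

theorem lamOne_nondegenerate (a : ConvAlg k G) (h : ∀ y, lamOne k G (a * y) = 0) : a = 0 := by
  ext g
  have h1 := h (delta k g⁻¹)
  rw [lamOne_apply, mul_delta_apply, inv_inv, one_mul] at h1
  rw [h1, zero_apply]

/-- Central elements of the group algebra are the class functions. -/
theorem central_iff (a : ConvAlg k G) :
    (∀ y : ConvAlg k G, a * y = y * a) ↔ ∀ g h : G, a (h * g * h⁻¹) = a g := by
  constructor
  · intro hc g h
    have h1 := congrArg (fun f : ConvAlg k G => f (h * g)) (hc (delta k h))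
    simp only [mul_delta_apply, delta_mul_apply] at h1
    rw [h1]
    congr 1
    group
  · intro hcl y
    ext g
    rw [mul_apply, mul_apply]
    have h2 : ∑ x : G, a x * y (x⁻¹ * g) = ∑ x : G, a (g * x⁻¹) * y ((g * x⁻¹)⁻¹ * g) :=
      (Equiv.sum_comp ((Equiv.inv G).trans (Equiv.mulLeft g)) (fun t => a t * y (t⁻¹ * g))).symm
    rw [h2]
    refine Finset.sum_congr rfl fun x _ => ?_
    have e1 : (g * x⁻¹)⁻¹ * g = x := by group
    have e2 : a (g * x⁻¹) = a (x⁻¹ * g) := by
      have h3 := hcl (g * x⁻¹) x⁻¹
      rw [inv_inv] at h3
      rw [← h3]
      congr 1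
      group
    rw [e1, e2, mul_comm]

end ConvAlg

end Cfsg.Agent.Helper77
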