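import Cfsg.Agent.Helper77.BlockFusion

/-!
# Stabilizers of Brauer pairs below a maximal pair

For a Brauer pair `(Q, f)`, let `T` be the stabilizer of `f` in `N_G(Q)`.

* `conjSubgroupEquiv`: conjugation as an isomorphism `x T x⁻¹ ≃* T`.
* `stabilizesBlock_conjBlock_iff`: the stabilizer of the conjugate pair is the conjugate of the
  stabilizer.
* `exists_block_of_isStabilizer`: the idempotent of `f` is a block idempotent of `T`.
* `isDefectGroup_stabilizer_conj`: transport of defect groups of that block along conjugation.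
* `exists_isDefectGroup_stabilizer_ge`: for `(Q, f) ≤ (P, e)`, `N_P(Q)` lies in a defect group of
  that block.
* `exists_conj_isDefectGroup_stabilizer`: for `(P, e)` maximal, some conjugate `(xQ, xf)` below
  `(P, e)` has `N_P(xQ)` as a defect group of the block of its stabilizer.
* `isFullyNormalized_iff`.
-/

set_option autoImplicit false
set_option linter.style.haveILetI false
open Cfsg

namespace Cfsg.Agent.Helper77

universe u

variable {G : Type u} [Group G]

/-- Conjugation by `x⁻¹` as an isomorphism `T' ≃* T`, when `T' = x T x⁻¹`. -/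
def conjSubgroupEquiv (T T' : Subgroup G) (x : G) (h : ∀ y, y ∈ T' ↔ x⁻¹ * y * x ∈ T) :
    T' ≃* T where
  toFun t' := ⟨x⁻¹ * (t' : G) * x, (h t').mp t'.2⟩
  invFun t := ⟨x * (t : G) * x⁻¹, (h _).mpr (by
    have e : x⁻¹ * (x * (t : G) * x⁻¹) * x = t := by group
    rw [e]
    exact t.2)⟩
  left_inv t' := Subtype.ext (by
    show x * (x⁻¹ * (t' : G) * x) * x⁻¹ = t'
    group)
  right_inv t := Subtype.ext (by
    show x⁻¹ * (x * (t : G) * x⁻¹) * x = t
    group)
  map_mul' a b := Subtype.ext (by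
    show x⁻¹ * ((a : G) * (b : G)) * x = x⁻¹ * (a : G) * x * (x⁻¹ * (b : G) * x)
    group)

theorem conjSubgroupEquiv_apply (T T' : Subgroup G) (x : G)
    (h : ∀ y, y ∈ T' ↔ x⁻¹ * y * x ∈ T) (t' : T') :
    ((conjSubgroupEquiv T T' x h t' : T) : G) = x⁻¹ * (t' : G) * x := rfl

theorem mem_normalizer_map_conj_iff (Q : Subgroup G) (x y : G) :
    y ∈ (Subgroup.normalizer ((Q.map (MulAut.conj x).toMonoidHom : Subgroup G) : Set G)) ↔ x⁻¹ * y * x ∈ Subgroup.normalizer (Q : Set G) := by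
  rw [Subgroup.mem_normalizer_iff, Subgroup.mem_normalizer_iff]
  constructor
  · intro h q
    have h1 := h (x * q * x⁻¹)
    rw [mem_map_conj_iff, mem_map_conj_iff] at h1
    have e1 : x⁻¹ * (x * q * x⁻¹) * x = q := by group
    have e2 : x⁻¹ * (y * (x * q * x⁻¹) * y⁻¹) * x = x⁻¹ * y * x * q * (x⁻¹ * y * x)⁻¹ := by
      group
    rw [e1, e2] at h1
    exact h1
  · intro h w
    rw [mem_map_conj_iff, mem_map_conj_iff]
    have h1 := h (x⁻¹ * w * x)
    have e2 : x⁻¹ * y * x * (x⁻¹ * w * x) * (x⁻¹ * y * x)⁻¹ = x⁻¹ * (y * w * y⁻¹) * x := by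
      group
    rw [e2] at h1
    exact h1

/-- The stabilizer of the conjugate block is the conjugate of the stabilizer. -/
theorem stabilizesBlock_conjBlock_iff (Q : Subgroup G) (x : G)
    (f : Set (Cfsg.IrrCharacter (Subgroup.centralizer (Q : Set G)))) (y : G) (hy : y ∈ (Subgroup.normalizer ((Q.map (MulAut.conj x).toMonoidHom : Subgroup G) : Set G))) :
    Cfsg.StabilizesBlock (Subgroup.centralizer ((Q.map (MulAut.conj x).toMonoidHom : Subgroup G) : Set G)) (Cfsg.conjBlock Q x f) y ↔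
      Cfsg.StabilizesBlock (Subgroup.centralizer (Q : Set G)) f (x⁻¹ * y * x) := by
  have hr : x⁻¹ * y * x ∈ Subgroup.normalizer (Q : Set G) :=
    (mem_normalizer_map_conj_iff Q x y).mp hy
  constructor
  · rintro ⟨-, h⟩
    refine ⟨Helper75.normalizer_le_normalizer_centralizer' Q hr, ?_⟩
    intro χ hχ
    obtain ⟨χ'', hχ'', hc⟩ := h (Helper75.irrComp (Helper75.centralizerConjEquiv Q x) χ)
      (by rw [conjBlock_eq_image]; exact ⟨χ, hχ, rfl⟩)
    rw [conjBlock_eq_image] at hχ''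
    obtain ⟨χ₂, hχ₂, rfl⟩ := hχ''
    refine ⟨χ₂, hχ₂, ?_⟩
    intro k k' hk
    have h2 := hc ((Helper75.centralizerConjEquiv Q x).symm k)
      ((Helper75.centralizerConjEquiv Q x).symm k') (by
        rw [Helper75.centralizerConjEquiv_symm_apply, Helper75.centralizerConjEquiv_symm_apply,
          hk]
        group)
    have e1 : (Helper75.irrComp (Helper75.centralizerConjEquiv Q x) χ₂).1
        ((Helper75.centralizerConjEquiv Q x).symm k') = χ₂.1 k' := by
      show χ₂.1 (Helper75.centralizerConjEquiv Q x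
        ((Helper75.centralizerConjEquiv Q x).symm k')) = _
      rw [MulEquiv.apply_symm_apply]
    have e2 : (Helper75.irrComp (Helper75.centralizerConjEquiv Q x) χ).1
        ((Helper75.centralizerConjEquiv Q x).symm k) = χ.1 k := by
      show χ.1 (Helper75.centralizerConjEquiv Q x
        ((Helper75.centralizerConjEquiv Q x).symm k)) = _
      rw [MulEquiv.apply_symm_apply]
    exact e1.symm.trans (h2.trans e2)
  · rintro ⟨-, h⟩
    refine ⟨Helper75.normalizer_le_normalizer_centralizer' _ hy, ?_⟩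
    intro χ' hχ'
    rw [conjBlock_eq_image] at hχ'
    obtain ⟨χ, hχ, rfl⟩ := hχ'
    obtain ⟨χ₂, hχ₂, hc⟩ := h χ hχ
    refine ⟨Helper75.irrComp (Helper75.centralizerConjEquiv Q x) χ₂,
      by rw [conjBlock_eq_image]; exact ⟨χ₂, hχ₂, rfl⟩, ?_⟩
    intro k k' hk
    show χ₂.1 (Helper75.centralizerConjEquiv Q x k')
      = χ.1 (Helper75.centralizerConjEquiv Q x k)
    apply hc
    rw [Helper75.centralizerConjEquiv_apply, Helper75.centralizerConjEquiv_apply, hk]
    group

/-- Sets of irreducible characters with the same idempotent are equal. -/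
theorem eq_of_blockCoeff_eq {K : Type u} [Group K] [Fintype K]
    {F F' : Set (Cfsg.IrrCharacter K)} (h : Cfsg.blockCoeff F = Cfsg.blockCoeff F') :
    F = F' := by
  ext ψ
  constructor
  · intro hψ
    by_contra hn
    have h1 := omega_blockCoeff_of_mem hψ
    rw [h, omega_blockCoeff_of_not_mem hn] at h1
    exact zero_ne_one h1
  · intro hψ
    by_contra hn
    have h1 := omega_blockCoeff_of_mem hψ
    rw [← h, omega_blockCoeff_of_not_mem hn] at h1
    exact zero_ne_one h1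

variable [Fintype G]

/-- The idempotent of a block `f` of `C_G(Q)` is a block idempotent of the stabilizer of `f` in
`N_G(Q)`. -/
theorem exists_block_of_isStabilizer {p : ℕ} [Fact p.Prime] {M : Ideal Cfsg.AlgInt}
    (hM : Cfsg.IsPModular p M) {Q : Subgroup G} {f : Set (Cfsg.IrrCharacter (Subgroup.centralizer (Q : Set G)))}
    (hQf : Cfsg.IsBrauerPair p M Q f) (T : Subgroup G)
    (hT : ∀ y : G, y ∈ T ↔ y ∈ Subgroup.normalizer (Q : Set G) ∧
      Cfsg.StabilizesBlock (Subgroup.centralizer (Q : Set G)) f y) :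
    ∃ F : Set (Cfsg.IrrCharacter T), Cfsg.IsPBlock M F ∧
      ∀ t : T, Cfsg.blockCoeff F t = Cfsg.subgroupBlockCoeff (Subgroup.centralizer (Q : Set G)) f (t : G) := by
  have hQT : Q ≤ T := fun y hy =>
    (hT y).mpr ⟨Subgroup.le_normalizer hy, stabilizesBlock_of_mem Q f hy⟩
  have hCT : (Subgroup.centralizer (Q : Set G)) ≤ T := fun y hy =>
    (hT y).mpr ⟨Subgroup.centralizer_le_normalizer _ hy,
      stabilizesBlock_of_mem_centralizer Q f hy⟩
  obtain ⟨θ, hθ⟩ := exists_block_of_stabilizer hM Q T hQf.1 hQT hCT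
    (fun y hy => ((hT y).mp hy).1) hQf.2 (fun y hy => ((hT y).mp hy).2)
  exact ⟨_, ⟨θ, rfl⟩, hθ⟩

/-- Transport of defect groups of the block of the stabilizer along conjugation. -/
theorem isDefectGroup_stabilizer_conj {p : ℕ} [Fact p.Prime] {M : Ideal Cfsg.AlgInt}
    (Q : Subgroup G) (x : G) (f : Set (Cfsg.IrrCharacter (Subgroup.centralizer (Q : Set G)))) (T T' : Subgroup G)
    (hTT' : ∀ y, y ∈ T' ↔ x⁻¹ * y * x ∈ T)
    {F : Set (Cfsg.IrrCharacter T)} {F' : Set (Cfsg.IrrCharacter T')}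
    (hFc : ∀ t : T, Cfsg.blockCoeff F t = Cfsg.subgroupBlockCoeff (Subgroup.centralizer (Q : Set G)) f (t : G))
    (hF'c : ∀ t : T', Cfsg.blockCoeff F' t
      = Cfsg.subgroupBlockCoeff (Subgroup.centralizer ((Q.map (MulAut.conj x).toMonoidHom : Subgroup G) : Set G)) (Cfsg.conjBlock Q x f) (t : G))
    {D : Subgroup T} (hD : Cfsg.IsDefectGroup p M F D) :
    Cfsg.IsDefectGroup p M F' (D.comap (conjSubgroupEquiv T T' x hTT').toMonoidHom) := by
  classical
  letI : Fintype T := Fintype.ofFinite _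
  letI : Fintype T' := Fintype.ofFinite _
  have hEq : F' = Helper75.irrComp (conjSubgroupEquiv T T' x hTT') '' F := by
    apply eq_of_blockCoeff_eq
    funext t'
    rw [Helper75.blockCoeff_image_irrComp, hF'c, hFc]
    have h1 := sbc_conjBlock Q x f (x⁻¹ * (t' : G) * x)
    have e : x * (x⁻¹ * (t' : G) * x) * x⁻¹ = t' := by group
    rw [e] at h1
    exact h1
  rw [hEq]
  exact Helper75.isDefectGroup_image_irrComp _ hD

/-- For `(Q, f) ≤ (P, e)`, the group `N_P(Q)` stabilizes `f`. -/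
theorem inf_normalizer_le_stabilizer {p : ℕ} [Fact p.Prime] {M : Ideal Cfsg.AlgInt}
    (hM : Cfsg.IsPModular p M) {P Q : Subgroup G} {e : Set (Cfsg.IrrCharacter (Subgroup.centralizer (P : Set G)))}
    {f : Set (Cfsg.IrrCharacter (Subgroup.centralizer (Q : Set G)))} (hPe : Cfsg.IsBrauerPair p M P e) (hQP : Q ≤ P)
    (hle : Cfsg.SubpairLE p M Q f P e) (T : Subgroup G)
    (hT : ∀ y : G, y ∈ T ↔ y ∈ Subgroup.normalizer (Q : Set G) ∧
      Cfsg.StabilizesBlock (Subgroup.centralizer (Q : Set G)) f y) :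
    P ⊓ Subgroup.normalizer (Q : Set G) ≤ T := by
  obtain ⟨g, hNS, -⟩ := isNormalSubpair_of_subpairLE_of_le hM hPe hle
    (le_inf hQP Subgroup.le_normalizer) inf_le_left inf_le_right
  intro y hy
  exact (hT y).mpr ⟨hy.2, hNS.2.2.2.2.1 y hy⟩

/-- **For `(Q, f) ≤ (P, e)`, the group `N_P(Q)` lies in a defect group of the block of the
stabilizer of `f` whose idempotent is that of `f`.** -/
theorem exists_isDefectGroup_stabilizer_ge {p : ℕ} [Fact p.Prime] {M : Ideal Cfsg.AlgInt}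
    (hM : Cfsg.IsPModular p M) {P Q : Subgroup G} {e : Set (Cfsg.IrrCharacter (Subgroup.centralizer (P : Set G)))}
    {f : Set (Cfsg.IrrCharacter (Subgroup.centralizer (Q : Set G)))} (hPe : Cfsg.IsBrauerPair p M P e) (hQP : Q ≤ P)
    (hle : Cfsg.SubpairLE p M Q f P e) (T : Subgroup G)
    (hT : ∀ y : G, y ∈ T ↔ y ∈ Subgroup.normalizer (Q : Set G) ∧
      Cfsg.StabilizesBlock (Subgroup.centralizer (Q : Set G)) f y)
    {F : Set (Cfsg.IrrCharacter T)} (hF : Cfsg.IsPBlock M F)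
    (hFc : ∀ t : T, Cfsg.blockCoeff F t = Cfsg.subgroupBlockCoeff (Subgroup.centralizer (Q : Set G)) f (t : G)) :
    ∃ D : Subgroup T, Cfsg.IsDefectGroup p M F D ∧
      (P ⊓ Subgroup.normalizer (Q : Set G)).subgroupOf T ≤ D := by
  classical
  have hMm := hM.2.1
  letI : Fintype T := Fintype.ofFinite _
  obtain ⟨g, hNS, -⟩ := isNormalSubpair_of_subpairLE_of_le hM hPe hle
    (le_inf hQP Subgroup.le_normalizer) inf_le_left inf_le_right
  obtain ⟨c, hcR, hc⟩ := exists_not_memLocalIdeal_of_isNormalSubpair hMm hNS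
  have hcC : c ∈ (Subgroup.centralizer (Q : Set G)) := by
    by_contra h
    rw [sbc_of_not_mem _ _ h] at hc
    exact hc (memLocalIdeal_zero hMm)
  have hcT : c ∈ T := (hT c).mpr ⟨Subgroup.centralizer_le_normalizer _ hcC,
    stabilizesBlock_of_mem_centralizer Q f hcC⟩
  have hc' : ¬ Cfsg.MemLocalIdeal M (Cfsg.blockCoeff F ⟨c, hcT⟩) := by
    rw [hFc]
    exact hc
  refine exists_isDefectGroup_ge_of_blockCoeff hM hF ⟨c, hcT⟩ hc' _
    ((hPe.1.to_le inf_le_left).comap_subtype) ?_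
  intro d hd
  rw [Subgroup.mem_subgroupOf] at hd
  rw [Subgroup.mem_centralizer_iff]
  intro y hy
  rw [Set.mem_singleton_iff] at hy
  subst hy
  apply Subtype.ext
  exact (Subgroup.mem_centralizer_iff.mp hcR (d : G) hd).symm

/-- **Fully normalized conjugates.**  For `(Q, f) ≤ (P, e)` with `(P, e)` a maximal Brauer pair
of `B`, some conjugate `(xQ, xf)` lies below `(P, e)` and has `N_P(xQ)` as a defect group of the
block of its stabilizer whose idempotent is that of `xf`. -/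
theorem exists_conj_isDefectGroup_stabilizer {p : ℕ} [Fact p.Prime] {M : Ideal Cfsg.AlgInt}
    (hM : Cfsg.IsPModular p M) (B : Set (Cfsg.IrrCharacter G)) (P Q : Subgroup G)
    (e : Set (Cfsg.IrrCharacter (Subgroup.centralizer (P : Set G)))) (f : Set (Cfsg.IrrCharacter (Subgroup.centralizer (Q : Set G))))
    (hmax : Cfsg.IsMaximalBrauerPair p M B P e) (hle : Cfsg.SubpairLE p M Q f P e)
    (T₀ : Subgroup G)
    (hT₀ : ∀ y : G, y ∈ T₀ ↔ y ∈ Subgroup.normalizer (Q : Set G) ∧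
      Cfsg.StabilizesBlock (Subgroup.centralizer (Q : Set G)) f y) :
    ∃ x : G, Cfsg.SubpairLE p M (Q.map (MulAut.conj x).toMonoidHom) (Cfsg.conjBlock Q x f) P e ∧
      ∀ (T' : Subgroup G), (∀ y : G, y ∈ T' ↔ y ∈ (Subgroup.normalizer ((Q.map (MulAut.conj x).toMonoidHom : Subgroup G) : Set G)) ∧
          Cfsg.StabilizesBlock (Subgroup.centralizer ((Q.map (MulAut.conj x).toMonoidHom : Subgroup G) : Set G)) (Cfsg.conjBlock Q x f) y) →
        ∀ F' : Set (Cfsg.IrrCharacter T'), Cfsg.IsPBlock M F' →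
          (∀ t : T', Cfsg.blockCoeff F' t
            = Cfsg.subgroupBlockCoeff (Subgroup.centralizer ((Q.map (MulAut.conj x).toMonoidHom : Subgroup G) : Set G)) (Cfsg.conjBlock Q x f) (t : G)) →
          Cfsg.IsDefectGroup p M F' ((P ⊓ (Subgroup.normalizer ((Q.map (MulAut.conj x).toMonoidHom : Subgroup G) : Set G))).subgroupOf T') := by
  classical
  have hMm := hM.2.1
  have hPe := hmax.1.1
  have hB := hmax.1.2.1
  have hQf : Cfsg.IsBrauerPairOf p M B Q f :=
    (isBrauerPairOf_iff_of_reflTransGen hM (a := ⟨Q, f⟩) (b := ⟨P, e⟩) hle B hB).mp hmax.1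
  have hQ := hQf.1.1
  have hf := hQf.1.2
  letI : Fintype T₀ := Fintype.ofFinite _
  have hQT : Q ≤ T₀ := fun y hy =>
    (hT₀ y).mpr ⟨Subgroup.le_normalizer hy, stabilizesBlock_of_mem Q f hy⟩
  have hTN : T₀ ≤ Subgroup.normalizer (Q : Set G) := fun y hy => ((hT₀ y).mp hy).1
  obtain ⟨F₀, hF₀, hF₀c⟩ := exists_block_of_isStabilizer hM hQf.1 T₀ hT₀
  obtain ⟨D₁, hD₁⟩ := Helper16.exists_isDefectGroup (p := p) hMm hF₀
  obtain ⟨l, hl, hD₁l, -, hD₁p⟩ := Helper16.isDefectGroup_exists_data hD₁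
  haveI : (Q.subgroupOf T₀).Normal := Subgroup.normal_subgroupOf_of_le_normalizer hTN
  have hQD₁ : Q.subgroupOf T₀ ≤ D₁ :=
    Helper16.normal_pSubgroup_le_defectGroup hM (Q.subgroupOf T₀) hQ.comap_subtype hF₀ hD₁
  have hDGp : IsPGroup p (D₁.map T₀.subtype) := hD₁p.map _
  have hDGT : D₁.map T₀.subtype ≤ T₀ := by
    rintro _ ⟨d, -, rfl⟩
    exact d.2
  have hQDG : Q ≤ D₁.map T₀.subtype := fun q hq =>
    ⟨⟨q, hQT hq⟩, hQD₁ (Subgroup.mem_subgroupOf.mpr hq), rfl⟩
  have hlR : (l : G) ∈ Subgroup.centralizer ((D₁.map T₀.subtype : Subgroup G) : Set G) := by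
    rw [Subgroup.mem_centralizer_iff]
    rintro _ ⟨d, hd, rfl⟩
    have h2 := Subgroup.mem_centralizer_iff.mp (hD₁l hd) l (Set.mem_singleton l)
    exact (congrArg Subtype.val h2).symm
  have hne : ¬ Cfsg.MemLocalIdeal M (Cfsg.subgroupBlockCoeff (Subgroup.centralizer (Q : Set G)) f (l : G)) := by
    rw [← hF₀c l]
    exact hl.2.1
  obtain ⟨h, hNS⟩ := exists_isNormalSubpair_above hM ⟨hQ, hf⟩ hDGp hQDG (hDGT.trans hTN)
    (fun r hr => ((hT₀ r).mp (hDGT hr)).2) (l : G) hlR hne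
  have hRh : Cfsg.IsBrauerPairOf p M B _ h :=
    (isBrauerPairOf_iff_of_isNormalSubpair hM hNS B hB).mpr hQf
  obtain ⟨x, hx⟩ := exists_subpairLE_conj_of_isMaximalBrauerPair hM B P _ e h hmax hRh
  have hle' : Cfsg.SubpairLE p M (Q.map (MulAut.conj x).toMonoidHom) (Cfsg.conjBlock Q x f)
      P e := by
    have hstep : Cfsg.NormalSubpairRel p M
        ⟨Q.map (MulAut.conj x).toMonoidHom, Cfsg.conjBlock Q x f⟩
        ⟨(D₁.map T₀.subtype).map (MulAut.conj x).toMonoidHom,
          Cfsg.conjBlock _ x h⟩ := isNormalSubpair_conjBlock x hNS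
    exact Relation.ReflTransGen.head hstep hx
  have hxRP : (D₁.map T₀.subtype).map (MulAut.conj x).toMonoidHom ≤ P :=
    Helper75.subpairLE_fst_le (a := ⟨_, _⟩) (b := ⟨P, e⟩) hx
  have hxQP : Q.map (MulAut.conj x).toMonoidHom ≤ P := (Subgroup.map_mono hQDG).trans hxRP
  refine ⟨x, hle', ?_⟩
  intro T' hT' F' hF' hF'c
  letI : Fintype T' := Fintype.ofFinite _
  obtain ⟨D', hD', hXD'⟩ := exists_isDefectGroup_stabilizer_ge hM hPe hxQP hle' T' hT' hF' hF'c
  have hTT' : ∀ y, y ∈ T' ↔ x⁻¹ * y * x ∈ T₀ := by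
    intro y
    rw [hT', hT₀]
    constructor
    · rintro ⟨h1, h2⟩
      exact ⟨(mem_normalizer_map_conj_iff Q x y).mp h1,
        (stabilizesBlock_conjBlock_iff Q x f y h1).mp h2⟩
    · rintro ⟨h1, h2⟩
      have h1' := (mem_normalizer_map_conj_iff Q x y).mpr h1
      exact ⟨h1', (stabilizesBlock_conjBlock_iff Q x f y h1').mpr h2⟩
  have hD₂ := isDefectGroup_stabilizer_conj Q x f T₀ T' hTT' hF₀c hF'c hD₁
  have hcard := Helper16.isDefectGroup_card_eq hM hF' hD₂ hD'
  have hle1 : D₁.comap (conjSubgroupEquiv T₀ T' x hTT').toMonoidHom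
      ≤ (P ⊓ (Subgroup.normalizer ((Q.map (MulAut.conj x).toMonoidHom : Subgroup G) : Set G))).subgroupOf T' := by
    intro t' ht'
    rw [Subgroup.mem_comap] at ht'
    rw [Subgroup.mem_subgroupOf]
    refine ⟨hxRP ?_, ((hT' _).mp t'.2).1⟩
    rw [mem_map_conj_iff]
    exact ⟨_, ht', rfl⟩
  have hXeq : (P ⊓ (Subgroup.normalizer ((Q.map (MulAut.conj x).toMonoidHom : Subgroup G) : Set G))).subgroupOf T' = D' := by
    apply Subgroup.eq_of_le_of_card_ge hXD'
    rw [← hcard]
    exact Subgroup.card_le_of_le hle1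
  rw [hXeq]
  exact hD'

end Cfsg.Agent.Helper77
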