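import Cfsg.Agent.Helper77.FongStab
import Cfsg.Agent.Helper77.PairNormalizer

/-!
# Subgroups `C_G(Q) ≤ Y ≤ N_G(Q, f)` with `Y / C_G(Q)` a `p`-group

* `mulSubgroup`: the product `N C` of a subgroup `N` normalizing `C`.
* `isDefectGroup_of_le_of_coeff`: if the blocks `b` of `Y` and `F` of `T ≥ Y` have the same
  idempotent, supported in `Y`, then a defect group of `F` contained in `Y` is a defect group of
  `b`.
* `exists_block_of_pQuotient`: if `Y / C_G(Q)` is a `p`-group and `Y` stabilizes `f`, the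
  idempotent of `f` is a block idempotent of `Y`.
-/

set_option autoImplicit false
set_option linter.style.haveILetI false
open Cfsg

namespace Cfsg.Agent.Helper77

universe u

/-- The product `N C` of a subgroup `N` normalizing the subgroup `C`. -/
def mulSubgroup {G : Type u} [Group G] (N C : Subgroup G)
    (h : N ≤ Subgroup.normalizer (C : Set G)) : Subgroup G where
  carrier := {y | ∃ u ∈ N, ∃ c ∈ C, y = u * c}
  one_mem' := ⟨1, N.one_mem, 1, C.one_mem, (mul_one 1).symm⟩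
  mul_mem' := by
    rintro _ _ ⟨u, hu, c, hc, rfl⟩ ⟨u', hu', c', hc', rfl⟩
    refine ⟨u * u', N.mul_mem hu hu', u'⁻¹ * c * u' * c', C.mul_mem ?_ hc', by group⟩
    have h1 := (Subgroup.mem_normalizer_iff.mp (h (N.inv_mem hu')) c).mp hc
    rwa [inv_inv] at h1
  inv_mem' := by
    rintro _ ⟨u, hu, c, hc, rfl⟩
    refine ⟨u⁻¹, N.inv_mem hu, u * c⁻¹ * u⁻¹, ?_, by group⟩
    exact (Subgroup.mem_normalizer_iff.mp (h hu) c⁻¹).mp (C.inv_mem hc)

theorem mem_mulSubgroup {G : Type u} [Group G] (N C : Subgroup G)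
    (h : N ≤ Subgroup.normalizer (C : Set G)) (y : G) :
    y ∈ mulSubgroup N C h ↔ ∃ u ∈ N, ∃ c ∈ C, y = u * c := Iff.rfl

variable {G : Type u} [Group G] [Fintype G]

/-- If the blocks `b` of `Y` and `F` of `T ≥ Y` have the same idempotent `β`, supported in `Y`,
then a defect group of `F` contained in `Y` is a defect group of `b`. -/
theorem isDefectGroup_of_le_of_coeff {p : ℕ} [Fact p.Prime] {M : Ideal Cfsg.AlgInt}
    (hM : Cfsg.IsPModular p M) {Y T N : Subgroup G} (hYT : Y ≤ T) (hNY : N ≤ Y) (β : G → ℂ)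
    (hβ : ∀ g : G, g ∉ Y → β g = 0)
    {b : Set (Cfsg.IrrCharacter Y)} (hb : Cfsg.IsPBlock M b)
    (hbc : ∀ y : Y, Cfsg.blockCoeff b y = β (y : G))
    {F : Set (Cfsg.IrrCharacter T)} (hF : Cfsg.IsPBlock M F)
    (hFc : ∀ t : T, Cfsg.blockCoeff F t = β (t : G))
    (hN : Cfsg.IsDefectGroup p M F (N.subgroupOf T)) :
    Cfsg.IsDefectGroup p M b (N.subgroupOf Y) := by
  classical
  letI : Fintype Y := Fintype.ofFinite _
  letI : Fintype T := Fintype.ofFinite _
  have hMm := hM.2.1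
  have hNT : N ≤ T := hNY.trans hYT
  obtain ⟨c, hcls, hNc, -, hNp⟩ := Helper16.isDefectGroup_exists_data hN
  have hcY : (c : G) ∈ Y := by
    by_contra hcon
    apply hcls.2.1
    rw [hFc, hβ _ hcon]
    exact memLocalIdeal_zero hMm
  have hNp' : IsPGroup p N := hNp.of_equiv (Subgroup.subgroupOfEquivOfLe hNT)
  have hc1 : ¬ Cfsg.MemLocalIdeal M (Cfsg.blockCoeff b ⟨(c : G), hcY⟩) := by
    rw [hbc, ← hFc]
    exact hcls.2.1
  have hcent : N.subgroupOf Y ≤ Subgroup.centralizer ({⟨(c : G), hcY⟩} : Set Y) := by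
    intro n hn
    rw [Subgroup.mem_centralizer_iff]
    intro z hz
    rw [Set.mem_singleton_iff] at hz
    subst hz
    have hn' : (⟨(n : G), hYT n.2⟩ : T) ∈ N.subgroupOf T := Subgroup.mem_subgroupOf.mpr
      (Subgroup.mem_subgroupOf.mp hn)
    have h1 := Subgroup.mem_centralizer_iff.mp (hNc hn') c (Set.mem_singleton c)
    have h2 : (c : G) * (n : G) = (n : G) * (c : G) := congrArg (fun z : T => (z : G)) h1
    apply Subtype.ext
    exact h2
  obtain ⟨D, hD, hND⟩ := exists_isDefectGroup_ge_of_blockCoeff hM hb ⟨(c : G), hcY⟩ hc1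
    (N.subgroupOf Y) hNp'.comap_subtype hcent
  obtain ⟨c', hcls', hDc', -, hDp⟩ := Helper16.isDefectGroup_exists_data hD
  have hc2 : ¬ Cfsg.MemLocalIdeal M (Cfsg.blockCoeff F ⟨(c' : G), hYT c'.2⟩) := by
    rw [hFc, ← hbc]
    exact hcls'.2.1
  have hcent' : D.map (Subgroup.inclusion hYT)
      ≤ Subgroup.centralizer ({⟨(c' : G), hYT c'.2⟩} : Set T) := by
    rintro _ ⟨d, hd, rfl⟩
    rw [Subgroup.mem_centralizer_iff]
    intro z hz
    rw [Set.mem_singleton_iff] at hz
    subst hz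
    have h1 := Subgroup.mem_centralizer_iff.mp (hDc' hd) c' (Set.mem_singleton c')
    have h2 : (c' : G) * (d : G) = (d : G) * (c' : G) := congrArg (fun z : Y => (z : G)) h1
    apply Subtype.ext
    exact h2
  obtain ⟨D', hD', hDD'⟩ := exists_isDefectGroup_ge_of_blockCoeff hM hF ⟨(c' : G), hYT c'.2⟩ hc2
    (D.map (Subgroup.inclusion hYT)) (hDp.map _) hcent'
  have hcard1 : Nat.card D = Nat.card (D.map (Subgroup.inclusion hYT)) :=
    (Subgroup.card_map_of_injective (Subgroup.inclusion_injective hYT)).symm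
  have hcard2 : Nat.card (D.map (Subgroup.inclusion hYT)) ≤ Nat.card D' :=
    Subgroup.card_le_of_le hDD'
  have hcard3 : Nat.card D' = Nat.card (N.subgroupOf T) :=
    Helper16.isDefectGroup_card_eq hM hF hD' hN
  have hcard4 : Nat.card (N.subgroupOf T) = Nat.card N :=
    Nat.card_congr (Subgroup.subgroupOfEquivOfLe hNT).toEquiv
  have hcard5 : Nat.card (N.subgroupOf Y) = Nat.card N :=
    Nat.card_congr (Subgroup.subgroupOfEquivOfLe hNY).toEquiv
  have heq : N.subgroupOf Y = D :=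
    Subgroup.eq_of_le_of_card_ge hND (by omega)
  rw [heq]
  exact hD

/-- If `C_G(Q) ≤ Y`, `Y` stabilizes `(Q, f)` and `Y / C_G(Q)` is a `p`-group, then the
idempotent of `f` is the idempotent of a block of `Y`. -/
theorem exists_block_of_pQuotient {p : ℕ} [Fact p.Prime] {M : Ideal Cfsg.AlgInt}
    (hM : Cfsg.IsPModular p M) {Q : Subgroup G}
    {f : Set (Cfsg.IrrCharacter (Subgroup.centralizer (Q : Set G)))} (hf : Cfsg.IsPBlock M f)
    (Y : Subgroup G) (hCY : (Subgroup.centralizer (Q : Set G)) ≤ Y)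
    (hYN : ∀ y ∈ Y, y ∈ Subgroup.normalizer (Q : Set G) ∧ Cfsg.StabilizesBlock (Subgroup.centralizer (Q : Set G)) f y)
    (hpq : ∀ y ∈ Y, ∃ u ∈ Y, (∃ k : ℕ, u ^ p ^ k = 1) ∧ u⁻¹ * y ∈ (Subgroup.centralizer (Q : Set G))) :
    ∃ b : Set (Cfsg.IrrCharacter Y), Cfsg.IsPBlock M b ∧
      ∀ y : Y, Cfsg.blockCoeff b y = Cfsg.subgroupBlockCoeff (Subgroup.centralizer (Q : Set G)) f (y : G) := by
  classical
  letI : Fintype Y := Fintype.ofFinite _
  have hYNC : Y ≤ Subgroup.normalizer (((Subgroup.centralizer (Q : Set G)) : Subgroup G) : Set G) := fun y hy =>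
    Helper75.normalizer_le_normalizer_centralizer' Q (hYN y hy).1
  haveI : (((Subgroup.centralizer (Q : Set G))).subgroupOf Y).Normal :=
    Subgroup.normal_subgroupOf_of_le_normalizer hYNC
  have hpg : IsPGroup p (Y ⧸ ((Subgroup.centralizer (Q : Set G))).subgroupOf Y) := by
    intro q
    induction q using QuotientGroup.induction_on with
    | H y =>
      obtain ⟨u, huY, ⟨k, hk⟩, huc⟩ := hpq y y.2
      refine ⟨k, ?_⟩
      have h1 : ((y : Y) : Y ⧸ ((Subgroup.centralizer (Q : Set G))).subgroupOf Y) = ((⟨u, huY⟩ : Y) : Y ⧸ ((Subgroup.centralizer (Q : Set G))).subgroupOf Y) := by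
        symm
        rw [QuotientGroup.eq]
        exact Subgroup.mem_subgroupOf.mpr huc
      rw [h1, ← QuotientGroup.mk_pow]
      have h2 : (⟨u, huY⟩ : Y) ^ p ^ k = 1 := Subtype.ext hk
      rw [h2]
      rfl
  have hidx : ∃ k : ℕ, (((Subgroup.centralizer (Q : Set G))).subgroupOf Y).index = p ^ k := by
    rw [Subgroup.index_eq_card]
    exact IsPGroup.iff_card.mp hpg
  have hst : ∀ x : Y, Cfsg.StabilizesBlock (((Subgroup.centralizer (Q : Set G))).subgroupOf Y)
      (ofBlock hCY f) x := fun x => stabilizesBlock_ofBlock hCY f x (hYN x x.2).2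
  obtain ⟨b, hb, hbc⟩ := (Cfsg.Agent.S4672.result p M hM _ hidx (ofBlock hCY f)
    (isPBlock_ofBlock hCY hf) hst).1
  exact ⟨b, hb, fun y => by rw [hbc, sbc_ofBlock]⟩

end Cfsg.Agent.Helper77
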