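import Cfsg.Agent.Helper77.StabSylow

/-!
# Stable blocks: the unique covering block has defect groups of index prime to `p` over `N`

* `fong_unique_cover`: if the block `B` of `G` has the idempotent of the `G`-stable block `c` of
  `N ⊴ G`, then for every defect group `P` of `B` the index of `P N` is prime to `p`, and
  `P ∩ N` is a defect group of `c`.
* `stabilizer_index_not_dvd`: the same for the stabilizer `T` of a Brauer pair `(Q, f)` and the
  block of `T` with the idempotent of `f`.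
* `card_le_card_map_of_not_dvd_index`: a `p`-subgroup `D` with `D ker ρ` of index prime to `p`
  has image of largest order among the `p`-subgroups of the range of `ρ`.
-/

set_option autoImplicit false
set_option linter.style.haveILetI false
open Cfsg

namespace Cfsg.Agent.Helper77

universe u

theorem fong_unique_cover {G : Type u} [Group G] [Fintype G] {p : ℕ} [Fact p.Prime]
    {M : Ideal Cfsg.AlgInt} (hM : Cfsg.IsPModular p M) (N : Subgroup G) [N.Normal]
    (c : Set (Cfsg.IrrCharacter N)) (hc : Cfsg.IsPBlock M c)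
    (hst : ∀ x : G, Cfsg.StabilizesBlock N c x) (B : Set (Cfsg.IrrCharacter G))
    (hB : Cfsg.IsPBlock M B)
    (hBc : ∀ g : G, Cfsg.blockCoeff B g = Cfsg.subgroupBlockCoeff N c g) (P : Subgroup G)
    (hP : Cfsg.IsDefectGroup p M B P) :
    ¬ p ∣ (P ⊔ N).index ∧ Cfsg.IsDefectGroup p M c ((P ⊓ N).subgroupOf N) := by
  classical
  letI : Fintype N := Fintype.ofFinite N
  have hMm := hM.2.1
  have hinv : ∀ g : G, ∀ θ ∈ c, Helper16.irrConj N g θ ∈ c := by
    intro g θ hθ
    obtain ⟨χ', hχ'c, hconj⟩ := (hst g).2 θ hθ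
    have heq : Helper16.irrConj N g θ = χ' := by
      apply Subtype.ext
      funext k'
      rw [Helper16.irrConj_apply]
      symm
      apply hconj
      show (k' : G) = g * (g⁻¹ * (k' : G) * g) * g⁻¹
      group
    rw [heq]
    exact hχ'c
  have hsub : ∀ g : G, Cfsg.subgroupBlockCoeff N c g = Helper16.ext0 N (Cfsg.blockCoeff c) g := by
    intro g
    unfold Cfsg.subgroupBlockCoeff
    by_cases h : g ∈ N
    · rw [dif_pos h, Helper16.ext0_apply_mem N _ h]
    · rw [dif_neg h, Helper16.ext0_apply_not_mem N _ h]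
  have hBeq : B = Helper16.fongCover N c := by
    apply eq_of_blockCoeff_eq
    funext g
    rw [hBc, hsub, Helper16.fong_blockCoeff_cover N hinv]
  obtain ⟨θ₀, hθ₀b⟩ := Helper16.exists_mem_of_isPBlock hMm hc
  obtain ⟨χ₀, hθ₀⟩ := Helper76.exists_irr_over N θ₀
  have hχ₀ : χ₀ ∈ B := by
    rw [hBeq]
    exact ⟨θ₀, hθ₀b, hθ₀⟩
  have hcov : ∃ χ ∈ B, ∃ θ ∈ c,
      Cfsg.classInner (fun n : N => (χ : G → ℂ) n) (θ : N → ℂ) ≠ 0 :=
    ⟨χ₀, hχ₀, θ₀, hθ₀b, hθ₀⟩
  have hmax : ∀ B' : Set (Cfsg.IrrCharacter G), Cfsg.IsPBlock M B' →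
      (∃ χ ∈ B', ∃ θ ∈ c, Cfsg.classInner (fun n : N => (χ : G → ℂ) n) (θ : N → ℂ) ≠ 0) →
      Cfsg.blockDefect p B' ≤ Cfsg.blockDefect p B := by
    rintro B' hB' ⟨χ', hχ'B', θ', hθ'b, hθ'⟩
    have h1 : χ' ∈ B := by
      rw [hBeq]
      exact ⟨θ', hθ'b, hθ'⟩
    have h2 : B' = B := by
      rw [Helper16.eq_blockOf_of_mem hMm hB' hχ'B', Helper16.eq_blockOf_of_mem hMm hB h1]
    rw [h2]
  obtain ⟨h1, h2, -⟩ := Helper16.fong_main N hM hc hinv hB hcov hmax hP
  exact ⟨h1, h2⟩

variable {G : Type u} [Group G] [Fintype G]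

/-- For the stabilizer `T` of `(Q, f)` and the block `F` of `T` with the idempotent of `f`: the
index of `D C_G(Q)` in `T` is prime to `p`, for every defect group `D` of `F`. -/
theorem stabilizer_index_not_dvd {p : ℕ} [Fact p.Prime] {M : Ideal Cfsg.AlgInt}
    (hM : Cfsg.IsPModular p M) {Q : Subgroup G}
    {f : Set (Cfsg.IrrCharacter (Subgroup.centralizer (Q : Set G)))} (hf : Cfsg.IsPBlock M f)
    (T : Subgroup G)
    (hT : ∀ y : G, y ∈ T ↔ y ∈ Subgroup.normalizer (Q : Set G) ∧
      Cfsg.StabilizesBlock (Subgroup.centralizer (Q : Set G)) f y)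
    {F : Set (Cfsg.IrrCharacter T)} (hF : Cfsg.IsPBlock M F)
    (hFc : ∀ t : T, Cfsg.blockCoeff F t
      = Cfsg.subgroupBlockCoeff (Subgroup.centralizer (Q : Set G)) f (t : G))
    {D : Subgroup T} (hD : Cfsg.IsDefectGroup p M F D) :
    ¬ p ∣ (D ⊔ ((Subgroup.centralizer (Q : Set G))).subgroupOf T).index := by
  classical
  letI : Fintype T := Fintype.ofFinite _
  have hCT : (Subgroup.centralizer (Q : Set G)) ≤ T := fun c hc =>
    (hT c).2 ⟨Subgroup.centralizer_le_normalizer _ hc, stabilizesBlock_of_mem_centralizer Q f hc⟩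
  have hTN : T ≤ Subgroup.normalizer
      (((Subgroup.centralizer (Q : Set G)) : Subgroup G) : Set G) := fun y hy =>
    Helper75.normalizer_le_normalizer_centralizer' Q ((hT y).1 hy).1
  haveI : (((Subgroup.centralizer (Q : Set G))).subgroupOf T).Normal :=
    Subgroup.normal_subgroupOf_of_le_normalizer hTN
  have hst : ∀ x : T, Cfsg.StabilizesBlock (((Subgroup.centralizer (Q : Set G))).subgroupOf T)
      (ofBlock hCT f) x := fun x => stabilizesBlock_ofBlock hCT f x ((hT x).1 x.2).2
  exact (fong_unique_cover hM _ (ofBlock hCT f) (isPBlock_ofBlock hCT hf) hst F hF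
    (fun g => by rw [hFc, sbc_ofBlock]) D hD).1

/-- A `p`-subgroup `D` of `T` with `D ker ρ` of index prime to `p` has image of largest order
among the `p`-subgroups of the range of `ρ`. -/
theorem card_le_card_map_of_not_dvd_index {T A : Type*} [Group T] [Finite T] [Group A] {p : ℕ}
    [Fact p.Prime] (ρ : T →* A) (D : Subgroup T) (hD : IsPGroup p D)
    (hidx : ¬ p ∣ (D ⊔ ρ.ker).index) (Y : Subgroup A) (hY : Y ≤ ρ.range) (hYp : IsPGroup p Y) :
    Nat.card Y ≤ Nat.card (D.map ρ) := by
  classical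
  have hsurj : Function.Surjective ρ.rangeRestrict := ρ.rangeRestrict_surjective
  have hker : ρ.rangeRestrict.ker = ρ.ker := ρ.ker_rangeRestrict
  have hmap : (D ⊔ ρ.ker).map ρ.rangeRestrict = D.map ρ.rangeRestrict := by
    apply le_antisymm
    · rw [Subgroup.map_le_iff_le_comap, sup_le_iff]
      refine ⟨Subgroup.le_comap_map _ _, fun x hx => ?_⟩
      rw [Subgroup.mem_comap]
      have : ρ.rangeRestrict x = 1 := by
        rw [← MonoidHom.mem_ker, hker]
        exact hx
      rw [this]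
      exact Subgroup.one_mem _
    · exact Subgroup.map_mono le_sup_left
  have hindex : (D.map ρ.rangeRestrict).index = (D ⊔ ρ.ker).index := by
    rw [← hmap]
    exact Subgroup.index_map_eq _ hsurj (by rw [hker]; exact le_sup_right)
  have hSp : IsPGroup p (D.map ρ.rangeRestrict) := hD.map _
  have hS2 : ¬ p ∣ (D.map ρ.rangeRestrict).index := by
    rw [hindex]
    exact hidx
  have hYp' : IsPGroup p (Y.subgroupOf ρ.range) := hYp.comap_subtype
  obtain ⟨R, hR⟩ := hYp'.exists_le_sylow
  haveI : Finite ρ.range := Finite.of_surjective _ hsurj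
  have hc1 : Nat.card R = Nat.card (hSp.toSylow hS2) := by
    rw [Sylow.card_eq_multiplicity, Sylow.card_eq_multiplicity]
  have hc2 : Nat.card (hSp.toSylow hS2) = Nat.card (D.map ρ.rangeRestrict) := rfl
  have hc3 : Nat.card (Y.subgroupOf ρ.range) = Nat.card Y :=
    Nat.card_congr (Subgroup.subgroupOfEquivOfLe hY).toEquiv
  have hc4 : Nat.card (D.map ρ.rangeRestrict) = Nat.card (D.map ρ) := by
    have h1 : (D.map ρ.rangeRestrict).map ρ.range.subtype = D.map ρ := by
      rw [Subgroup.map_map]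
      rfl
    rw [← h1]
    exact (Subgroup.card_map_of_injective (Subgroup.subtype_injective _)).symm
  have hc5 : Nat.card (Y.subgroupOf ρ.range) ≤ Nat.card R := Subgroup.card_le_of_le hR
  rw [← hc3, ← hc4, ← hc2, ← hc1]
  exact hc5

end Cfsg.Agent.Helper77
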