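import Cfsg.Agent.Helper77.K2Red
import Cfsg.Agent.Lead.K2D
import Cfsg.Agent.Helper16.BlockCore
import Cfsg.Agent.Helper77.MinMax
import Mathlib

/-!
# The block algebra over the residue field (towards `k(B) = 2 ↔ |D| = 2`)

For a block `B` relative to a maximal ideal `M`, `redIdem hM B` is the reduction of the block
idempotent, a central idempotent of the group algebra `ConvAlg (ResField M hM) G`.

* `finrank_range_mulLeft_redIdem`: the dimension of the block algebra is `|G| e_B(1)`.
* `not_linearIndependent_of_card_two`: for a block with two characters, the centre of the block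
  algebra has dimension at most two.
* `exists_central_sq_zero`: for a block with two characters, the centre of the block algebra
  contains a nonzero element of square zero.
-/

set_option autoImplicit false
open Cfsg

namespace Cfsg.Agent.Helper77

universe u

section k2block

variable {G : Type u} [Group G] [Fintype G] {M : Ideal Cfsg.AlgInt} (hM : M.IsMaximal)

/-- The reduction of the block idempotent. -/
noncomputable def redIdem (B : Set (Cfsg.IrrCharacter G)) : ConvAlg (ResField M hM) G :=
  redFun hM (Cfsg.blockCoeff B)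

theorem redIdem_mul_self {B : Set (Cfsg.IrrCharacter G)} (hB : Cfsg.IsPBlock M B) :
    redIdem hM B * redIdem hM B = redIdem hM B := by
  unfold redIdem
  rw [← redFun_conv hM (blockCoeff_memLocalRing hM hB) (blockCoeff_memLocalRing hM hB),
    conv_blockCoeff]

theorem redIdem_central (B : Set (Cfsg.IrrCharacter G)) (y : ConvAlg (ResField M hM) G) :
    redIdem hM B * y = y * redIdem hM B :=
  redFun_central hM (blockCoeff_isClassFunction B) y

/-- The matrix of left multiplication by the block idempotent, over the local ring. -/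
noncomputable def idemMatrix {B : Set (Cfsg.IrrCharacter G)} (hB : Cfsg.IsPBlock M B) :
    Matrix G G (localSubring M hM) :=
  fun g h => ⟨Cfsg.blockCoeff B (g * h⁻¹), blockCoeff_memLocalRing hM hB _⟩

theorem idemMatrix_mul_self {B : Set (Cfsg.IrrCharacter G)} (hB : Cfsg.IsPBlock M B) :
    idemMatrix hM hB * idemMatrix hM hB = idemMatrix hM hB := by
  ext g h
  rw [Matrix.mul_apply]
  have h1 : (((∑ j : G, idemMatrix hM hB g j * idemMatrix hM hB j h : localSubring M hM)) : ℂ)
      = ∑ j : G, Cfsg.blockCoeff B (g * j⁻¹) * Cfsg.blockCoeff B (j * h⁻¹) := by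
    rw [AddSubmonoidClass.coe_finset_sum]
    rfl
  rw [h1]
  have h2 := congrFun (conv_blockCoeff B) (g * h⁻¹)
  rw [Helper81.conv] at h2
  show _ = Cfsg.blockCoeff B (g * h⁻¹)
  rw [← h2]
  rw [← Equiv.sum_comp ((Equiv.inv G).trans (Equiv.mulLeft g))
    (fun x => Cfsg.blockCoeff B x * Cfsg.blockCoeff B (x⁻¹ * (g * h⁻¹)))]
  refine Finset.sum_congr rfl fun j _ => ?_
  simp only [Equiv.trans_apply, Equiv.inv_apply, Equiv.coe_mulLeft]
  congr 2
  group

/-- The complex rank of the idempotent matrix is its trace `|G| e_B(1)`. -/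
theorem rank_idemMatrix_complex {B : Set (Cfsg.IrrCharacter G)} (hB : Cfsg.IsPBlock M B) :
    ((((idemMatrix hM hB).map (localSubring M hM).subtype).rank : ℕ) : ℂ)
      = (Nat.card G : ℂ) * Cfsg.blockCoeff B 1 := by
  classical
  set Q : Matrix G G ℂ := (idemMatrix hM hB).map (localSubring M hM).subtype with hQ
  have hQQ : Q * Q = Q := by
    rw [hQ, ← RingHom.mapMatrix_apply, ← map_mul, idemMatrix_mul_self]
  have hidem : IsIdempotentElem (Matrix.toLin' Q) := by
    show Matrix.toLin' Q * Matrix.toLin' Q = Matrix.toLin' Q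
    rw [Module.End.mul_eq_comp, ← Matrix.toLin'_mul, hQQ]
  have htr := (LinearMap.IsIdempotentElem.isProj_range _ hidem).trace
  rw [Matrix.trace_toLin'_eq] at htr
  have hrank : Q.rank = Module.finrank ℂ (LinearMap.range (Matrix.toLin' Q)) := rfl
  rw [hrank, ← htr, Matrix.trace]
  have h1 : ∀ g : G, Q.diag g = Cfsg.blockCoeff B 1 := by
    intro g
    show Cfsg.blockCoeff B (g * g⁻¹) = _
    rw [mul_inv_cancel]
  rw [Finset.sum_congr rfl fun g _ => h1 g, Finset.sum_const, Finset.card_univ,
    Nat.card_eq_fintype_card, nsmul_eq_mul]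

/-- The block algebra over the residue field has dimension `|G| e_B(1)`. -/
theorem finrank_range_mulLeft_redIdem {B : Set (Cfsg.IrrCharacter G)}
    (hB : Cfsg.IsPBlock M B) :
    ((Module.finrank (ResField M hM)
        (LinearMap.range (LinearMap.mulLeft (ResField M hM) (redIdem hM B))) : ℕ) : ℂ)
      = (Nat.card G : ℂ) * Cfsg.blockCoeff B 1 := by
  classical
  rw [← rank_idemMatrix_complex hM hB,
    ← Lead.k2_rank_map (resHom M hM) (localSubring M hM).subtype Subtype.val_injective
      (idemMatrix hM hB) (idemMatrix_mul_self hM hB)]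
  congr 1
  set P : Matrix G G (ResField M hM) := (idemMatrix hM hB).map (resHom M hM) with hP
  have hcomm : P.mulVecLin ∘ₗ (ConvAlg.linEquivFun (ResField M hM) G).toLinearMap
      = (ConvAlg.linEquivFun (ResField M hM) G).toLinearMap ∘ₗ
        LinearMap.mulLeft (ResField M hM) (redIdem hM B) := by
    apply LinearMap.ext
    intro a
    funext g
    show (P.mulVec (ConvAlg.linEquivFun (ResField M hM) G a)) g = (redIdem hM B * a) g
    rw [ConvAlg.mul_apply, Matrix.mulVec, dotProduct]
    rw [← Equiv.sum_comp ((Equiv.inv G).trans (Equiv.mulLeft g))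
      (fun x => redIdem hM B x * a (x⁻¹ * g))]
    refine Finset.sum_congr rfl fun h _ => ?_
    simp only [Equiv.trans_apply, Equiv.inv_apply, Equiv.coe_mulLeft]
    have e1 : (g * h⁻¹)⁻¹ * g = h := by group
    rw [e1, ConvAlg.linEquivFun_apply]
    congr 1
    show resHom M hM (idemMatrix hM hB g h) = resMap M hM (Cfsg.blockCoeff B (g * h⁻¹))
    rw [resMap_of_mem hM (blockCoeff_memLocalRing hM hB _)]
    rfl
  have h1 : LinearMap.range P.mulVecLin
      = (LinearMap.range (LinearMap.mulLeft (ResField M hM) (redIdem hM B))).map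
        (ConvAlg.linEquivFun (ResField M hM) G).toLinearMap := by
    rw [← LinearMap.range_comp, ← hcomm,
      LinearMap.range_comp_of_range_eq_top _ (LinearEquiv.range _)]
  show _ = Module.finrank (ResField M hM) (LinearMap.range P.mulVecLin)
  rw [h1]
  exact (LinearEquiv.finrank_map_eq (ConvAlg.linEquivFun (ResField M hM) G) _).symm

theorem omega_conv_blockCoeff_of_mem {B : Set (Cfsg.IrrCharacter G)} {ψ : Cfsg.IrrCharacter G}
    (hψ : ψ ∈ B) {a : G → ℂ} (ha : Cfsg.IsClassFunction G a) :
    Helper81.omega (ψ : G → ℂ) (Helper81.conv (Cfsg.blockCoeff B) a)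
      = Helper81.omega (ψ : G → ℂ) a := by
  rw [Helper81.omega_conv ψ (blockCoeff_isClassFunction B) ha, omega_blockCoeff_of_mem hψ,
    one_mul]

theorem omega_conv_blockCoeff_of_not_mem {B : Set (Cfsg.IrrCharacter G)}
    {ψ : Cfsg.IrrCharacter G} (hψ : ψ ∉ B) {a : G → ℂ} (ha : Cfsg.IsClassFunction G a) :
    Helper81.omega (ψ : G → ℂ) (Helper81.conv (Cfsg.blockCoeff B) a) = 0 := by
  rw [Helper81.omega_conv ψ (blockCoeff_isClassFunction B) ha, omega_blockCoeff_of_not_mem hψ,
    zero_mul]

/-- A class function supported (in the sense of `Ω`) on two characters is a combination of their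
idempotents. -/
theorem eq_smul_add_smul_of_omega {χ₁ χ₂ : Cfsg.IrrCharacter G} (hne : χ₁ ≠ χ₂)
    {X : G → ℂ} (hX : Cfsg.IsClassFunction G X)
    (h0 : ∀ ψ : Cfsg.IrrCharacter G, ψ ≠ χ₁ → ψ ≠ χ₂ → Helper81.omega (ψ : G → ℂ) X = 0) :
    X = Helper81.omega (χ₁ : G → ℂ) X • Cfsg.blockCoeff {χ₁}
      + Helper81.omega (χ₂ : G → ℂ) X • Cfsg.blockCoeff {χ₂} := by
  have hcl : Cfsg.IsClassFunction G (Helper81.omega (χ₁ : G → ℂ) X • Cfsg.blockCoeff {χ₁}
      + Helper81.omega (χ₂ : G → ℂ) X • Cfsg.blockCoeff {χ₂}) := by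
    intro g h
    simp only [Pi.add_apply, Pi.smul_apply]
    rw [blockCoeff_isClassFunction {χ₁} g h, blockCoeff_isClassFunction {χ₂} g h]
  apply eq_of_omega_eq hX hcl
  intro ψ
  rw [Helper81.omega_add, Helper81.omega_smul, Helper81.omega_smul]
  by_cases h1 : ψ = χ₁
  · subst h1
    rw [omega_blockCoeff_of_mem (Set.mem_singleton ψ),
      omega_blockCoeff_of_not_mem (B := {χ₂}) (fun h => hne (Set.mem_singleton_iff.mp h))]
    ring
  · by_cases h2 : ψ = χ₂
    · subst h2
      rw [omega_blockCoeff_of_mem (Set.mem_singleton ψ),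
        omega_blockCoeff_of_not_mem (B := {χ₁}) (fun h => h1 (Set.mem_singleton_iff.mp h))]
      ring
    · rw [h0 ψ h1 h2,
        omega_blockCoeff_of_not_mem (B := {χ₁}) (fun h => h1 (Set.mem_singleton_iff.mp h)),
        omega_blockCoeff_of_not_mem (B := {χ₂}) (fun h => h2 (Set.mem_singleton_iff.mp h))]
      ring

/-- For a block with two characters, the centre of the block algebra over the residue field has
dimension at most two. -/
theorem not_linearIndependent_of_pair {B : Set (Cfsg.IrrCharacter G)}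
    (hB : Cfsg.IsPBlock M B) {χ₁ χ₂ : Cfsg.IrrCharacter G} (hne : χ₁ ≠ χ₂)
    (hB2 : B = {χ₁, χ₂}) (v : Fin 3 → ConvAlg (ResField M hM) G)
    (hv : ∀ i, (∀ y, v i * y = y * v i) ∧ redIdem hM B * v i = v i) :
    ¬ LinearIndependent (ResField M hM) v := by
  classical
  intro hli
  have heR := blockCoeff_memLocalRing hM hB
  have heC := blockCoeff_isClassFunction B
  set X : Fin 3 → G → ℂ := fun i => Helper81.conv (Cfsg.blockCoeff B) (liftFun hM (v i)) with hXdef
  have hXR : ∀ i g, Cfsg.MemLocalRing M (X i g) := fun i g =>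
    Helper81.conv_mem (localSubring M hM) heR (liftFun_mem hM (v i)) g
  have hXC : ∀ i, Cfsg.IsClassFunction G (X i) := fun i =>
    Helper81.conv_isClassFunction heC (liftFun_isClassFunction hM (hv i).1)
  have hXred : ∀ i, redFun hM (X i) = v i := by
    intro i
    rw [hXdef]
    show redFun hM (Helper81.conv (Cfsg.blockCoeff B) (liftFun hM (v i))) = v i
    rw [redFun_conv hM heR (liftFun_mem hM (v i)), redFun_liftFun]
    exact (hv i).2
  have hli' : LinearIndependent (ResField M hM)
      (fun i => fun g => resHom M hM (⟨X i g, hXR i g⟩ : localSubring M hM)) := by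
    have h0 : (fun i => fun g => resHom M hM (⟨X i g, hXR i g⟩ : localSubring M hM))
        = (ConvAlg.linEquivFun (ResField M hM) G).toLinearMap ∘ v := by
      funext i g
      show _ = v i g
      rw [← hXred i, redFun_apply, resMap_of_mem hM (hXR i g)]
    rw [h0]
    exact hli.map' _ (LinearEquiv.ker _)
  have hC : LinearIndependent ℂ X :=
    Lead.k2_li_lift (resHom M hM) (localSubring M hM).subtype Subtype.val_injective
      (fun i g => (⟨X i g, hXR i g⟩ : localSubring M hM)) hli'
  have hspan : ∀ i, X i ∈ Submodule.span ℂ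
      (({Cfsg.blockCoeff {χ₁}, Cfsg.blockCoeff {χ₂}} : Finset (G → ℂ)) : Set (G → ℂ)) := by
    intro i
    have h0 : ∀ ψ : Cfsg.IrrCharacter G, ψ ≠ χ₁ → ψ ≠ χ₂ →
        Helper81.omega (ψ : G → ℂ) (X i) = 0 := by
      intro ψ h1 h2
      apply omega_conv_blockCoeff_of_not_mem _ (liftFun_isClassFunction hM (hv i).1)
      rw [hB2]
      intro h
      rcases h with h | h
      · exact h1 h
      · exact h2 h
    rw [eq_smul_add_smul_of_omega hne (hXC i) h0]
    apply Submodule.add_mem
    · apply Submodule.smul_mem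
      apply Submodule.subset_span
      simp
    · apply Submodule.smul_mem
      apply Submodule.subset_span
      simp
  have h3 := finrank_span_eq_card hC
  have hle : Submodule.span ℂ (Set.range X) ≤ Submodule.span ℂ
      (({Cfsg.blockCoeff {χ₁}, Cfsg.blockCoeff {χ₂}} : Finset (G → ℂ)) : Set (G → ℂ)) := by
    apply Submodule.span_le.mpr
    rintro _ ⟨i, rfl⟩
    exact hspan i
  have h4 := Submodule.finrank_mono hle
  have h5 := finrank_span_finset_le_card (R := ℂ)
    ({Cfsg.blockCoeff {χ₁}, Cfsg.blockCoeff {χ₂}} : Finset (G → ℂ))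
  have h6 : ({Cfsg.blockCoeff {χ₁}, Cfsg.blockCoeff {χ₂}} : Finset (G → ℂ)).card ≤ 2 :=
    Finset.card_le_two
  rw [Fintype.card_fin] at h3
  have h7 : Module.finrank ℂ (Submodule.span ℂ
      (({Cfsg.blockCoeff {χ₁}, Cfsg.blockCoeff {χ₂}} : Finset (G → ℂ)) : Set (G → ℂ))) ≤ 2 :=
    le_trans h5 h6
  omega

/-- For a block with two characters, the centre of the block algebra over the residue field
contains a nonzero element of square zero. -/
theorem exists_central_sq_zero {B : Set (Cfsg.IrrCharacter G)}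
    (hB : Cfsg.IsPBlock M B) {χ₁ χ₂ : Cfsg.IrrCharacter G} (hne : χ₁ ≠ χ₂)
    (hB2 : B = {χ₁, χ₂}) :
    ∃ z : ConvAlg (ResField M hM) G, (∀ y, z * y = y * z) ∧ redIdem hM B * z = z ∧ z ≠ 0 ∧
      z * z = 0 := by
  classical
  have : Fintype (ConjClasses G) := Fintype.ofFinite _
  have heR := blockCoeff_memLocalRing hM hB
  have heC := blockCoeff_isClassFunction B
  have h1B : χ₁ ∈ B := by rw [hB2]; exact Set.mem_insert _ _
  have h2B : χ₂ ∈ B := by rw [hB2]; exact Set.mem_insert_of_mem _ rfl
  have hnB : ∀ ψ : Cfsg.IrrCharacter G, ψ ≠ χ₁ → ψ ≠ χ₂ → ψ ∉ B := by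
    intro ψ h1 h2 h
    rw [hB2] at h
    rcases h with h | h
    · exact h1 h
    · exact h2 h
  have hKC : ∀ g : G, Cfsg.IsClassFunction G (Helper81.classInd g) :=
    Helper81.classInd_isClassFunction
  have hKR : ∀ g x : G, Cfsg.MemLocalRing M (Helper81.classInd g x) := classInd_memLocalRing hM
  set γ : G → ℂ := fun g => Helper81.omega (χ₁ : G → ℂ) (Helper81.classInd g) with hγ
  set δ : G → ℂ := fun g => Helper81.omega (χ₂ : G → ℂ) (Helper81.classInd g)
    - Helper81.omega (χ₁ : G → ℂ) (Helper81.classInd g) with hδ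
  set Y : G → G → ℂ := fun g =>
    Helper81.conv (Cfsg.blockCoeff B) (Helper81.classInd g) - γ g • Cfsg.blockCoeff B with hY
  have hγR : ∀ g, Cfsg.MemLocalRing M (γ g) := fun g =>
    Helper16.omega_memLocalRing hM χ₁ (hKC g) (hKR g)
  have hδI : ∀ g, Cfsg.MemLocalIdeal M (δ g) := fun g =>
    Helper16.omega_sub_memLocalIdeal hM χ₂ χ₁ (Helper16.sameBlock_of_mem hM hB h2B h1B) (hKC g)
      (hKR g)
  have hYC : ∀ g, Cfsg.IsClassFunction G (Y g) := by
    intro g x h
    simp only [hY, Pi.sub_apply, Pi.smul_apply]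
    rw [Helper81.conv_isClassFunction heC (hKC g) x h, heC x h]
  have hYR : ∀ g x, Cfsg.MemLocalRing M (Y g x) := by
    intro g x
    simp only [hY, Pi.sub_apply, Pi.smul_apply, smul_eq_mul]
    exact memLocalRing_sub hM (Helper81.conv_mem (localSubring M hM) heR (hKR g) x)
      (memLocalRing_mul hM (hγR g) (heR x))
  have hω1 : ∀ g, Helper81.omega (χ₁ : G → ℂ) (Y g) = 0 := by
    intro g
    simp only [hY]
    rw [Helper81.omega_sub, Helper81.omega_smul, omega_conv_blockCoeff_of_mem h1B (hKC g),
      omega_blockCoeff_of_mem h1B, mul_one, sub_self]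
  have hω2 : ∀ g, Helper81.omega (χ₂ : G → ℂ) (Y g) = δ g := by
    intro g
    simp only [hY]
    rw [Helper81.omega_sub, Helper81.omega_smul, omega_conv_blockCoeff_of_mem h2B (hKC g),
      omega_blockCoeff_of_mem h2B, mul_one]
  have hω0 : ∀ g (ψ : Cfsg.IrrCharacter G), ψ ≠ χ₁ → ψ ≠ χ₂ →
      Helper81.omega (ψ : G → ℂ) (Y g) = 0 := by
    intro g ψ h1 h2
    simp only [hY]
    rw [Helper81.omega_sub, Helper81.omega_smul,
      omega_conv_blockCoeff_of_not_mem (hnB ψ h1 h2) (hKC g),
      omega_blockCoeff_of_not_mem (hnB ψ h1 h2), mul_zero, sub_self]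
  -- `Y g = δ g • e₂`
  have hYe : ∀ g, Y g = δ g • Cfsg.blockCoeff {χ₂} := by
    intro g
    have h := eq_smul_add_smul_of_omega hne (hYC g) (hω0 g)
    rw [hω1 g, hω2 g, zero_smul, zero_add] at h
    exact h
  -- some `Y g` has nonzero reduction
  have hex : ∃ g, redFun hM (Y g) ≠ 0 := by
    by_contra hcon
    rw [not_exists] at hcon
    have hall : ∀ g x, Cfsg.MemLocalIdeal M (Y g x) := by
      intro g
      have h := hcon g
      rw [not_not] at h
      exact (redFun_eq_zero_iff hM (hYR g)).mp h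
    have e1 := omega_blockCoeff_of_mem (B := ({χ₂} : Set (Cfsg.IrrCharacter G)))
      (Set.mem_singleton χ₂)
    have e2 := omega_blockCoeff_of_not_mem (B := ({χ₂} : Set (Cfsg.IrrCharacter G)))
      (ψ := χ₁) (fun h => hne (Set.mem_singleton_iff.mp h))
    rw [omega_eq_sum_conjClasses χ₂ (blockCoeff_isClassFunction _)] at e1
    rw [omega_eq_sum_conjClasses χ₁ (blockCoeff_isClassFunction _)] at e2
    apply not_memLocalIdeal_one hM
    have h3 : (1 : ℂ) = ∑ c : ConjClasses G, Y (Quotient.out c) (Quotient.out c) := by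
      have h4 : ∀ c : ConjClasses G, Y (Quotient.out c) (Quotient.out c)
          = Cfsg.blockCoeff {χ₂} (Quotient.out c) *
              Cfsg.centralChar (χ₂ : G → ℂ) (Quotient.out c)
            - Cfsg.blockCoeff {χ₂} (Quotient.out c) *
              Cfsg.centralChar (χ₁ : G → ℂ) (Quotient.out c) := by
        intro c
        rw [hYe (Quotient.out c)]
        simp only [hδ, Pi.smul_apply, smul_eq_mul, Helper81.omega_classInd]
        ring
      rw [Finset.sum_congr rfl fun c _ => h4 c, Finset.sum_sub_distrib, e1, e2, sub_zero]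
    rw [h3]
    exact memLocalIdeal_sum hM _ _ fun c _ => hall _ _
  obtain ⟨g, hg⟩ := hex
  refine ⟨redFun hM (Y g), redFun_central hM (hYC g), ?_, hg, ?_⟩
  · unfold redIdem
    rw [← redFun_conv hM heR (hYR g)]
    congr 1
    apply eq_of_omega_eq (Helper81.conv_isClassFunction heC (hYC g)) (hYC g)
    intro ψ
    by_cases hψ : ψ ∈ B
    · exact omega_conv_blockCoeff_of_mem hψ (hYC g)
    · rw [omega_conv_blockCoeff_of_not_mem hψ (hYC g)]
      have h1 : ψ ≠ χ₁ := fun h => hψ (h ▸ h1B)
      have h2 : ψ ≠ χ₂ := fun h => hψ (h ▸ h2B)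
      exact (hω0 g ψ h1 h2).symm
  · rw [← redFun_conv hM (hYR g) (hYR g)]
    have h1 : Helper81.conv (Y g) (Y g) = δ g • Y g := by
      have hcl : Cfsg.IsClassFunction G (δ g • Y g) := by
        intro x h
        simp only [Pi.smul_apply]
        rw [hYC g x h]
      apply eq_of_omega_eq (Helper81.conv_isClassFunction (hYC g) (hYC g)) hcl
      intro ψ
      rw [Helper81.omega_conv ψ (hYC g) (hYC g), Helper81.omega_smul]
      by_cases h1 : ψ = χ₁
      · subst h1
        rw [hω1 g, mul_zero, mul_zero]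
      · by_cases h2 : ψ = χ₂
        · subst h2
          rw [hω2 g]
        · rw [hω0 g ψ h1 h2, mul_zero, mul_zero]
    rw [h1, redFun_smul hM (memLocalRing_of_memLocalIdeal (hδI g)) (hYR g),
      (resMap_eq_zero_iff hM (memLocalRing_of_memLocalIdeal (hδI g))).mpr (hδI g), zero_smul]

end k2block

end Cfsg.Agent.Helper77
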