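import Cfsg.Agent.Helper77.K2Main
import Cfsg.Agent.Helper77.K2F2
import Cfsg.Agent.Helper77.Defect
import Cfsg.Agent.Helper81.KleinInt

/-!
# Blocks with exactly two irreducible characters (Brandt)

`card_block_eq_two_iff`: a `p`-block `B` with defect group `D` has exactly two irreducible
characters if and only if `|D| = 2`.

If `|D| = 2` then `p = 2` and the defect is one, and `Helper81.kf_defect_one` applies.  Conversely,
if `B = {χ₁, χ₂}` then the block algebra over the residue field has dimension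
`χ₁(1)² + χ₂(1)² = 2 n²` (`finrank_block_of_pair`), and there are positive integers `a`, `b`, one
of them prime to `p`, with `a² + b² = p^d` and `χ₂(1) a = χ₁(1) b` (`k2_pair_arith`); then
`2 (n a)² = χ₁(1)² p^d`, which is impossible for odd `p` by the parity of the exponent of `2`, and
for `p = 2` the integers `a`, `b` are odd so that `2^d = a² + b² ≡ 2 (mod 4)`.
-/

set_option autoImplicit false
open Cfsg

namespace Cfsg.Agent.Helper77

universe u

/-- The arithmetic at the end of Brandt's argument. -/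
theorem k2_arith {p d n a b d₁ d₂ : ℕ} (hp : p.Prime) (ha : 0 < a) (hb : 0 < b)
    (hab : a ^ 2 + b ^ 2 = p ^ d) (hrel : d₂ * a = d₁ * b) (hcop : ¬ p ∣ a ∨ ¬ p ∣ b)
    (hd1 : 0 < d₁) (hn : d₁ ^ 2 + d₂ ^ 2 = 2 * n ^ 2) : p ^ d = 2 := by
  have hn0 : n ≠ 0 := by
    rintro rfl
    have : 0 < d₁ ^ 2 := by positivity
    omega
  have E1 : 2 * (n * a) ^ 2 = d₁ ^ 2 * p ^ d := by
    have h1 : 2 * (n * a) ^ 2 = (2 * n ^ 2) * a ^ 2 := by ring
    rw [h1, ← hn, ← hab]
    have h2 : (d₂ * a) ^ 2 = (d₁ * b) ^ 2 := by rw [hrel]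
    nlinarith [h2]
  by_cases hp2 : p = 2
  · subst hp2
    -- `d ≠ 0`
    have hd0 : d ≠ 0 := by
      rintro rfl
      have h1 : 1 ≤ a ^ 2 := Nat.one_le_pow _ _ ha
      have h2 : 1 ≤ b ^ 2 := Nat.one_le_pow _ _ hb
      rw [pow_zero] at hab
      omega
    have hdvd : 2 ∣ a ^ 2 + b ^ 2 := by
      rw [hab]
      exact dvd_pow_self 2 hd0
    have hodd : ¬ 2 ∣ a ∧ ¬ 2 ∣ b := by
      rcases hcop with h | h
      · refine ⟨h, fun hb2 => h ?_⟩
        have h3 : 2 ∣ a ^ 2 := (Nat.dvd_add_left (Dvd.dvd.pow hb2 two_ne_zero)).mp hdvd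
        exact Nat.prime_two.dvd_of_dvd_pow h3
      · refine ⟨fun ha2 => h ?_, h⟩
        have h3 : 2 ∣ b ^ 2 := (Nat.dvd_add_right (Dvd.dvd.pow ha2 two_ne_zero)).mp hdvd
        exact Nat.prime_two.dvd_of_dvd_pow h3
    have ha4 : a ^ 2 % 4 = 1 := by
      have h1 : a % 4 = 1 ∨ a % 4 = 3 := by omega
      rcases h1 with h1 | h1 <;> simp [pow_two, Nat.mul_mod, h1]
    have hb4 : b ^ 2 % 4 = 1 := by
      have h1 : b % 4 = 1 ∨ b % 4 = 3 := by omega
      rcases h1 with h1 | h1 <;> simp [pow_two, Nat.mul_mod, h1]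
    have hsum4 : (2 : ℕ) ^ d % 4 = 2 := by
      rw [← hab]
      omega
    have hd1' : d = 1 := by
      by_contra hne
      have hd2 : 2 ≤ d := by omega
      obtain ⟨e, rfl⟩ := Nat.exists_eq_add_of_le hd2
      rw [pow_add] at hsum4
      omega
    rw [hd1']
    rfl
  · exfalso
    have hna : n * a ≠ 0 := Nat.mul_ne_zero hn0 ha.ne'
    have h2p : ¬ 2 ∣ p := by
      intro h
      exact hp2 ((Nat.prime_dvd_prime_iff_eq Nat.prime_two hp).mp h).symm
    have hfac := congrArg (fun t : ℕ => t.factorization 2) E1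
    rw [Nat.factorization_mul two_ne_zero (pow_ne_zero 2 hna), Nat.factorization_pow,
      Nat.factorization_mul (pow_ne_zero 2 hd1.ne') (pow_ne_zero d hp.ne_zero),
      Nat.factorization_pow, Nat.factorization_pow] at hfac
    simp only [Finsupp.add_apply, Finsupp.smul_apply, smul_eq_mul] at hfac
    rw [Nat.Prime.factorization_self Nat.prime_two,
      Nat.factorization_eq_zero_of_not_dvd h2p] at hfac
    omega

section k2final

variable {G : Type u} [Group G] [Fintype G]

/-- `|G| e_B(1)` for a block with two characters. -/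
theorem card_mul_blockCoeff_one_of_pair {B : Set (Cfsg.IrrCharacter G)}
    {χ₁ χ₂ : Cfsg.IrrCharacter G} (hne : χ₁ ≠ χ₂) (hB2 : B = {χ₁, χ₂}) :
    (Nat.card G : ℂ) * Cfsg.blockCoeff B 1
      = ((Cfsg.charDegree (χ₁ : G → ℂ) ^ 2 + Cfsg.charDegree (χ₂ : G → ℂ) ^ 2 : ℕ) : ℂ) := by
  classical
  have := Fintype.ofFinite (Cfsg.IrrCharacter G)
  have hG : (Nat.card G : ℂ) ≠ 0 := by exact_mod_cast Nat.card_pos.ne'
  rw [blockCoeff_eq_sum, ← mul_assoc, mul_inv_cancel₀ hG, one_mul, ← Finset.sum_filter]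
  have hfilter : Finset.univ.filter (fun χ : Cfsg.IrrCharacter G => χ ∈ B) = {χ₁, χ₂} := by
    ext χ
    rw [hB2]
    simp
  rw [hfilter, Finset.sum_pair hne, inv_one, Helper81.irr_one_eq_charDegree,
    Helper81.irr_one_eq_charDegree]
  push_cast
  ring

/-- **Brandt's theorem**: a block has exactly two irreducible characters if and only if its defect
groups have order two. -/
theorem card_block_eq_two_iff {p : ℕ} [Fact p.Prime] {M : Ideal Cfsg.AlgInt}
    (hM : Cfsg.IsPModular p M) {B : Set (Cfsg.IrrCharacter G)} (hB : Cfsg.IsPBlock M B)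
    {D : Subgroup G} (hD : Cfsg.IsDefectGroup p M B D) : Nat.card B = 2 ↔ Nat.card D = 2 := by
  have hp : p.Prime := Fact.out
  have hMm : M.IsMaximal := hM.2.1
  have hcard := card_of_isDefectGroup hM hB hD
  rw [hcard]
  constructor
  · intro h2
    obtain ⟨x, y, hxy, huniv⟩ := Nat.card_eq_two_iff.mp h2
    have hne : (x : Cfsg.IrrCharacter G) ≠ (y : Cfsg.IrrCharacter G) :=
      fun h => hxy (Subtype.ext h)
    have hB2 : B = {(x : Cfsg.IrrCharacter G), (y : Cfsg.IrrCharacter G)} := by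
      ext χ
      constructor
      · intro hχ
        have h1 : (⟨χ, hχ⟩ : B) ∈ ({x, y} : Set B) := by
          rw [huniv]
          exact Set.mem_univ _
        rcases h1 with h1 | h1
        · left
          exact congrArg Subtype.val h1
        · right
          exact congrArg Subtype.val h1
      · intro hχ
        rcases hχ with h1 | h1
        · rw [h1]
          exact x.2
        · rw [Set.mem_singleton_iff] at h1
          rw [h1]
          exact y.2
    obtain ⟨a, b, ha, hb, hab, hrel, hcop⟩ := k2_pair_arith hM hB x.1 y.1 hne hB2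
    obtain ⟨n, hn⟩ := finrank_block_of_pair hMm hB hne hB2
    have hdim := finrank_range_mulLeft_redIdem hMm hB
    rw [hn, card_mul_blockCoeff_one_of_pair hne hB2] at hdim
    have hdimN : 2 * n ^ 2 = Cfsg.charDegree ((x : Cfsg.IrrCharacter G) : G → ℂ) ^ 2
        + Cfsg.charDegree ((y : Cfsg.IrrCharacter G) : G → ℂ) ^ 2 := by
      exact_mod_cast hdim
    exact k2_arith hp ha hb hab hrel hcop (Helper81.charDegree_pos x.1) hdimN.symm
  · intro h2
    obtain ⟨hp2, hd⟩ := (Nat.Prime.pow_eq_iff Nat.prime_two).mp h2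
    subst hp2
    exact (Helper81.kf_defect_one hM hB hd).1

end k2final

end Cfsg.Agent.Helper77
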