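import Cfsg.Agent.Helper77.K2Block
import Cfsg.Agent.Helper51.K2A
import Cfsg.Agent.Helper51.K2C
import Cfsg.Agent.Helper81.K2B1
import Cfsg.Agent.Helper47.K2B2a
import Cfsg.Agent.Helper52.K2B2b1
import Cfsg.Agent.Helper52.K2B2b2
import Cfsg.Agent.Lead.K2B3
import Cfsg.Agent.Helper76.K2E
import Mathlib

/-!
# A block with two characters has a block algebra of dimension `2 n ^ 2`

`k2_main_algebra` assembles the pure algebra pieces (Wedderburn, one simple module, lifting of
idempotents, radical square zero, the count) into: a symmetric algebra over an algebraically closed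
field whose centre has dimension at most two and contains a nonzero element of square zero has
dimension `2 n ^ 2`.  `finrank_block_of_pair` applies this to the block algebra of a block with
exactly two irreducible characters.
-/

set_option autoImplicit false
open Cfsg

namespace Cfsg.Agent.Helper77

universe u v

/-- A symmetric algebra over an algebraically closed field whose centre has dimension at most two
and contains a nonzero element of square zero has dimension `2 n ^ 2`. -/
theorem k2_main_algebra {k : Type v} [Field k] [IsAlgClosed k] {𝔅 : Type u} [Ring 𝔅]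
    [Algebra k 𝔅] [FiniteDimensional k 𝔅] (lam : 𝔅 →ₗ[k] k)
    (hsym : ∀ x y, lam (x * y) = lam (y * x))
    (hnd : ∀ x, (∀ y, lam (x * y) = 0) → x = 0)
    (hZ : ∀ v : Fin 3 → 𝔅, (∀ i a, v i * a = a * v i) → ¬ LinearIndependent k v)
    (z : 𝔅) (hzc : ∀ a, z * a = a * z) (hz0 : z ≠ 0) (hzz : z * z = 0) :
    ∃ n : ℕ, Module.finrank k 𝔅 = 2 * n ^ 2 := by
  obtain ⟨m, d, f, hf, hd, N, hN⟩ := Helper51.k2_wedderburn k 𝔅
  obtain ⟨n, g, hn, hg, ⟨N', hN'⟩, hker⟩ :=
    Helper81.k2_single_block lam hsym hnd hZ z hzc hz0 hzz m d f hf hd N hN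
  obtain ⟨ε, a, b, hε, hgε, hab⟩ := Helper47.k2_exists_idem n hn g hg N' hN'
  have hsq := Helper52.k2_radical_sq_zero hZ n hn g N' hN' ε a b hε hgε hab
    (fun x hx => Helper52.k2_corner_codim lam hsym hnd hZ n hn g ε a b hε hgε hab x hx)
  exact ⟨n, Lead.k2_count lam hsym hnd z hzc hzz n g hg hker hsq⟩

section k2main

variable {G : Type u} [Group G] [Fintype G] {M : Ideal Cfsg.AlgInt} (hM : M.IsMaximal)

/-- The block algebra over the residue field of a block with exactly two irreducible characters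
has dimension `2 n ^ 2`. -/
theorem finrank_block_of_pair {B : Set (Cfsg.IrrCharacter G)}
    (hB : Cfsg.IsPBlock M B) {χ₁ χ₂ : Cfsg.IrrCharacter G} (hne : χ₁ ≠ χ₂)
    (hB2 : B = {χ₁, χ₂}) :
    ∃ n : ℕ, Module.finrank (ResField M hM)
      (LinearMap.range (LinearMap.mulLeft (ResField M hM) (redIdem hM B))) = 2 * n ^ 2 := by
  have : IsAlgClosed (ResField M hM) := Helper76.k2_resField_isAlgClosed M hM
  have hee := redIdem_mul_self hM hB
  have hec := redIdem_central hM B
  obtain ⟨𝔅, instR, instA, instF, φ, hφinj, hφmul, hφ1, hφrange⟩ :=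
    Helper51.k2_corner (k := ResField M hM) (A := ConvAlg (ResField M hM) G) (redIdem hM B) hee hec
  -- elements of the corner are fixed by the idempotent
  have hfix : ∀ x : 𝔅, redIdem hM B * φ x = φ x := fun x => (hφrange (φ x)).mp ⟨x, rfl⟩
  have hpre : ∀ a : ConvAlg (ResField M hM) G, ∃ y : 𝔅, φ y = redIdem hM B * a := by
    intro a
    apply (hφrange _).mpr
    rw [← mul_assoc, hee]
  have hmulA : ∀ (x : 𝔅) (a : ConvAlg (ResField M hM) G),
      φ x * a = φ x * (redIdem hM B * a) := by
    intro x a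
    rw [← mul_assoc, ← hec (φ x), hfix]
  have hφ0 : φ 0 = 0 := map_zero φ
  -- the symmetrizing form
  let lam : 𝔅 →ₗ[ResField M hM] ResField M hM := (ConvAlg.lamOne (ResField M hM) G) ∘ₗ φ
  have hlam : ∀ x, lam x = ConvAlg.lamOne (ResField M hM) G (φ x) := fun x => rfl
  have hsym : ∀ x y, lam (x * y) = lam (y * x) := by
    intro x y
    rw [hlam, hlam, hφmul, hφmul, ConvAlg.lamOne_mul_comm]
  have hnd : ∀ x, (∀ y, lam (x * y) = 0) → x = 0 := by
    intro x hx
    apply hφinj
    rw [hφ0]
    apply ConvAlg.lamOne_nondegenerate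
    intro a
    obtain ⟨y, hy⟩ := hpre a
    rw [hmulA, ← hy, ← hφmul, ← hlam]
    exact hx y
  -- the centre
  have hcent : ∀ x : 𝔅, (∀ a, x * a = a * x) →
      ∀ a : ConvAlg (ResField M hM) G, φ x * a = a * φ x := by
    intro x hx a
    obtain ⟨y, hy⟩ := hpre a
    rw [hmulA, ← hy, ← hφmul, hx y, hφmul, hy, hec a, mul_assoc, hfix]
  have hZ : ∀ v : Fin 3 → 𝔅, (∀ i a, v i * a = a * v i) →
      ¬ LinearIndependent (ResField M hM) v := by
    intro v hv hli
    apply not_linearIndependent_of_pair hM hB hne hB2 (fun i => φ (v i))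
      (fun i => ⟨hcent (v i) (hv i), hfix (v i)⟩)
    exact hli.map' φ (LinearMap.ker_eq_bot.mpr hφinj)
  obtain ⟨z, hzc, hzfix, hz0, hzz⟩ := exists_central_sq_zero hM hB hne hB2
  obtain ⟨z', hz'⟩ := (hφrange z).mpr hzfix
  have hz'c : ∀ a : 𝔅, z' * a = a * z' := by
    intro a
    apply hφinj
    rw [hφmul, hφmul, hz', hzc]
  have hz'0 : z' ≠ 0 := by
    intro h
    apply hz0
    rw [← hz', h, hφ0]
  have hz'z : z' * z' = 0 := by
    apply hφinj
    rw [hφmul, hz', hzz, hφ0]
  obtain ⟨n, hn⟩ := k2_main_algebra lam hsym hnd hZ z' hz'c hz'0 hz'z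
  refine ⟨n, ?_⟩
  rw [← hn]
  have hrange : LinearMap.range (LinearMap.mulLeft (ResField M hM) (redIdem hM B))
      = LinearMap.range φ := by
    ext a
    rw [LinearMap.mem_range, LinearMap.mem_range]
    constructor
    · rintro ⟨b, rfl⟩
      exact hpre b
    · rintro ⟨x, rfl⟩
      exact ⟨φ x, hfix x⟩
  rw [hrange]
  exact LinearMap.finrank_range_of_inj hφinj

end k2main

end Cfsg.Agent.Helper77
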