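import Cfsg.Agent.Helper77.ResField
import Cfsg.Agent.Helper77.ConvAlg
import Cfsg.Agent.Helper77.BlockIdem
import Cfsg.Agent.Helper16.ConvAlg

/-!
# Reduction of the complex group algebra modulo a maximal ideal of the algebraic integers

`resMap M hM : ℂ → ResField M hM` is the residue map on the local ring (zero outside), and
`redFun M hM a : ConvAlg (ResField M hM) G` reduces a function `a : G → ℂ` coefficientwise.  On
functions with local-integral values, `redFun` is additive and turns `Helper81.conv` into the
product of the group algebra.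
-/

set_option autoImplicit false
open Cfsg

namespace Cfsg.Agent.Helper77

universe u

open Classical in
/-- The total residue map `ℂ → ResField M hM`: the residue class on the local ring, `0` outside. -/
noncomputable def resMap (M : Ideal Cfsg.AlgInt) (hM : M.IsMaximal) (z : ℂ) : ResField M hM :=
  if h : Cfsg.MemLocalRing M z then resHom M hM ⟨z, h⟩ else 0

section resMap

variable {M : Ideal Cfsg.AlgInt} (hM : M.IsMaximal)

theorem resMap_of_mem {z : ℂ} (h : Cfsg.MemLocalRing M z) :
    resMap M hM z = resHom M hM ⟨z, h⟩ := by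
  rw [resMap, dif_pos h]

theorem resMap_add {z w : ℂ} (hz : Cfsg.MemLocalRing M z) (hw : Cfsg.MemLocalRing M w) :
    resMap M hM (z + w) = resMap M hM z + resMap M hM w := by
  rw [resMap_of_mem hM hz, resMap_of_mem hM hw, resMap_of_mem hM (memLocalRing_add hM hz hw),
    ← map_add]
  rfl

theorem resMap_mul {z w : ℂ} (hz : Cfsg.MemLocalRing M z) (hw : Cfsg.MemLocalRing M w) :
    resMap M hM (z * w) = resMap M hM z * resMap M hM w := by
  rw [resMap_of_mem hM hz, resMap_of_mem hM hw, resMap_of_mem hM (memLocalRing_mul hM hz hw),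
    ← map_mul]
  rfl

theorem resMap_zero : resMap M hM 0 = 0 := by
  rw [resMap_of_mem hM (memLocalRing_zero hM)]
  exact map_zero (resHom M hM)

theorem resMap_one : resMap M hM 1 = 1 := by
  rw [resMap_of_mem hM (memLocalRing_one hM)]
  exact map_one (resHom M hM)

theorem resMap_neg {z : ℂ} (hz : Cfsg.MemLocalRing M z) :
    resMap M hM (-z) = -resMap M hM z := by
  rw [resMap_of_mem hM hz, resMap_of_mem hM (memLocalRing_neg hz), ← map_neg]
  rfl

theorem resMap_sub {z w : ℂ} (hz : Cfsg.MemLocalRing M z) (hw : Cfsg.MemLocalRing M w) :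
    resMap M hM (z - w) = resMap M hM z - resMap M hM w := by
  rw [sub_eq_add_neg, resMap_add hM hz (memLocalRing_neg hw), resMap_neg hM hw, sub_eq_add_neg]

theorem resMap_sum {ι : Type*} (s : Finset ι) (f : ι → ℂ)
    (hf : ∀ i ∈ s, Cfsg.MemLocalRing M (f i)) :
    resMap M hM (∑ i ∈ s, f i) = ∑ i ∈ s, resMap M hM (f i) := by
  classical
  induction s using Finset.induction_on with
  | empty => simp [resMap_zero]
  | insert i s hi ih =>
    rw [Finset.sum_insert hi, Finset.sum_insert hi,
      resMap_add hM (hf i (Finset.mem_insert_self i s))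
        (memLocalRing_sum hM _ _ fun j hj => hf j (Finset.mem_insert_of_mem hj)),
      ih fun j hj => hf j (Finset.mem_insert_of_mem hj)]

theorem resMap_eq_zero_iff {z : ℂ} (hz : Cfsg.MemLocalRing M z) :
    resMap M hM z = 0 ↔ Cfsg.MemLocalIdeal M z := by
  rw [resMap_of_mem hM hz, resHom_eq_zero_iff]

theorem resMap_eq_of_sub {z w : ℂ} (hz : Cfsg.MemLocalRing M z) (hw : Cfsg.MemLocalRing M w)
    (h : Cfsg.MemLocalIdeal M (z - w)) : resMap M hM z = resMap M hM w := by
  have h1 := (resMap_eq_zero_iff hM (memLocalRing_sub hM hz hw)).mpr h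
  rw [resMap_sub hM hz hw] at h1
  exact sub_eq_zero.mp h1

theorem exists_resMap_eq (c : ResField M hM) :
    ∃ z : ℂ, Cfsg.MemLocalRing M z ∧ resMap M hM z = c := by
  obtain ⟨z, hz⟩ := resHom_surjective M hM c
  exact ⟨(z : ℂ), z.2, by rw [resMap_of_mem hM z.2]; exact hz⟩

/-- A section of the residue map. -/
noncomputable def resLift (c : ResField M hM) : ℂ := Classical.choose (exists_resMap_eq hM c)

theorem resLift_mem (c : ResField M hM) : Cfsg.MemLocalRing M (resLift hM c) :=
  (Classical.choose_spec (exists_resMap_eq hM c)).1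

theorem resMap_resLift (c : ResField M hM) : resMap M hM (resLift hM c) = c :=
  (Classical.choose_spec (exists_resMap_eq hM c)).2

end resMap

section redFun

variable {G : Type u} [Group G] [Fintype G] {M : Ideal Cfsg.AlgInt} (hM : M.IsMaximal)

/-- Coefficientwise reduction of a complex function on `G`. -/
noncomputable def redFun (a : G → ℂ) : ConvAlg (ResField M hM) G :=
  ConvAlg.ofFun (fun g => resMap M hM (a g))

theorem redFun_apply (a : G → ℂ) (g : G) : redFun hM a g = resMap M hM (a g) := rfl

theorem redFun_add {a b : G → ℂ} (ha : ∀ g, Cfsg.MemLocalRing M (a g))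
    (hb : ∀ g, Cfsg.MemLocalRing M (b g)) : redFun hM (a + b) = redFun hM a + redFun hM b := by
  ext g
  rw [ConvAlg.add_apply, redFun_apply, redFun_apply, redFun_apply, Pi.add_apply,
    resMap_add hM (ha g) (hb g)]

theorem redFun_sub {a b : G → ℂ} (ha : ∀ g, Cfsg.MemLocalRing M (a g))
    (hb : ∀ g, Cfsg.MemLocalRing M (b g)) : redFun hM (a - b) = redFun hM a - redFun hM b := by
  ext g
  rw [ConvAlg.sub_apply, redFun_apply, redFun_apply, redFun_apply, Pi.sub_apply,
    resMap_sub hM (ha g) (hb g)]

theorem redFun_smul {c : ℂ} {a : G → ℂ} (hc : Cfsg.MemLocalRing M c)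
    (ha : ∀ g, Cfsg.MemLocalRing M (a g)) :
    redFun hM (c • a) = resMap M hM c • redFun hM a := by
  ext g
  rw [ConvAlg.smul_apply, redFun_apply, redFun_apply, Pi.smul_apply, smul_eq_mul,
    resMap_mul hM hc (ha g)]

theorem redFun_conv {a b : G → ℂ} (ha : ∀ g, Cfsg.MemLocalRing M (a g))
    (hb : ∀ g, Cfsg.MemLocalRing M (b g)) :
    redFun hM (Helper81.conv a b) = redFun hM a * redFun hM b := by
  ext g
  rw [ConvAlg.mul_apply, redFun_apply, Helper81.conv,
    resMap_sum hM _ _ fun x _ => memLocalRing_mul hM (ha x) (hb _)]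
  refine Finset.sum_congr rfl fun x _ => ?_
  rw [resMap_mul hM (ha x) (hb _)]
  rfl

theorem redFun_deltaOne : redFun hM (Helper81.deltaOne (1 : ℂ) : G → ℂ) = 1 := by
  classical
  ext g
  rw [redFun_apply, ConvAlg.one_apply, Helper81.deltaOne]
  by_cases h : g = 1
  · rw [if_pos h, if_pos h, resMap_one]
  · rw [if_neg h, if_neg h, resMap_zero]

theorem redFun_eq_zero_iff {a : G → ℂ} (ha : ∀ g, Cfsg.MemLocalRing M (a g)) :
    redFun hM a = 0 ↔ ∀ g, Cfsg.MemLocalIdeal M (a g) := by
  constructor
  · intro h g
    have h1 := congrArg (fun f : ConvAlg (ResField M hM) G => f g) h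
    exact (resMap_eq_zero_iff hM (ha g)).mp h1
  · intro h
    ext g
    rw [redFun_apply, ConvAlg.zero_apply]
    exact (resMap_eq_zero_iff hM (ha g)).mpr (h g)

/-- A coefficientwise lift of an element of the group algebra over the residue field. -/
noncomputable def liftFun (x : ConvAlg (ResField M hM) G) : G → ℂ := fun g => resLift hM (x g)

theorem liftFun_mem (x : ConvAlg (ResField M hM) G) (g : G) :
    Cfsg.MemLocalRing M (liftFun hM x g) := resLift_mem hM _

theorem redFun_liftFun (x : ConvAlg (ResField M hM) G) : redFun hM (liftFun hM x) = x := by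
  ext g
  rw [redFun_apply, liftFun, resMap_resLift]

theorem liftFun_isClassFunction {x : ConvAlg (ResField M hM) G}
    (hx : ∀ y : ConvAlg (ResField M hM) G, x * y = y * x) :
    Cfsg.IsClassFunction G (liftFun hM x) := by
  intro g h
  unfold liftFun
  rw [(ConvAlg.central_iff x).mp hx g h]

theorem redFun_central {a : G → ℂ} (ha : Cfsg.IsClassFunction G a)
    (y : ConvAlg (ResField M hM) G) : redFun hM a * y = y * redFun hM a := by
  apply (ConvAlg.central_iff (redFun hM a)).mpr
  intro g h
  rw [redFun_apply, redFun_apply, ha g h]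

end redFun

end Cfsg.Agent.Helper77
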