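import Cfsg.Agent.Helper77.OrbitIdem
import Cfsg.Agent.Helper77.StablePair
import Cfsg.Agent.Helper77.BrauerPair
import Cfsg.Agent.Helper16.FMT
import Cfsg.Agent.Helper16.BrauerCorr
import Cfsg.Agent.Helper16.BrauerInd

/-!
# Maximal Brauer pairs and defect groups

* `conv_sub_conv_restrict_memLocalIdeal`: the Brauer map is multiplicative modulo the local ideal,
  pointwise on `C_G(P)`.
* `exists_irr_omega_restrict`: for `P C_G(P) ≤ L` and `ξ` irreducible of `C_G(P)` there is an
  irreducible `θ` of `L` with `Ω_ξ (a|C_G(P)) ≡ Ω_θ (a)` for the class functions `a` of `L`.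
* `isInducedBlock_of_omega_restrict`: the block of `θ` induces the block of the Brauer pair.
* `blockCoeff_eq_sbc_orbitUnion_of_omega_restrict`: the idempotent of the block of `θ`.
* `exists_isNormalSubpair_above`: enlarging a Brauer pair.
* `isDefectGroup_of_isMaximalBrauerPair`.
-/

set_option autoImplicit false
set_option linter.style.haveILetI false
open Cfsg

namespace Cfsg.Agent.Helper77

universe u

variable {G : Type u} [Group G] [Fintype G]

/-- **The Brauer map is multiplicative modulo the local ideal**, pointwise on `C_G(P)`. -/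
theorem conv_sub_conv_restrict_memLocalIdeal {p : ℕ} [Fact p.Prime] {M : Ideal Cfsg.AlgInt}
    (hM : Cfsg.IsPModular p M) (P : Subgroup G) [Fintype (Subgroup.centralizer (P : Set G))]
    (hP : IsPGroup p P) {a b : G → ℂ}
    (ha : InvUnder P a) (haS : ∀ g, Cfsg.MemLocalRing M (a g))
    (hb : InvUnder P b) (hbS : ∀ g, Cfsg.MemLocalRing M (b g))
    (c : Subgroup.centralizer (P : Set G)) :
    Cfsg.MemLocalIdeal M (Helper81.conv a b (c : G)
      - Helper81.conv (fun c : Subgroup.centralizer (P : Set G) => a c)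
          (fun c : Subgroup.centralizer (P : Set G) => b c) c) := by
  classical
  have hMm := hM.2.1
  have h1 : Helper81.conv (fun c : Subgroup.centralizer (P : Set G) => a c)
        (fun c : Subgroup.centralizer (P : Set G) => b c) c
      = ∑ x ∈ Finset.univ.filter (fun x : G => x ∈ Subgroup.centralizer (P : Set G)),
          a x * b (x⁻¹ * (c : G)) := by
    rw [Finset.sum_subtype (p := fun x : G => x ∈ Subgroup.centralizer (P : Set G))
      (Finset.univ.filter (fun x : G => x ∈ Subgroup.centralizer (P : Set G))) (by simp)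
      (fun x => a x * b (x⁻¹ * (c : G)))]
    refine Finset.sum_congr rfl fun x _ => ?_
    show a x * b ((x⁻¹ * c : Subgroup.centralizer (P : Set G)) : G) = _
    push_cast
    rfl
  rw [h1]
  apply Helper16.sum_sub_sum_centralizer_memLocalIdeal hM P hP
    (fun x => a x * b (x⁻¹ * (c : G)))
    (fun x => memLocalRing_mul hMm (haS x) (hbS _))
  intro d hd x
  have e1 : (d * x * d⁻¹)⁻¹ * (c : G) = d * (x⁻¹ * (c : G)) * d⁻¹ := by
    have h2 : d⁻¹ * (c : G) = (c : G) * d⁻¹ := by
      have := Subgroup.mem_centralizer_iff.mp c.2 d hd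
      calc d⁻¹ * (c : G) = d⁻¹ * ((c : G) * d) * d⁻¹ := by group
        _ = d⁻¹ * (d * (c : G)) * d⁻¹ := by rw [this]
        _ = (c : G) * d⁻¹ := by group
    calc (d * x * d⁻¹)⁻¹ * (c : G) = d * x⁻¹ * (d⁻¹ * (c : G)) := by group
      _ = d * x⁻¹ * ((c : G) * d⁻¹) := by rw [h2]
      _ = d * (x⁻¹ * (c : G)) * d⁻¹ := by group
  show a (d * x * d⁻¹) * b ((d * x * d⁻¹)⁻¹ * (c : G)) = a x * b (x⁻¹ * (c : G))
  rw [e1, ha d hd x, hb d hd (x⁻¹ * (c : G))]

/-- **Lifting a central character of `C_G(P)` to a subgroup containing `P C_G(P)`.** -/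
theorem exists_irr_omega_restrict {p : ℕ} [Fact p.Prime] {M : Ideal Cfsg.AlgInt}
    (hM : Cfsg.IsPModular p M) (P L : Subgroup G) [Fintype L]
    [Fintype (Subgroup.centralizer (P : Set G))] (hP : IsPGroup p P) (hPL : P ≤ L)
    (hCL : Subgroup.centralizer (P : Set G) ≤ L)
    (ξ : Cfsg.IrrCharacter (Subgroup.centralizer (P : Set G))) :
    ∃ θ : Cfsg.IrrCharacter L, ∀ a : L → ℂ, Cfsg.IsClassFunction L a →
      (∀ t, Cfsg.MemLocalRing M (a t)) →
      Cfsg.MemLocalIdeal M (Helper81.omega (ξ : _ → ℂ)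
          (fun c : Subgroup.centralizer (P : Set G) => a ⟨(c : G), hCL c.2⟩)
        - Helper81.omega (θ : L → ℂ) a) := by
  classical
  have hMm := hM.2.1
  have hcl : ∀ a : L → ℂ, Cfsg.IsClassFunction L a →
      Cfsg.IsClassFunction (Subgroup.centralizer (P : Set G))
        (fun c : Subgroup.centralizer (P : Set G) => a ⟨(c : G), hCL c.2⟩) := by
    intro a ha c d
    exact ha ⟨(c : G), hCL c.2⟩ ⟨(d : G), hCL d.2⟩
  have hext : ∀ a : L → ℂ, (fun c : Subgroup.centralizer (P : Set G) => extFrom L a (c : G))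
      = fun c : Subgroup.centralizer (P : Set G) => a ⟨(c : G), hCL c.2⟩ :=
    fun a => funext fun c => extFrom_of_mem L a (hCL c.2)
  refine Helper16.exists_irr_of_multiplicative (G := L) hMm
    (fun a : L → ℂ => Helper81.omega (ξ : _ → ℂ)
      (fun c : Subgroup.centralizer (P : Set G) => a ⟨(c : G), hCL c.2⟩)) ?_ ?_ ?_ ?_ ?_
  · exact Helper16.omega_zero _
  · intro a b
    exact Helper81.omega_sub _ _ _
  · intro c hc
    have h1 : (fun c' : Subgroup.centralizer (P : Set G) =>
        Helper81.deltaOne c (⟨(c' : G), hCL c'.2⟩ : L)) = Helper81.deltaOne c := by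
      funext c'
      have h2 := congrFun (deltaOne_restrict L c) ⟨(c' : G), hCL c'.2⟩
      have h3 := congrFun (deltaOne_restrict (Subgroup.centralizer (P : Set G)) c) c'
      exact h2.symm.trans h3
    show Cfsg.MemLocalIdeal M (Helper81.omega (ξ : _ → ℂ)
      (fun c' : Subgroup.centralizer (P : Set G) =>
        Helper81.deltaOne c (⟨(c' : G), hCL c'.2⟩ : L)) - c)
    rw [h1, Helper81.omega_deltaOne, sub_self]
    exact memLocalIdeal_zero hMm
  · intro a ha haS
    exact Helper16.omega_memLocalRing hMm ξ (hcl a ha) (fun c => haS _)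
  · intro a b ha haS hb hbS
    show Cfsg.MemLocalIdeal M (Helper81.omega (ξ : _ → ℂ)
        (fun c : Subgroup.centralizer (P : Set G) => Helper81.conv a b ⟨(c : G), hCL c.2⟩)
      - Helper81.omega (ξ : _ → ℂ)
          (fun c : Subgroup.centralizer (P : Set G) => a ⟨(c : G), hCL c.2⟩)
        * Helper81.omega (ξ : _ → ℂ)
          (fun c : Subgroup.centralizer (P : Set G) => b ⟨(c : G), hCL c.2⟩))
    rw [← Helper81.omega_conv ξ (hcl a ha) (hcl b hb), ← Helper81.omega_sub]
    apply Helper16.omega_memLocalIdeal hMm ξ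
    · exact Helper81.isClassFunction_sub (hcl _ (Helper81.conv_isClassFunction ha hb))
        (Helper81.conv_isClassFunction (hcl a ha) (hcl b hb))
    · intro c
      have h1 := conv_sub_conv_restrict_memLocalIdeal hM P hP ((invUnder_extFrom ha).mono hPL)
        (extFrom_memLocalRing hMm L haS) ((invUnder_extFrom hb).mono hPL)
        (extFrom_memLocalRing hMm L hbS) c
      rw [conv_extFrom, extFrom_of_mem L _ (hCL c.2), hext a, hext b] at h1
      exact h1

/-- The block of `θ` induces the block of the Brauer pair. -/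
theorem isInducedBlock_of_omega_restrict {p : ℕ} [Fact p.Prime] {M : Ideal Cfsg.AlgInt}
    (hM : Cfsg.IsPModular p M) {B : Set (Cfsg.IrrCharacter G)} {P : Subgroup G}
    {e : Set (Cfsg.IrrCharacter (Subgroup.centralizer (P : Set G)))}
    (hBe : Cfsg.IsBrauerPairOf p M B P e) (L : Subgroup G) [Fintype L]
    [Fintype (Subgroup.centralizer (P : Set G))] (hPL : P ≤ L)
    (hCL : (Subgroup.centralizer (P : Set G)) ≤ L) (hLN : L ≤ (Subgroup.normalizer (P : Set G)))
    {ξ : Cfsg.IrrCharacter (Subgroup.centralizer (P : Set G))} (hξ : ξ ∈ e)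
    (θ : Cfsg.IrrCharacter L)
    (hθ : ∀ a : L → ℂ, Cfsg.IsClassFunction L a → (∀ t, Cfsg.MemLocalRing M (a t)) →
      Cfsg.MemLocalIdeal M (Helper81.omega (ξ : _ → ℂ)
          (fun c : (Subgroup.centralizer (P : Set G)) => a ⟨(c : G), hCL c.2⟩)
        - Helper81.omega (θ : L → ℂ) a)) :
    Cfsg.IsInducedBlock M L (Cfsg.blockOf M (θ : L → ℂ)) B := by
  classical
  have hMm := hM.2.1
  haveI := hMm.isPrime
  obtain ⟨⟨hP, he⟩, hB, hB2⟩ := hBe
  obtain ⟨χ, hχ⟩ := Helper16.exists_irr_brauer hM P L hP hCL hLN θ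
  have h1 := hB2 ξ hξ
  rw [brauerOmega_eq_restrict] at h1
  have h2 := hθ (Helper16.brRes P L (Cfsg.blockCoeff B))
    (Helper16.isClassFunction_brRes hLN (blockCoeff_isClassFunction B))
    (brRes_memLocalRing hMm P L (blockCoeff_memLocalRing hMm hB))
  have h3 : (fun c : (Subgroup.centralizer (P : Set G)) =>
      Helper16.brRes P L (Cfsg.blockCoeff B) ⟨(c : G), hCL c.2⟩)
      = fun c : (Subgroup.centralizer (P : Set G)) => Cfsg.blockCoeff B c := by
    funext c
    exact Helper16.brRes_apply_of_mem (P := P) (H := L) _ (h := ⟨(c : G), hCL c.2⟩) c.2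
  rw [h3] at h2
  have h4 := hχ _ (blockCoeff_isClassFunction B) (blockCoeff_memLocalRing hMm hB)
  have h5 : Cfsg.MemLocalIdeal M (Helper81.omega (χ : G → ℂ) (Cfsg.blockCoeff B) - 1) := by
    have := memLocalIdeal_sub hMm (memLocalIdeal_sub hMm h1 h2) h4
    convert this using 1
    ring
  have hχB : χ ∈ B := by
    by_contra hnot
    rw [omega_blockCoeff_of_not_mem hnot, zero_sub] at h5
    have := memLocalIdeal_neg h5
    rw [neg_neg] at this
    exact not_memLocalIdeal_one hMm this
  rw [Helper16.eq_blockOf_of_mem hMm hB hχB]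
  exact Helper16.isInducedBlock_of_brauer hM P L hP hPL hLN ⟨θ, rfl⟩
    (Helper81.mem_blockOf_self θ) χ
    (fun g => hχ _ (Helper81.classInd_isClassFunction g) (Helper16.classInd_memLocalRing hMm g))

/-- The central character of `θ` takes the value `1` at the orbit idempotent of `e`. -/
theorem omega_sbc_orbitUnion_of_omega_restrict {p : ℕ} [Fact p.Prime] {M : Ideal Cfsg.AlgInt}
    (hM : Cfsg.IsPModular p M) (P L : Subgroup G) [Fintype L]
    [Fintype (Subgroup.centralizer (P : Set G))]
    (hCL : (Subgroup.centralizer (P : Set G)) ≤ L)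
    (hLC : L ≤ Subgroup.normalizer (((Subgroup.centralizer (P : Set G)) : Subgroup G) : Set G))
    {e : Set (Cfsg.IrrCharacter (Subgroup.centralizer (P : Set G)))} (he : Cfsg.IsPBlock M e)
    {ξ : Cfsg.IrrCharacter (Subgroup.centralizer (P : Set G))} (hξ : ξ ∈ e)
    (θ : Cfsg.IrrCharacter L)
    (hθ : ∀ a : L → ℂ, Cfsg.IsClassFunction L a → (∀ t, Cfsg.MemLocalRing M (a t)) →
      Cfsg.MemLocalIdeal M (Helper81.omega (ξ : _ → ℂ)
          (fun c : (Subgroup.centralizer (P : Set G)) => a ⟨(c : G), hCL c.2⟩)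
        - Helper81.omega (θ : L → ℂ) a)) :
    Helper81.omega (θ : L → ℂ) (fun t : L =>
      Cfsg.subgroupBlockCoeff (Subgroup.centralizer (P : Set G)) (orbitUnion hLC e) (t : G)) = 1 := by
  classical
  have hMm := hM.2.1
  set z := Cfsg.subgroupBlockCoeff (Subgroup.centralizer (P : Set G)) (orbitUnion hLC e) with hz
  have hzC : SuppIn (Subgroup.centralizer (P : Set G)) z := suppIn_sbc _ _
  have hzL : SuppIn L z := fun x hx => hzC x (fun h => hx (hCL h))
  have hzinv : InvUnder L z :=
    invUnder_sbc_of_stabilizes _ _ (fun x hx => stabilizesBlock_orbitUnion hLC e hx)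
  have hzS : ∀ g, Cfsg.MemLocalRing M (z g) := sbc_orbitUnion_memLocalRing hMm hLC he
  have hzid : Helper81.conv z z = z := conv_sbc_self _ _
  have hcl : Cfsg.IsClassFunction L (fun t : L => z t) := isClassFunction_restrict hzinv
  have huid : Helper81.conv (fun t : L => z t) (fun t : L => z t) = fun t : L => z t := by
    funext t
    rw [← conv_restrict L hzL z t, hzid]
  have h1 := hθ (fun t : L => z t) hcl (fun t => hzS t)
  have h2 : (fun c : (Subgroup.centralizer (P : Set G)) => (fun t : L => z t) ⟨(c : G), hCL c.2⟩)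
      = Cfsg.blockCoeff (orbitUnion hLC e) := sbc_restrict _ _
  rw [h2, omega_blockCoeff_of_mem (subset_orbitUnion hLC e hξ)] at h1
  have h3 : Helper81.omega (θ : L → ℂ) (fun t : L => z t)
      * Helper81.omega (θ : L → ℂ) (fun t : L => z t)
      = Helper81.omega (θ : L → ℂ) (fun t : L => z t) := by
    rw [← Helper81.omega_conv θ hcl hcl, huid]
  have h4 : Helper81.omega (θ : L → ℂ) (fun t : L => z t)
      * (Helper81.omega (θ : L → ℂ) (fun t : L => z t) - 1) = 0 := by
    rw [mul_sub, h3, mul_one, sub_self]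
  rcases mul_eq_zero.mp h4 with h5 | h5
  · rw [h5, sub_zero] at h1
    exact absurd h1 (not_memLocalIdeal_one hMm)
  · exact sub_eq_zero.mp h5

/-- **Enlarging a Brauer pair.**  If the `p`-subgroup `R` with `P ≤ R ≤ N_G(P)` stabilizes the
block `e` of `C_G(P)` and the idempotent of `e` does not vanish modulo the local ideal at some
element of `C_G(R)`, then some pair `(R, g)` lies above `(P, e)`. -/
theorem exists_isNormalSubpair_above {p : ℕ} [Fact p.Prime] {M : Ideal Cfsg.AlgInt}
    (hM : Cfsg.IsPModular p M) {P R : Subgroup G}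
    {e : Set (Cfsg.IrrCharacter (Subgroup.centralizer (P : Set G)))}
    (hPe : Cfsg.IsBrauerPair p M P e) (hR : IsPGroup p R) (hPR : P ≤ R)
    (hRN : R ≤ (Subgroup.normalizer (P : Set G)))
    (hst : ∀ x ∈ R, Cfsg.StabilizesBlock (Subgroup.centralizer (P : Set G)) e x)
    (c : G) (hc : c ∈ Subgroup.centralizer (R : Set G))
    (hne : ¬ Cfsg.MemLocalIdeal M
      (Cfsg.subgroupBlockCoeff (Subgroup.centralizer (P : Set G)) e c)) :
    ∃ g : Set (Cfsg.IrrCharacter (Subgroup.centralizer (R : Set G))),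
      Cfsg.IsNormalSubpair p M P e R g := by
  classical
  have hMm := hM.2.1
  haveI := hMm.isPrime
  letI : Fintype (Subgroup.centralizer (R : Set G)) := Fintype.ofFinite _
  obtain ⟨hP, he⟩ := hPe
  have hCRC : Subgroup.centralizer (R : Set G) ≤ (Subgroup.centralizer (P : Set G)) :=
    Subgroup.centralizer_le (show (P : Set G) ⊆ R from hPR)
  have hzR : InvUnder R (Cfsg.subgroupBlockCoeff (Subgroup.centralizer (P : Set G)) e) :=
    invUnder_sbc_of_stabilizes _ e hst
  have hzC : InvUnder (Subgroup.centralizer (R : Set G))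
      (Cfsg.subgroupBlockCoeff (Subgroup.centralizer (P : Set G)) e) := (invUnder_sbc_self _ e).mono hCRC
  have hzS : ∀ g, Cfsg.MemLocalRing M (Cfsg.subgroupBlockCoeff (Subgroup.centralizer (P : Set G)) e g) :=
    sbc_memLocalRing hMm _ he
  have hcl : Cfsg.IsClassFunction (Subgroup.centralizer (R : Set G))
      (fun c' : Subgroup.centralizer (R : Set G) =>
        Cfsg.subgroupBlockCoeff (Subgroup.centralizer (P : Set G)) e c') := isClassFunction_restrict hzC
  have hidem : ∀ c' : Subgroup.centralizer (R : Set G), Cfsg.MemLocalIdeal M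
      (Helper81.conv (fun c' : Subgroup.centralizer (R : Set G) =>
          Cfsg.subgroupBlockCoeff (Subgroup.centralizer (P : Set G)) e c')
        (fun c' : Subgroup.centralizer (R : Set G) =>
          Cfsg.subgroupBlockCoeff (Subgroup.centralizer (P : Set G)) e c') c'
        - Cfsg.subgroupBlockCoeff (Subgroup.centralizer (P : Set G)) e c') := by
    intro c'
    have h1 := conv_sub_conv_restrict_memLocalIdeal hM R hR hzR hzS hzR hzS c'
    rw [conv_sbc_self] at h1
    have h2 := memLocalIdeal_neg h1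
    rwa [neg_sub] at h2
  obtain ⟨η, hη⟩ := Helper16.exists_irr_omega_sub_one_memLocalIdeal hMm hcl
    (fun c' => hzS c') hidem ⟨⟨c, hc⟩, hne⟩
  refine ⟨Cfsg.blockOf M (η : _ → ℂ), ⟨hP, he⟩, ⟨hR, ⟨η, rfl⟩⟩, hPR, hRN, hst, ?_⟩
  intro η' hη'
  have h1 := brauerOmega_sub_memLocalIdeal_of_sameBlock hMm R η' η
    (Helper16.sameBlock_symm hη') hzC hzS
  rw [brauerOmega_eq_restrict R _ (η : _ → ℂ)] at h1
  have := memLocalIdeal_add hMm h1 hη
  convert this using 1
  ring

open Classical in
/-- The idempotent of a union of blocks is the sum of the idempotents of the blocks in it. -/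
theorem sum_blocks_subset_blockCoeff {M : Ideal Cfsg.AlgInt} (hM : M.IsMaximal)
    [Fintype (Cfsg.IrrCharacter G)] {V : Set (Cfsg.IrrCharacter G)}
    (hV : ∀ ψ ψ' : Cfsg.IrrCharacter G, ψ ∈ V →
      Cfsg.SameBlock M (ψ : G → ℂ) (ψ' : G → ℂ) → ψ' ∈ V) (g : G) :
    ∑ f : Set (Cfsg.IrrCharacter G),
      (if Cfsg.IsPBlock M f ∧ f ⊆ V then Cfsg.blockCoeff f g else 0) = Cfsg.blockCoeff V g := by
  haveI := hM.isPrime
  have h1 : ∀ f : Set (Cfsg.IrrCharacter G),
      (if Cfsg.IsPBlock M f ∧ f ⊆ V then Cfsg.blockCoeff f g else 0)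
      = (Nat.card G : ℂ)⁻¹ * ∑ χ : Cfsg.IrrCharacter G,
          if (Cfsg.IsPBlock M f ∧ f ⊆ V) ∧ χ ∈ f then (χ : G → ℂ) 1 * (χ : G → ℂ) g⁻¹ else 0 := by
    intro f
    by_cases h : Cfsg.IsPBlock M f ∧ f ⊆ V
    · rw [if_pos h, blockCoeff_eq_sum]
      congr 1
      refine Finset.sum_congr rfl fun χ _ => ?_
      exact if_congr ⟨fun h2 => ⟨h, h2⟩, fun h2 => h2.2⟩ rfl rfl
    · rw [if_neg h, Finset.sum_eq_zero, mul_zero]
      intro χ _
      rw [if_neg (fun h2 => h h2.1)]
  rw [Finset.sum_congr rfl (fun f _ => h1 f), ← Finset.mul_sum, Finset.sum_comm,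
    blockCoeff_eq_sum]
  congr 1
  refine Finset.sum_congr rfl fun χ _ => ?_
  by_cases hχ : χ ∈ V
  · rw [if_pos hχ, Finset.sum_eq_single (Cfsg.blockOf M (χ : G → ℂ))]
    · rw [if_pos ⟨⟨⟨χ, rfl⟩, fun ψ hψ => hV χ ψ hχ hψ⟩, Helper81.mem_blockOf_self χ⟩]
    · intro f _ hne
      rw [if_neg]
      rintro ⟨⟨hf, -⟩, hχf⟩
      exact hne (Helper16.eq_blockOf_of_mem hM hf hχf)
    · intro h
      exact absurd (Finset.mem_univ _) h
  · rw [if_neg hχ]
    apply Finset.sum_eq_zero
    intro f _
    rw [if_neg]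
    rintro ⟨⟨-, hfV⟩, hχf⟩
    exact hχ (hfV hχf)

/-- **A maximal Brauer pair of `B` has a defect group of `B` as its subgroup.** -/
theorem isDefectGroup_of_isMaximalBrauerPair {p : ℕ} [Fact p.Prime] {M : Ideal Cfsg.AlgInt}
    (hM : Cfsg.IsPModular p M) (B : Set (Cfsg.IrrCharacter G)) (P : Subgroup G)
    (e : Set (Cfsg.IrrCharacter (Subgroup.centralizer (P : Set G))))
    (hmax : Cfsg.IsMaximalBrauerPair p M B P e) : Cfsg.IsDefectGroup p M B P := by
  classical
  have hMm := hM.2.1
  haveI := hMm.isPrime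
  obtain ⟨hBe, hmx⟩ := hmax
  have hBe' := hBe
  obtain ⟨⟨hP, he⟩, hB, hB2⟩ := hBe'
  letI : Fintype (Subgroup.centralizer (P : Set G)) := Fintype.ofFinite _
  letI : Fintype (Subgroup.normalizer (P : Set G)) := Fintype.ofFinite _
  have hPN : P ≤ (Subgroup.normalizer (P : Set G)) := Subgroup.le_normalizer
  have hCN : (Subgroup.centralizer (P : Set G)) ≤ (Subgroup.normalizer (P : Set G)) := Subgroup.centralizer_le_normalizer _
  have hNC : (Subgroup.normalizer (P : Set G)) ≤ Subgroup.normalizer (((Subgroup.centralizer (P : Set G)) : Subgroup G) : Set G) :=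
    fun x hx => Helper75.normalizer_le_normalizer_centralizer' P hx
  obtain ⟨ξ, hξ⟩ := Helper16.exists_mem_of_isPBlock hMm he
  obtain ⟨θ, hθ⟩ := exists_irr_omega_restrict hM P (Subgroup.normalizer (P : Set G)) hP hPN hCN ξ
  have hind := isInducedBlock_of_omega_restrict hM hBe (Subgroup.normalizer (P : Set G)) hPN hCN le_rfl hξ θ hθ
  have hom := omega_sbc_orbitUnion_of_omega_restrict hM P (Subgroup.normalizer (P : Set G)) hCN hNC he hξ θ hθ
  have hcoef := blockCoeff_eq_sbc_orbitUnion hM P (Subgroup.normalizer (P : Set G)) hP hPN hCN le_rfl hNC he θ hom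
  have hb'B : Cfsg.IsPBlock M (Cfsg.blockOf M (θ : (Subgroup.normalizer (P : Set G)) → ℂ)) := ⟨θ, rfl⟩
  obtain ⟨S, hS⟩ := Helper16.exists_isDefectGroup (p := p) hMm hb'B
  haveI : (P.subgroupOf (Subgroup.normalizer (P : Set G))).Normal := Subgroup.normal_subgroupOf_of_le_normalizer le_rfl
  have hPS : P.subgroupOf (Subgroup.normalizer (P : Set G)) ≤ S :=
    Helper16.normal_pSubgroup_le_defectGroup hM (P.subgroupOf (Subgroup.normalizer (P : Set G))) hP.comap_subtype hb'B hS
  by_cases hSP : S = P.subgroupOf (Subgroup.normalizer (P : Set G))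
  · rw [hSP] at hS
    exact Helper16.fmt_defectGroup hM P hP hind hS
  · exfalso
    obtain ⟨l, hl, hSl, -, hSp⟩ := Helper16.isDefectGroup_exists_data hS
    have hl2 : ¬ Cfsg.MemLocalIdeal M
        (Cfsg.subgroupBlockCoeff (Subgroup.centralizer (P : Set G)) (orbitUnion hNC e) (l : G)) := by
      rw [← hcoef l]
      exact hl.2.1
    have hlC : (l : G) ∈ (Subgroup.centralizer (P : Set G)) := by
      by_contra h
      rw [sbc_of_not_mem _ _ h] at hl2
      exact hl2 (memLocalIdeal_zero hMm)
    have hSGp : IsPGroup p (S.map (Subgroup.normalizer (P : Set G)).subtype) := hSp.map _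
    have hSGN : S.map (Subgroup.normalizer (P : Set G)).subtype ≤ (Subgroup.normalizer (P : Set G)) := by
      rintro _ ⟨s, -, rfl⟩
      exact s.2
    have hSGC : S.map (Subgroup.normalizer (P : Set G)).subtype ≤ Subgroup.normalizer (((Subgroup.centralizer (P : Set G)) : Subgroup G) : Set G) :=
      hSGN.trans hNC
    have hPSG : P ≤ S.map (Subgroup.normalizer (P : Set G)).subtype := by
      intro u hu
      exact ⟨⟨u, hPN hu⟩, hPS (Subgroup.mem_subgroupOf.mpr hu), rfl⟩
    have hSGl : ∀ s ∈ S.map (Subgroup.normalizer (P : Set G)).subtype, s * (l : G) = (l : G) * s := by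
      rintro _ ⟨s, hs, rfl⟩
      have := Subgroup.mem_centralizer_iff.mp (hSl hs) l (Set.mem_singleton l)
      exact (congrArg Subtype.val this).symm
    letI : Fintype (Cfsg.IrrCharacter (Subgroup.centralizer (P : Set G))) := Fintype.ofFinite _
    letI := setAction hSGC
    have hsum : ∑ f : Set (Cfsg.IrrCharacter (Subgroup.centralizer (P : Set G))),
        (if Cfsg.IsPBlock M f ∧ f ⊆ orbitUnion hNC e
          then Cfsg.subgroupBlockCoeff (Subgroup.centralizer (P : Set G)) f (l : G) else 0)
        = Cfsg.subgroupBlockCoeff (Subgroup.centralizer (P : Set G)) (orbitUnion hNC e) (l : G) := by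
      rw [sbc_of_mem _ _ hlC, ← sum_blocks_subset_blockCoeff hMm (orbitUnion_closed hMm hNC he)]
      refine Finset.sum_congr rfl fun f _ => ?_
      rw [sbc_of_mem _ _ hlC]
    have hFinv : ∀ (u : S.map (Subgroup.normalizer (P : Set G)).subtype) (f : Set (Cfsg.IrrCharacter (Subgroup.centralizer (P : Set G)))),
        (if Cfsg.IsPBlock M (u • f) ∧ u • f ⊆ orbitUnion hNC e
          then Cfsg.subgroupBlockCoeff (Subgroup.centralizer (P : Set G)) (u • f) (l : G) else 0)
        = (if Cfsg.IsPBlock M f ∧ f ⊆ orbitUnion hNC e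
          then Cfsg.subgroupBlockCoeff (Subgroup.centralizer (P : Set G)) f (l : G) else 0) := by
      intro u f
      have hi : Cfsg.IsPBlock M (u • f) ↔ Cfsg.IsPBlock M f := by
        constructor
        · intro h
          have h2 := isPBlock_image_conjIrr (Subgroup.centralizer (P : Set G)) (Subgroup.inclusion hSGC u⁻¹) h
          have h3 : u⁻¹ • (u • f) = f := inv_smul_smul u f
          rw [← h3]
          exact h2
        · intro h
          exact isPBlock_image_conjIrr (Subgroup.centralizer (P : Set G)) (Subgroup.inclusion hSGC u) h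
      have hii : u • f ⊆ orbitUnion hNC e ↔ f ⊆ orbitUnion hNC e := by
        constructor
        · intro h ψ hψ
          have h1 : conjIrr (Subgroup.centralizer (P : Set G)) (Subgroup.inclusion hSGC u) ψ ∈ orbitUnion hNC e :=
            h ⟨ψ, hψ, rfl⟩
          have h2 := conjIrr_mem_orbitUnion hNC e (⟨(u : G), hSGN u.2⟩ : (Subgroup.normalizer (P : Set G)))⁻¹ h1
          rw [map_inv] at h2
          have h3 : Subgroup.inclusion hNC ⟨(u : G), hSGN u.2⟩ = Subgroup.inclusion hSGC u := rfl
          rw [h3, conjIrr_inv_conjIrr] at h2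
          exact h2
        · rintro h _ ⟨ψ, hψ, rfl⟩
          exact conjIrr_mem_orbitUnion hNC e ⟨(u : G), hSGN u.2⟩ (h hψ)
      have hiii : Cfsg.subgroupBlockCoeff (Subgroup.centralizer (P : Set G)) (u • f) (l : G)
          = Cfsg.subgroupBlockCoeff (Subgroup.centralizer (P : Set G)) f (l : G) := by
        have h2 := subgroupBlockCoeff_image_conjIrr (Subgroup.centralizer (P : Set G)) (Subgroup.inclusion hSGC u) f (l : G)
        have h3 : ((Subgroup.inclusion hSGC u :
            Subgroup.normalizer (((Subgroup.centralizer (P : Set G)) : Subgroup G) : Set G)) : G) * (l : G)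
            * ((Subgroup.inclusion hSGC u :
              Subgroup.normalizer (((Subgroup.centralizer (P : Set G)) : Subgroup G) : Set G)) : G)⁻¹ = (l : G) := by
          show (u : G) * (l : G) * (u : G)⁻¹ = (l : G)
          rw [hSGl u u.2]
          group
        rw [h3] at h2
        exact h2
      rw [hiii]
      exact if_congr (and_congr hi hii) rfl rfl
    have hFloc : ∀ f : Set (Cfsg.IrrCharacter (Subgroup.centralizer (P : Set G))), Cfsg.MemLocalRing M
        (if Cfsg.IsPBlock M f ∧ f ⊆ orbitUnion hNC e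
          then Cfsg.subgroupBlockCoeff (Subgroup.centralizer (P : Set G)) f (l : G) else 0) := by
      intro f
      split_ifs with h
      · exact sbc_memLocalRing hMm _ h.1 _
      · exact memLocalRing_zero hMm
    have hex : ∃ f : Set (Cfsg.IrrCharacter (Subgroup.centralizer (P : Set G))), (∀ u : S.map (Subgroup.normalizer (P : Set G)).subtype, u • f = f) ∧
        ¬ Cfsg.MemLocalIdeal M (if Cfsg.IsPBlock M f ∧ f ⊆ orbitUnion hNC e
          then Cfsg.subgroupBlockCoeff (Subgroup.centralizer (P : Set G)) f (l : G) else 0) := by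
      by_contra hcon
      push_neg at hcon
      have := sum_memLocalIdeal_of_isPGroup hM hSGp _ hFinv hFloc hcon
      rw [hsum] at this
      exact hl2 this
    obtain ⟨f', hfix, hFf'⟩ := hex
    have hf' : Cfsg.IsPBlock M f' ∧ f' ⊆ orbitUnion hNC e := by
      by_contra h
      apply hFf'
      rw [if_neg h]
      exact memLocalIdeal_zero hMm
    rw [if_pos hf'] at hFf'
    obtain ⟨x, hx⟩ := exists_conj_eq_of_subset_orbitUnion hMm hNC he hf'.1 hf'.2
    have hRp : IsPGroup p ((S.map (Subgroup.normalizer (P : Set G)).subtype).map (MulAut.conj (x : G)).toMonoidHom) :=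
      hSGp.map _
    have hPR : P ≤ (S.map (Subgroup.normalizer (P : Set G)).subtype).map (MulAut.conj (x : G)).toMonoidHom := by
      intro u hu
      refine ⟨(x : G)⁻¹ * u * (x : G), hPSG ?_, ?_⟩
      · have h1 := (Subgroup.mem_normalizer_iff.mp ((Subgroup.normalizer (P : Set G)).inv_mem x.2) u).mp hu
        rwa [inv_inv] at h1
      · show (x : G) * ((x : G)⁻¹ * u * (x : G)) * (x : G)⁻¹ = u
        group
    have hRN : (S.map (Subgroup.normalizer (P : Set G)).subtype).map (MulAut.conj (x : G)).toMonoidHom ≤ (Subgroup.normalizer (P : Set G)) := by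
      rintro _ ⟨s, hs, rfl⟩
      exact (Subgroup.normalizer (P : Set G)).mul_mem ((Subgroup.normalizer (P : Set G)).mul_mem x.2 (hSGN hs)) ((Subgroup.normalizer (P : Set G)).inv_mem x.2)
    have hRst : ∀ r ∈ (S.map (Subgroup.normalizer (P : Set G)).subtype).map (MulAut.conj (x : G)).toMonoidHom,
        Cfsg.StabilizesBlock (Subgroup.centralizer (P : Set G)) e r := by
      rintro _ ⟨s, hs, rfl⟩
      have h3 : conjIrr (Subgroup.centralizer (P : Set G)) (Subgroup.inclusion hSGC ⟨s, hs⟩) '' f' = f' := hfix ⟨s, hs⟩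
      have h2 : conjIrr (Subgroup.centralizer (P : Set G)) (Subgroup.inclusion hNC x * Subgroup.inclusion hSGC ⟨s, hs⟩
          * (Subgroup.inclusion hNC x)⁻¹) '' e = e := by
        calc conjIrr (Subgroup.centralizer (P : Set G)) (Subgroup.inclusion hNC x * Subgroup.inclusion hSGC ⟨s, hs⟩
              * (Subgroup.inclusion hNC x)⁻¹) '' e
            = conjIrr (Subgroup.centralizer (P : Set G)) (Subgroup.inclusion hNC x * Subgroup.inclusion hSGC ⟨s, hs⟩
              * (Subgroup.inclusion hNC x)⁻¹) '' (conjIrr (Subgroup.centralizer (P : Set G)) (Subgroup.inclusion hNC x) '' f') := by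
              rw [hx]
          _ = conjIrr (Subgroup.centralizer (P : Set G)) (Subgroup.inclusion hNC x)
              '' (conjIrr (Subgroup.centralizer (P : Set G)) (Subgroup.inclusion hSGC ⟨s, hs⟩) '' f') := by
              rw [Set.image_image, Set.image_image]
              refine Set.image_congr fun ψ _ => ?_
              rw [← conjIrr_mul, ← conjIrr_mul, inv_mul_cancel_right]
          _ = e := by rw [h3, hx]
      exact (image_conjIrr_eq_iff (Subgroup.centralizer (P : Set G)) e _).mp h2
    have hRne : (S.map (Subgroup.normalizer (P : Set G)).subtype).map (MulAut.conj (x : G)).toMonoidHom ≠ P := by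
      intro h
      apply hSP
      symm
      apply Subgroup.eq_of_le_of_card_ge hPS
      apply le_of_eq
      calc Nat.card S = Nat.card (S.map (Subgroup.normalizer (P : Set G)).subtype) :=
            (Subgroup.card_map_of_injective (Subgroup.subtype_injective _)).symm
        _ = Nat.card ((S.map (Subgroup.normalizer (P : Set G)).subtype).map (MulAut.conj (x : G)).toMonoidHom) :=
            (Subgroup.card_map_of_injective (MulAut.conj (x : G)).injective).symm
        _ = Nat.card P := by rw [h]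
        _ = Nat.card (P.subgroupOf (Subgroup.normalizer (P : Set G))) :=
            (Nat.card_congr (Subgroup.subgroupOfEquivOfLe hPN).toEquiv).symm
    have hcR : (x : G) * (l : G) * (x : G)⁻¹ ∈ Subgroup.centralizer
        (((S.map (Subgroup.normalizer (P : Set G)).subtype).map (MulAut.conj (x : G)).toMonoidHom : Subgroup G) : Set G) := by
      rw [Subgroup.mem_centralizer_iff]
      rintro _ ⟨s, hs, rfl⟩
      show (x : G) * s * (x : G)⁻¹ * ((x : G) * (l : G) * (x : G)⁻¹)
        = (x : G) * (l : G) * (x : G)⁻¹ * ((x : G) * s * (x : G)⁻¹)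
      calc (x : G) * s * (x : G)⁻¹ * ((x : G) * (l : G) * (x : G)⁻¹)
          = (x : G) * (s * (l : G)) * (x : G)⁻¹ := by group
        _ = (x : G) * ((l : G) * s) * (x : G)⁻¹ := by rw [hSGl s hs]
        _ = _ := by group
    have hcne : ¬ Cfsg.MemLocalIdeal M
        (Cfsg.subgroupBlockCoeff (Subgroup.centralizer (P : Set G)) e ((x : G) * (l : G) * (x : G)⁻¹)) := by
      have h1 := subgroupBlockCoeff_image_conjIrr (Subgroup.centralizer (P : Set G)) (Subgroup.inclusion hNC x) f' (l : G)
      rw [hx] at h1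
      intro h
      apply hFf'
      rw [← h1]
      exact h
    obtain ⟨g, hg⟩ := exists_isNormalSubpair_above hM ⟨hP, he⟩ hRp hPR hRN hRst _ hcR hcne
    have hBg := (isBrauerPairOf_iff_of_isNormalSubpair hM hg B hB).mpr hBe
    exact hRne (hmx _ g hBg (Relation.ReflTransGen.single hg))

end Cfsg.Agent.Helper77
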