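import Cfsg.Agent.Helper77.BlockFS
import Cfsg.Agent.Helper73.CentralDefect
import Cfsg.Agent.Helper75.CanonChar

/-!
# Maximal Brauer pairs and canonical characters (S4828)

* `canonical_of_isMaximalBrauerPair`: for a maximal Brauer pair `(Q, e)`, the block `e` has
  defect group `Z(Q)` and contains a character with `Z(Q)` in its kernel, of defect zero as a
  character of `C_G(Q) / Z(Q)`; and the `p`-elements of the stabilizer of `e` lie in `Q C_G(Q)`.
* `isMaximalBrauerPair_of_canonical`: the converse.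
-/

set_option autoImplicit false
set_option linter.style.haveILetI false
set_option maxHeartbeats 1000000
open Cfsg

namespace Cfsg.Agent.Helper77

universe u

variable {G : Type u} [Group G] [Fintype G]

omit [Fintype G] in
theorem center_inf_centralizer_le_center (Q : Subgroup G) :
    ((Q ⊓ Subgroup.centralizer (Q : Set G)).subgroupOf (Subgroup.centralizer (Q : Set G))) ≤ Subgroup.center (Subgroup.centralizer (Q : Set G)) := by
  intro z hz
  rw [Subgroup.mem_center_iff]
  intro c
  have h1 := Subgroup.mem_centralizer_iff.mp c.2 (z : G) (Subgroup.mem_subgroupOf.mp hz).1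
  apply Subtype.ext
  exact h1.symm

theorem factorization_card_centralizer_eq (Q : Subgroup G) (p : ℕ) :
    (Nat.card (Subgroup.centralizer (Q : Set G))).factorization p
      = (Nat.card ↥(Q ⊓ (Subgroup.centralizer (Q : Set G)))).factorization p + (((Q ⊓ Subgroup.centralizer (Q : Set G)).subgroupOf (Subgroup.centralizer (Q : Set G)))).index.factorization p := by
  have h1 : Nat.card ((Q ⊓ Subgroup.centralizer (Q : Set G)).subgroupOf (Subgroup.centralizer (Q : Set G))) * (((Q ⊓ Subgroup.centralizer (Q : Set G)).subgroupOf (Subgroup.centralizer (Q : Set G)))).index = Nat.card (Subgroup.centralizer (Q : Set G)) := Subgroup.card_mul_index _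
  rw [← h1, card_subgroupOf_inf, Nat.factorization_mul Nat.card_pos.ne'
    Subgroup.index_ne_zero_of_finite, Finsupp.add_apply]

/-- **A maximal Brauer pair has a canonical character.** -/
theorem canonical_of_isMaximalBrauerPair {p : ℕ} [Fact p.Prime] {M : Ideal Cfsg.AlgInt}
    (hM : Cfsg.IsPModular p M) {B : Set (Cfsg.IrrCharacter G)} {Q : Subgroup G}
    {e : Set (Cfsg.IrrCharacter (Subgroup.centralizer (Q : Set G)))} (hmax : Cfsg.IsMaximalBrauerPair p M B Q e) :
    ∃ θ ∈ e, (∀ z : (Subgroup.centralizer (Q : Set G)), (z : G) ∈ Q → (θ : (Subgroup.centralizer (Q : Set G)) → ℂ) z = (θ : (Subgroup.centralizer (Q : Set G)) → ℂ) 1) ∧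
      (Cfsg.charDegree (θ : (Subgroup.centralizer (Q : Set G)) → ℂ)).factorization p
          + (Nat.card ↥(Q ⊓ (Subgroup.centralizer (Q : Set G)))).factorization p = (Nat.card (Subgroup.centralizer (Q : Set G))).factorization p ∧
      (∀ g : G, g ∈ Subgroup.normalizer (Q : Set G) → Cfsg.StabilizesBlock (Subgroup.centralizer (Q : Set G)) e g →
        (∃ k : ℕ, orderOf g = p ^ k) → g ∈ Q ⊔ (Subgroup.centralizer (Q : Set G))) := by
  classical
  letI : Fintype (Subgroup.centralizer (Q : Set G)) := Fintype.ofFinite _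
  have hp : p.Prime := Fact.out
  have he := hmax.1.1
  have hZp : IsPGroup p ((Q ⊓ Subgroup.centralizer (Q : Set G)).subgroupOf (Subgroup.centralizer (Q : Set G))) := (he.1.to_le inf_le_left).comap_subtype
  have hZc := center_inf_centralizer_le_center Q
  have hF := isBlockFusionSystemOn_blockFusionSystem hM hmax
  have hcent : (blockFusionSystem hM hmax).IsCentric Q := by
    refine ⟨le_rfl, fun Q' hQ' => ?_⟩
    obtain ⟨g, rfl, hle'⟩ := (isConj_iff_of_isBlockFusionSystemOn hM hF le_rfl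
      Relation.ReflTransGen.refl Q').mp hQ'
    have hle2 : Q.map (MulAut.conj g).toMonoidHom ≤ Q :=
      Helper75.subpairLE_fst_le (a := ⟨_, _⟩) (b := ⟨Q, e⟩) hle'
    have heq : Q.map (MulAut.conj g).toMonoidHom = Q :=
      Subgroup.eq_of_le_of_card_ge hle2 (by rw [card_map_conj])
    rw [heq]
    exact inf_le_left
  have hDZ : Cfsg.IsDefectGroup p M e ((Q ⊓ Subgroup.centralizer (Q : Set G)).subgroupOf (Subgroup.centralizer (Q : Set G))) :=
    (isCentric_iff hM hF le_rfl Relation.ReflTransGen.refl).mp hcent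
  have hG : ((Q ⊓ Subgroup.centralizer (Q : Set G)).subgroupOf (Subgroup.centralizer (Q : Set G))) ⊔ Subgroup.centralizer ((((Q ⊓ Subgroup.centralizer (Q : Set G)).subgroupOf (Subgroup.centralizer (Q : Set G))) : Subgroup (Subgroup.centralizer (Q : Set G))) : Set (Subgroup.centralizer (Q : Set G))) = ⊤ := by
    have h1 : Subgroup.centralizer ((((Q ⊓ Subgroup.centralizer (Q : Set G)).subgroupOf (Subgroup.centralizer (Q : Set G))) : Subgroup (Subgroup.centralizer (Q : Set G))) : Set (Subgroup.centralizer (Q : Set G))) = ⊤ := by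
      rw [eq_top_iff]
      intro c _
      rw [Subgroup.mem_centralizer_iff]
      intro z hz
      exact (Subgroup.mem_center_iff.mp (hZc hz) c).symm
    rw [h1]
    exact sup_top_eq _
  obtain ⟨⟨θ, ⟨hθe, hθZ⟩, -⟩, hdeg, -⟩ := Helper75.canonical_character hM ((Q ⊓ Subgroup.centralizer (Q : Set G)).subgroupOf (Subgroup.centralizer (Q : Set G))) hZp hG he.2 hDZ
  refine ⟨θ, hθe, fun z hz => hθZ z (Subgroup.mem_subgroupOf.mpr ⟨hz, z.2⟩), ?_, ?_⟩
  · have h1 := hdeg θ hθe hθZ
    rw [factorization_card_centralizer_eq Q p, h1]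
    exact add_comm _ _
  · intro g hgN hgst ⟨k, hk⟩
    obtain ⟨T, hT⟩ : ∃ T : Subgroup G, ∀ y : G, y ∈ T ↔ y ∈ Subgroup.normalizer (Q : Set G) ∧
        Cfsg.StabilizesBlock (Subgroup.centralizer (Q : Set G)) e y := ⟨(Subgroup.normalizer (Q : Set G) ⊓ stabSubgroup (Subgroup.centralizer (Q : Set G)) e), fun y => Iff.rfl⟩
    obtain ⟨FT, hFT, hFc⟩ := exists_block_of_isStabilizer hM he _ hT
    have hDT := isDefectGroup_stabilizer_of_isMaximalBrauerPair hM hmax _ hT hFT hFc
    have hnd := stabilizer_index_not_dvd hM he.2 _ hT hFT hFc hDT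
    have hTN : T ≤ Subgroup.normalizer (Q : Set G) := fun y hy => ((hT y).1 hy).1
    have hTNC : T ≤ Subgroup.normalizer (((Subgroup.centralizer (Q : Set G)) : Subgroup G) : Set G) := fun y hy =>
      Helper75.normalizer_le_normalizer_centralizer' Q (hTN hy)
    haveI : (Q.subgroupOf T).Normal := Subgroup.normal_subgroupOf_of_le_normalizer hTN
    haveI : (((Subgroup.centralizer (Q : Set G))).subgroupOf T).Normal := Subgroup.normal_subgroupOf_of_le_normalizer hTNC
    have hgT : g ∈ T := (hT g).2 ⟨hgN, hgst⟩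
    have h1 : ((⟨g, hgT⟩ : T) : T ⧸ (Q.subgroupOf T ⊔ ((Subgroup.centralizer (Q : Set G))).subgroupOf T)) ^ (p ^ k) = 1 := by
      rw [← QuotientGroup.mk_pow]
      have h0 : (⟨g, hgT⟩ : T) ^ p ^ k = 1 := by
        apply Subtype.ext
        show g ^ p ^ k = 1
        rw [← hk]
        exact pow_orderOf_eq_one g
      rw [h0]
      rfl
    have h2 : ((⟨g, hgT⟩ : T) : T ⧸ (Q.subgroupOf T ⊔ ((Subgroup.centralizer (Q : Set G))).subgroupOf T))
        ^ (Q.subgroupOf T ⊔ ((Subgroup.centralizer (Q : Set G))).subgroupOf T).index = 1 := by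
      rw [Subgroup.index_eq_card]
      exact pow_card_eq_one'
    have h3 := pow_gcd_eq_one.mpr ⟨h1, h2⟩
    have hg1 : Nat.gcd (p ^ k) (Q.subgroupOf T ⊔ ((Subgroup.centralizer (Q : Set G))).subgroupOf T).index = 1 :=
      Nat.Coprime.pow_left k ((Nat.Prime.coprime_iff_not_dvd hp).mpr hnd)
    rw [hg1, pow_one] at h3
    have htX : (⟨g, hgT⟩ : T) ∈ Q.subgroupOf T ⊔ ((Subgroup.centralizer (Q : Set G))).subgroupOf T :=
      (QuotientGroup.eq_one_iff _).mp h3
    have h4 : g ∈ (Q.subgroupOf T ⊔ ((Subgroup.centralizer (Q : Set G))).subgroupOf T).map T.subtype :=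
      ⟨⟨g, hgT⟩, htX, rfl⟩
    rw [Subgroup.map_sup] at h4
    have h5 : (Q.subgroupOf T).map T.subtype ≤ Q := by
      rintro _ ⟨y, hy, rfl⟩
      exact Subgroup.mem_subgroupOf.mp hy
    have h6 : (((Subgroup.centralizer (Q : Set G))).subgroupOf T).map T.subtype ≤ (Subgroup.centralizer (Q : Set G)) := by
      rintro _ ⟨y, hy, rfl⟩
      exact Subgroup.mem_subgroupOf.mp hy
    exact (sup_le_sup h5 h6 : _ ≤ Q ⊔ (Subgroup.centralizer (Q : Set G))) h4

/-- **A Brauer pair with a canonical character and `p'`-index of `Q C_G(Q)` in its stabilizer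
is a maximal Brauer pair.** -/
theorem isMaximalBrauerPair_of_canonical {p : ℕ} [Fact p.Prime] {M : Ideal Cfsg.AlgInt}
    (hM : Cfsg.IsPModular p M) {Q : Subgroup G}
    {e : Set (Cfsg.IrrCharacter (Subgroup.centralizer (Q : Set G)))} (he : Cfsg.IsBrauerPair p M Q e)
    (θ : Cfsg.IrrCharacter (Subgroup.centralizer (Q : Set G))) (hθ : θ ∈ e)
    (hdeg : (Cfsg.charDegree (θ : (Subgroup.centralizer (Q : Set G)) → ℂ)).factorization p
      + (Nat.card ↥(Q ⊓ (Subgroup.centralizer (Q : Set G)))).factorization p = (Nat.card (Subgroup.centralizer (Q : Set G))).factorization p)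
    (hpel : ∀ g : G, g ∈ Subgroup.normalizer (Q : Set G) → Cfsg.StabilizesBlock (Subgroup.centralizer (Q : Set G)) e g →
      (∃ k : ℕ, orderOf g = p ^ k) → g ∈ Q ⊔ (Subgroup.centralizer (Q : Set G))) :
    ∃ B : Set (Cfsg.IrrCharacter G), Cfsg.IsMaximalBrauerPair p M B Q e := by
  classical
  letI : Fintype (Subgroup.centralizer (Q : Set G)) := Fintype.ofFinite _
  have hp : p.Prime := Fact.out
  have hMm := hM.2.1
  have hZp : IsPGroup p ((Q ⊓ Subgroup.centralizer (Q : Set G)).subgroupOf (Subgroup.centralizer (Q : Set G))) := (he.1.to_le inf_le_left).comap_subtype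
  have hZc := center_inf_centralizer_le_center Q
  have hidx : (Cfsg.charDegree (θ : (Subgroup.centralizer (Q : Set G)) → ℂ)).factorization p
      = (((Q ⊓ Subgroup.centralizer (Q : Set G)).subgroupOf (Subgroup.centralizer (Q : Set G)))).index.factorization p := by
    have h1 := factorization_card_centralizer_eq Q p
    omega
  have hDZ : Cfsg.IsDefectGroup p M (Cfsg.blockOf M (θ : (Subgroup.centralizer (Q : Set G)) → ℂ)) ((Q ⊓ Subgroup.centralizer (Q : Set G)).subgroupOf (Subgroup.centralizer (Q : Set G))) :=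
    Helper73.central_defect_group hM ((Q ⊓ Subgroup.centralizer (Q : Set G)).subgroupOf (Subgroup.centralizer (Q : Set G))) hZp hZc θ hidx
  have hblock : Cfsg.blockOf M (θ : (Subgroup.centralizer (Q : Set G)) → ℂ) = e :=
    (Helper16.eq_blockOf_of_mem hMm he.2 hθ).symm
  rw [hblock] at hDZ
  obtain ⟨B, hB, -⟩ := existsUnique_isBrauerPairOf hM Q e he
  obtain ⟨P, ε, hmax, hle⟩ := exists_isMaximalBrauerPair_ge hB
  have hQP : Q ≤ P := Helper75.subpairLE_fst_le (a := ⟨Q, e⟩) (b := ⟨P, ε⟩) hle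
  by_cases hQeq : Q = P
  · have h1 : (⟨Q, e⟩ : Cfsg.BrauerPairIdx G) = ⟨P, ε⟩ :=
      eq_of_subpairLE_of_card_eq hM hmax.1.1 hle (by rw [hQeq])
    refine ⟨B, ?_⟩
    have h2 : ∀ a : Cfsg.BrauerPairIdx G, a = ⟨P, ε⟩ →
        Cfsg.IsMaximalBrauerPair p M B a.1 a.2 := by
      rintro a rfl
      exact hmax
    exact h2 ⟨Q, e⟩ h1
  · exfalso
    have hlt : Q < P := lt_of_le_of_ne hQP hQeq
    obtain ⟨u, huP, huN, huQ⟩ := Helper75.exists_normalizer_not_mem P Q hmax.1.1.1 hlt
    have hQN : Q ≤ P ⊓ Subgroup.normalizer (Q : Set G) := le_inf hQP Subgroup.le_normalizer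
    obtain ⟨ε', hns, -⟩ := isNormalSubpair_of_subpairLE_of_le hM hmax.1.1 hle hQN
      inf_le_left inf_le_right
    have hust : Cfsg.StabilizesBlock (Subgroup.centralizer (Q : Set G)) e u := hns.2.2.2.2.1 u ⟨huP, huN⟩
    have hupow : ∃ k : ℕ, orderOf u = p ^ k := by
      obtain ⟨k, hk⟩ := hmax.1.1.1 ⟨u, huP⟩
      have h1 : u ^ p ^ k = 1 := congrArg Subtype.val hk
      obtain ⟨j, -, hj⟩ := (Nat.dvd_prime_pow hp).mp (orderOf_dvd_of_pow_eq_one h1)
      exact ⟨j, hj⟩
    have huQC := hpel u huN hust hupow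
    have hQC : Q ≤ Subgroup.normalizer (((Subgroup.centralizer (Q : Set G)) : Subgroup G) : Set G) := fun q hq =>
      Helper75.normalizer_le_normalizer_centralizer' Q (Subgroup.le_normalizer hq)
    have hsup : Q ⊔ (Subgroup.centralizer (Q : Set G)) ≤ mulSubgroup Q (Subgroup.centralizer (Q : Set G)) hQC :=
      sup_le (fun q hq => ⟨q, hq, 1, Subgroup.one_mem _, (mul_one q).symm⟩)
        (fun c hc => ⟨1, Subgroup.one_mem _, c, hc, (one_mul c).symm⟩)
    obtain ⟨q, hq, c, hc, huqc⟩ := hsup huQC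
    have hcP : c ∈ P := by
      have h1 : c = q⁻¹ * u := by
        rw [huqc]
        group
      rw [h1]
      exact P.mul_mem (P.inv_mem (hQP hq)) huP
    have hcQ : c ∉ Q := fun h => huQ (by
      rw [huqc]
      exact Q.mul_mem hq h)
    obtain ⟨D, hD, hPD⟩ := exists_isDefectGroup_centralizer_ge hM hmax.1.1 hQP hle
    haveI : (((Q ⊓ Subgroup.centralizer (Q : Set G)).subgroupOf (Subgroup.centralizer (Q : Set G)))).Normal := ⟨fun n hn g => by
      have h1 := Subgroup.mem_center_iff.mp (hZc hn) g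
      have h2 : g * n * g⁻¹ = n := by
        rw [h1]
        group
      rw [h2]
      exact hn⟩
    have hZD : ((Q ⊓ Subgroup.centralizer (Q : Set G)).subgroupOf (Subgroup.centralizer (Q : Set G))) ≤ D := Helper16.normal_pSubgroup_le_defectGroup hM ((Q ⊓ Subgroup.centralizer (Q : Set G)).subgroupOf (Subgroup.centralizer (Q : Set G))) hZp he.2 hD
    have hcard := Helper16.isDefectGroup_card_eq hM he.2 hDZ hD
    have hDZeq : ((Q ⊓ Subgroup.centralizer (Q : Set G)).subgroupOf (Subgroup.centralizer (Q : Set G))) = D := Subgroup.eq_of_le_of_card_ge hZD hcard.ge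
    have hcD : (⟨c, hc⟩ : (Subgroup.centralizer (Q : Set G))) ∈ D := hPD (Subgroup.mem_subgroupOf.mpr ⟨hcP, hc⟩)
    rw [← hDZeq] at hcD
    exact hcQ (Subgroup.mem_subgroupOf.mp hcD).1

end Cfsg.Agent.Helper77
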