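import Cfsg.Agent.Helper55.N9Defs
import Cfsg.Prelude.Def_Solvable
import Cfsg.Agent.Helper1.Basic
import Cfsg.Agent.S0020

set_option autoImplicit false

namespace Cfsg.Agent.Helper77.N9

open Subgroup Cfsg.Agent.Helper55.N9

section
variable {S : Type*} [Group S] [Finite S]

theorem n9_sylow_normal [Group.IsSolvable S]
    (h8 : ∃ A : Subgroup S, IsMulCommutative ↥A ∧ ¬ IsCyclic ↥A ∧ Nat.card ↥A = 8)
    (hmin : ∀ R : Subgroup S, R ≠ ⊤ → (∃ k : ℕ, R.index = 2 ^ k) →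
      ¬ ∃ A : Subgroup S, A ≤ R ∧ IsMulCommutative ↥A ∧ ¬ IsCyclic ↥A ∧ Nat.card ↥A = 8)
    (hhh : centralizer ((Cfsg.pCore 2 S : Subgroup S) : Set S) ≤ Cfsg.pCore 2 S)
    (hstruct : ∀ Y K : Subgroup S, IsPGroup 2 Y → Odd (Nat.card K) →
      K ≤ normalizer (Y : Set S) → NoA8 Y → ¬ Y ≤ centralizer (K : Set S) →
      MinCfg K Y ∧ (IsV4 Y ∨ IsQ8 Y))
    (hsmall : ∀ Q : Subgroup S, Q.Normal → IsV4 Q ∨ IsQ8 Q → centralizer (Q : Set S) ≤ Q →
      ∀ A : Subgroup S, IsMulCommutative ↥A → ¬ IsCyclic ↥A → Nat.card ↥A = 8 → False)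
    (X : Sylow 2 S) : (X : Subgroup S).Normal := by
  classical
  have hQn : (Cfsg.pCore 2 S).Normal := Cfsg.Agent.Helper1.pCore_normal 2
  have hQp : IsPGroup 2 (Cfsg.pCore 2 S) := Cfsg.Agent.Helper1.pCore_isPGroup 2
  haveI : Fact (Nat.Prime 2) := ⟨Nat.prime_two⟩
  obtain ⟨K, hK⟩ := Cfsg.Agent.S0020.exists_hall_compl (G := S) 2 Nat.prime_two
  obtain ⟨v, hv⟩ : ∃ v : ℕ, v = (Nat.card S).factorization 2 := ⟨_, rfl⟩
  rw [← hv] at hK
  have hKodd : Odd (Nat.card K) := by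
    have h1 : Nat.card K * K.index = Nat.card S := Subgroup.card_mul_index K
    rw [hK] at h1
    rw [Nat.odd_iff, ← Nat.two_dvd_ne_zero]
    intro h2
    have h3 : 2 ^ (v + 1) ∣ Nat.card K * 2 ^ v := by
      rw [pow_succ, mul_comm]
      exact mul_dvd_mul h2 (dvd_refl _)
    rw [h1, hv] at h3
    exact Nat.pow_succ_factorization_not_dvd Nat.card_pos.ne' Nat.prime_two h3
  have hQX : Cfsg.pCore 2 S ≤ (X : Subgroup S) := by
    rw [Cfsg.Agent.Helper1.pCore_eq_iInf_sylow]; exact iInf_le _ X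
  by_cases hR : Cfsg.pCore 2 S ⊔ K = ⊤
  · have h1 : (Cfsg.pCore 2 S).relIndex (Cfsg.pCore 2 S ⊔ K) = (Cfsg.pCore 2 S).relIndex K :=
      Subgroup.relIndex_sup_left K (Cfsg.pCore 2 S)
    rw [hR, Subgroup.relIndex_top_right] at h1
    have h2 : (Cfsg.pCore 2 S).index ∣ Nat.card K := by
      rw [h1]; exact Subgroup.relIndex_dvd_card _ K
    have hQiodd : Odd (Cfsg.pCore 2 S).index := hKodd.of_dvd_nat h2
    have h3 : (Cfsg.pCore 2 S).relIndex X * (X : Subgroup S).index = (Cfsg.pCore 2 S).index :=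
      Subgroup.relIndex_mul_index hQX
    have h4 : (Cfsg.pCore 2 S).relIndex X ∣ Nat.card (X : Subgroup S) :=
      Subgroup.relIndex_dvd_card _ _
    obtain ⟨n, hn⟩ := IsPGroup.iff_card.mp X.isPGroup'
    rw [hn] at h4
    obtain ⟨j, -, hj⟩ := (Nat.dvd_prime_pow Nat.prime_two).mp h4
    have h5 : Odd ((Cfsg.pCore 2 S).relIndex X) := hQiodd.of_dvd_nat (Dvd.intro _ h3)
    have hj0 : j = 0 := by
      by_contra hne
      rw [hj] at h5
      exact (Nat.not_even_iff_odd.mpr h5) ((Nat.even_pow).mpr ⟨even_two, hne⟩)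
    rw [hj0, pow_zero] at hj
    have hXQ : (X : Subgroup S) ≤ Cfsg.pCore 2 S := Subgroup.relIndex_eq_one.mp hj
    have hXeq : (X : Subgroup S) = Cfsg.pCore 2 S := le_antisymm hXQ hQX
    rw [hXeq]; exact hQn
  · exfalso
    have hKR : K ≤ Cfsg.pCore 2 S ⊔ K := le_sup_right
    have hidx : ∃ k : ℕ, (Cfsg.pCore 2 S ⊔ K).index = 2 ^ k := by
      have h1 : (Cfsg.pCore 2 S ⊔ K).index ∣ K.index := Subgroup.index_dvd_of_le hKR
      rw [hK] at h1
      obtain ⟨j, -, hj⟩ := (Nat.dvd_prime_pow Nat.prime_two).mp h1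
      exact ⟨j, hj⟩
    have hno := hmin (Cfsg.pCore 2 S ⊔ K) hR hidx
    have hNoQ : NoA8 (Cfsg.pCore 2 S) := by
      rintro ⟨A, hA, h1, h2, h3⟩
      exact hno ⟨A, hA.trans le_sup_left, h1, h2, h3⟩
    have hKQ : K ≤ normalizer ((Cfsg.pCore 2 S : Subgroup S) : Set S) := by
      rw [Subgroup.normalizer_eq_top]; exact le_top
    have hncent : ¬ Cfsg.pCore 2 S ≤ centralizer (K : Set S) := by
      intro hc
      have hKc : K ≤ centralizer ((Cfsg.pCore 2 S : Subgroup S) : Set S) :=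
        Subgroup.le_centralizer_iff.mp hc
      have hKQ' : K ≤ Cfsg.pCore 2 S := hKc.trans hhh
      have hK2 : IsPGroup 2 K := hQp.to_le hKQ'
      obtain ⟨n, hn⟩ := IsPGroup.iff_card.mp hK2
      have hn0 : n = 0 := by
        by_contra hne
        rw [hn] at hKodd
        exact (Nat.not_even_iff_odd.mpr hKodd) ((Nat.even_pow).mpr ⟨even_two, hne⟩)
      rw [hn0, pow_zero] at hn
      have hS : Nat.card S = 2 ^ v := by
        have h1 := Subgroup.card_mul_index K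
        rw [hn, one_mul, hK] at h1
        exact h1.symm
      have hS2 : IsPGroup 2 S := IsPGroup.of_card hS
      have htop : (⊤ : Subgroup S) ≤ Cfsg.pCore 2 S :=
        Cfsg.Agent.Helper1.le_pCore Subgroup.normal_top (hS2.to_subgroup ⊤)
      apply hR
      rw [eq_top_iff]; exact htop.trans le_sup_left
    obtain ⟨-, hVQ⟩ := hstruct (Cfsg.pCore 2 S) K hQp hKodd hKQ hNoQ hncent
    obtain ⟨A, hA1, hA2, hA3⟩ := h8
    exact hsmall (Cfsg.pCore 2 S) hQn hVQ hhh A hA1 hA2 hA3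

end

end Cfsg.Agent.Helper77.N9
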