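import Mathlib
import Cfsg.Agent.Helper16.NGDefs
import Cfsg.Agent.S1450
import Cfsg.Agent.Helper51.Replace

set_option autoImplicit false

namespace Cfsg.Agent.Helper77.NGCASE2A

open Cfsg.Agent.Helper16.NG

/-- In a finite group `K` with a normal subgroup `N` of `3`-power index and order prime to `3`,
for a prime `p ≠ 3` every `3`-element normalizes some Sylow `p`-subgroup. -/
theorem ng_case2a_aux {K : Type*} [Group K] [Finite K] (N : Subgroup K) [N.Normal] (a : ℕ)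
    (hidx : N.index = 3 ^ a) (hN3 : ¬ 3 ∣ Nat.card N) (p : ℕ) [Fact p.Prime] (hp3 : p ≠ 3)
    (x : K) (hx3 : ∃ k : ℕ, orderOf x = 3 ^ k) :
    ∃ P : Sylow p K, x • P = P := by
  classical
  haveI : Fact (Nat.Prime 3) := ⟨Nat.prime_three⟩
  have hpN : ∀ Q : Subgroup K, IsPGroup p Q → Q ≤ N := by
    intro Q hQ e he
    have h1 : e ^ N.index ∈ N := Subgroup.pow_index_mem N e
    obtain ⟨j, hj⟩ := hQ ⟨e, he⟩
    have hj' : e ^ p ^ j = 1 := by simpa using congrArg Subtype.val hj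
    have hord : orderOf e ∣ p ^ j := orderOf_dvd_of_pow_eq_one hj'
    have hcop : Nat.Coprime N.index (orderOf e) := by
      rw [hidx]
      apply Nat.Coprime.coprime_dvd_right hord
      apply Nat.Coprime.pow
      exact (Nat.coprime_primes Nat.prime_three (Fact.out : p.Prime)).mpr (Ne.symm hp3)
    obtain ⟨m, hm⟩ := exists_pow_eq_self_of_coprime hcop
    rw [← hm]; exact N.pow_mem h1 m
  obtain ⟨P1⟩ : Nonempty (Sylow p K) := Sylow.nonempty
  have hP1N : (P1 : Subgroup K) ≤ N := hpN _ P1.isPGroup'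
  have hfrat := Sylow.normalizer_sup_eq_top (P1.subtype hP1N)
  have hmap : ((P1.subtype hP1N : Sylow p N) : Subgroup N).map N.subtype = (P1 : Subgroup K) := by
    rw [Sylow.coe_subtype]
    exact Subgroup.map_subgroupOf_eq_of_le hP1N
  rw [hmap] at hfrat
  have hcard : ¬ 3 ∣ Nat.card (Sylow p K) := by
    rw [Sylow.card_eq_index_normalizer P1]
    intro h3
    apply hN3
    have h1 := Cfsg.Agent.Helper51.card_sup_mul_card_inf_of_le_normalizer
      (Subgroup.normalizer ((P1 : Subgroup K) : Set K)) N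
      (le_of_le_of_eq le_top (Subgroup.normalizer_eq_top (H := N)).symm)
    rw [hfrat, Subgroup.card_top] at h1
    have h2 := Subgroup.card_mul_index (Subgroup.normalizer ((P1 : Subgroup K) : Set K))
    have h3' : (Subgroup.normalizer ((P1 : Subgroup K) : Set K)).index *
        Nat.card ↥(Subgroup.normalizer ((P1 : Subgroup K) : Set K) ⊓ N) = Nat.card N := by
      have hApos : 0 < Nat.card (Subgroup.normalizer ((P1 : Subgroup K) : Set K)) := Nat.card_pos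
      apply Nat.eq_of_mul_eq_mul_left hApos
      rw [← mul_assoc, h2, h1]
    rw [← h3']
    exact Dvd.dvd.mul_right h3 _
  have hz : IsPGroup 3 (Subgroup.zpowers x) := by
    obtain ⟨k, hk⟩ := hx3
    apply IsPGroup.of_card (n := k)
    rw [Nat.card_zpowers, hk]
  obtain ⟨P, hP⟩ := hz.nonempty_fixed_point_of_prime_not_dvd_card (Sylow p K) hcard
  exact ⟨P, hP ⟨x, Subgroup.mem_zpowers x⟩⟩

variable {S : Type*} [Group S]

theorem ng_case2a [Finite S] [Group.IsSolvable S] (H : Subgroup S) (hodd : Odd (Nat.card H)) (x : S)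
    (hxH : x ∈ H) (hx1 : x ≠ 1) (hx3 : ∃ k : ℕ, orderOf x = 3 ^ k) (hrk : Cfsg.PRankLE 3 2 ↥H)
    (p : ℕ) (hp : p.Prime) (hp5 : 5 ≤ p) (E : Subgroup S) (hEH : E ≤ H) (hE : IsPGroup p ↥E) :
    ∃ P : Subgroup S, P ≤ H ∧ IsPGroup p ↥P ∧ (∀ a ∈ P, x * a * x⁻¹ ∈ P) ∧
      ∃ g : S, ∀ e ∈ E, g * e * g⁻¹ ∈ P := by
  classical
  haveI : Fact p.Prime := ⟨hp⟩
  haveI : Fact (Nat.Prime 3) := ⟨Nat.prime_three⟩
  have hp3 : p ≠ 3 := by omega
  have hordx' : orderOf (⟨x, hxH⟩ : ↥H) = orderOf x := Subgroup.orderOf_mk x hxH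
  obtain ⟨k, hk⟩ := hx3
  have hk0 : k ≠ 0 := by
    rintro rfl
    rw [pow_zero, orderOf_eq_one_iff] at hk
    exact hx1 hk
  have h3H : 3 ∣ Nat.card H := by
    have h1 : orderOf (⟨x, hxH⟩ : ↥H) ∣ Nat.card H := orderOf_dvd_natCard _
    rw [hordx', hk] at h1
    exact (dvd_pow_self 3 hk0).trans h1
  obtain ⟨-, hnc, -⟩ := Cfsg.Agent.S1450.result (G := ↥H) hodd 3 h3H hrk
  obtain ⟨P3, N, hNn, hNc⟩ := hnc (Or.inl rfl)
  haveI := hNn
  obtain ⟨a, ha⟩ := IsPGroup.iff_card.mp P3.isPGroup'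
  have hidx : N.index = 3 ^ a := by
    rw [← ha]; exact hNc.symm.index_eq_card
  have hN3 : ¬ 3 ∣ Nat.card N := by
    have h1 : (P3 : Subgroup ↥H).index = Nat.card N := hNc.index_eq_card
    rw [← h1]; exact P3.not_dvd_index
  obtain ⟨P, hP⟩ := ng_case2a_aux N a hidx hN3 p hp3 (⟨x, hxH⟩ : ↥H) ⟨k, by rw [hordx', hk]⟩
  have hE' : IsPGroup p (E.subgroupOf H) := hE.comap_subtype
  obtain ⟨Q, hQ⟩ := hE'.exists_le_sylow
  obtain ⟨g, hg⟩ := MulAction.exists_smul_eq ↥H P Q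
  refine ⟨(P : Subgroup ↥H).map H.subtype, ?_, ?_, ?_, ?_⟩
  · rintro _ ⟨y, -, rfl⟩; exact y.2
  · exact P.isPGroup'.map H.subtype
  · rintro _ ⟨y, hy, rfl⟩
    have hnorm : (⟨x, hxH⟩ : ↥H) ∈ Subgroup.normalizer ((P : Subgroup ↥H) : Set ↥H) :=
      Sylow.smul_eq_iff_mem_normalizer.mp hP
    have h1 := (Subgroup.mem_normalizer_iff.mp hnorm y).mp hy
    exact ⟨⟨x, hxH⟩ * y * (⟨x, hxH⟩ : ↥H)⁻¹, h1, rfl⟩
  · refine ⟨((g⁻¹ : ↥H) : S), ?_⟩
    intro e he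
    have he' : (⟨e, hEH he⟩ : ↥H) ∈ E.subgroupOf H := Subgroup.mem_subgroupOf.mpr he
    have h1 : (⟨e, hEH he⟩ : ↥H) ∈ (Q : Subgroup ↥H) := hQ he'
    rw [← hg, Sylow.coe_subgroup_smul, Subgroup.mem_pointwise_smul_iff_inv_smul_mem] at h1
    have h2 : g⁻¹ * (⟨e, hEH he⟩ : ↥H) * g ∈ (P : Subgroup ↥H) := by
      have h3 : (MulAut.conj g)⁻¹ • (⟨e, hEH he⟩ : ↥H) = g⁻¹ * (⟨e, hEH he⟩ : ↥H) * g := by
        simp [MulAut.smul_def]
      rw [← h3]; exact h1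
    refine ⟨g⁻¹ * ⟨e, hEH he⟩ * g, h2, ?_⟩
    simp

end Cfsg.Agent.Helper77.NGCASE2A
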