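import Cfsg.Agent.Helper16.BlockOrth

/-!
# Block idempotents are supported on the centralizer of a normal `p`-subgroup

`sum_blockCoeff_mul_normal_pSubgroup`, `blockCoeff_eq_zero_of_not_mem_centralizer`
(via block orthogonality in the form `Helper16.sum_blockCoeff_mul_conj_of_cycle`).
-/

set_option autoImplicit false
open Cfsg

namespace Cfsg.Agent.Helper77

/-- For a normal `p`-subgroup `P` and a `p`-regular `g₀`, the block idempotent coefficients sum to
zero over `g₀ * (P \ {1})`. -/
theorem sum_blockCoeff_mul_normal_pSubgroup {G : Type*} [Group G] [Fintype G] [DecidableEq G]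
    (p : ℕ) [Fact p.Prime]
    (M : Ideal Cfsg.AlgInt) (hM : Cfsg.IsPModular p M) (P : Subgroup G) [P.Normal]
    [DecidablePred (· ∈ P)]
    (hP : IsPGroup p P) (B : Set (Cfsg.IrrCharacter G)) (hB : Cfsg.IsPBlock M B) (g₀ : G)
    (hg₀ : ¬ p ∣ orderOf g₀) :
    ∑ y ∈ Finset.univ.filter (fun y : G => y ∈ P ∧ y ≠ 1), Cfsg.blockCoeff B (g₀ * y) = 0 := by
  have hnorm : ∀ (b k : G), b ∈ P → k * b * k⁻¹ ∈ P := fun b k hb => ‹P.Normal›.conj_mem b hb k
  have h1 : ∀ b ∈ Finset.univ.filter (fun y : G => y ∈ P ∧ y ≠ 1),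
      ∑ k : G, Cfsg.blockCoeff B (g₀ * k⁻¹ * b⁻¹ * k) = 0 := by
    intro b hb
    rw [Finset.mem_filter] at hb
    obtain ⟨-, hbP, hb1⟩ := hb
    apply Helper16.sum_blockCoeff_mul_conj_of_cycle hM hB
    intro a k hk
    by_contra hpk
    -- `b ^ k` is both a `p`-element and `p`-regular
    obtain ⟨j, hj⟩ := hP ⟨b, hbP⟩
    have hj' : b ^ p ^ j = 1 := by
      have := congrArg Subtype.val hj
      simpa using this
    have hord : orderOf (b ^ k) ∣ p ^ j := by
      apply orderOf_dvd_of_pow_eq_one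
      rw [← pow_mul, mul_comm, pow_mul, hj', one_pow]
    have hord2 : orderOf (b ^ k) ∣ orderOf g₀ := by
      rw [hk]
      apply orderOf_dvd_of_pow_eq_one
      have : (a * g₀ ^ k * a⁻¹) ^ orderOf g₀ = a * (g₀ ^ k) ^ orderOf g₀ * a⁻¹ := by
        rw [conj_pow]
      rw [this, ← pow_mul, mul_comm, pow_mul, pow_orderOf_eq_one, one_pow, mul_one,
        mul_inv_cancel]
    have hbk : b ^ k = 1 := by
      have h3 : Nat.Coprime (orderOf (b ^ k)) (orderOf (b ^ k)) := by
        apply Nat.Coprime.coprime_dvd_left hord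
        apply Nat.Coprime.coprime_dvd_right hord2
        exact Nat.Coprime.pow_left j ((Nat.Prime.coprime_iff_not_dvd Fact.out).mpr hg₀)
      rw [Nat.coprime_self] at h3
      exact orderOf_eq_one_iff.mp h3
    have hb_ord : orderOf b ∣ p ^ j := orderOf_dvd_of_pow_eq_one hj'
    obtain ⟨i, -, hi⟩ := (Nat.dvd_prime_pow Fact.out).mp hb_ord
    have hi0 : i ≠ 0 := by
      rintro rfl
      rw [pow_zero, orderOf_eq_one_iff] at hi
      exact hb1 hi
    have : p ∣ orderOf b := by
      rw [hi]; exact dvd_pow_self p hi0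
    exact hpk (this.trans (orderOf_dvd_of_pow_eq_one hbk))
  have h2 : ∑ k : G, ∑ y ∈ Finset.univ.filter (fun y : G => y ∈ P ∧ y ≠ 1),
      Cfsg.blockCoeff B (g₀ * y) = 0 := by
    have : ∀ k : G, ∑ y ∈ Finset.univ.filter (fun y : G => y ∈ P ∧ y ≠ 1),
        Cfsg.blockCoeff B (g₀ * y)
        = ∑ b ∈ Finset.univ.filter (fun y : G => y ∈ P ∧ y ≠ 1),
          Cfsg.blockCoeff B (g₀ * k⁻¹ * b⁻¹ * k) := by
      intro k
      symm
      refine Finset.sum_nbij' (fun b => k⁻¹ * b⁻¹ * k) (fun y => k * y⁻¹ * k⁻¹) ?_ ?_ ?_ ?_ ?_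
      · intro b hb
        rw [Finset.mem_filter] at hb ⊢
        refine ⟨Finset.mem_univ _, ?_, ?_⟩
        · have := hnorm b⁻¹ k⁻¹ (inv_mem hb.2.1)
          simpa using this
        · intro h
          apply hb.2.2
          have : b⁻¹ = 1 := by
            have h' : k * (k⁻¹ * b⁻¹ * k) * k⁻¹ = k * 1 * k⁻¹ := by rw [h]
            simpa [mul_assoc] using h'
          exact inv_eq_one.mp this
      · intro y hy
        rw [Finset.mem_filter] at hy ⊢
        refine ⟨Finset.mem_univ _, ?_, ?_⟩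
        · exact hnorm y⁻¹ k (inv_mem hy.2.1)
        · intro h
          apply hy.2.2
          have : y⁻¹ = 1 := by
            have h' : k⁻¹ * (k * y⁻¹ * k⁻¹) * k = k⁻¹ * 1 * k := by rw [h]
            simpa [mul_assoc] using h'
          exact inv_eq_one.mp this
      · intro b _
        group
      · intro y _
        group
      · intro b _
        congr 1
        group
    rw [Finset.sum_congr rfl (fun k _ => this k), Finset.sum_comm]
    exact Finset.sum_eq_zero h1
  rw [Finset.sum_const, Finset.card_univ, nsmul_eq_mul] at h2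
  rcases mul_eq_zero.mp h2 with h | h
  · exact absurd h (by exact_mod_cast Fintype.card_ne_zero)
  · exact h

theorem blockCoeff_eq_zero_of_not_mem_centralizer {G : Type*} [Group G] [Fintype G] (p : ℕ) [Fact p.Prime] (M : Ideal Cfsg.AlgInt) (hM : Cfsg.IsPModular p M) (P : Subgroup G) [P.Normal] (hP : IsPGroup p P) (B : Set (Cfsg.IrrCharacter G)) (hB : Cfsg.IsPBlock M B) (g : G) (hg : g ∉ Subgroup.centralizer (P : Set G)) : Cfsg.blockCoeff B g = 0 := by
  classical
  by_cases hy : p ∣ orderOf g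
  · exact blockCoeff_eq_zero_of_dvd_orderOf hM hB hy
  have hnorm : ∀ (b k : G), b ∈ P → k * b * k⁻¹ ∈ P := fun b k hb => ‹P.Normal›.conj_mem b hb k
  have hcl := blockCoeff_isClassFunction B
  have key := fun g₀ hg₀ => sum_blockCoeff_mul_normal_pSubgroup p M hM P hP B hB g₀ hg₀
  -- the sum over the whole coset
  have hT : ∀ g₀ : G, ∑ y ∈ Finset.univ.filter (fun y : G => y ∈ P), Cfsg.blockCoeff B (g₀ * y)
      = Cfsg.blockCoeff B g₀
        + ∑ y ∈ Finset.univ.filter (fun y : G => y ∈ P ∧ y ≠ 1), Cfsg.blockCoeff B (g₀ * y) := by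
    intro g₀
    have hins : Finset.univ.filter (fun y : G => y ∈ P)
        = insert 1 (Finset.univ.filter (fun y : G => y ∈ P ∧ y ≠ 1)) := by
      ext y
      simp only [Finset.mem_filter, Finset.mem_univ, true_and, Finset.mem_insert]
      constructor
      · intro h
        by_cases h1 : y = 1
        · exact Or.inl h1
        · exact Or.inr ⟨h, h1⟩
      · rintro (h | h)
        · rw [h]; exact one_mem P
        · exact h.1
    rw [hins, Finset.sum_insert (by simp), mul_one]
  have hF : ∀ y ∈ P, ∑ y' ∈ Finset.univ.filter (fun y : G => y ∈ P), Cfsg.blockCoeff B (g * y * y')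
      = ∑ y' ∈ Finset.univ.filter (fun y : G => y ∈ P), Cfsg.blockCoeff B (g * y') := by
    intro y hyP
    refine Finset.sum_nbij' (fun y' => y * y') (fun y' => y⁻¹ * y') ?_ ?_ ?_ ?_ ?_
    · intro y' hy'
      rw [Finset.mem_filter] at hy' ⊢
      exact ⟨Finset.mem_univ _, mul_mem hyP hy'.2⟩
    · intro y' hy'
      rw [Finset.mem_filter] at hy' ⊢
      exact ⟨Finset.mem_univ _, mul_mem (inv_mem hyP) hy'.2⟩
    · intro y' _; group
    · intro y' _; group
    · intro y' _; rw [mul_assoc]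
  have hterm : ∀ y ∈ Finset.univ.filter (fun y : G => y ∈ P ∧ y ≠ 1),
      Cfsg.blockCoeff B (g * y) = if ¬ p ∣ orderOf (g * y) then Cfsg.blockCoeff B g else 0 := by
    intro y hyS
    rw [Finset.mem_filter] at hyS
    by_cases hreg : p ∣ orderOf (g * y)
    · rw [if_neg (not_not.mpr hreg)]
      exact blockCoeff_eq_zero_of_dvd_orderOf hM hB hreg
    · rw [if_pos hreg]
      have e1 := hT (g * y)
      rw [key (g * y) hreg, add_zero] at e1
      have e2 := hT g
      rw [key g hy, add_zero] at e2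
      rw [← e1, ← e2]
      exact hF y hyS.2.1
  -- an element of `P` not commuting with `g`
  have hex : ∃ u ∈ P, u * g ≠ g * u := by
    by_contra hcon
    apply hg
    rw [Subgroup.mem_centralizer_iff]
    intro u hu
    by_contra hne
    exact hcon ⟨u, hu, hne⟩
  obtain ⟨u, huP, hug⟩ := hex
  have hy1P : g⁻¹ * u * g * u⁻¹ ∈ P := by
    have h1 := hnorm u g⁻¹ huP
    rw [inv_inv] at h1
    exact mul_mem h1 (inv_mem huP)
  have hy1ne : g⁻¹ * u * g * u⁻¹ ≠ 1 := by
    intro h
    apply hug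
    have h' : g * (g⁻¹ * u * g * u⁻¹) * u = g * 1 * u := by rw [h]
    simpa [mul_assoc] using h'
  have hgy1 : g * (g⁻¹ * u * g * u⁻¹) = u * g * u⁻¹ := by group
  have hsum := key g hy
  rw [Finset.sum_congr rfl hterm, ← Finset.sum_filter, Finset.sum_const, nsmul_eq_mul] at hsum
  rcases mul_eq_zero.mp hsum with h | h
  · exfalso
    have hmem : g⁻¹ * u * g * u⁻¹ ∈ (Finset.univ.filter (fun y : G => y ∈ P ∧ y ≠ 1)).filter
        (fun y => ¬ p ∣ orderOf (g * y)) := by
      rw [Finset.mem_filter, Finset.mem_filter]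
      refine ⟨⟨Finset.mem_univ _, hy1P, hy1ne⟩, ?_⟩
      rw [hgy1]
      have : orderOf (u * g * u⁻¹) = orderOf g :=
        orderOf_injective (MulAut.conj u).toMonoidHom (MulAut.conj u).injective g
      rw [this]
      exact hy
    have hcard : ((Finset.univ.filter (fun y : G => y ∈ P ∧ y ≠ 1)).filter
        (fun y => ¬ p ∣ orderOf (g * y))).card ≠ 0 :=
      Finset.card_ne_zero_of_mem hmem
    exact hcard (by exact_mod_cast h)
  · exact h

end Cfsg.Agent.Helper77
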