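import Cfsg.Agent.Helper77.SubpairChain
import Cfsg.Agent.Helper77.NormalSupport
import Cfsg.Agent.Helper16.CoverInd

/-!
# Block idempotents above an orbit of blocks of a centralizer

* `extFrom L a`: extension by zero of a function on the subgroup `L`.
* `eq_blockCoeff_of_idem`: an idempotent class function is the idempotent of a set of irreducible
  characters.
* `orbitUnion hLN e`: the union of the `L`-conjugates of a set `e` of irreducible characters of
  `C` (`L ≤ N_G(C)`).
* `eq_sbc_orbitUnion`: an `L`-invariant local idempotent supported on `C` below the idempotent of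
  the orbit of a block `e` of `C` is zero or that idempotent.
* `blockCoeff_eq_sbc_orbitUnion`: for `P C_G(P) ≤ L ≤ N_G(P)` and a block `e` of `C_G(P)`, a block
  of `L` on which the orbit idempotent of `e` does not vanish has that idempotent.
-/

set_option autoImplicit false
set_option linter.style.haveILetI false
open Cfsg

namespace Cfsg.Agent.Helper77

universe u

variable {G : Type u} [Group G]

open Classical in
/-- Extension by zero of a function on the subgroup `L`. -/
noncomputable def extFrom (L : Subgroup G) (a : L → ℂ) : G → ℂ :=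
  fun g => if h : g ∈ L then a ⟨g, h⟩ else 0

theorem extFrom_of_mem (L : Subgroup G) (a : L → ℂ) {g : G} (h : g ∈ L) :
    extFrom L a g = a ⟨g, h⟩ := dif_pos h

theorem extFrom_of_not_mem (L : Subgroup G) (a : L → ℂ) {g : G} (h : g ∉ L) :
    extFrom L a g = 0 := dif_neg h

theorem suppIn_extFrom (L : Subgroup G) (a : L → ℂ) : SuppIn L (extFrom L a) :=
  fun _ h => extFrom_of_not_mem L a h

theorem extFrom_restrict (L : Subgroup G) (a : L → ℂ) :
    (fun t : L => extFrom L a (t : G)) = a :=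
  funext fun t => extFrom_of_mem L a t.2

theorem extFrom_restrict_of_suppIn {L : Subgroup G} {z : G → ℂ} (hz : SuppIn L z) :
    extFrom L (fun t : L => z t) = z := by
  funext g
  by_cases h : g ∈ L
  · rw [extFrom_of_mem L _ h]
  · rw [extFrom_of_not_mem L _ h, hz g h]

theorem invUnder_extFrom {L : Subgroup G} {a : L → ℂ} (ha : Cfsg.IsClassFunction L a) :
    InvUnder L (extFrom L a) := by
  intro d hd x
  by_cases hx : x ∈ L
  · rw [extFrom_of_mem L a hx, extFrom_of_mem L a (L.mul_mem (L.mul_mem hd hx) (L.inv_mem hd))]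
    exact ha ⟨x, hx⟩ ⟨d, hd⟩
  · rw [extFrom_of_not_mem L a hx, extFrom_of_not_mem L a]
    intro h
    apply hx
    have := L.mul_mem (L.mul_mem (L.inv_mem hd) h) hd
    have e : d⁻¹ * (d * x * d⁻¹) * d = x := by group
    rwa [e] at this

theorem extFrom_memLocalRing {M : Ideal Cfsg.AlgInt} (hM : M.IsMaximal) (L : Subgroup G)
    {a : L → ℂ} (haS : ∀ t, Cfsg.MemLocalRing M (a t)) (g : G) :
    Cfsg.MemLocalRing M (extFrom L a g) := by
  by_cases h : g ∈ L
  · rw [extFrom_of_mem L a h]; exact haS _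
  · rw [extFrom_of_not_mem L a h]; exact memLocalRing_zero hM

theorem conv_extFrom [Fintype G] (L : Subgroup G) [Fintype L] (a b : L → ℂ) :
    Helper81.conv (extFrom L a) (extFrom L b) = extFrom L (Helper81.conv a b) := by
  funext g
  by_cases h : g ∈ L
  · have h1 := conv_restrict L (suppIn_extFrom L a) (extFrom L b) ⟨g, h⟩
    rw [extFrom_restrict, extFrom_restrict] at h1
    rw [extFrom_of_mem L _ h]
    exact h1
  · rw [extFrom_of_not_mem L _ h]
    exact suppIn_conv (suppIn_extFrom L a) (suppIn_extFrom L b) g h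

/-- An idempotent class function is the idempotent of a set of irreducible characters. -/
theorem eq_blockCoeff_of_idem [Fintype G] {u : G → ℂ} (hu : Cfsg.IsClassFunction G u)
    (hidem : Helper81.conv u u = u) :
    u = Cfsg.blockCoeff {χ : Cfsg.IrrCharacter G | Helper81.omega (χ : G → ℂ) u = 1} := by
  apply eq_of_omega_eq hu (blockCoeff_isClassFunction _)
  intro ψ
  have h1 : Helper81.omega (ψ : G → ℂ) u * Helper81.omega (ψ : G → ℂ) u
      = Helper81.omega (ψ : G → ℂ) u := by
    rw [← Helper81.omega_conv ψ hu hu, hidem]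
  by_cases h : Helper81.omega (ψ : G → ℂ) u = 1
  · rw [omega_blockCoeff_of_mem (show ψ ∈ {χ : Cfsg.IrrCharacter G |
      Helper81.omega (χ : G → ℂ) u = 1} from h), h]
  · rw [omega_blockCoeff_of_not_mem (show ψ ∉ {χ : Cfsg.IrrCharacter G |
      Helper81.omega (χ : G → ℂ) u = 1} from h)]
    have h2 : Helper81.omega (ψ : G → ℂ) u * (Helper81.omega (ψ : G → ℂ) u - 1) = 0 := by
      rw [mul_sub, h1, mul_one, sub_self]
    rcases mul_eq_zero.mp h2 with h3 | h3
    · exact h3
    · exact absurd (sub_eq_zero.mp h3) h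

/-- A block on which a local central idempotent does not vanish lies below it. -/
theorem conv_blockCoeff_blockOf_of_omega [Fintype G] {M : Ideal Cfsg.AlgInt} (hM : M.IsMaximal)
    {u : G → ℂ} (hu : Cfsg.IsClassFunction G u) (hidem : Helper81.conv u u = u)
    (huS : ∀ g, Cfsg.MemLocalRing M (u g)) (θ : Cfsg.IrrCharacter G)
    (hθ : Helper81.omega (θ : G → ℂ) u = 1) :
    Helper81.conv (Cfsg.blockCoeff (Cfsg.blockOf M (θ : G → ℂ))) u
      = Cfsg.blockCoeff (Cfsg.blockOf M (θ : G → ℂ)) := by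
  have h1 := eq_blockCoeff_of_idem hu hidem
  have h2 : Cfsg.blockOf M (θ : G → ℂ)
      ⊆ {χ : Cfsg.IrrCharacter G | Helper81.omega (χ : G → ℂ) u = 1} :=
    blockOf_subset_of_memLocalRing hM (fun g => by rw [← h1]; exact huS g) hθ
  rw [h1, conv_blockCoeff_inter, Set.inter_eq_left.mpr h2]

/-- `Ω` of a restriction and conjugation by an element normalizing `K`. -/
theorem omega_restrict_conjIrr (K : Subgroup G) [Fintype K]
    (x : Subgroup.normalizer (K : Set G)) {a b : G → ℂ}
    (hab : ∀ c, b ((x : G) * c * (x : G)⁻¹) = a c) (η₀ : Cfsg.IrrCharacter K) :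
    Helper81.omega (conjIrr K x η₀ : K → ℂ) (fun k : K => b k)
      = Helper81.omega (η₀ : K → ℂ) (fun k : K => a k) := by
  show (∑ c : K, b c * (conjIrr K x η₀ : K → ℂ) c) / (conjIrr K x η₀ : K → ℂ) 1
    = (∑ c : K, a c * (η₀ : K → ℂ) c) / (η₀ : K → ℂ) 1
  rw [conjIrr_apply _ x η₀ 1 1 (by simp)]
  congr 1
  refine Fintype.sum_bijective (Helper75.conjEquivOfNormalizer _ (x : G) x.2)
    (MulEquiv.bijective _) _ _ ?_
  intro c
  have hc : (c : G) = (x : G) *
      ((Helper75.conjEquivOfNormalizer K (x : G) x.2 c : K) : G) * (x : G)⁻¹ := by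
    rw [Helper75.conjEquivOfNormalizer_apply]
    group
  rw [conjIrr_apply _ x η₀ _ c hc, ← hab]
  congr 2

/-- The union of the `L`-conjugates of a set of irreducible characters of `C`. -/
def orbitUnion {C L : Subgroup G} (hLN : L ≤ Subgroup.normalizer (C : Set G))
    (e : Set (Cfsg.IrrCharacter C)) : Set (Cfsg.IrrCharacter C) :=
  {ψ | ∃ x : L, conjIrr C (Subgroup.inclusion hLN x) ψ ∈ e}

theorem subset_orbitUnion {C L : Subgroup G} (hLN : L ≤ Subgroup.normalizer (C : Set G))
    (e : Set (Cfsg.IrrCharacter C)) : e ⊆ orbitUnion hLN e := by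
  intro ψ hψ
  refine ⟨1, ?_⟩
  rw [map_one, conjIrr_one]
  exact hψ

theorem conjIrr_mem_orbitUnion {C L : Subgroup G} (hLN : L ≤ Subgroup.normalizer (C : Set G))
    (e : Set (Cfsg.IrrCharacter C)) (y : L) {ψ : Cfsg.IrrCharacter C}
    (hψ : ψ ∈ orbitUnion hLN e) :
    conjIrr C (Subgroup.inclusion hLN y) ψ ∈ orbitUnion hLN e := by
  obtain ⟨x, hx⟩ := hψ
  refine ⟨x * y⁻¹, ?_⟩
  rw [← conjIrr_mul, ← map_mul, inv_mul_cancel_right]
  exact hx

theorem stabilizesBlock_orbitUnion {C L : Subgroup G}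
    (hLN : L ≤ Subgroup.normalizer (C : Set G)) (e : Set (Cfsg.IrrCharacter C)) {y : G}
    (hy : y ∈ L) : Cfsg.StabilizesBlock C (orbitUnion hLN e) y :=
  (stabilizesBlock_iff C _ (Subgroup.inclusion hLN ⟨y, hy⟩)).mpr
    fun _ hψ => conjIrr_mem_orbitUnion hLN e ⟨y, hy⟩ hψ

theorem orbitUnion_closed {M : Ideal Cfsg.AlgInt} (hM : M.IsMaximal) {C L : Subgroup G}
    (hLN : L ≤ Subgroup.normalizer (C : Set G)) {e : Set (Cfsg.IrrCharacter C)}
    (he : Cfsg.IsPBlock M e) (ψ ψ' : Cfsg.IrrCharacter C) (hψ : ψ ∈ orbitUnion hLN e)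
    (h : Cfsg.SameBlock M (ψ : C → ℂ) (ψ' : C → ℂ)) : ψ' ∈ orbitUnion hLN e := by
  obtain ⟨x, hx⟩ := hψ
  refine ⟨x, ?_⟩
  have h1 := sameBlock_conjIrr C (Subgroup.inclusion hLN x) h
  obtain ⟨χ₀, rfl⟩ := he
  exact Helper16.sameBlock_trans hM hx h1

theorem orbitUnion_eq_self {C L : Subgroup G} [Finite C]
    (hLN : L ≤ Subgroup.normalizer (C : Set G)) (e : Set (Cfsg.IrrCharacter C))
    (h : ∀ x ∈ L, Cfsg.StabilizesBlock C e x) : orbitUnion hLN e = e := by
  apply Set.Subset.antisymm _ (subset_orbitUnion hLN e)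
  rintro ψ ⟨x, hx⟩
  have h1 := (stabilizesBlock_iff C e (Subgroup.inclusion hLN x⁻¹)).mp (h _ (x⁻¹).2) _ hx
  rw [map_inv, conjIrr_inv_conjIrr] at h1
  exact h1

/-- A block contained in the orbit union of the block `e` is a conjugate of `e`. -/
theorem exists_conj_eq_of_subset_orbitUnion {M : Ideal Cfsg.AlgInt} (hM : M.IsMaximal)
    {C L : Subgroup G} (hLN : L ≤ Subgroup.normalizer (C : Set G))
    {e f' : Set (Cfsg.IrrCharacter C)} (he : Cfsg.IsPBlock M e) (hf' : Cfsg.IsPBlock M f')
    (h : f' ⊆ orbitUnion hLN e) :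
    ∃ x : L, conjIrr C (Subgroup.inclusion hLN x) '' f' = e := by
  obtain ⟨ψ, hψ⟩ := Helper16.exists_mem_of_isPBlock hM hf'
  obtain ⟨x, hx⟩ := h hψ
  exact ⟨x, block_eq_of_mem hM (isPBlock_image_conjIrr C _ hf') he ⟨ψ, hψ, rfl⟩ hx⟩

variable [Fintype G]

theorem sbc_orbitUnion_memLocalRing {M : Ideal Cfsg.AlgInt} (hM : M.IsMaximal)
    {C L : Subgroup G} (hLN : L ≤ Subgroup.normalizer (C : Set G))
    {e : Set (Cfsg.IrrCharacter C)} (he : Cfsg.IsPBlock M e) (x : G) :
    Cfsg.MemLocalRing M (Cfsg.subgroupBlockCoeff C (orbitUnion hLN e) x) := by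
  classical
  letI : Fintype C := Fintype.ofFinite C
  by_cases hx : x ∈ C
  · rw [sbc_of_mem C _ hx]
    exact Helper16.blockCoeff_memLocalRing_of_closed hM (orbitUnion_closed hM hLN he) _
  · rw [sbc_of_not_mem C _ hx]
    exact memLocalRing_zero hM

/-- **Primitivity of orbit idempotents.**  An `L`-invariant idempotent with local values,
supported on `C`, which lies below the idempotent of the `L`-orbit of a block `e` of `C` and is
not zero, equals that idempotent. -/
theorem eq_sbc_orbitUnion {M : Ideal Cfsg.AlgInt} (hM : M.IsMaximal) {C L : Subgroup G}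
    (hLN : L ≤ Subgroup.normalizer (C : Set G)) {e : Set (Cfsg.IrrCharacter C)}
    (he : Cfsg.IsPBlock M e) {w : G → ℂ} (hwC : SuppIn C w) (hw1 : InvUnder C w)
    (hwL : InvUnder L w) (hwS : ∀ g, Cfsg.MemLocalRing M (w g))
    (hidem : Helper81.conv w w = w)
    (hle : Helper81.conv w (Cfsg.subgroupBlockCoeff C (orbitUnion hLN e)) = w) (hne : w ≠ 0) :
    w = Cfsg.subgroupBlockCoeff C (orbitUnion hLN e) := by
  classical
  letI : Fintype C := Fintype.ofFinite C
  have hu : Cfsg.IsClassFunction C (fun c : C => w c) := isClassFunction_restrict hw1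
  have huid : Helper81.conv (fun c : C => w c) (fun c : C => w c) = fun c : C => w c := by
    funext c
    rw [← conv_restrict C hwC w c, hidem]
  have hW := eq_blockCoeff_of_idem hu huid
  set W : Set (Cfsg.IrrCharacter C) :=
    {χ : Cfsg.IrrCharacter C | Helper81.omega (χ : C → ℂ) (fun c : C => w c) = 1} with hWdef
  have hWloc : ∀ c : C, Cfsg.MemLocalRing M (Cfsg.blockCoeff W c) := by
    intro c
    rw [← hW]
    exact hwS c
  -- `W ⊆ 𝒱`
  have hWV : W ⊆ orbitUnion hLN e := by
    intro ψ hψ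
    by_contra hcon
    have h1 : Helper81.conv (fun c : C => w c) (Cfsg.blockCoeff (orbitUnion hLN e))
        = fun c : C => w c := by
      funext c
      have h2 := conv_restrict C hwC (Cfsg.subgroupBlockCoeff C (orbitUnion hLN e)) c
      rw [sbc_restrict, hle] at h2
      exact h2.symm
    have h3 := congrArg (Helper81.omega (ψ : C → ℂ)) h1
    rw [Helper81.omega_conv ψ hu (blockCoeff_isClassFunction _),
      omega_blockCoeff_of_not_mem hcon, mul_zero] at h3
    have h4 : Helper81.omega (ψ : C → ℂ) (fun c : C => w c) = 1 := hψ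
    rw [h4] at h3
    exact zero_ne_one h3
  -- `W` is `L`-stable
  have hWst : ∀ (x : L) (ψ : Cfsg.IrrCharacter C), ψ ∈ W →
      conjIrr C (Subgroup.inclusion hLN x) ψ ∈ W := by
    intro x ψ hψ
    show Helper81.omega (conjIrr C (Subgroup.inclusion hLN x) ψ : C → ℂ) (fun c : C => w c) = 1
    rw [omega_restrict_conjIrr C (Subgroup.inclusion hLN x) (a := w) (b := w)
      (fun c => hwL x x.2 c) ψ]
    exact hψ
  -- `W` is not empty
  have hWne : W.Nonempty := by
    by_contra hcon
    rw [Set.not_nonempty_iff_eq_empty] at hcon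
    apply hne
    funext g
    by_cases hg : g ∈ C
    · have h1 := congrFun hW ⟨g, hg⟩
      rw [hcon, blockCoeff_empty] at h1
      exact h1
    · exact hwC g hg
  obtain ⟨ψ₁, hψ₁⟩ := hWne
  obtain ⟨x₁, hx₁⟩ := hWV hψ₁
  have heW : e ⊆ W := by
    have h1 := blockOf_subset_of_memLocalRing hM hWloc (hWst x₁ ψ₁ hψ₁)
    rwa [← Helper16.eq_blockOf_of_mem hM he hx₁] at h1
  have hVW : orbitUnion hLN e ⊆ W := by
    rintro ψ ⟨x, hx⟩
    have h1 := hWst x⁻¹ _ (heW hx)
    rw [map_inv, conjIrr_inv_conjIrr] at h1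
    exact h1
  have hWeq : W = orbitUnion hLN e := Set.Subset.antisymm hWV hVW
  funext g
  by_cases hg : g ∈ C
  · rw [sbc_of_mem C _ hg, ← hWeq]
    exact congrFun hW ⟨g, hg⟩
  · rw [sbc_of_not_mem C _ hg]
    exact hwC g hg

/-- Block idempotents of a group between `P C_G(P)` and `N_G(P)` are supported on `C_G(P)`. -/
theorem blockCoeff_eq_zero_of_coe_not_mem_centralizer {p : ℕ} [Fact p.Prime]
    {M : Ideal Cfsg.AlgInt} (hM : Cfsg.IsPModular p M) (P L : Subgroup G) [Fintype L]
    (hP : IsPGroup p P) (hPL : P ≤ L) (hLN : L ≤ Subgroup.normalizer (P : Set G))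
    {b : Set (Cfsg.IrrCharacter L)} (hb : Cfsg.IsPBlock M b) (t : L)
    (ht : (t : G) ∉ Subgroup.centralizer (P : Set G)) : Cfsg.blockCoeff b t = 0 := by
  haveI : (P.subgroupOf L).Normal := Subgroup.normal_subgroupOf_of_le_normalizer hLN
  apply blockCoeff_eq_zero_of_not_mem_centralizer p M hM (P.subgroupOf L) hP.comap_subtype b hb t
  intro h
  apply ht
  rw [Subgroup.mem_centralizer_iff] at h ⊢
  intro u hu
  have h1 := h ⟨u, hPL hu⟩ (by
    show (⟨u, hPL hu⟩ : L) ∈ P.subgroupOf L
    rw [Subgroup.mem_subgroupOf]; exact hu)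
  exact congrArg Subtype.val h1

/-- **The idempotent of a block of `L` above an orbit of blocks of `C_G(P)`.** -/
theorem blockCoeff_eq_sbc_orbitUnion {p : ℕ} [Fact p.Prime] {M : Ideal Cfsg.AlgInt}
    (hM : Cfsg.IsPModular p M) (P L : Subgroup G) [Fintype L] (hP : IsPGroup p P) (hPL : P ≤ L)
    (hCL : Subgroup.centralizer (P : Set G) ≤ L) (hLN : L ≤ Subgroup.normalizer (P : Set G))
    (hLC : L ≤ Subgroup.normalizer ((Subgroup.centralizer (P : Set G) : Subgroup G) : Set G))
    {e : Set (Cfsg.IrrCharacter (Subgroup.centralizer (P : Set G)))} (he : Cfsg.IsPBlock M e)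
    (θ : Cfsg.IrrCharacter L)
    (hθ : Helper81.omega (θ : L → ℂ) (fun t : L =>
      Cfsg.subgroupBlockCoeff (Subgroup.centralizer (P : Set G)) (orbitUnion hLC e) (t : G)) = 1)
    (t : L) :
    Cfsg.blockCoeff (Cfsg.blockOf M (θ : L → ℂ)) t
      = Cfsg.subgroupBlockCoeff (Subgroup.centralizer (P : Set G)) (orbitUnion hLC e) (t : G) := by
  classical
  have hMm := hM.2.1
  haveI := hMm.isPrime
  have hb : Cfsg.IsPBlock M (Cfsg.blockOf M (θ : L → ℂ)) := ⟨θ, rfl⟩
  set z := Cfsg.subgroupBlockCoeff (Subgroup.centralizer (P : Set G)) (orbitUnion hLC e) with hz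
  have hzC : SuppIn (Subgroup.centralizer (P : Set G)) z := suppIn_sbc _ _
  have hzL : SuppIn L z := fun x hx => hzC x (fun h => hx (hCL h))
  have hzinv : InvUnder L z :=
    invUnder_sbc_of_stabilizes _ _ (fun x hx => stabilizesBlock_orbitUnion hLC e hx)
  have hzS : ∀ g, Cfsg.MemLocalRing M (z g) := sbc_orbitUnion_memLocalRing hMm hLC he
  have hzid : Helper81.conv z z = z := conv_sbc_self _ _
  have huid : Helper81.conv (fun t : L => z t) (fun t : L => z t) = fun t : L => z t := by
    funext t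
    rw [← conv_restrict L hzL z t, hzid]
  have h1 := conv_blockCoeff_blockOf_of_omega hMm (isClassFunction_restrict hzinv) huid
    (fun t => hzS t) θ hθ
  set ε := extFrom L (Cfsg.blockCoeff (Cfsg.blockOf M (θ : L → ℂ))) with hε
  have hεC : SuppIn (Subgroup.centralizer (P : Set G)) ε := by
    intro x hx
    by_cases hxL : x ∈ L
    · rw [hε, extFrom_of_mem L _ hxL]
      exact blockCoeff_eq_zero_of_coe_not_mem_centralizer hM P L hP hPL hLN hb ⟨x, hxL⟩ hx
    · exact extFrom_of_not_mem L _ hxL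
  have hεL : InvUnder L ε := invUnder_extFrom (blockCoeff_isClassFunction _)
  have hεS : ∀ g, Cfsg.MemLocalRing M (ε g) :=
    extFrom_memLocalRing hMm L (blockCoeff_memLocalRing hMm hb)
  have hεid : Helper81.conv ε ε = ε := by
    rw [hε, conv_extFrom, conv_blockCoeff]
  have hle : Helper81.conv ε z = ε := by
    have h2 : z = extFrom L (fun t : L => z t) := (extFrom_restrict_of_suppIn hzL).symm
    rw [h2, hε, conv_extFrom, h1]
  have hne : ε ≠ 0 := by
    intro h0
    have h2 : Cfsg.blockCoeff (Cfsg.blockOf M (θ : L → ℂ)) = 0 := by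
      rw [← extFrom_restrict L (Cfsg.blockCoeff (Cfsg.blockOf M (θ : L → ℂ))), ← hε, h0]
      rfl
    have h3 := omega_blockCoeff_of_mem (Helper81.mem_blockOf_self (M := M) θ)
    rw [h2, Helper16.omega_zero] at h3
    exact zero_ne_one h3
  have h3 := eq_sbc_orbitUnion hMm hLC he hεC (hεL.mono hCL) hεL hεS hεid hle hne
  have h4 := congrFun h3 (t : G)
  rw [hε, extFrom_of_mem L _ t.2] at h4
  exact h4

end Cfsg.Agent.Helper77
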