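import Cfsg.Agent.Helper77.MaxPair
import Cfsg.Agent.Helper75.BlockTransport
import Cfsg.Agent.Helper75.PrincipalSubpair
import Cfsg.Agent.Helper16.ExtFMT

/-!
# Conjugation of Brauer pairs

* `pair_ext`: equality of Brauer pairs (as elements of `Cfsg.BrauerPairIdx G`) from pointwise
  agreement.
* `conjBlock_eq_image`: `Cfsg.conjBlock Q x f` is the image of `f` under transport along
  conjugation.
* `isBrauerPairOf_conj`, `isNormalSubpair_conjBlock`, `subpairLE_conjBlock`: conjugation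
  preserves Brauer pairs of a block and inclusion of Brauer pairs.
* `exists_isMaximalBrauerPair_ge`: every Brauer pair of `B` lies below a maximal one.
* `exists_conjIrr_eq_of_isDefectGroup`: two Brauer pairs of `B` at a defect group `P` of `B` are
  conjugate under `N_G(P)`.
* `exists_conjPair_eq`: two Brauer pairs of `B` at defect groups of `B` are conjugate.
* `exists_subpairLE_conj_of_isMaximalBrauerPair`: every Brauer pair of `B` is conjugate to a pair
  below a given maximal Brauer pair.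
-/

set_option autoImplicit false
set_option linter.style.haveILetI false
open Cfsg

namespace Cfsg.Agent.Helper77

universe u

variable {G : Type u} [Group G]

/-- Equality of Brauer pairs from pointwise agreement. -/
theorem pair_ext {Q₁ Q₂ : Subgroup G} (h : Q₁ = Q₂)
    (S₁ : Set (Cfsg.IrrCharacter (Subgroup.centralizer (Q₁ : Set G))))
    (S₂ : Set (Cfsg.IrrCharacter (Subgroup.centralizer (Q₂ : Set G))))
    (hS : ∀ (ψ₁ : Cfsg.IrrCharacter (Subgroup.centralizer (Q₁ : Set G)))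
      (ψ₂ : Cfsg.IrrCharacter (Subgroup.centralizer (Q₂ : Set G))),
      (∀ (c₁ : Subgroup.centralizer (Q₁ : Set G)) (c₂ : Subgroup.centralizer (Q₂ : Set G)),
        (c₁ : G) = (c₂ : G) → (ψ₁ : _ → ℂ) c₁ = (ψ₂ : _ → ℂ) c₂) → (ψ₁ ∈ S₁ ↔ ψ₂ ∈ S₂)) :
    (⟨Q₁, S₁⟩ : Cfsg.BrauerPairIdx G) = ⟨Q₂, S₂⟩ := by
  subst h
  have h1 : S₁ = S₂ := Set.ext fun ψ => hS ψ ψ (fun c₁ c₂ h => by rw [Subtype.ext h])
  rw [h1]

theorem mem_map_conj_iff (Q : Subgroup G) (x w : G) :
    w ∈ Q.map (MulAut.conj x).toMonoidHom ↔ x⁻¹ * w * x ∈ Q := by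
  constructor
  · rintro ⟨q, hq, rfl⟩
    have e : x⁻¹ * ((MulAut.conj x).toMonoidHom q) * x = q := by
      show x⁻¹ * (x * q * x⁻¹) * x = q
      group
    rw [e]
    exact hq
  · intro hw
    refine ⟨x⁻¹ * w * x, hw, ?_⟩
    show x * (x⁻¹ * w * x) * x⁻¹ = w
    group

theorem map_conj_mul_of_mem_normalizer (P' : Subgroup G) (y : G) {n : G}
    (hn : n ∈ Subgroup.normalizer ((P'.map (MulAut.conj y).toMonoidHom : Subgroup G) : Set G)) :
    P'.map (MulAut.conj (n * y)).toMonoidHom = P'.map (MulAut.conj y).toMonoidHom := by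
  ext h
  rw [mem_map_conj_iff, mem_map_conj_iff]
  have h3 := Subgroup.mem_normalizer_iff.mp hn (n⁻¹ * h * n)
  rw [mem_map_conj_iff, mem_map_conj_iff] at h3
  have e1 : (n * y)⁻¹ * h * (n * y) = y⁻¹ * (n⁻¹ * h * n) * y := by group
  have e2 : y⁻¹ * (n * (n⁻¹ * h * n) * n⁻¹) * y = y⁻¹ * h * y := by group
  rw [e1, h3, e2]

/-- The conjugate block is the image under transport along conjugation. -/
theorem conjBlock_eq_image (Q : Subgroup G) (x : G)
    (f : Set (Cfsg.IrrCharacter (Subgroup.centralizer (Q : Set G)))) :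
    Cfsg.conjBlock Q x f = Helper75.irrComp (Helper75.centralizerConjEquiv Q x) '' f := by
  ext ξ'
  constructor
  · rintro ⟨ξ, hξ, h⟩
    refine ⟨ξ, hξ, Subtype.ext (funext fun c' => ?_)⟩
    show (ξ : _ → ℂ) (Helper75.centralizerConjEquiv Q x c') = (ξ' : _ → ℂ) c'
    symm
    apply h
    rw [Helper75.centralizerConjEquiv_apply]
    group
  · rintro ⟨ξ, hξ, rfl⟩
    refine ⟨ξ, hξ, fun c c' hc => ?_⟩
    show (ξ : _ → ℂ) (Helper75.centralizerConjEquiv Q x c') = (ξ : _ → ℂ) c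
    refine congrArg _ (Subtype.ext ?_)
    rw [Helper75.centralizerConjEquiv_apply, hc]
    group

theorem conj_mem_centralizer_map_iff (Q : Subgroup G) (x c : G) :
    x * c * x⁻¹ ∈ (Subgroup.centralizer ((Q.map (MulAut.conj x).toMonoidHom : Subgroup G) : Set G)) ↔ c ∈ (Subgroup.centralizer (Q : Set G)) := by
  constructor
  · intro h
    have h1 := (Helper75.centralizerConjEquiv Q x ⟨_, h⟩).2
    have e : ((Helper75.centralizerConjEquiv Q x ⟨_, h⟩ : (Subgroup.centralizer (Q : Set G))) : G) = c := by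
      rw [Helper75.centralizerConjEquiv_apply]
      show x⁻¹ * (x * c * x⁻¹) * x = c
      group
    rwa [e] at h1
  · intro h
    exact ((Helper75.centralizerConjEquiv Q x).symm ⟨c, h⟩).2

/-- The idempotent of the conjugate block. -/
theorem sbc_conjBlock (Q : Subgroup G) (x : G) (f : Set (Cfsg.IrrCharacter (Subgroup.centralizer (Q : Set G)))) (c : G) :
    Cfsg.subgroupBlockCoeff (Subgroup.centralizer ((Q.map (MulAut.conj x).toMonoidHom : Subgroup G) : Set G)) (Cfsg.conjBlock Q x f) (x * c * x⁻¹)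
      = Cfsg.subgroupBlockCoeff (Subgroup.centralizer (Q : Set G)) f c := by
  by_cases hc : c ∈ (Subgroup.centralizer (Q : Set G))
  · rw [sbc_of_mem _ _ hc, sbc_of_mem _ _ ((conj_mem_centralizer_map_iff Q x c).mpr hc),
      conjBlock_eq_image, Helper75.blockCoeff_image_irrComp]
    refine congrArg _ (Subtype.ext ?_)
    rw [Helper75.centralizerConjEquiv_apply]
    show x⁻¹ * (x * c * x⁻¹) * x = c
    group
  · rw [sbc_of_not_mem _ _ hc,
      sbc_of_not_mem _ _ (fun h => hc ((conj_mem_centralizer_map_iff Q x c).mp h))]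

/-- `brauerOmega` and conjugation. -/
theorem brauerOmega_conj (Q : Subgroup G) (x : G) {β β' : G → ℂ}
    (hβ : ∀ c, β' (x * c * x⁻¹) = β c) (ξ : Cfsg.IrrCharacter (Subgroup.centralizer (Q : Set G))) :
    Cfsg.brauerOmega (Q.map (MulAut.conj x).toMonoidHom) β'
        (Helper75.irrComp (Helper75.centralizerConjEquiv Q x) ξ : _ → ℂ)
      = Cfsg.brauerOmega Q β (ξ : _ → ℂ) := by
  show (∑ᶠ c' : (Subgroup.centralizer ((Q.map (MulAut.conj x).toMonoidHom : Subgroup G) : Set G)), β' c' * ξ.1 (Helper75.centralizerConjEquiv Q x c')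
        / ξ.1 (Helper75.centralizerConjEquiv Q x 1))
      = ∑ᶠ c : (Subgroup.centralizer (Q : Set G)), β c * ξ.1 c / ξ.1 1
  rw [← finsum_comp_equiv (Helper75.centralizerConjEquiv Q x).toEquiv]
  refine finsum_congr fun c' => ?_
  have h1 : β' (c' : G)
      = β ((Helper75.centralizerConjEquiv Q x c' : (Subgroup.centralizer (Q : Set G))) : G) := by
    rw [← hβ, Helper75.centralizerConjEquiv_apply]
    congr 1
    group
  rw [h1, map_one]
  rfl

/-- Conjugation preserves the Brauer pairs of a block. -/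
theorem isBrauerPairOf_conj [Finite G] {p : ℕ} [Fact p.Prime] {M : Ideal Cfsg.AlgInt}
    {B : Set (Cfsg.IrrCharacter G)} {Q : Subgroup G} {f : Set (Cfsg.IrrCharacter (Subgroup.centralizer (Q : Set G)))} (x : G)
    (h : Cfsg.IsBrauerPairOf p M B Q f) :
    Cfsg.IsBrauerPairOf p M B (Q.map (MulAut.conj x).toMonoidHom) (Cfsg.conjBlock Q x f) := by
  obtain ⟨⟨hQ, hf⟩, hB, h2⟩ := h
  refine ⟨⟨hQ.map _, ?_⟩, hB, ?_⟩
  · rw [conjBlock_eq_image]
    exact Helper75.isPBlock_image_irrComp _ hf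
  · intro ξ' hξ'
    rw [conjBlock_eq_image] at hξ'
    obtain ⟨ξ, hξ, rfl⟩ := hξ'
    rw [brauerOmega_conj Q x (β := Cfsg.blockCoeff B)
      (fun c => blockCoeff_isClassFunction B c x) ξ]
    exact h2 ξ hξ

/-- Conjugation preserves normal inclusion of Brauer pairs. -/
theorem isNormalSubpair_conjBlock {p : ℕ} {M : Ideal Cfsg.AlgInt}
    {Q R : Subgroup G} {f : Set (Cfsg.IrrCharacter (Subgroup.centralizer (Q : Set G)))}
    {g : Set (Cfsg.IrrCharacter (Subgroup.centralizer (R : Set G)))} (x : G)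
    (h : Cfsg.IsNormalSubpair p M Q f R g) :
    Cfsg.IsNormalSubpair p M (Q.map (MulAut.conj x).toMonoidHom) (Cfsg.conjBlock Q x f)
      (R.map (MulAut.conj x).toMonoidHom) (Cfsg.conjBlock R x g) := by
  obtain ⟨⟨hQ, hf⟩, ⟨hR, hg⟩, hQR, hRN, hst, hbr⟩ := h
  have hRN' : R.map (MulAut.conj x).toMonoidHom ≤ Subgroup.normalizer
      ((Q.map (MulAut.conj x).toMonoidHom : Subgroup G) : Set G) := by
    rintro _ ⟨r, hr, rfl⟩
    rw [Subgroup.mem_normalizer_iff]
    intro h
    rw [mem_map_conj_iff, mem_map_conj_iff]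
    have h3 := Subgroup.mem_normalizer_iff.mp (hRN hr) (x⁻¹ * h * x)
    rw [h3]
    have e : x⁻¹ * ((MulAut.conj x).toMonoidHom r * h * ((MulAut.conj x).toMonoidHom r)⁻¹) * x
        = r * (x⁻¹ * h * x) * r⁻¹ := by
      show x⁻¹ * (x * r * x⁻¹ * h * (x * r * x⁻¹)⁻¹) * x = _
      group
    rw [e]
  refine ⟨⟨hQ.map _, ?_⟩, ⟨hR.map _, ?_⟩, Subgroup.map_mono hQR, hRN', ?_, ?_⟩
  · rw [conjBlock_eq_image]
    exact Helper75.isPBlock_image_irrComp _ hf
  · rw [conjBlock_eq_image]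
    exact Helper75.isPBlock_image_irrComp _ hg
  · rintro _ ⟨r, hr, rfl⟩
    refine ⟨Helper75.normalizer_le_normalizer_centralizer' _ (hRN' ⟨r, hr, rfl⟩), ?_⟩
    intro χ' hχ'
    rw [conjBlock_eq_image] at hχ'
    obtain ⟨χ, hχ, rfl⟩ := hχ'
    obtain ⟨χ₂, hχ₂, hc⟩ := (hst r hr).2 χ hχ
    refine ⟨Helper75.irrComp (Helper75.centralizerConjEquiv Q x) χ₂, ?_, ?_⟩
    · rw [conjBlock_eq_image]
      exact ⟨χ₂, hχ₂, rfl⟩
    · intro k k' hk
      show (χ₂ : _ → ℂ) (Helper75.centralizerConjEquiv Q x k')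
        = (χ : _ → ℂ) (Helper75.centralizerConjEquiv Q x k)
      apply hc
      rw [Helper75.centralizerConjEquiv_apply, Helper75.centralizerConjEquiv_apply, hk]
      show x⁻¹ * (x * r * x⁻¹ * k * (x * r * x⁻¹)⁻¹) * x = r * (x⁻¹ * k * x) * r⁻¹
      group
  · intro ξ' hξ'
    rw [conjBlock_eq_image] at hξ'
    obtain ⟨ξ, hξ, rfl⟩ := hξ'
    rw [brauerOmega_conj R x (β := Cfsg.subgroupBlockCoeff (Subgroup.centralizer (Q : Set G)) f)
      (fun c => sbc_conjBlock Q x f c) ξ]
    exact hbr ξ hξ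

/-- Conjugation of Brauer pairs. -/
def conjPair (x : G) (a : Cfsg.BrauerPairIdx G) : Cfsg.BrauerPairIdx G :=
  ⟨a.1.map (MulAut.conj x).toMonoidHom, Cfsg.conjBlock a.1 x a.2⟩

/-- Conjugation preserves inclusion of Brauer pairs. -/
theorem subpairLE_conjBlock {p : ℕ} {M : Ideal Cfsg.AlgInt}
    {Q R : Subgroup G} {f : Set (Cfsg.IrrCharacter (Subgroup.centralizer (Q : Set G)))}
    {g : Set (Cfsg.IrrCharacter (Subgroup.centralizer (R : Set G)))} (x : G)
    (h : Cfsg.SubpairLE p M Q f R g) :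
    Cfsg.SubpairLE p M (Q.map (MulAut.conj x).toMonoidHom) (Cfsg.conjBlock Q x f)
      (R.map (MulAut.conj x).toMonoidHom) (Cfsg.conjBlock R x g) := by
  have key : ∀ a b : Cfsg.BrauerPairIdx G,
      Relation.ReflTransGen (Cfsg.NormalSubpairRel p M) a b →
      Relation.ReflTransGen (Cfsg.NormalSubpairRel p M) (conjPair x a) (conjPair x b) := by
    intro a b hab
    induction hab with
    | refl => exact Relation.ReflTransGen.refl
    | tail _ hbc ih => exact Relation.ReflTransGen.tail ih (isNormalSubpair_conjBlock x hbc)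
  exact key ⟨Q, f⟩ ⟨R, g⟩ h

variable [Fintype G]

/-- Every Brauer pair of `B` lies below a maximal Brauer pair of `B`. -/
theorem exists_isMaximalBrauerPair_ge {p : ℕ} {M : Ideal Cfsg.AlgInt}
    {B : Set (Cfsg.IrrCharacter G)} {Q : Subgroup G} {f : Set (Cfsg.IrrCharacter (Subgroup.centralizer (Q : Set G)))}
    (hQf : Cfsg.IsBrauerPairOf p M B Q f) :
    ∃ (P : Subgroup G) (e : Set (Cfsg.IrrCharacter (Subgroup.centralizer (P : Set G)))),
      Cfsg.IsMaximalBrauerPair p M B P e ∧ Cfsg.SubpairLE p M Q f P e := by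
  classical
  suffices H : ∀ (n : ℕ) (Q : Subgroup G) (f : Set (Cfsg.IrrCharacter (Subgroup.centralizer (Q : Set G)))),
      Nat.card G - Nat.card Q = n → Cfsg.IsBrauerPairOf p M B Q f →
      ∃ (P : Subgroup G) (e : Set (Cfsg.IrrCharacter (Subgroup.centralizer (P : Set G)))),
        Cfsg.IsMaximalBrauerPair p M B P e ∧ Cfsg.SubpairLE p M Q f P e from H _ Q f rfl hQf
  intro n
  induction n using Nat.strong_induction_on with
  | _ n ih =>
    intro Q f hn hQf
    by_cases hmax : Cfsg.IsMaximalBrauerPair p M B Q f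
    · exact ⟨Q, f, hmax, Relation.ReflTransGen.refl⟩
    · have hex : ∃ (R : Subgroup G)
          (g : Set (Cfsg.IrrCharacter (Subgroup.centralizer (R : Set G)))),
          Cfsg.IsBrauerPairOf p M B R g ∧ Cfsg.SubpairLE p M Q f R g ∧ R ≠ Q := by
        by_contra hcon
        apply hmax
        refine ⟨hQf, fun R g hRg hle => ?_⟩
        by_contra hne
        exact hcon ⟨R, g, hRg, hle, hne⟩
      obtain ⟨R, g, hRg, hle, hne⟩ := hex
      have hQR : Q ≤ R := Helper75.subpairLE_fst_le (a := ⟨Q, f⟩) (b := ⟨R, g⟩) hle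
      have hlt : Nat.card Q < Nat.card R := by
        by_contra hnot
        push_neg at hnot
        exact hne (Subgroup.eq_of_le_of_card_ge hQR hnot).symm
      have hRG : Nat.card R ≤ Nat.card G := Subgroup.card_le_card_group R
      obtain ⟨P, e, hPe, hle2⟩ := ih (Nat.card G - Nat.card R) (by omega) R g rfl hRg
      exact ⟨P, e, hPe, Relation.ReflTransGen.trans hle hle2⟩

/-- **Brauer pairs of `B` at a defect group `P` of `B` are conjugate under `N_G(P)`.** -/
theorem exists_conjIrr_eq_of_isDefectGroup {p : ℕ} [Fact p.Prime] {M : Ideal Cfsg.AlgInt}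
    (hM : Cfsg.IsPModular p M) {B : Set (Cfsg.IrrCharacter G)} {P : Subgroup G}
    {e e₂ : Set (Cfsg.IrrCharacter (Subgroup.centralizer (P : Set G)))} (hD : Cfsg.IsDefectGroup p M B P)
    (h1 : Cfsg.IsBrauerPairOf p M B P e) (h2 : Cfsg.IsBrauerPairOf p M B P e₂)
    (hNC : (Subgroup.normalizer (P : Set G)) ≤ Subgroup.normalizer (((Subgroup.centralizer (P : Set G)) : Subgroup G) : Set G)) :
    ∃ n : (Subgroup.normalizer (P : Set G)), conjIrr (Subgroup.centralizer (P : Set G)) (Subgroup.inclusion hNC n) '' e₂ = e := by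
  classical
  have hMm := hM.2.1
  haveI := hMm.isPrime
  letI : Fintype (Subgroup.centralizer (P : Set G)) := Fintype.ofFinite _
  letI : Fintype (Subgroup.normalizer (P : Set G)) := Fintype.ofFinite _
  have hP := h1.1.1
  have he := h1.1.2
  have he₂ := h2.1.2
  have hPN : P ≤ (Subgroup.normalizer (P : Set G)) := Subgroup.le_normalizer
  have hCN : (Subgroup.centralizer (P : Set G)) ≤ (Subgroup.normalizer (P : Set G)) := Subgroup.centralizer_le_normalizer _
  obtain ⟨ξ, hξ⟩ := Helper16.exists_mem_of_isPBlock hMm he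
  obtain ⟨ξ₂, hξ₂⟩ := Helper16.exists_mem_of_isPBlock hMm he₂
  obtain ⟨θ, hθ⟩ := exists_irr_omega_restrict hM P (Subgroup.normalizer (P : Set G)) hP hPN hCN ξ
  obtain ⟨θ₂, hθ₂⟩ := exists_irr_omega_restrict hM P (Subgroup.normalizer (P : Set G)) hP hPN hCN ξ₂
  have hind := isInducedBlock_of_omega_restrict hM h1 (Subgroup.normalizer (P : Set G)) hPN hCN le_rfl hξ θ hθ
  have hind₂ := isInducedBlock_of_omega_restrict hM h2 (Subgroup.normalizer (P : Set G)) hPN hCN le_rfl hξ₂ θ₂ hθ₂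
  have hD₁ := Helper16.isDefectGroup_subgroupOf_of_induced hM hP hPN le_rfl hind hD
  have heq : Cfsg.blockOf M (θ₂ : (Subgroup.normalizer (P : Set G)) → ℂ) = Cfsg.blockOf M (θ : (Subgroup.normalizer (P : Set G)) → ℂ) :=
    Helper16.fmt_unique hM P hP hD₁ hind hind₂
  have hcoef := blockCoeff_eq_sbc_orbitUnion hM P (Subgroup.normalizer (P : Set G)) hP hPN hCN le_rfl hNC he θ
    (omega_sbc_orbitUnion_of_omega_restrict hM P (Subgroup.normalizer (P : Set G)) hCN hNC he hξ θ hθ)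
  have hcoef₂ := blockCoeff_eq_sbc_orbitUnion hM P (Subgroup.normalizer (P : Set G)) hP hPN hCN le_rfl hNC he₂ θ₂
    (omega_sbc_orbitUnion_of_omega_restrict hM P (Subgroup.normalizer (P : Set G)) hCN hNC he₂ hξ₂ θ₂ hθ₂)
  have hfun : Cfsg.blockCoeff (orbitUnion hNC e) = Cfsg.blockCoeff (orbitUnion hNC e₂) := by
    funext c
    have a1 : Cfsg.subgroupBlockCoeff (Subgroup.centralizer (P : Set G)) (orbitUnion hNC e) (c : G)
        = Cfsg.blockCoeff (orbitUnion hNC e) c := sbc_of_mem _ _ c.2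
    have a2 : Cfsg.subgroupBlockCoeff (Subgroup.centralizer (P : Set G)) (orbitUnion hNC e₂) (c : G)
        = Cfsg.blockCoeff (orbitUnion hNC e₂) c := sbc_of_mem _ _ c.2
    have h3 := hcoef ⟨(c : G), hCN c.2⟩
    have h4 := hcoef₂ ⟨(c : G), hCN c.2⟩
    rw [heq] at h4
    exact a1.symm.trans (h3.symm.trans (h4.trans a2))
  have hsub : e₂ ⊆ orbitUnion hNC e := by
    intro ψ hψ
    by_contra hnot
    have h5 := omega_blockCoeff_of_not_mem hnot
    rw [hfun, omega_blockCoeff_of_mem (subset_orbitUnion hNC e₂ hψ)] at h5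
    exact one_ne_zero h5
  exact exists_conj_eq_of_subset_orbitUnion hMm hNC he he₂ hsub

/-- **Brauer pairs of `B` at defect groups of `B` are conjugate.** -/
theorem exists_conjPair_eq {p : ℕ} [Fact p.Prime] {M : Ideal Cfsg.AlgInt}
    (hM : Cfsg.IsPModular p M) {B : Set (Cfsg.IrrCharacter G)} {P P' : Subgroup G}
    {e : Set (Cfsg.IrrCharacter (Subgroup.centralizer (P : Set G)))}
    {e' : Set (Cfsg.IrrCharacter (Subgroup.centralizer (P' : Set G)))}
    (hD : Cfsg.IsDefectGroup p M B P) (hD' : Cfsg.IsDefectGroup p M B P')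
    (h : Cfsg.IsBrauerPairOf p M B P e) (h' : Cfsg.IsBrauerPairOf p M B P' e') :
    ∃ x : G, (⟨P'.map (MulAut.conj x).toMonoidHom, Cfsg.conjBlock P' x e'⟩ :
      Cfsg.BrauerPairIdx G) = ⟨P, e⟩ := by
  classical
  have hB := h.2.1
  obtain ⟨y, hy⟩ := Helper16.isDefectGroup_conjLE hM hB hD' hD
  have hcard := Helper16.isDefectGroup_card_eq hM hB hD' hD
  have hPy : P'.map (MulAut.conj y).toMonoidHom = P := by
    apply Subgroup.eq_of_le_of_card_ge
    · rintro _ ⟨q, hq, rfl⟩
      exact hy q hq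
    · rw [Subgroup.card_map_of_injective (MulAut.conj y).injective, hcard]
  subst hPy
  have h2 := isBrauerPairOf_conj y h'
  have hNC : Subgroup.normalizer ((P'.map (MulAut.conj y).toMonoidHom : Subgroup G) : Set G)
      ≤ Subgroup.normalizer ((Subgroup.centralizer
        ((P'.map (MulAut.conj y).toMonoidHom : Subgroup G) : Set G) : Subgroup G) : Set G) :=
    fun n hn => Helper75.normalizer_le_normalizer_centralizer' _ hn
  obtain ⟨n, hn⟩ := exists_conjIrr_eq_of_isDefectGroup hM hD h h2 hNC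
  subst hn
  have hsub := map_conj_mul_of_mem_normalizer P' y n.2
  have hmem : ∀ w : G, w ∈ Subgroup.centralizer
      ((P'.map (MulAut.conj ((n : G) * y)).toMonoidHom : Subgroup G) : Set G) ↔
      w ∈ Subgroup.centralizer ((P'.map (MulAut.conj y).toMonoidHom : Subgroup G) : Set G) :=
    fun w => by rw [hsub]
  refine ⟨(n : G) * y, pair_ext hsub _ _ ?_⟩
  intro ψ₁ ψ₂ hψ
  constructor
  · rintro ⟨ξ, hξ, hξ2⟩
    refine ⟨Helper75.irrComp (Helper75.centralizerConjEquiv P' y) ξ, ?_, ?_⟩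
    · rw [conjBlock_eq_image]
      exact ⟨ξ, hξ, rfl⟩
    · symm
      apply eq_conjIrr_of_isConjCharOf
      intro k k' hk
      show (ψ₂ : _ → ℂ) k' = (ξ : _ → ℂ) (Helper75.centralizerConjEquiv P' y k)
      have hk'mem : (k' : G) ∈ Subgroup.centralizer
          ((P'.map (MulAut.conj ((n : G) * y)).toMonoidHom : Subgroup G) : Set G) :=
        (hmem _).mpr k'.2
      rw [← hψ ⟨(k' : G), hk'mem⟩ k' rfl]
      apply hξ2
      show (k' : G) = (n : G) * y * (y⁻¹ * (k : G) * y) * ((n : G) * y)⁻¹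
      rw [hk]
      show (n : G) * (k : G) * (n : G)⁻¹ = _
      group
  · rintro ⟨φ, hφ, rfl⟩
    rw [conjBlock_eq_image] at hφ
    obtain ⟨ξ, hξ, rfl⟩ := hφ
    refine ⟨ξ, hξ, fun c c' hc => ?_⟩
    have hc'mem : (c' : G) ∈ Subgroup.centralizer
        ((P'.map (MulAut.conj y).toMonoidHom : Subgroup G) : Set G) := (hmem _).mp c'.2
    rw [hψ c' ⟨(c' : G), hc'mem⟩ rfl]
    rw [conjIrr_apply _ _ _ ((Helper75.centralizerConjEquiv P' y).symm c) ⟨(c' : G), hc'mem⟩
      (by
        show (c' : G) = (n : G) * (y * (c : G) * y⁻¹) * (n : G)⁻¹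
        rw [hc]
        group)]
    show (ξ : _ → ℂ) (Helper75.centralizerConjEquiv P' y
      ((Helper75.centralizerConjEquiv P' y).symm c)) = (ξ : _ → ℂ) c
    rw [MulEquiv.apply_symm_apply]

/-- **Every Brauer pair of `B` is conjugate to a pair below a given maximal Brauer pair.** -/
theorem exists_subpairLE_conj_of_isMaximalBrauerPair {p : ℕ} [Fact p.Prime]
    {M : Ideal Cfsg.AlgInt} (hM : Cfsg.IsPModular p M) (B : Set (Cfsg.IrrCharacter G))
    (P Q : Subgroup G) (e : Set (Cfsg.IrrCharacter (Subgroup.centralizer (P : Set G)))) (f : Set (Cfsg.IrrCharacter (Subgroup.centralizer (Q : Set G))))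
    (hmax : Cfsg.IsMaximalBrauerPair p M B P e) (hQf : Cfsg.IsBrauerPairOf p M B Q f) :
    ∃ x : G, Cfsg.SubpairLE p M (Q.map (MulAut.conj x).toMonoidHom) (Cfsg.conjBlock Q x f)
      P e := by
  obtain ⟨P', e', hmax', hle⟩ := exists_isMaximalBrauerPair_ge hQf
  have hD := isDefectGroup_of_isMaximalBrauerPair hM B P e hmax
  have hD' := isDefectGroup_of_isMaximalBrauerPair hM B P' e' hmax'
  obtain ⟨x, hx⟩ := exists_conjPair_eq hM hD hD' hmax.1 hmax'.1
  refine ⟨x, ?_⟩
  have h1 := subpairLE_conjBlock x hle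
  show Relation.ReflTransGen (Cfsg.NormalSubpairRel p M) ⟨_, _⟩ ⟨P, e⟩
  rw [← hx]
  exact h1

end Cfsg.Agent.Helper77
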