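import Cfsg.Agent.Helper77.SubPair

/-!
# More on conjugation of Brauer pairs

* `pair_eq_iff`: elementwise consequence of an equality of Brauer pairs.
* `conjPair_eq_self_iff`: `x` fixes `(Q, f)` iff `x` normalizes `Q` and stabilizes `f`.
* `conjPair_mul`, `conjPair_one`.
* `isMaximalBrauerPair_of_card_eq`, `isMaximalBrauerPair_conj`.
* `subBlock_conjBlock`, `conjPair_eq_of_subBlock`: conjugation and the correspondence with the
  Brauer pairs of a subgroup.
-/

set_option autoImplicit false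
set_option linter.style.haveILetI false
open Cfsg

namespace Cfsg.Agent.Helper77

universe u

variable {G : Type u} [Group G]

/-- Elementwise consequence of an equality of Brauer pairs. -/
theorem pair_eq_iff {Q₁ Q₂ : Subgroup G}
    {S₁ : Set (Cfsg.IrrCharacter (Subgroup.centralizer (Q₁ : Set G)))}
    {S₂ : Set (Cfsg.IrrCharacter (Subgroup.centralizer (Q₂ : Set G)))}
    (h : (⟨Q₁, S₁⟩ : Cfsg.BrauerPairIdx G) = ⟨Q₂, S₂⟩) :
    Q₁ = Q₂ ∧ ∀ (ψ₁ : Cfsg.IrrCharacter (Subgroup.centralizer (Q₁ : Set G)))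
      (ψ₂ : Cfsg.IrrCharacter (Subgroup.centralizer (Q₂ : Set G))),
      (∀ (c₁ : Subgroup.centralizer (Q₁ : Set G)) (c₂ : Subgroup.centralizer (Q₂ : Set G)),
        (c₁ : G) = (c₂ : G) → (ψ₁ : _ → ℂ) c₁ = (ψ₂ : _ → ℂ) c₂) → (ψ₁ ∈ S₁ ↔ ψ₂ ∈ S₂) := by
  have h1 : Q₁ = Q₂ := congrArg Sigma.fst h
  subst h1
  have h2 : S₁ = S₂ := eq_of_heq (Sigma.mk.inj h).2
  subst h2
  refine ⟨rfl, fun ψ₁ ψ₂ hh => ?_⟩
  have : ψ₁ = ψ₂ := Subtype.ext (funext fun c => hh c c rfl)
  rw [this]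

theorem map_conj_eq_self_iff (Q : Subgroup G) (x : G) :
    Q.map (MulAut.conj x).toMonoidHom = Q ↔ x ∈ Subgroup.normalizer (Q : Set G) := by
  rw [Subgroup.mem_normalizer_iff]
  constructor
  · intro hQ h
    have h1 := mem_map_conj_iff Q x (x * h * x⁻¹)
    rw [hQ] at h1
    have e : x⁻¹ * (x * h * x⁻¹) * x = h := by group
    rw [e] at h1
    exact h1.symm
  · intro hx
    ext w
    rw [mem_map_conj_iff]
    have h1 := hx (x⁻¹ * w * x)
    have e : x * (x⁻¹ * w * x) * x⁻¹ = w := by group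
    rw [e] at h1
    exact h1

/-- `x` fixes the Brauer pair `(Q, f)` iff it normalizes `Q` and stabilizes `f`. -/
theorem conjPair_eq_self_iff [Finite G] (Q : Subgroup G)
    (f : Set (Cfsg.IrrCharacter (Subgroup.centralizer (Q : Set G)))) (x : G) :
    (⟨Q.map (MulAut.conj x).toMonoidHom, Cfsg.conjBlock Q x f⟩ : Cfsg.BrauerPairIdx G) = ⟨Q, f⟩ ↔
      x ∈ Subgroup.normalizer (Q : Set G) ∧
        Cfsg.StabilizesBlock (Subgroup.centralizer (Q : Set G)) f x := by
  constructor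
  · intro h
    obtain ⟨hQ, hS⟩ := pair_eq_iff h
    have hx : x ∈ Subgroup.normalizer (Q : Set G) := (map_conj_eq_self_iff Q x).1 hQ
    have hxC := Helper75.normalizer_le_normalizer_centralizer' Q hx
    refine ⟨hx, hxC, fun χ hχ => ⟨conjIrr _ ⟨x, hxC⟩ χ, ?_, isConjCharOf_conjIrr _ ⟨x, hxC⟩ χ⟩⟩
    refine (hS (Helper75.irrComp (Helper75.centralizerConjEquiv Q x) χ) _ ?_).1 ?_
    · intro c₁ c₂ hc
      rw [Helper75.irrComp_apply]
      symm
      apply conjIrr_apply
      rw [Helper75.centralizerConjEquiv_apply, ← hc]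
      show (c₁ : G) = x * (x⁻¹ * (c₁ : G) * x) * x⁻¹
      group
    · rw [conjBlock_eq_image]
      exact ⟨χ, hχ, rfl⟩
  · rintro ⟨hx, hst⟩
    have hQ := (map_conj_eq_self_iff Q x).2 hx
    have hxC := Helper75.normalizer_le_normalizer_centralizer' Q hx
    refine pair_ext hQ _ _ fun ψ₁ ψ₂ hψ => ?_
    have hmem : ∀ c : G, c ∈ Subgroup.centralizer (Q : Set G) →
        c ∈ Subgroup.centralizer ((Q.map (MulAut.conj x).toMonoidHom : Subgroup G) : Set G) := by
      intro c hc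
      rw [hQ]
      exact hc
    constructor
    · rintro ⟨ξ, hξ, hh⟩
      obtain ⟨χ', hχ', hc⟩ := hst.2 ξ hξ
      have : ψ₂ = χ' := by
        apply Subtype.ext
        funext k'
        have hk : (k' : G) = x * ((Helper75.conjEquivOfNormalizer _ x hxC k' :
            Subgroup.centralizer (Q : Set G)) : G) * x⁻¹ := by
          rw [Helper75.conjEquivOfNormalizer_apply]
          group
        rw [hc _ k' hk, ← hψ ⟨(k' : G), hmem _ k'.2⟩ k' rfl]
        exact hh _ _ hk
      rw [this]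
      exact hχ'
    · intro hψ₂
      have hst' : Cfsg.StabilizesBlock (Subgroup.centralizer (Q : Set G)) f x⁻¹ :=
        (stabSubgroup (Subgroup.centralizer (Q : Set G)) f).inv_mem hst
      obtain ⟨χ', hχ', hc⟩ := hst'.2 ψ₂ hψ₂
      refine ⟨χ', hχ', fun c c' hcc => ?_⟩
      have hmem' : ∀ c : G,
          c ∈ Subgroup.centralizer ((Q.map (MulAut.conj x).toMonoidHom : Subgroup G) : Set G) →
          c ∈ Subgroup.centralizer (Q : Set G) := by
        intro c hc
        rw [hQ] at hc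
        exact hc
      have hc'mem : (c' : G) ∈ Subgroup.centralizer (Q : Set G) := hmem' _ c'.2
      rw [hψ c' ⟨(c' : G), hc'mem⟩ rfl]
      symm
      apply hc
      show (c : G) = x⁻¹ * (c' : G) * x⁻¹⁻¹
      rw [hcc]
      group

/-- Conjugation of Brauer pairs is an action. -/
theorem conjPair_mul (x y : G) (a : Cfsg.BrauerPairIdx G) :
    conjPair (x * y) a = conjPair x (conjPair y a) := by
  obtain ⟨Q, f⟩ := a
  have hQ : Q.map (MulAut.conj (x * y)).toMonoidHom
      = (Q.map (MulAut.conj y).toMonoidHom).map (MulAut.conj x).toMonoidHom := by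
    rw [Subgroup.map_map]
    congr 1
    ext g
    simp [mul_assoc]
  show (⟨Q.map (MulAut.conj (x * y)).toMonoidHom, Cfsg.conjBlock Q (x * y) f⟩ :
      Cfsg.BrauerPairIdx G)
    = ⟨(Q.map (MulAut.conj y).toMonoidHom).map (MulAut.conj x).toMonoidHom,
        Cfsg.conjBlock (Q.map (MulAut.conj y).toMonoidHom) x (Cfsg.conjBlock Q y f)⟩
  refine pair_ext hQ _ _ fun ψ₁ ψ₂ hψ => ?_
  have hmem' : ∀ c : G, c ∈ Subgroup.centralizer
      (((Q.map (MulAut.conj y).toMonoidHom).map (MulAut.conj x).toMonoidHom : Subgroup G) :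
        Set G) →
      c ∈ Subgroup.centralizer
        ((Q.map (MulAut.conj (x * y)).toMonoidHom : Subgroup G) : Set G) := by
    intro c hc
    rw [hQ]
    exact hc
  constructor
  · rintro ⟨ξ, hξ, hh⟩
    refine ⟨Helper75.irrComp (Helper75.centralizerConjEquiv Q y) ξ, ?_, fun d c₂ hc => ?_⟩
    · rw [conjBlock_eq_image]
      exact ⟨ξ, hξ, rfl⟩
    · rw [Helper75.irrComp_apply]
      have hmem : (c₂ : G) ∈ Subgroup.centralizer
          ((Q.map (MulAut.conj (x * y)).toMonoidHom : Subgroup G) : Set G) := hmem' _ c₂.2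
      rw [← hψ ⟨(c₂ : G), hmem⟩ c₂ rfl]
      apply hh
      show (c₂ : G) = x * y * ((Helper75.centralizerConjEquiv Q y d :
        Subgroup.centralizer (Q : Set G)) : G) * (x * y)⁻¹
      rw [Helper75.centralizerConjEquiv_apply, hc]
      group
  · rintro ⟨ξ', ⟨ξ, hξ, hh1⟩, hh2⟩
    refine ⟨ξ, hξ, fun c c₁ hc => ?_⟩
    have hd : y * (c : G) * y⁻¹ ∈ Subgroup.centralizer
        ((Q.map (MulAut.conj y).toMonoidHom : Subgroup G) : Set G) :=
      (conj_mem_centralizer_map_iff Q y c).2 c.2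
    have hc₂ : x * (y * (c : G) * y⁻¹) * x⁻¹ ∈ Subgroup.centralizer
        (((Q.map (MulAut.conj y).toMonoidHom).map (MulAut.conj x).toMonoidHom : Subgroup G) :
          Set G) :=
      (conj_mem_centralizer_map_iff _ x _).2 hd
    rw [hψ c₁ ⟨_, hc₂⟩ (by rw [hc]; group), hh2 ⟨_, hd⟩ ⟨_, hc₂⟩ rfl, hh1 c ⟨_, hd⟩ rfl]

theorem conjPair_one [Finite G] (a : Cfsg.BrauerPairIdx G) : conjPair 1 a = a := by
  obtain ⟨Q, f⟩ := a
  exact (conjPair_eq_self_iff Q f 1).2
    ⟨Subgroup.one_mem _, (stabSubgroup (Subgroup.centralizer (Q : Set G)) f).one_mem⟩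

theorem conjPair_inv_conjPair [Finite G] (x : G) (a : Cfsg.BrauerPairIdx G) :
    conjPair x⁻¹ (conjPair x a) = a := by
  rw [← conjPair_mul, inv_mul_cancel, conjPair_one]

theorem conjPair_conjPair_inv [Finite G] (x : G) (a : Cfsg.BrauerPairIdx G) :
    conjPair x (conjPair x⁻¹ a) = a := by
  rw [← conjPair_mul, mul_inv_cancel, conjPair_one]

theorem conjPair_of_mem [Finite G] (Q : Subgroup G)
    (f : Set (Cfsg.IrrCharacter (Subgroup.centralizer (Q : Set G)))) {x : G} (hx : x ∈ Q) :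
    conjPair x ⟨Q, f⟩ = ⟨Q, f⟩ :=
  (conjPair_eq_self_iff Q f x).2 ⟨Subgroup.le_normalizer hx, stabilizesBlock_of_mem Q f hx⟩

theorem conjPair_of_mem_centralizer [Finite G] (Q : Subgroup G)
    (f : Set (Cfsg.IrrCharacter (Subgroup.centralizer (Q : Set G)))) {x : G}
    (hx : x ∈ Subgroup.centralizer (Q : Set G)) :
    conjPair x ⟨Q, f⟩ = ⟨Q, f⟩ :=
  (conjPair_eq_self_iff Q f x).2
    ⟨Subgroup.centralizer_le_normalizer _ hx, stabilizesBlock_of_mem_centralizer Q f hx⟩

/-- Conjugation preserves inclusion of Brauer pairs (index form). -/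
theorem subpairLE_conjPair {p : ℕ} {M : Ideal Cfsg.AlgInt} (x : G)
    {a b : Cfsg.BrauerPairIdx G}
    (h : Relation.ReflTransGen (Cfsg.NormalSubpairRel p M) a b) :
    Relation.ReflTransGen (Cfsg.NormalSubpairRel p M) (conjPair x a) (conjPair x b) := by
  obtain ⟨Q, f⟩ := a
  obtain ⟨R, g⟩ := b
  exact subpairLE_conjBlock x h

section fin
variable [Fintype G]

/-- A Brauer pair of `B` at a subgroup of the order of a defect group is maximal. -/
theorem isMaximalBrauerPair_of_card_eq {p : ℕ} [Fact p.Prime] {M : Ideal Cfsg.AlgInt}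
    (hM : Cfsg.IsPModular p M) {B : Set (Cfsg.IrrCharacter G)} {P D : Subgroup G}
    {e : Set (Cfsg.IrrCharacter (Subgroup.centralizer (P : Set G)))}
    (hPe : Cfsg.IsBrauerPairOf p M B P e) (hD : Cfsg.IsDefectGroup p M B D)
    (hc : Nat.card P = Nat.card D) : Cfsg.IsMaximalBrauerPair p M B P e := by
  refine ⟨hPe, fun R g hRg hle => ?_⟩
  have h1 : P ≤ R := Helper75.subpairLE_fst_le hle
  obtain ⟨P₀, e₀, hmax₀, hle₀⟩ := exists_isMaximalBrauerPair_ge hRg
  have h2 : R ≤ P₀ := Helper75.subpairLE_fst_le hle₀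
  have h3 := isDefectGroup_of_isMaximalBrauerPair hM B P₀ e₀ hmax₀
  have h4 := Helper16.isDefectGroup_card_eq hM hPe.2.1 h3 hD
  have h5 : Nat.card R ≤ Nat.card P := by
    rw [hc, ← h4]
    exact Subgroup.card_le_of_le h2
  exact (Subgroup.eq_of_le_of_card_ge h1 h5).symm

theorem card_map_conj (Q : Subgroup G) (x : G) :
    Nat.card (Q.map (MulAut.conj x).toMonoidHom) = Nat.card Q :=
  Subgroup.card_map_of_injective (MulAut.conj x).injective

/-- A conjugate of a maximal Brauer pair is maximal. -/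
theorem isMaximalBrauerPair_conj {p : ℕ} [Fact p.Prime] {M : Ideal Cfsg.AlgInt}
    (hM : Cfsg.IsPModular p M) {B : Set (Cfsg.IrrCharacter G)} {P : Subgroup G}
    {e : Set (Cfsg.IrrCharacter (Subgroup.centralizer (P : Set G)))}
    (hmax : Cfsg.IsMaximalBrauerPair p M B P e) (x : G) :
    Cfsg.IsMaximalBrauerPair p M B (P.map (MulAut.conj x).toMonoidHom)
      (Cfsg.conjBlock P x e) :=
  isMaximalBrauerPair_of_card_eq hM (isBrauerPairOf_conj x hmax.1)
    (isDefectGroup_of_isMaximalBrauerPair hM B P e hmax) (card_map_conj P x)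

end fin

/-- Compatibility of centralizers is preserved by conjugation with an element of `H`. -/
theorem centCompat_conj {H : Subgroup G} {R' : Subgroup H} {R : Subgroup G}
    (h : CentCompat H R' R) (t : H) :
    CentCompat H (R'.map (MulAut.conj t).toMonoidHom)
      (R.map (MulAut.conj (t : G)).toMonoidHom) := by
  intro g
  have e1 : g ∈ Subgroup.centralizer
      ((R.map (MulAut.conj (t : G)).toMonoidHom : Subgroup G) : Set G) ↔
      (t : G)⁻¹ * g * (t : G) ∈ Subgroup.centralizer (R : Set G) := by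
    have := conj_mem_centralizer_map_iff R (t : G) ((t : G)⁻¹ * g * (t : G))
    rw [show (t : G) * ((t : G)⁻¹ * g * (t : G)) * (t : G)⁻¹ = g by group] at this
    exact this
  rw [e1, h]
  constructor
  · rintro ⟨hg, hc⟩
    have hgH : g ∈ H := by
      have := H.mul_mem (H.mul_mem t.2 hg) (H.inv_mem t.2)
      rwa [show (t : G) * ((t : G)⁻¹ * g * (t : G)) * (t : G)⁻¹ = g by group] at this
    refine ⟨hgH, ?_⟩
    have h2 := (conj_mem_centralizer_map_iff R' t (t⁻¹ * ⟨g, hgH⟩ * t)).2 hc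
    rwa [show t * (t⁻¹ * (⟨g, hgH⟩ : H) * t) * t⁻¹ = ⟨g, hgH⟩ by group] at h2
  · rintro ⟨hgH, hc⟩
    refine ⟨H.mul_mem (H.mul_mem (H.inv_mem t.2) hgH) t.2, ?_⟩
    refine (conj_mem_centralizer_map_iff R' t (t⁻¹ * ⟨g, hgH⟩ * t)).1 ?_
    rwa [show t * (t⁻¹ * (⟨g, hgH⟩ : H) * t) * t⁻¹ = ⟨g, hgH⟩ by group]

/-- The correspondence of blocks commutes with conjugation. -/
theorem subBlock_conjBlock {H : Subgroup G} {R' : Subgroup H} {R : Subgroup G}
    (h : CentCompat H R' R) (t : H)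
    (e : Set (Cfsg.IrrCharacter (Subgroup.centralizer (R : Set G)))) :
    subBlock (centCompat_conj h t) (Cfsg.conjBlock R (t : G) e)
      = Cfsg.conjBlock R' t (subBlock h e) := by
  ext ψ'
  obtain ⟨ψ, rfl⟩ := exists_eq_irrComp_centEquiv (centCompat_conj h t) ψ'
  rw [mem_subBlock_iff]
  constructor
  · rintro ⟨ξ, hξ, hh⟩
    refine ⟨Helper75.irrComp (centEquiv h) ξ, (mem_subBlock_iff h e ξ).2 hξ, fun c c' hc => ?_⟩
    rw [Helper75.irrComp_apply, Helper75.irrComp_apply]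
    apply hh
    show ((c' : H) : G) = (t : G) * ((c : H) : G) * (t : G)⁻¹
    rw [hc]
    rfl
  · rintro ⟨ξ', hξ', hh⟩
    obtain ⟨ξ, rfl⟩ := exists_eq_irrComp_centEquiv h ξ'
    refine ⟨ξ, (mem_subBlock_iff h e ξ).1 hξ', fun c c' hc => ?_⟩
    have := hh ((centEquiv h).symm c) ((centEquiv (centCompat_conj h t)).symm c')
      (Subtype.ext (by
        show (c' : G) = (t : G) * (c : G) * (t : G)⁻¹
        exact hc))
    rw [Helper75.irrComp_apply, Helper75.irrComp_apply, MulEquiv.apply_symm_apply,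
      MulEquiv.apply_symm_apply] at this
    exact this

/-- A conjugacy of Brauer pairs of `H` gives a conjugacy of the corresponding pairs of `G`. -/
theorem conjPair_eq_of_subBlock {H : Subgroup G} {R₁' R₂' : Subgroup H} {R₁ R₂ : Subgroup G}
    (h₁ : CentCompat H R₁' R₁) (h₂ : CentCompat H R₂' R₂) (t : H)
    (e₁ : Set (Cfsg.IrrCharacter (Subgroup.centralizer (R₁ : Set G))))
    (e₂ : Set (Cfsg.IrrCharacter (Subgroup.centralizer (R₂ : Set G))))
    (hR : R₂.map (MulAut.conj (t : G)).toMonoidHom = R₁)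
    (heq : (⟨R₂'.map (MulAut.conj t).toMonoidHom, Cfsg.conjBlock R₂' t (subBlock h₂ e₂)⟩ :
      Cfsg.BrauerPairIdx H) = ⟨R₁', subBlock h₁ e₁⟩) :
    (⟨R₂.map (MulAut.conj (t : G)).toMonoidHom, Cfsg.conjBlock R₂ (t : G) e₂⟩ :
      Cfsg.BrauerPairIdx G) = ⟨R₁, e₁⟩ := by
  obtain ⟨-, hS⟩ := pair_eq_iff heq
  refine pair_ext hR _ _ fun ψ₁ ψ₂ hψ => ?_
  have key := hS (Helper75.irrComp (centEquiv (centCompat_conj h₂ t)) ψ₁)
    (Helper75.irrComp (centEquiv h₁) ψ₂) (fun c₁ c₂ hc => by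
      rw [Helper75.irrComp_apply, Helper75.irrComp_apply]
      apply hψ
      show ((c₁ : H) : G) = ((c₂ : H) : G)
      rw [hc])
  rw [← subBlock_conjBlock, mem_subBlock_iff, mem_subBlock_iff] at key
  exact key

end Cfsg.Agent.Helper77
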