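import Cfsg.Agent.Helper77.CentricNil

/-!
# Correspondence between Brauer pairs of a subgroup `H` and Brauer pairs of `G`

A pair `a' = (R', e')` of `H` corresponds to the pair `a = (R, e)` of `G` (`PairCorr H a' a`) when
`R` is the image of `R'`, `C_H(R') = C_G(R)` and `e'` is `e` read on `C_H(R')`.

* `exists_pairCorr_of_subpairLE`: inclusions of pairs of `H` transport to `G`.
* `pairCorr_unique`, `pairCorr_conjPair`, `pairCorr_of_subgroupOf`.
-/

set_option autoImplicit false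
set_option linter.style.haveILetI false
open Cfsg

namespace Cfsg.Agent.Helper77

universe u

variable {G : Type u} [Group G]

/-- For `R ≤ H` with `C_G(R) ≤ H`: `C_H(R) = C_G(R)`. -/
theorem centCompat_subgroupOf (H R : Subgroup G) (hRH : R ≤ H)
    (hC : Subgroup.centralizer (R : Set G) ≤ H) : CentCompat H (R.subgroupOf H) R := by
  intro g
  constructor
  · intro hg
    refine ⟨hC hg, ?_⟩
    rw [Subgroup.mem_centralizer_iff]
    intro r hr
    apply Subtype.ext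
    exact Subgroup.mem_centralizer_iff.mp hg r (Subgroup.mem_subgroupOf.mp hr)
  · rintro ⟨hgH, hc⟩
    rw [Subgroup.mem_centralizer_iff]
    intro r hr
    have := Subgroup.mem_centralizer_iff.mp hc ⟨r, hRH hr⟩ (Subgroup.mem_subgroupOf.mpr hr)
    exact congrArg Subtype.val this

/-- Compatibility from an elementwise description of `R` as the image of `R'`. -/
theorem centCompat_of_mem_iff (H : Subgroup G) (R' : Subgroup H) (R : Subgroup G)
    (hmem : ∀ g : G, g ∈ R ↔ ∃ hg : g ∈ H, (⟨g, hg⟩ : H) ∈ R')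
    (hC : Subgroup.centralizer (R : Set G) ≤ H) : CentCompat H R' R := by
  intro g
  constructor
  · intro hg
    refine ⟨hC hg, ?_⟩
    rw [Subgroup.mem_centralizer_iff]
    intro r hr
    apply Subtype.ext
    exact Subgroup.mem_centralizer_iff.mp hg r ((hmem r).2 ⟨r.2, hr⟩)
  · rintro ⟨hgH, hc⟩
    rw [Subgroup.mem_centralizer_iff]
    intro r hr
    obtain ⟨hrH, hr'⟩ := (hmem r).1 hr
    have := Subgroup.mem_centralizer_iff.mp hc ⟨r, hrH⟩ hr'
    exact congrArg Subtype.val this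

/-- The pair `a'` of `H` corresponds to the pair `a` of `G`. -/
def PairCorr (H : Subgroup G) (a' : Cfsg.BrauerPairIdx H) (a : Cfsg.BrauerPairIdx G) : Prop :=
  ∃ h : CentCompat H a'.1 a.1,
    (∀ g : G, g ∈ a.1 ↔ ∃ hg : g ∈ H, (⟨g, hg⟩ : H) ∈ a'.1) ∧ a'.2 = subBlock h a.2

theorem pairCorr_of_subgroupOf (H R : Subgroup G) (hRH : R ≤ H)
    (hC : Subgroup.centralizer (R : Set G) ≤ H)
    (e : Set (Cfsg.IrrCharacter (Subgroup.centralizer (R : Set G)))) :
    PairCorr H ⟨R.subgroupOf H, subBlock (centCompat_subgroupOf H R hRH hC) e⟩ ⟨R, e⟩ :=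
  ⟨centCompat_subgroupOf H R hRH hC,
    fun g => ⟨fun hg => ⟨hRH hg, Subgroup.mem_subgroupOf.mpr hg⟩,
      fun ⟨_, hg⟩ => Subgroup.mem_subgroupOf.mp hg⟩, rfl⟩

theorem PairCorr.le {H : Subgroup G} {a' : Cfsg.BrauerPairIdx H} {a : Cfsg.BrauerPairIdx G}
    (h : PairCorr H a' a) : a.1 ≤ H := fun g hg => ((h.choose_spec.1 g).1 hg).1

theorem PairCorr.isPGroup {p : ℕ} {H : Subgroup G} {a' : Cfsg.BrauerPairIdx H}
    {a : Cfsg.BrauerPairIdx G} (h : PairCorr H a' a) (hp : IsPGroup p a'.1) : IsPGroup p a.1 := by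
  obtain ⟨_, hmem, _⟩ := h
  intro g
  obtain ⟨hgH, hg'⟩ := (hmem g).1 g.2
  obtain ⟨k, hk⟩ := hp ⟨⟨g, hgH⟩, hg'⟩
  refine ⟨k, Subtype.ext ?_⟩
  have := congrArg (fun x : a'.1 => ((x : H) : G)) hk
  simpa using this

/-- The pair of `G` corresponding to a pair of `H` is unique. -/
theorem pairCorr_unique {H : Subgroup G} {a' : Cfsg.BrauerPairIdx H}
    {a₁ a₂ : Cfsg.BrauerPairIdx G} (h₁ : PairCorr H a' a₁) (h₂ : PairCorr H a' a₂) : a₁ = a₂ := by
  obtain ⟨R₁, e₁⟩ := a₁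
  obtain ⟨R₂, e₂⟩ := a₂
  obtain ⟨c₁, hm₁, he₁⟩ := h₁
  obtain ⟨c₂, hm₂, he₂⟩ := h₂
  have hR : R₁ = R₂ := by
    ext g
    rw [hm₁, hm₂]
  refine pair_ext hR _ _ fun ψ₁ ψ₂ hψ => ?_
  have h3 : Helper75.irrComp (centEquiv c₁) ψ₁ = Helper75.irrComp (centEquiv c₂) ψ₂ := by
    apply Subtype.ext
    funext c
    exact hψ _ _ rfl
  rw [← mem_subBlock_iff c₁ e₁ ψ₁, ← mem_subBlock_iff c₂ e₂ ψ₂, ← he₁, ← he₂, h3]

/-- Conjugation by an element of `H` preserves the correspondence. -/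
theorem pairCorr_conjPair {H : Subgroup G} {a' : Cfsg.BrauerPairIdx H}
    {a : Cfsg.BrauerPairIdx G} (h : PairCorr H a' a) (t : H) :
    PairCorr H (conjPair t a') (conjPair (t : G) a) := by
  obtain ⟨R', e'⟩ := a'
  obtain ⟨R, e⟩ := a
  obtain ⟨c, hm, he⟩ := h
  refine ⟨centCompat_conj c t, ?_, ?_⟩
  · intro g
    show g ∈ R.map (MulAut.conj (t : G)).toMonoidHom ↔
      ∃ hg : g ∈ H, (⟨g, hg⟩ : H) ∈ R'.map (MulAut.conj t).toMonoidHom
    rw [mem_map_conj_iff, hm]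
    constructor
    · rintro ⟨hg, hg'⟩
      have hgH : g ∈ H := by
        have := H.mul_mem (H.mul_mem t.2 hg) (H.inv_mem t.2)
        rwa [show (t : G) * ((t : G)⁻¹ * g * (t : G)) * (t : G)⁻¹ = g by group] at this
      refine ⟨hgH, ?_⟩
      rw [mem_map_conj_iff]
      exact hg'
    · rintro ⟨hgH, hg'⟩
      rw [mem_map_conj_iff] at hg'
      exact ⟨H.mul_mem (H.mul_mem (H.inv_mem t.2) hgH) t.2, hg'⟩
  · show Cfsg.conjBlock R' t e' = subBlock (centCompat_conj c t) (Cfsg.conjBlock R (t : G) e)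
    rw [subBlock_conjBlock]
    have he' : e' = subBlock c e := he
    rw [he']

/-- **Transport of inclusions.** An inclusion of Brauer pairs of `H` gives an inclusion of the
corresponding Brauer pairs of `G`. -/
theorem exists_pairCorr_of_subpairLE {p : ℕ} {M : Ideal Cfsg.AlgInt} {H : Subgroup G}
    {a' b' : Cfsg.BrauerPairIdx H}
    (hle : Relation.ReflTransGen (Cfsg.NormalSubpairRel p M) a' b') (a : Cfsg.BrauerPairIdx G)
    (ha : PairCorr H a' a) (hH : Subgroup.centralizer (a.1 : Set G) ≤ H) :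
    ∃ b : Cfsg.BrauerPairIdx G, PairCorr H b' b ∧
      Relation.ReflTransGen (Cfsg.NormalSubpairRel p M) a b := by
  induction hle with
  | refl => exact ⟨a, ha, Relation.ReflTransGen.refl⟩
  | @tail c' b' _ hstep ih =>
    obtain ⟨c, hc, hac⟩ := ih
    obtain ⟨cc, hmc, hec⟩ := hc
    have hstep' : Cfsg.IsNormalSubpair p M c'.1 c'.2 b'.1 b'.2 := hstep
    have hmb : ∀ g : G, g ∈ b'.1.map H.subtype ↔ ∃ hg : g ∈ H, (⟨g, hg⟩ : H) ∈ b'.1 := by
      intro g
      constructor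
      · rintro ⟨g', hg', rfl⟩
        exact ⟨g'.2, hg'⟩
      · rintro ⟨hg, hg'⟩
        exact ⟨⟨g, hg⟩, hg', rfl⟩
    have hcb : c.1 ≤ b'.1.map H.subtype := by
      intro g hg
      obtain ⟨hgH, hg'⟩ := (hmc g).1 hg
      exact (hmb g).2 ⟨hgH, hstep'.2.2.1 hg'⟩
    have hac1 : a.1 ≤ c.1 := Helper75.subpairLE_fst_le hac
    have hCb : Subgroup.centralizer ((b'.1.map H.subtype : Subgroup G) : Set G) ≤ H :=
      (Subgroup.centralizer_le (by exact_mod_cast hac1.trans hcb)).trans hH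
    have cb : CentCompat H b'.1 (b'.1.map H.subtype) := centCompat_of_mem_iff H _ _ hmb hCb
    have heb : b'.2 = subBlock cb (Helper75.irrComp (centEquiv cb).symm '' b'.2) := by
      rw [subBlock, Helper75.image_irrComp_image_symm]
    refine ⟨⟨b'.1.map H.subtype, Helper75.irrComp (centEquiv cb).symm '' b'.2⟩,
      ⟨cb, hmb, heb⟩, hac.tail ?_⟩
    have hcorrb : PairCorr H b' ⟨b'.1.map H.subtype, Helper75.irrComp (centEquiv cb).symm '' b'.2⟩ :=
      ⟨cb, hmb, heb⟩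
    have hcorrc : PairCorr H c' c := ⟨cc, hmc, hec⟩
    have hsub : Cfsg.IsNormalSubpair p M c'.1 (subBlock cc c.2) b'.1
        (subBlock cb (Helper75.irrComp (centEquiv cb).symm '' b'.2)) := by
      rw [← hec, ← heb]
      exact hstep'
    refine isNormalSubpair_of_subBlock cc cb hsub (hcorrc.isPGroup hstep'.1.1)
      (hcorrb.isPGroup hstep'.2.1.1) hcb ?_ ?_
    · intro g hg
      obtain ⟨hgH, hg'⟩ := (hmb g).1 hg
      have hn := Subgroup.mem_normalizer_iff.mp (hstep'.2.2.2.1 hg')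
      rw [Subgroup.mem_normalizer_iff]
      intro w
      constructor
      · intro hw
        obtain ⟨hwH, hw'⟩ := (hmc w).1 hw
        exact (hmc _).2 ⟨H.mul_mem (H.mul_mem hgH hwH) (H.inv_mem hgH), (hn ⟨w, hwH⟩).1 hw'⟩
      · intro hw
        obtain ⟨hwH, hw'⟩ := (hmc _).1 hw
        have hwH' : w ∈ H := by
          have := H.mul_mem (H.mul_mem (H.inv_mem hgH) hwH) hgH
          rwa [show g⁻¹ * (g * w * g⁻¹) * g = w by group] at this
        exact (hmc w).2 ⟨hwH', (hn ⟨w, hwH'⟩).2 hw'⟩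
    · intro g hg
      obtain ⟨hgH, hg'⟩ := (hmb g).1 hg
      have h1 := hstep'.2.2.2.2.1 ⟨g, hgH⟩ hg'
      rw [hec] at h1
      exact (stabilizesBlock_subBlock_iff cc c.2 ⟨g, hgH⟩).1 h1

end Cfsg.Agent.Helper77
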