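import Cfsg.Agent.Helper77.MaxPair

/-!
# Stabilizers of blocks of centralizers

* `stabilizesBlock_of_mem`, `stabilizesBlock_of_mem_centralizer`: `Q` and `C_G(Q)` stabilize every
  set of irreducible characters of `C_G(Q)`.
* `exists_block_of_stabilizer`: the idempotent of a block `f` of `C_G(Q)` is the idempotent of a
  block of any group `T` with `Q C_G(Q) ≤ T ≤ N_G(Q)` stabilizing `f`.
* `sbc_orbitUnion_top_eq_sum`: the idempotent of the `G`-orbit of a block of a normal subgroup as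
  an average over `G`.
* `blockCoeff_eq_sbc_orbitUnion_top`: for a normal `p`-subgroup `P`, the idempotent of a block `B`
  with Brauer pair `(P, e)` is the idempotent of the `G`-orbit of `e`.
-/

set_option autoImplicit false
set_option linter.style.haveILetI false
open Cfsg

namespace Cfsg.Agent.Helper77

universe u

variable {G : Type u} [Group G]

theorem stabilizesBlock_of_mem (Q : Subgroup G) (f : Set (Cfsg.IrrCharacter (Subgroup.centralizer (Q : Set G)))) {x : G}
    (hx : x ∈ Q) : Cfsg.StabilizesBlock (Subgroup.centralizer (Q : Set G)) f x := by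
  refine ⟨Helper75.normalizer_le_normalizer_centralizer' Q (Subgroup.le_normalizer hx), ?_⟩
  intro χ hχ
  refine ⟨χ, hχ, ?_⟩
  intro k k' hk
  have h1 := Subgroup.mem_centralizer_iff.mp k.2 x hx
  have h2 : k' = k := by
    apply Subtype.ext
    rw [hk, h1]
    group
  rw [h2]

theorem stabilizesBlock_of_mem_centralizer [Finite G] (Q : Subgroup G)
    (f : Set (Cfsg.IrrCharacter (Subgroup.centralizer (Q : Set G)))) {x : G}
    (hx : x ∈ (Subgroup.centralizer (Q : Set G))) : Cfsg.StabilizesBlock (Subgroup.centralizer (Q : Set G)) f x := by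
  refine ⟨Subgroup.le_normalizer hx, ?_⟩
  intro χ hχ
  refine ⟨χ, hχ, ?_⟩
  intro k k' hk
  have h2 : k' = (⟨x, hx⟩ : (Subgroup.centralizer (Q : Set G))) * k * (⟨x, hx⟩ : (Subgroup.centralizer (Q : Set G)))⁻¹ := Subtype.ext hk
  rw [h2]
  exact Helper81.irr_conj χ k ⟨x, hx⟩

variable [Fintype G]

/-- **The idempotent of a stable block of `C_G(Q)` is a block idempotent of the stabilizer.** -/
theorem exists_block_of_stabilizer {p : ℕ} [Fact p.Prime] {M : Ideal Cfsg.AlgInt}
    (hM : Cfsg.IsPModular p M) (Q T : Subgroup G) (hQ : IsPGroup p Q) (hQT : Q ≤ T)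
    (hCT : (Subgroup.centralizer (Q : Set G)) ≤ T) (hTN : T ≤ Subgroup.normalizer (Q : Set G))
    {f : Set (Cfsg.IrrCharacter (Subgroup.centralizer (Q : Set G)))} (hf : Cfsg.IsPBlock M f)
    (hst : ∀ x ∈ T, Cfsg.StabilizesBlock (Subgroup.centralizer (Q : Set G)) f x) :
    ∃ θ : Cfsg.IrrCharacter T, ∀ t : T,
      Cfsg.blockCoeff (Cfsg.blockOf M (θ : T → ℂ)) t = Cfsg.subgroupBlockCoeff (Subgroup.centralizer (Q : Set G)) f (t : G) := by
  classical
  have hMm := hM.2.1
  letI : Fintype T := Fintype.ofFinite _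
  letI : Fintype (Subgroup.centralizer (Q : Set G)) := Fintype.ofFinite _
  have hTC : T ≤ Subgroup.normalizer (((Subgroup.centralizer (Q : Set G)) : Subgroup G) : Set G) := fun x hx => (hst x hx).1
  obtain ⟨ξ, hξ⟩ := Helper16.exists_mem_of_isPBlock hMm hf
  obtain ⟨θ, hθ⟩ := exists_irr_omega_restrict hM Q T hQ hQT hCT ξ
  have hom := omega_sbc_orbitUnion_of_omega_restrict hM Q T hCT hTC hf hξ θ hθ
  have hcoef := blockCoeff_eq_sbc_orbitUnion hM Q T hQ hQT hCT hTN hTC hf θ hom
  rw [orbitUnion_eq_self hTC f hst] at hcoef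
  exact ⟨θ, hcoef⟩

/-- The idempotent of the `G`-orbit of a block `e` of the normal subgroup `C` is the average over
`G` of the conjugates of the idempotent of `e`, divided by the order of the stabilizer. -/
theorem sbc_orbitUnion_top_eq_sum {M : Ideal Cfsg.AlgInt} (hM : M.IsMaximal) {C T : Subgroup G}
    (hCn : (⊤ : Subgroup G) ≤ Subgroup.normalizer (C : Set G))
    {e : Set (Cfsg.IrrCharacter C)} (he : Cfsg.IsPBlock M e)
    (hT : ∀ x : G, x ∈ T ↔ Cfsg.StabilizesBlock C e x) (g : G) :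
    Cfsg.subgroupBlockCoeff C (orbitUnion hCn e) g
      = (Nat.card T : ℂ)⁻¹ * ∑ x : G, Cfsg.subgroupBlockCoeff C e (x⁻¹ * g * x) := by
  classical
  letI : Fintype C := Fintype.ofFinite _
  letI : Fintype (Cfsg.IrrCharacter C) := Fintype.ofFinite _
  have hTne : (Nat.card T : ℂ) ≠ 0 := by
    exact_mod_cast Nat.card_pos.ne'
  have hnorm : ∀ x : G, x ∈ Subgroup.normalizer (C : Set G) := fun x => hCn (Subgroup.mem_top x)
  by_cases hg : g ∈ C
  · have h1 : ∀ x : G, Cfsg.subgroupBlockCoeff C e (x⁻¹ * g * x)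
        = (Nat.card C : ℂ)⁻¹ * ∑ ψ : Cfsg.IrrCharacter C,
            (if ψ ∈ conjIrr C ⟨x, hnorm x⟩ '' e
              then (ψ : C → ℂ) 1 * (ψ : C → ℂ) (⟨g, hg⟩ : C)⁻¹ else 0) := by
      intro x
      have h2 := subgroupBlockCoeff_image_conjIrr C ⟨x, hnorm x⟩ e (x⁻¹ * g * x)
      have h3 : ((⟨x, hnorm x⟩ : Subgroup.normalizer (C : Set G)) : G) * (x⁻¹ * g * x)
          * ((⟨x, hnorm x⟩ : Subgroup.normalizer (C : Set G)) : G)⁻¹ = g := by
        show x * (x⁻¹ * g * x) * x⁻¹ = g
        group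
      rw [h3] at h2
      rw [← h2, sbc_of_mem C _ hg, blockCoeff_eq_sum]
    have hcount : ∀ ψ : Cfsg.IrrCharacter C,
        (∑ x : G, if ψ ∈ conjIrr C ⟨x, hnorm x⟩ '' e then (1 : ℂ) else 0)
        = if ψ ∈ orbitUnion hCn e then (Nat.card T : ℂ) else 0 := by
      intro ψ
      by_cases hψ : ψ ∈ orbitUnion hCn e
      · rw [if_pos hψ]
        obtain ⟨x₀, hx₀⟩ := hψ
        have hiff : ∀ x : G, ψ ∈ conjIrr C ⟨x, hnorm x⟩ '' e ↔ (x₀ : G) * x ∈ T := by
          intro x
          constructor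
          · rintro ⟨φ, hφ, rfl⟩
            rw [← conjIrr_mul] at hx₀
            have h4 := block_eq_of_mem hM
              (isPBlock_image_conjIrr C (Subgroup.inclusion hCn x₀ * ⟨x, hnorm x⟩) he) he
              ⟨φ, hφ, rfl⟩ hx₀
            exact (hT _).mpr ((image_conjIrr_eq_iff C e _).mp h4)
          · intro hx
            have h4 := (image_conjIrr_eq_iff C e
              (Subgroup.inclusion hCn x₀ * ⟨x, hnorm x⟩)).mpr ((hT ((x₀ : G) * x)).mp hx)
            rw [← h4] at hx₀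
            obtain ⟨φ, hφ, hφ2⟩ := hx₀
            rw [conjIrr_mul] at hφ2
            exact ⟨φ, hφ, conjIrr_injective C _ hφ2⟩
        rw [Finset.sum_congr rfl (fun x _ => if_congr (hiff x) rfl rfl)]
        rw [Fintype.sum_bijective (fun x : G => (x₀ : G) * x) (Group.mulLeft_bijective _)
          (fun x => if (x₀ : G) * x ∈ T then (1 : ℂ) else 0)
          (fun y => if y ∈ T then (1 : ℂ) else 0) (fun x => rfl)]
        rw [Finset.sum_boole, Nat.card_eq_fintype_card, Fintype.card_subtype]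
      · rw [if_neg hψ]
        apply Finset.sum_eq_zero
        intro x _
        rw [if_neg]
        rintro ⟨φ, hφ, rfl⟩
        apply hψ
        refine ⟨⟨x⁻¹, Subgroup.mem_top _⟩, ?_⟩
        have h7 : Subgroup.inclusion hCn ⟨x⁻¹, Subgroup.mem_top _⟩
            = (⟨x, hnorm x⟩ : Subgroup.normalizer (C : Set G))⁻¹ := rfl
        rw [h7, conjIrr_inv_conjIrr]
        exact hφ
    have h5 : ∀ ψ : Cfsg.IrrCharacter C,
        (∑ x : G, if ψ ∈ conjIrr C ⟨x, hnorm x⟩ '' e
          then (ψ : C → ℂ) 1 * (ψ : C → ℂ) (⟨g, hg⟩ : C)⁻¹ else 0)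
        = (Nat.card T : ℂ) * (if ψ ∈ orbitUnion hCn e
          then (ψ : C → ℂ) 1 * (ψ : C → ℂ) (⟨g, hg⟩ : C)⁻¹ else 0) := by
      intro ψ
      have h6 : ∀ x : G, (if ψ ∈ conjIrr C ⟨x, hnorm x⟩ '' e
            then (ψ : C → ℂ) 1 * (ψ : C → ℂ) (⟨g, hg⟩ : C)⁻¹ else 0)
          = (if ψ ∈ conjIrr C ⟨x, hnorm x⟩ '' e then (1 : ℂ) else 0)
            * ((ψ : C → ℂ) 1 * (ψ : C → ℂ) (⟨g, hg⟩ : C)⁻¹) := by
        intro x
        split_ifs <;> simp
      rw [Finset.sum_congr rfl (fun x _ => h6 x), ← Finset.sum_mul, hcount ψ]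
      split_ifs <;> simp
    rw [sbc_of_mem C _ hg, blockCoeff_eq_sum, Finset.sum_congr rfl (fun x _ => h1 x),
      ← Finset.mul_sum, Finset.sum_comm, Finset.sum_congr rfl (fun ψ _ => h5 ψ),
      ← Finset.mul_sum]
    field_simp
  · rw [sbc_of_not_mem C _ hg, Finset.sum_eq_zero, mul_zero]
    intro x _
    apply sbc_of_not_mem
    intro h
    apply hg
    have h8 := (Subgroup.mem_normalizer_iff.mp (hnorm x) (x⁻¹ * g * x)).mp h
    have e1 : x * (x⁻¹ * g * x) * x⁻¹ = g := by group
    rwa [e1] at h8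

/-- For a normal `p`-subgroup `P` and a Brauer pair `(P, e)` of the block `B`, the idempotent of
`B` is the idempotent of the `G`-orbit of `e`. -/
theorem blockCoeff_eq_sbc_orbitUnion_top {p : ℕ} [Fact p.Prime] {M : Ideal Cfsg.AlgInt}
    (hM : Cfsg.IsPModular p M) (P : Subgroup G) [P.Normal]
    {B : Set (Cfsg.IrrCharacter G)} {e : Set (Cfsg.IrrCharacter (Subgroup.centralizer (P : Set G)))}
    (hBe : Cfsg.IsBrauerPairOf p M B P e)
    (hCn : (⊤ : Subgroup G) ≤ Subgroup.normalizer (((Subgroup.centralizer (P : Set G)) : Subgroup G) : Set G)) :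
    Cfsg.blockCoeff B = Cfsg.subgroupBlockCoeff (Subgroup.centralizer (P : Set G)) (orbitUnion hCn e) := by
  classical
  have hMm := hM.2.1
  haveI := hMm.isPrime
  letI : Fintype (Subgroup.centralizer (P : Set G)) := Fintype.ofFinite _
  obtain ⟨⟨hP, he⟩, hB, hB2⟩ := hBe
  obtain ⟨ξ, hξ⟩ := Helper16.exists_mem_of_isPBlock hMm he
  have hzinv : InvUnder ⊤ (Cfsg.subgroupBlockCoeff (Subgroup.centralizer (P : Set G)) (orbitUnion hCn e)) :=
    invUnder_sbc_of_stabilizes _ _ (fun x hx => stabilizesBlock_orbitUnion hCn e hx)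
  have hzcl : Cfsg.IsClassFunction G (Cfsg.subgroupBlockCoeff (Subgroup.centralizer (P : Set G)) (orbitUnion hCn e)) :=
    fun g h => hzinv h (Subgroup.mem_top h) g
  have hzS : ∀ g, Cfsg.MemLocalRing M (Cfsg.subgroupBlockCoeff (Subgroup.centralizer (P : Set G)) (orbitUnion hCn e) g) :=
    sbc_orbitUnion_memLocalRing hMm hCn he
  have hzid := conv_sbc_self (Subgroup.centralizer (P : Set G)) (orbitUnion hCn e)
  obtain ⟨χ, hχ⟩ := Helper16.exists_irr_brauer hM P (Subgroup.centralizer (P : Set G)) hP le_rfl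
    (Subgroup.centralizer_le_normalizer _) ξ
  -- `χ ∈ B`
  have h1 := hB2 ξ hξ
  rw [brauerOmega_eq_omega] at h1
  have h2 := hχ _ (blockCoeff_isClassFunction B) (blockCoeff_memLocalRing hMm hB)
  have h3 : Cfsg.MemLocalIdeal M (Helper81.omega (χ : G → ℂ) (Cfsg.blockCoeff B) - 1) := by
    have := memLocalIdeal_sub hMm h1 h2
    convert this using 1
    ring
  have hχB : χ ∈ B := by
    by_contra hnot
    rw [omega_blockCoeff_of_not_mem hnot, zero_sub] at h3
    have := memLocalIdeal_neg h3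
    rw [neg_neg] at this
    exact not_memLocalIdeal_one hMm this
  -- `Ω_χ` of the orbit idempotent is `1`
  have h4 := hχ _ hzcl hzS
  have h5 : Helper16.brRes P (Subgroup.centralizer (P : Set G)) (Cfsg.subgroupBlockCoeff (Subgroup.centralizer (P : Set G)) (orbitUnion hCn e))
      = Cfsg.blockCoeff (orbitUnion hCn e) := by
    funext c
    rw [Helper16.brRes_apply_of_mem _ c.2]
    exact sbc_of_mem _ _ c.2
  rw [h5, omega_blockCoeff_of_mem (subset_orbitUnion hCn e hξ)] at h4
  have h6 : Helper81.omega (χ : G → ℂ) (Cfsg.subgroupBlockCoeff (Subgroup.centralizer (P : Set G)) (orbitUnion hCn e))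
      * Helper81.omega (χ : G → ℂ) (Cfsg.subgroupBlockCoeff (Subgroup.centralizer (P : Set G)) (orbitUnion hCn e))
      = Helper81.omega (χ : G → ℂ) (Cfsg.subgroupBlockCoeff (Subgroup.centralizer (P : Set G)) (orbitUnion hCn e)) := by
    rw [← Helper81.omega_conv χ hzcl hzcl, hzid]
  have h7 : Helper81.omega (χ : G → ℂ) (Cfsg.subgroupBlockCoeff (Subgroup.centralizer (P : Set G)) (orbitUnion hCn e))
      = 1 := by
    have h8 : Helper81.omega (χ : G → ℂ) (Cfsg.subgroupBlockCoeff (Subgroup.centralizer (P : Set G)) (orbitUnion hCn e))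
        * (Helper81.omega (χ : G → ℂ) (Cfsg.subgroupBlockCoeff (Subgroup.centralizer (P : Set G)) (orbitUnion hCn e)) - 1)
        = 0 := by
      rw [mul_sub, h6, mul_one, sub_self]
    rcases mul_eq_zero.mp h8 with h9 | h9
    · rw [h9, sub_zero] at h4
      exact absurd h4 (not_memLocalIdeal_one hMm)
    · exact sub_eq_zero.mp h9
  have hle : Helper81.conv (Cfsg.blockCoeff B)
      (Cfsg.subgroupBlockCoeff (Subgroup.centralizer (P : Set G)) (orbitUnion hCn e)) = Cfsg.blockCoeff B := by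
    rw [Helper16.eq_blockOf_of_mem hMm hB hχB]
    exact conv_blockCoeff_blockOf_of_omega hMm hzcl hzid hzS χ h7
  have hne : Cfsg.blockCoeff B ≠ 0 := by
    intro h0
    have h10 := omega_blockCoeff_of_mem hχB
    rw [h0, Helper16.omega_zero] at h10
    exact zero_ne_one h10
  exact eq_sbc_orbitUnion hMm hCn he
    (fun x hx => blockCoeff_eq_zero_of_not_mem_centralizer p M hM P hP B hB x hx)
    (invUnder_of_isClassFunction (blockCoeff_isClassFunction B) _)
    (invUnder_of_isClassFunction (blockCoeff_isClassFunction B) _)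
    (blockCoeff_memLocalRing hMm hB) (conv_blockCoeff B) hle hne

end Cfsg.Agent.Helper77
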