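import Cfsg.Agent.Helper77.PairConj
import Cfsg.Agent.Helper77.StabBlock

/-!
# Brauer pairs below a maximal pair and defect groups of their blocks

* `stabSubgroup K f`: the stabilizer of a set of irreducible characters of `K`, as a subgroup.
* `isNormalSubpair_of_subpairLE_of_le`: if `(Q, f) ≤ (P, e)` and `Q ≤ R ≤ P ∩ N_G(Q)`, then
  `(Q, f) ⊴ (R, g) ≤ (P, e)` for some `g`.
* `exists_not_memLocalIdeal_of_isNormalSubpair`: for `(Q, f) ⊴ (R, g)` the idempotent of `f` does
  not vanish modulo the local ideal on `C_G(R)`.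
* `exists_isDefectGroup_ge_of_blockCoeff`: a `p`-subgroup centralizing an element at which the
  block idempotent is a unit lies in a defect group.
* `exists_isDefectGroup_centralizer_ge`: for `(Q, f) ≤ (P, e)`, `C_P(Q)` lies in a defect group
  of `f`.
* `exists_conj_isDefectGroup_centralizer`: for `(P, e)` maximal, some conjugate `(xQ, xf)` below
  `(P, e)` has `C_P(xQ)` as a defect group of `xf`.
-/

set_option autoImplicit false
set_option linter.style.haveILetI false
open Cfsg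

namespace Cfsg.Agent.Helper77

universe u

variable {G : Type u} [Group G]

/-- The stabilizer of a set of irreducible characters of `K`, as a subgroup of `G`. -/
def stabSubgroup (K : Subgroup G) [Finite K] (f : Set (Cfsg.IrrCharacter K)) : Subgroup G where
  carrier := {x | Cfsg.StabilizesBlock K f x}
  one_mem' := by
    have h := (stabilizesBlock_iff K f 1).mpr (fun χ hχ => by rw [conjIrr_one]; exact hχ)
    exact h
  mul_mem' := by
    intro x y hx hy
    have hx' := (stabilizesBlock_iff K f ⟨x, hx.1⟩).mp hx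
    have hy' := (stabilizesBlock_iff K f ⟨y, hy.1⟩).mp hy
    exact (stabilizesBlock_iff K f (⟨x, hx.1⟩ * ⟨y, hy.1⟩)).mpr (fun χ hχ => by
      rw [conjIrr_mul]
      exact hx' _ (hy' χ hχ))
  inv_mem' := by
    intro x hx
    have h1 := (image_conjIrr_eq_iff K f ⟨x, hx.1⟩).mpr hx
    have h3 : conjIrr K (⟨x, hx.1⟩ : Subgroup.normalizer (K : Set G))⁻¹
        '' (conjIrr K ⟨x, hx.1⟩ '' f) = f := by
      rw [Set.image_image]
      have h4 : (fun χ => conjIrr K (⟨x, hx.1⟩ : Subgroup.normalizer (K : Set G))⁻¹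
          (conjIrr K ⟨x, hx.1⟩ χ)) = id := funext (conjIrr_inv_conjIrr K _)
      rw [h4, Set.image_id]
    rw [h1] at h3
    exact (image_conjIrr_eq_iff K f (⟨x, hx.1⟩ : Subgroup.normalizer (K : Set G))⁻¹).mp h3

theorem mem_stabSubgroup (K : Subgroup G) [Finite K] (f : Set (Cfsg.IrrCharacter K)) (x : G) :
    x ∈ stabSubgroup K f ↔ Cfsg.StabilizesBlock K f x := Iff.rfl

variable [Fintype G]

/-- If `(Q, f) ≤ (P, e)` and `Q ≤ R ≤ P ∩ N_G(Q)`, then `(Q, f) ⊴ (R, g) ≤ (P, e)` for some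
`g`. -/
theorem isNormalSubpair_of_subpairLE_of_le {p : ℕ} [Fact p.Prime] {M : Ideal Cfsg.AlgInt}
    (hM : Cfsg.IsPModular p M) {P Q R : Subgroup G} {e : Set (Cfsg.IrrCharacter (Subgroup.centralizer (P : Set G)))}
    {f : Set (Cfsg.IrrCharacter (Subgroup.centralizer (Q : Set G)))} (hPe : Cfsg.IsBrauerPair p M P e)
    (hle : Cfsg.SubpairLE p M Q f P e) (hQR : Q ≤ R) (hRP : R ≤ P)
    (hRN : R ≤ Subgroup.normalizer (Q : Set G)) :
    ∃ g : Set (Cfsg.IrrCharacter (Subgroup.centralizer (R : Set G))),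
      Cfsg.IsNormalSubpair p M Q f R g ∧ Cfsg.SubpairLE p M R g P e := by
  obtain ⟨g, hg, hRg⟩ := exists_subpairLE hM P e hPe R hRP
  have hRp : IsPGroup p R := hPe.1.to_le hRP
  obtain ⟨f', hf', hQf'⟩ := exists_subpairLE hM R g ⟨hRp, hg⟩ Q hQR
  have h1 : Cfsg.SubpairLE p M Q f' P e := Relation.ReflTransGen.trans hQf' hRg
  have h2 : f' = f := subpairLE_unique hM _ P e rfl hPe Q f' f h1 hle
  subst h2
  exact ⟨g, isNormalSubpair_of_reflTransGen hM (a := ⟨Q, f'⟩) (b := ⟨R, g⟩) hQf' ⟨hRp, hg⟩ hRN,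
    hRg⟩

/-- For `(Q, f) ⊴ (R, g)` the idempotent of `f` does not vanish modulo the local ideal on
`C_G(R)`. -/
theorem exists_not_memLocalIdeal_of_isNormalSubpair {p : ℕ} {M : Ideal Cfsg.AlgInt}
    (hM : M.IsMaximal) {Q R : Subgroup G} {f : Set (Cfsg.IrrCharacter (Subgroup.centralizer (Q : Set G)))}
    {g : Set (Cfsg.IrrCharacter (Subgroup.centralizer (R : Set G)))}
    (h : Cfsg.IsNormalSubpair p M Q f R g) :
    ∃ c ∈ Subgroup.centralizer (R : Set G),
      ¬ Cfsg.MemLocalIdeal M (Cfsg.subgroupBlockCoeff (Subgroup.centralizer (Q : Set G)) f c) := by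
  classical
  letI : Fintype (Subgroup.centralizer (R : Set G)) := Fintype.ofFinite _
  obtain ⟨⟨hQ, hf⟩, ⟨hR, hg⟩, hQR, hRN, hst, hbr⟩ := h
  obtain ⟨η, hη⟩ := Helper16.exists_mem_of_isPBlock hM hg
  by_contra hcon
  have hcon' : ∀ c ∈ Subgroup.centralizer (R : Set G),
      Cfsg.MemLocalIdeal M (Cfsg.subgroupBlockCoeff (Subgroup.centralizer (Q : Set G)) f c) :=
    fun c hc => by_contra fun h => hcon ⟨c, hc, h⟩
  have h1 := hbr η hη
  rw [brauerOmega_eq_restrict] at h1
  have hCRC : Subgroup.centralizer (R : Set G) ≤ (Subgroup.centralizer (Q : Set G)) :=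
    Subgroup.centralizer_le (show (Q : Set G) ⊆ R from hQR)
  have h2 := Helper16.omega_memLocalIdeal hM η
    (isClassFunction_restrict ((invUnder_sbc_self _ f).mono hCRC)) (fun c => hcon' c c.2)
  have h3 := memLocalIdeal_sub hM h2 h1
  rw [sub_sub_cancel] at h3
  exact not_memLocalIdeal_one hM h3

omit [Fintype G] in
/-- A `p`-subgroup centralizing an element at which the idempotent of the block `F` is a unit
lies in a defect group of `F`. -/
theorem exists_isDefectGroup_ge_of_blockCoeff {K : Type u} [Group K] [Fintype K] {p : ℕ}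
    [Fact p.Prime] {M : Ideal Cfsg.AlgInt} (hM : Cfsg.IsPModular p M)
    {F : Set (Cfsg.IrrCharacter K)} (hF : Cfsg.IsPBlock M F) (c : K)
    (hc : ¬ Cfsg.MemLocalIdeal M (Cfsg.blockCoeff F c)) (D₀ : Subgroup K) (hD₀ : IsPGroup p D₀)
    (hD₀c : D₀ ≤ Subgroup.centralizer ({c} : Set K)) :
    ∃ D : Subgroup K, Cfsg.IsDefectGroup p M F D ∧ D₀ ≤ D := by
  obtain ⟨D₁, hD₁⟩ := Helper16.exists_isDefectGroup (p := p) hM.2.1 hF
  have hD₁' := hD₁
  obtain ⟨g', hg', P', rfl⟩ := hD₁'
  obtain ⟨χ, hχ⟩ := Helper16.exists_mem_of_isPBlock hM.2.1 hF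
  have hconj := Helper16.minmax_conjLE hM hF g' ⟨χ, hχ, hg'.2.2 χ hχ⟩ P' c hc D₀ hD₀ hD₀c
  exact Helper16.exists_isDefectGroup_ge hD₁ hconj

/-- **For `(Q, f) ≤ (P, e)`, the group `C_P(Q)` lies in a defect group of `f`.** -/
theorem exists_isDefectGroup_centralizer_ge {p : ℕ} [Fact p.Prime] {M : Ideal Cfsg.AlgInt}
    (hM : Cfsg.IsPModular p M) {P Q : Subgroup G} {e : Set (Cfsg.IrrCharacter (Subgroup.centralizer (P : Set G)))}
    {f : Set (Cfsg.IrrCharacter (Subgroup.centralizer (Q : Set G)))} (hPe : Cfsg.IsBrauerPair p M P e) (hQP : Q ≤ P)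
    (hle : Cfsg.SubpairLE p M Q f P e) :
    ∃ D : Subgroup (Subgroup.centralizer (Q : Set G)), Cfsg.IsDefectGroup p M f D ∧ (P ⊓ (Subgroup.centralizer (Q : Set G))).subgroupOf (Subgroup.centralizer (Q : Set G)) ≤ D := by
  classical
  have hMm := hM.2.1
  letI : Fintype (Subgroup.centralizer (Q : Set G)) := Fintype.ofFinite _
  have hQR : Q ≤ P ⊓ Subgroup.normalizer (Q : Set G) := le_inf hQP Subgroup.le_normalizer
  obtain ⟨g, hNS, -⟩ := isNormalSubpair_of_subpairLE_of_le hM hPe hle hQR inf_le_left inf_le_right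
  obtain ⟨c, hcR, hc⟩ := exists_not_memLocalIdeal_of_isNormalSubpair hMm hNS
  have hf := hNS.1.2
  have hcC : c ∈ (Subgroup.centralizer (Q : Set G)) := by
    by_contra h
    rw [sbc_of_not_mem _ _ h] at hc
    exact hc (memLocalIdeal_zero hMm)
  rw [sbc_of_mem _ _ hcC] at hc
  refine exists_isDefectGroup_ge_of_blockCoeff hM hf ⟨c, hcC⟩ hc _
    ((hPe.1.to_le inf_le_left).comap_subtype) ?_
  intro d hd
  rw [Subgroup.mem_subgroupOf] at hd
  rw [Subgroup.mem_centralizer_iff]
  intro y hy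
  rw [Set.mem_singleton_iff] at hy
  subst hy
  apply Subtype.ext
  have hdR : (d : G) ∈ P ⊓ Subgroup.normalizer (Q : Set G) :=
    ⟨hd.1, Subgroup.centralizer_le_normalizer _ hd.2⟩
  exact (Subgroup.mem_centralizer_iff.mp hcR (d : G) hdR).symm

/-- **Fully centralized conjugates.**  For `(Q, f) ≤ (P, e)` with `(P, e)` a maximal Brauer pair
of `B`, some conjugate `(xQ, xf)` lies below `(P, e)` and has `C_P(xQ)` as a defect group of
`xf`. -/
theorem exists_conj_isDefectGroup_centralizer {p : ℕ} [Fact p.Prime] {M : Ideal Cfsg.AlgInt}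
    (hM : Cfsg.IsPModular p M) (B : Set (Cfsg.IrrCharacter G)) (P Q : Subgroup G)
    (e : Set (Cfsg.IrrCharacter (Subgroup.centralizer (P : Set G)))) (f : Set (Cfsg.IrrCharacter (Subgroup.centralizer (Q : Set G))))
    (hmax : Cfsg.IsMaximalBrauerPair p M B P e) (hle : Cfsg.SubpairLE p M Q f P e) :
    ∃ x : G, Cfsg.SubpairLE p M (Q.map (MulAut.conj x).toMonoidHom) (Cfsg.conjBlock Q x f) P e ∧
      Cfsg.IsDefectGroup p M (Cfsg.conjBlock Q x f) ((P ⊓ (Subgroup.centralizer ((Q.map (MulAut.conj x).toMonoidHom : Subgroup G) : Set G))).subgroupOf (Subgroup.centralizer ((Q.map (MulAut.conj x).toMonoidHom : Subgroup G) : Set G))) := by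
  classical
  have hMm := hM.2.1
  have hPe := hmax.1.1
  have hB := hmax.1.2.1
  have hQf : Cfsg.IsBrauerPairOf p M B Q f :=
    (isBrauerPairOf_iff_of_reflTransGen hM (a := ⟨Q, f⟩) (b := ⟨P, e⟩) hle B hB).mp hmax.1
  have hQ := hQf.1.1
  have hf := hQf.1.2
  letI : Fintype (Subgroup.centralizer (Q : Set G)) := Fintype.ofFinite _
  obtain ⟨D₁, hD₁⟩ := Helper16.exists_isDefectGroup (p := p) hMm hf
  obtain ⟨l, hl, hD₁l, -, hD₁p⟩ := Helper16.isDefectGroup_exists_data hD₁
  have hDGC : D₁.map (Subgroup.centralizer (Q : Set G)).subtype ≤ (Subgroup.centralizer (Q : Set G)) := by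
    rintro _ ⟨d, -, rfl⟩
    exact d.2
  have hDGp : IsPGroup p (D₁.map (Subgroup.centralizer (Q : Set G)).subtype) := hD₁p.map _
  have hRp : IsPGroup p (Q ⊔ D₁.map (Subgroup.centralizer (Q : Set G)).subtype : Subgroup G) :=
    IsPGroup.to_sup_of_normal_left' hQ hDGp (hDGC.trans (Subgroup.centralizer_le_normalizer _))
  have hQR : Q ≤ Q ⊔ D₁.map (Subgroup.centralizer (Q : Set G)).subtype := le_sup_left
  have hRN : Q ⊔ D₁.map (Subgroup.centralizer (Q : Set G)).subtype ≤ Subgroup.normalizer (Q : Set G) :=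
    sup_le Subgroup.le_normalizer (hDGC.trans (Subgroup.centralizer_le_normalizer _))
  have hst : ∀ r ∈ Q ⊔ D₁.map (Subgroup.centralizer (Q : Set G)).subtype, Cfsg.StabilizesBlock (Subgroup.centralizer (Q : Set G)) f r := by
    have h1 : Q ⊔ D₁.map (Subgroup.centralizer (Q : Set G)).subtype ≤ stabSubgroup (Subgroup.centralizer (Q : Set G)) f :=
      sup_le (fun r hr => stabilizesBlock_of_mem Q f hr)
        (fun r hr => stabilizesBlock_of_mem_centralizer Q f (hDGC hr))
    exact fun r hr => h1 hr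
  have hlR : (l : G) ∈ Subgroup.centralizer
      ((Q ⊔ D₁.map (Subgroup.centralizer (Q : Set G)).subtype : Subgroup G) : Set G) := by
    have h1 : Q ⊔ D₁.map (Subgroup.centralizer (Q : Set G)).subtype ≤ Subgroup.centralizer ({(l : G)} : Set G) := by
      apply sup_le
      · intro q hq
        rw [Subgroup.mem_centralizer_iff]
        intro y hy
        rw [Set.mem_singleton_iff] at hy
        subst hy
        exact (Subgroup.mem_centralizer_iff.mp l.2 q hq).symm
      · rintro _ ⟨d, hd, rfl⟩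
        rw [Subgroup.mem_centralizer_iff]
        intro y hy
        rw [Set.mem_singleton_iff] at hy
        subst hy
        have h2 := Subgroup.mem_centralizer_iff.mp (hD₁l hd) l (Set.mem_singleton l)
        exact congrArg Subtype.val h2
    rw [Subgroup.mem_centralizer_iff]
    intro r hr
    exact (Subgroup.mem_centralizer_iff.mp (h1 hr) (l : G) (Set.mem_singleton _)).symm
  have hne : ¬ Cfsg.MemLocalIdeal M (Cfsg.subgroupBlockCoeff (Subgroup.centralizer (Q : Set G)) f (l : G)) := by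
    rw [sbc_of_mem _ _ l.2]
    exact hl.2.1
  obtain ⟨h, hNS⟩ := exists_isNormalSubpair_above hM ⟨hQ, hf⟩ hRp hQR hRN hst (l : G) hlR hne
  have hRh : Cfsg.IsBrauerPairOf p M B _ h :=
    (isBrauerPairOf_iff_of_isNormalSubpair hM hNS B hB).mpr hQf
  obtain ⟨x, hx⟩ := exists_subpairLE_conj_of_isMaximalBrauerPair hM B P _ e h hmax hRh
  have hle' : Cfsg.SubpairLE p M (Q.map (MulAut.conj x).toMonoidHom) (Cfsg.conjBlock Q x f)
      P e := by
    have hstep : Cfsg.NormalSubpairRel p M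
        ⟨Q.map (MulAut.conj x).toMonoidHom, Cfsg.conjBlock Q x f⟩
        ⟨(Q ⊔ D₁.map (Subgroup.centralizer (Q : Set G)).subtype).map (MulAut.conj x).toMonoidHom,
          Cfsg.conjBlock _ x h⟩ := isNormalSubpair_conjBlock x hNS
    exact Relation.ReflTransGen.head hstep hx
  have hxRP : (Q ⊔ D₁.map (Subgroup.centralizer (Q : Set G)).subtype).map (MulAut.conj x).toMonoidHom ≤ P :=
    Helper75.subpairLE_fst_le (a := ⟨_, _⟩) (b := ⟨P, e⟩) hx
  have hxQP : Q.map (MulAut.conj x).toMonoidHom ≤ P := (Subgroup.map_mono hQR).trans hxRP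
  refine ⟨x, hle', ?_⟩
  letI : Fintype (Subgroup.centralizer ((Q.map (MulAut.conj x).toMonoidHom : Subgroup G) : Set G)) := Fintype.ofFinite _
  obtain ⟨D', hD', hXD'⟩ := exists_isDefectGroup_centralizer_ge hM hPe hxQP hle'
  have hD₂ := Helper75.isDefectGroup_image_irrComp (Helper75.centralizerConjEquiv Q x) hD₁
  rw [← conjBlock_eq_image] at hD₂
  have hblock : Cfsg.IsPBlock M (Cfsg.conjBlock Q x f) := by
    rw [conjBlock_eq_image]
    exact Helper75.isPBlock_image_irrComp _ hf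
  have hcard := Helper16.isDefectGroup_card_eq hM hblock hD₂ hD'
  have hle1 : D₁.comap (Helper75.centralizerConjEquiv Q x).toMonoidHom
      ≤ (P ⊓ (Subgroup.centralizer ((Q.map (MulAut.conj x).toMonoidHom : Subgroup G) : Set G))).subgroupOf (Subgroup.centralizer ((Q.map (MulAut.conj x).toMonoidHom : Subgroup G) : Set G)) := by
    intro c' hc'
    rw [Subgroup.mem_comap] at hc'
    rw [Subgroup.mem_subgroupOf]
    refine ⟨hxRP ?_, c'.2⟩
    rw [mem_map_conj_iff]
    apply (le_sup_right : D₁.map (Subgroup.centralizer (Q : Set G)).subtype ≤ Q ⊔ D₁.map (Subgroup.centralizer (Q : Set G)).subtype)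
    exact ⟨_, hc', rfl⟩
  have hXeq : (P ⊓ (Subgroup.centralizer ((Q.map (MulAut.conj x).toMonoidHom : Subgroup G) : Set G))).subgroupOf (Subgroup.centralizer ((Q.map (MulAut.conj x).toMonoidHom : Subgroup G) : Set G)) = D' := by
    apply Subgroup.eq_of_le_of_card_ge hXD'
    rw [← hcard]
    exact Subgroup.card_le_of_le hle1
  rw [hXeq]
  exact hD'

end Cfsg.Agent.Helper77
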