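import Cfsg.Agent.Helper77.DefectTransfer
import Cfsg.Agent.Helper77.PairCorr

/-!
# The extension property of Brauer pairs at a fully normalized pair

* `receptive_core`: let `(P, e)` be a maximal Brauer pair of `B` and `(Q, f) ≤ (P, e)` with
  `N_P(Q)` a defect group of the block of the stabilizer of `(Q, f)` with the idempotent of `f`.
  If `g` carries `(R, f_R) ≤ (P, e)` to `(Q, f)` and `R ≤ K ≤ N_P(R)` is such that conjugation
  by each element of `K`, transported by `g`, is induced on `Q` by an element of `P`, then for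
  some `c ∈ C_G(Q)` the element `c g` carries the pair at `K` below `(P, e)` to a pair below
  `(P, e)`.
-/

set_option autoImplicit false
set_option linter.style.haveILetI false
set_option maxHeartbeats 1000000
open Cfsg

namespace Cfsg.Agent.Helper77

universe u

variable {G : Type u} [Group G] [Fintype G]

theorem receptive_core {p : ℕ} [Fact p.Prime] {M : Ideal Cfsg.AlgInt}
    (hM : Cfsg.IsPModular p M) {B : Set (Cfsg.IrrCharacter G)} {P : Subgroup G}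
    {e : Set (Cfsg.IrrCharacter (Subgroup.centralizer (P : Set G)))} (hmax : Cfsg.IsMaximalBrauerPair p M B P e)
    {Q : Subgroup G} {f : Set (Cfsg.IrrCharacter (Subgroup.centralizer (Q : Set G)))} (hle : Cfsg.SubpairLE p M Q f P e)
    (T : Subgroup G)
    (hT : ∀ y : G, y ∈ T ↔ y ∈ Subgroup.normalizer (Q : Set G) ∧
      Cfsg.StabilizesBlock (Subgroup.centralizer (Q : Set G)) f y)
    {F : Set (Cfsg.IrrCharacter T)} (hF : Cfsg.IsPBlock M F)
    (hFc : ∀ t : T, Cfsg.blockCoeff F t = Cfsg.subgroupBlockCoeff (Subgroup.centralizer (Q : Set G)) f (t : G))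
    (hN : Cfsg.IsDefectGroup p M F ((P ⊓ Subgroup.normalizer (Q : Set G)).subgroupOf T))
    {R K : Subgroup G} {fR : Set (Cfsg.IrrCharacter (Subgroup.centralizer (R : Set G)))}
    (hleR : Cfsg.SubpairLE p M R fR P e) (g : G)
    (hg : conjPair g (⟨R, fR⟩ : Cfsg.BrauerPairIdx G) = ⟨Q, f⟩)
    (hRK : R ≤ K) (hKP : K ≤ P) (hKN : K ≤ Subgroup.normalizer (R : Set G))
    (hK : ∀ n ∈ K, ∃ h ∈ P, ∀ x ∈ R, g * (n * x * n⁻¹) * g⁻¹ = h * (g * x * g⁻¹) * h⁻¹) :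
    ∃ c ∈ (Subgroup.centralizer (Q : Set G)), ∃ k : Set (Cfsg.IrrCharacter (Subgroup.centralizer (K : Set G))), Cfsg.SubpairLE p M K k P e ∧
      Relation.ReflTransGen (Cfsg.NormalSubpairRel p M)
        (conjPair (c * g) (⟨K, k⟩ : Cfsg.BrauerPairIdx G)) ⟨P, e⟩ := by
  classical
  have hPe := hmax.1.1
  have hB := hmax.1.2.1
  have hQP : Q ≤ P := Helper75.subpairLE_fst_le (a := ⟨Q, f⟩) (b := ⟨P, e⟩) hle
  have hQf : Cfsg.IsBrauerPairOf p M B Q f :=
    (isBrauerPairOf_iff_of_reflTransGen hM (a := ⟨Q, f⟩) (b := ⟨P, e⟩) hle B hB).mp hmax.1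
  have hRQ : R.map (MulAut.conj g).toMonoidHom = Q := congrArg Sigma.fst hg
  have hQN : Q ≤ (P ⊓ Subgroup.normalizer (Q : Set G)) := le_inf hQP Subgroup.le_normalizer
  obtain ⟨ε, hns, hleN⟩ := isNormalSubpair_of_subpairLE_of_le hM hPe hle hQN
    inf_le_left inf_le_right
  obtain ⟨k, hnsK, hleK⟩ := isNormalSubpair_of_subpairLE_of_le hM hPe hleR hRK hKP hKN
  have hnsK' : Cfsg.NormalSubpairRel p M (conjPair g (⟨R, fR⟩ : Cfsg.BrauerPairIdx G))
      (conjPair g (⟨K, k⟩ : Cfsg.BrauerPairIdx G)) := isNormalSubpair_conjBlock g hnsK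
  rw [hg] at hnsK'
  have hnsK₁ : Cfsg.IsNormalSubpair p M Q f (K.map (MulAut.conj g).toMonoidHom) (Cfsg.conjBlock K g k) := hnsK'
  have hQK₁ : Q ≤ (K.map (MulAut.conj g).toMonoidHom) := hnsK₁.2.2.1
  -- the subgroup `Y = N_P(Q) C_G(Q)`
  have hNC : (P ⊓ Subgroup.normalizer (Q : Set G)) ≤ Subgroup.normalizer (((Subgroup.centralizer (Q : Set G)) : Subgroup G) : Set G) := fun y hy =>
    Helper75.normalizer_le_normalizer_centralizer' Q hy.2
  obtain ⟨Y, hY⟩ : ∃ Y : Subgroup G, ∀ y : G, y ∈ Y ↔ ∃ u ∈ (P ⊓ Subgroup.normalizer (Q : Set G)), ∃ c ∈ (Subgroup.centralizer (Q : Set G)), y = u * c :=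
    ⟨mulSubgroup (P ⊓ Subgroup.normalizer (Q : Set G)) (Subgroup.centralizer (Q : Set G)) hNC, fun y => Iff.rfl⟩
  have hCY : (Subgroup.centralizer (Q : Set G)) ≤ Y := fun c hc => (hY c).2 ⟨1, Subgroup.one_mem _, c, hc, (one_mul c).symm⟩
  have hNY : (P ⊓ Subgroup.normalizer (Q : Set G)) ≤ Y := fun u hu => (hY u).2 ⟨u, hu, 1, Subgroup.one_mem _, (mul_one u).symm⟩
  have hNT : (P ⊓ Subgroup.normalizer (Q : Set G)) ≤ T := inf_normalizer_le_stabilizer hM hPe hQP hle T hT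
  have hCT : (Subgroup.centralizer (Q : Set G)) ≤ T := fun c hc =>
    (hT c).2 ⟨Subgroup.centralizer_le_normalizer _ hc, stabilizesBlock_of_mem_centralizer Q f hc⟩
  have hYT : Y ≤ T := by
    intro y hy
    obtain ⟨u, hu, c, hc, rfl⟩ := (hY y).1 hy
    exact T.mul_mem (hNT hu) (hCT hc)
  have hK₁Y : (K.map (MulAut.conj g).toMonoidHom) ≤ Y := by
    intro w hw
    have hwN : w ∈ Subgroup.normalizer (Q : Set G) := hnsK₁.2.2.2.1 hw
    rw [mem_map_conj_iff] at hw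
    obtain ⟨h, hhP, hh⟩ := hK _ hw
    have key : ∀ q ∈ Q, h * q * h⁻¹ = w * q * w⁻¹ := by
      intro q hq
      have hq' : g⁻¹ * q * g ∈ R := by
        rw [← hRQ, mem_map_conj_iff] at hq
        exact hq
      have h1 := hh _ hq'
      rw [show g * (g⁻¹ * q * g) * g⁻¹ = q by group] at h1
      rw [← h1]
      group
    have hz : h⁻¹ * w ∈ (Subgroup.centralizer (Q : Set G)) := by
      rw [Subgroup.mem_centralizer_iff]
      intro q hq
      have h1 := key q hq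
      calc q * (h⁻¹ * w) = h⁻¹ * (h * q * h⁻¹) * w := by group
        _ = h⁻¹ * (w * q * w⁻¹) * w := by rw [h1]
        _ = h⁻¹ * w * q := by group
    have hhN : h ∈ Subgroup.normalizer (Q : Set G) := by
      have h1 : h = w * (h⁻¹ * w)⁻¹ := by group
      rw [h1]
      exact Subgroup.mul_mem _ hwN
        (Subgroup.inv_mem _ (Subgroup.centralizer_le_normalizer _ hz))
    exact (hY w).2 ⟨h, ⟨hhP, hhN⟩, h⁻¹ * w, hz, by group⟩
  letI : Fintype Y := Fintype.ofFinite _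
  have hNp : IsPGroup p ((P ⊓ Subgroup.normalizer (Q : Set G)) : Subgroup G) := hPe.1.to_le inf_le_left
  have hpq : ∀ y ∈ Y, ∃ u ∈ Y, (∃ k : ℕ, u ^ p ^ k = 1) ∧ u⁻¹ * y ∈ (Subgroup.centralizer (Q : Set G)) := by
    intro y hy
    obtain ⟨u, hu, c, hc, rfl⟩ := (hY y).1 hy
    obtain ⟨j, hj⟩ := hNp ⟨u, hu⟩
    refine ⟨u, hNY hu, ⟨j, ?_⟩, ?_⟩
    · exact congrArg Subtype.val hj
    · rw [inv_mul_cancel_left]
      exact hc
  obtain ⟨bY, hbY, hbYc⟩ := exists_block_of_pQuotient hM hQf.1.2 Y hCY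
    (fun y hy => (hT y).1 (hYT hy)) hpq
  have hβ : ∀ x : G, x ∉ Y → Cfsg.subgroupBlockCoeff (Subgroup.centralizer (Q : Set G)) f x = 0 := fun x hx =>
    sbc_of_not_mem _ _ (fun hxC => hx (hCY hxC))
  have hDN : Cfsg.IsDefectGroup p M bY ((P ⊓ Subgroup.normalizer (Q : Set G)).subgroupOf Y) :=
    isDefectGroup_of_le_of_coeff hM hYT hNY _ hβ hbY hbYc hF hFc hN
  -- the pairs in `Y`
  have hCN : Subgroup.centralizer (((P ⊓ Subgroup.normalizer (Q : Set G)) : Subgroup G) : Set G) ≤ Y :=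
    (Subgroup.centralizer_le (by exact_mod_cast hQN)).trans hCY
  have hCK₁ : Subgroup.centralizer (((K.map (MulAut.conj g).toMonoidHom) : Subgroup G) : Set G) ≤ Y :=
    (Subgroup.centralizer_le (by exact_mod_cast hQK₁)).trans hCY
  have hcorrN := pairCorr_of_subgroupOf Y (P ⊓ Subgroup.normalizer (Q : Set G)) hNY hCN ε
  have hcorrK := pairCorr_of_subgroupOf Y (K.map (MulAut.conj g).toMonoidHom) hK₁Y hCK₁ (Cfsg.conjBlock K g k)
  have hpN : Cfsg.IsBrauerPairOf p M bY ((P ⊓ Subgroup.normalizer (Q : Set G)).subgroupOf Y)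
      (subBlock (centCompat_subgroupOf Y (P ⊓ Subgroup.normalizer (Q : Set G)) hNY hCN) ε) :=
    (isBrauerPairOf_subBlock_iff _ hbYc ε).2
      ⟨⟨hns.2.1.1.comap_subtype, hns.2.1.2⟩, hbY, hns.2.2.2.2.2⟩
  have hpK : Cfsg.IsBrauerPairOf p M bY ((K.map (MulAut.conj g).toMonoidHom).subgroupOf Y)
      (subBlock (centCompat_subgroupOf Y (K.map (MulAut.conj g).toMonoidHom) hK₁Y hCK₁) (Cfsg.conjBlock K g k)) :=
    (isBrauerPairOf_subBlock_iff _ hbYc (Cfsg.conjBlock K g k)).2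
      ⟨⟨hnsK₁.2.1.1.comap_subtype, hnsK₁.2.1.2⟩, hbY, hnsK₁.2.2.2.2.2⟩
  obtain ⟨D₂, δ₂, hmax₂, hle₂⟩ := exists_isMaximalBrauerPair_ge hpK
  have hD₂ := isDefectGroup_of_isMaximalBrauerPair hM bY D₂ δ₂ hmax₂
  obtain ⟨y, hy⟩ := exists_conjPair_eq hM hDN hD₂ hpN hmax₂.1
  obtain ⟨u, hu, c, hc, hyuc⟩ := (hY y).1 y.2
  have hyeq : y = (⟨u, hNY hu⟩ : Y) * ⟨c, hCY hc⟩ := Subtype.ext hyuc
  have h1 : conjPair y (⟨D₂, δ₂⟩ : Cfsg.BrauerPairIdx Y)
      = ⟨(P ⊓ Subgroup.normalizer (Q : Set G)).subgroupOf Y, subBlock (centCompat_subgroupOf Y (P ⊓ Subgroup.normalizer (Q : Set G)) hNY hCN) ε⟩ := hy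
  rw [hyeq, conjPair_mul] at h1
  have h2 : conjPair (⟨c, hCY hc⟩ : Y) (⟨D₂, δ₂⟩ : Cfsg.BrauerPairIdx Y)
      = ⟨(P ⊓ Subgroup.normalizer (Q : Set G)).subgroupOf Y, subBlock (centCompat_subgroupOf Y (P ⊓ Subgroup.normalizer (Q : Set G)) hNY hCN) ε⟩ := by
    have h3 := congrArg (conjPair (⟨u, hNY hu⟩ : Y)⁻¹) h1
    rw [conjPair_inv_conjPair] at h3
    rw [h3]
    exact conjPair_of_mem _ _ (Subgroup.inv_mem _ (Subgroup.mem_subgroupOf.mpr hu))
  have hle₂' := subpairLE_conjPair (⟨c, hCY hc⟩ : Y) hle₂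
  rw [h2] at hle₂'
  have hcorrK' := pairCorr_conjPair hcorrK (⟨c, hCY hc⟩ : Y)
  have hQcK : Q ≤ (K.map (MulAut.conj g).toMonoidHom).map (MulAut.conj c).toMonoidHom := by
    intro q hq
    rw [mem_map_conj_iff]
    have hcq := Subgroup.mem_centralizer_iff.mp hc q hq
    have e1 : c⁻¹ * q * c = q := by
      rw [mul_assoc, hcq]
      group
    rw [e1]
    exact hQK₁ hq
  have hCcK : Subgroup.centralizer
      (((conjPair c (⟨(K.map (MulAut.conj g).toMonoidHom), Cfsg.conjBlock K g k⟩ : Cfsg.BrauerPairIdx G)).1 : Subgroup G) : Set G)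
      ≤ Y :=
    (Subgroup.centralizer_le (by exact_mod_cast hQcK)).trans hCY
  obtain ⟨b₁, hb₁, hab₁⟩ := exists_pairCorr_of_subpairLE hle₂'
    (conjPair c (⟨(K.map (MulAut.conj g).toMonoidHom), Cfsg.conjBlock K g k⟩ : Cfsg.BrauerPairIdx G)) hcorrK' hCcK
  have hbb : b₁ = ⟨(P ⊓ Subgroup.normalizer (Q : Set G)), ε⟩ := pairCorr_unique hb₁ hcorrN
  rw [hbb] at hab₁
  refine ⟨c, hc, k, hleK, ?_⟩
  rw [conjPair_mul]
  exact hab₁.trans hleN

end Cfsg.Agent.Helper77
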