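import Cfsg.Agent.Helper77.LocalRing
import Mathlib.RingTheory.Ideal.Quotient.Basic
import Mathlib.RingTheory.Ideal.Maximal

/-!
# The residue field of the local ring at a maximal ideal of the algebraic integers

`ResField M hM` is the quotient of `localSubring M hM` (the local ring at `M`, a subring of `ℂ`) by
`localIdeal M hM`; it is a field, and `resMap M hM` is the total reduction map `ℂ → ResField M hM`
(zero outside the local ring).
-/

set_option autoImplicit false
open Cfsg

namespace Cfsg.Agent.Helper77

theorem localIdeal_isMaximal {M : Ideal Cfsg.AlgInt} (hM : M.IsMaximal) :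
    (localIdeal M hM).IsMaximal := by
  apply Ideal.isMaximal_iff.mpr
  refine ⟨?_, ?_⟩
  · intro h
    have h1 : Cfsg.MemLocalIdeal M (((1 : localSubring M hM) : ℂ)) := (mem_localIdeal hM).mp h
    exact not_memLocalIdeal_one hM (by simpa using h1)
  · intro J x _ hxI hxJ
    have hx' : ¬ Cfsg.MemLocalIdeal M (x : ℂ) := fun h => hxI ((mem_localIdeal hM).mpr h)
    have hx0 : (x : ℂ) ≠ 0 := by
      intro h0
      apply hx'
      rw [h0]
      exact memLocalIdeal_zero hM
    have hinv := memLocalRing_inv hM x.2 hx'
    have h1 : (⟨(x : ℂ)⁻¹, hinv⟩ : localSubring M hM) * x = 1 :=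
      Subtype.ext (by
        show (x : ℂ)⁻¹ * (x : ℂ) = 1
        exact inv_mul_cancel₀ hx0)
    rw [← h1]
    exact J.mul_mem_left _ hxJ

/-- The residue field of the local ring at `M`. -/
abbrev ResField (M : Ideal Cfsg.AlgInt) (hM : M.IsMaximal) : Type :=
  ↥(localSubring M hM) ⧸ localIdeal M hM

noncomputable instance instFieldResField (M : Ideal Cfsg.AlgInt) (hM : M.IsMaximal) :
    Field (ResField M hM) := by
  haveI := localIdeal_isMaximal hM
  exact Ideal.Quotient.field _

/-- The residue map of the local ring. -/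
noncomputable def resHom (M : Ideal Cfsg.AlgInt) (hM : M.IsMaximal) :
    ↥(localSubring M hM) →+* ResField M hM :=
  Ideal.Quotient.mk (localIdeal M hM)

theorem resHom_surjective (M : Ideal Cfsg.AlgInt) (hM : M.IsMaximal) :
    Function.Surjective (resHom M hM) :=
  Ideal.Quotient.mk_surjective

theorem resHom_eq_zero_iff {M : Ideal Cfsg.AlgInt} (hM : M.IsMaximal) (z : localSubring M hM) :
    resHom M hM z = 0 ↔ Cfsg.MemLocalIdeal M (z : ℂ) := by
  unfold resHom
  rw [Ideal.Quotient.eq_zero_iff_mem]
  exact mem_localIdeal hM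

end Cfsg.Agent.Helper77
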