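import Cfsg.Agent.Helper77.PairConj2
import Cfsg.Agent.S4672

/-!
# The stabilizer of a Brauer pair when its quotient by the centralizer is a `p`-group

* `ofBlock`: a set of irreducible characters of `K ≤ T` read on `K.subgroupOf T`.
* `stabilizer_eq_centralizer_mul_defect`: if every `p`-regular element of the stabilizer `T` of
  `(Q, f)` centralizes `Q`, then `T = C_G(Q) D` for every defect group `D` of the block of `T`
  with the idempotent of `f`.
* `isDefectGroup_stabilizer_of_isMaximalBrauerPair`: for a maximal Brauer pair `(P, e)`, `P` is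
  a defect group of the block of the stabilizer with the idempotent of `e`.
-/

set_option autoImplicit false
set_option linter.style.haveILetI false
open Cfsg

namespace Cfsg.Agent.Helper77

universe u

variable {G : Type u} [Group G]

/-- A set of irreducible characters of `K ≤ T`, read on `K.subgroupOf T`. -/
def ofBlock {K T : Subgroup G} (hKT : K ≤ T) (f : Set (Cfsg.IrrCharacter K)) :
    Set (Cfsg.IrrCharacter (K.subgroupOf T)) :=
  Helper75.irrComp (Subgroup.subgroupOfEquivOfLe hKT) '' f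

theorem isPBlock_ofBlock {M : Ideal Cfsg.AlgInt} {K T : Subgroup G} (hKT : K ≤ T)
    {f : Set (Cfsg.IrrCharacter K)} (hf : Cfsg.IsPBlock M f) : Cfsg.IsPBlock M (ofBlock hKT f) :=
  Helper75.isPBlock_image_irrComp _ hf

theorem sbc_ofBlock {K T : Subgroup G} (hKT : K ≤ T) (f : Set (Cfsg.IrrCharacter K)) (t : T) :
    Cfsg.subgroupBlockCoeff (K.subgroupOf T) (ofBlock hKT f) t
      = Cfsg.subgroupBlockCoeff K f (t : G) := by
  by_cases ht : (t : G) ∈ K
  · have ht' : t ∈ K.subgroupOf T := Subgroup.mem_subgroupOf.mpr ht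
    rw [sbc_of_mem _ _ ht, sbc_of_mem _ _ ht', ofBlock, Helper75.blockCoeff_image_irrComp]
    rfl
  · have ht' : t ∉ K.subgroupOf T := fun h => ht (Subgroup.mem_subgroupOf.mp h)
    rw [sbc_of_not_mem _ _ ht, sbc_of_not_mem _ _ ht']

theorem stabilizesBlock_ofBlock {K T : Subgroup G} (hKT : K ≤ T) (f : Set (Cfsg.IrrCharacter K))
    (t : T) (h : Cfsg.StabilizesBlock K f (t : G)) :
    Cfsg.StabilizesBlock (K.subgroupOf T) (ofBlock hKT f) t := by
  refine ⟨?_, ?_⟩
  · rw [Subgroup.mem_normalizer_iff]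
    intro k
    rw [Subgroup.mem_subgroupOf, Subgroup.mem_subgroupOf]
    exact Subgroup.mem_normalizer_iff.mp h.1 (k : G)
  · rintro χ' ⟨χ, hχ, rfl⟩
    obtain ⟨χ₂, hχ₂, hc⟩ := h.2 χ hχ
    refine ⟨_, ⟨χ₂, hχ₂, rfl⟩, fun k k' hk => ?_⟩
    rw [Helper75.irrComp_apply, Helper75.irrComp_apply]
    apply hc
    show ((k' : T) : G) = (t : G) * ((k : T) : G) * (t : G)⁻¹
    rw [hk]
    rfl

/-- A normal subgroup containing all `p`-regular elements has `p`-power index. -/
theorem index_eq_pow_of_forall_pRegular_mem [Finite G] {p : ℕ} [hp : Fact p.Prime]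
    (N : Subgroup G) [N.Normal] (h : ∀ x : G, ¬ p ∣ orderOf x → x ∈ N) :
    ∃ k : ℕ, N.index = p ^ k := by
  have hpg : IsPGroup p (G ⧸ N) := by
    intro g'
    obtain ⟨g, rfl⟩ := QuotientGroup.mk_surjective g'
    obtain ⟨a, m, hm, hom⟩ :=
      Nat.exists_eq_pow_mul_and_not_dvd (orderOf_pos g).ne' p hp.out.ne_one
    refine ⟨a, ?_⟩
    have h1 : orderOf (g ^ p ^ a) = m := by
      rw [orderOf_pow_of_dvd (pow_ne_zero _ hp.out.ne_zero) (hom ▸ dvd_mul_right _ _), hom,
        Nat.mul_div_cancel_left _ (pow_pos hp.out.pos _)]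
    have h2 : g ^ p ^ a ∈ N := h _ (by rw [h1]; exact hm)
    rw [← QuotientGroup.mk_pow]
    exact (QuotientGroup.eq_one_iff _).2 h2
  exact IsPGroup.iff_card.mp hpg

/-- If `(Q', f') ≤ (P, e)` with `|Q'| = |P|` then the pairs are equal. -/
theorem eq_of_subpairLE_of_card_eq [Fintype G] {p : ℕ} [Fact p.Prime] {M : Ideal Cfsg.AlgInt}
    (hM : Cfsg.IsPModular p M) {P Q' : Subgroup G}
    {e : Set (Cfsg.IrrCharacter (Subgroup.centralizer (P : Set G)))}
    {f' : Set (Cfsg.IrrCharacter (Subgroup.centralizer (Q' : Set G)))}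
    (hPe : Cfsg.IsBrauerPair p M P e) (h : Cfsg.SubpairLE p M Q' f' P e)
    (hc : Nat.card Q' = Nat.card P) : (⟨Q', f'⟩ : Cfsg.BrauerPairIdx G) = ⟨P, e⟩ := by
  have h1 : Q' = P :=
    Subgroup.eq_of_le_of_card_ge (Helper75.subpairLE_fst_le (a := ⟨Q', f'⟩) (b := ⟨P, e⟩) h)
      hc.ge
  subst h1
  rw [subpairLE_unique hM _ Q' e rfl hPe Q' f' e h Relation.ReflTransGen.refl]

variable [Fintype G]

/-- If every `p`-regular element of the stabilizer `T` of `(Q, f)` centralizes `Q`, then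
`T = C_G(Q) D` for every defect group `D` of the block of `T` with the idempotent of `f`. -/
theorem stabilizer_eq_centralizer_mul_defect {p : ℕ} [Fact p.Prime] {M : Ideal Cfsg.AlgInt}
    (hM : Cfsg.IsPModular p M) {Q : Subgroup G}
    {f : Set (Cfsg.IrrCharacter (Subgroup.centralizer (Q : Set G)))} (hf : Cfsg.IsPBlock M f)
    (T : Subgroup G)
    (hT : ∀ y : G, y ∈ T ↔ y ∈ Subgroup.normalizer (Q : Set G) ∧
      Cfsg.StabilizesBlock (Subgroup.centralizer (Q : Set G)) f y)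
    (hnil : ∀ x ∈ T, Cfsg.IsPRegular p x → x ∈ Subgroup.centralizer (Q : Set G))
    {F : Set (Cfsg.IrrCharacter T)} (hF : Cfsg.IsPBlock M F)
    (hFc : ∀ t : T, Cfsg.blockCoeff F t
      = Cfsg.subgroupBlockCoeff (Subgroup.centralizer (Q : Set G)) f (t : G))
    {D : Subgroup T} (hD : Cfsg.IsDefectGroup p M F D) (t : T) :
    ∃ c : T, (c : G) ∈ Subgroup.centralizer (Q : Set G) ∧ ∃ d ∈ D, t = c * d := by
  classical
  letI : Fintype T := Fintype.ofFinite _
  have hCT : Subgroup.centralizer (Q : Set G) ≤ T := fun c hc =>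
    (hT c).2 ⟨Subgroup.centralizer_le_normalizer _ hc, stabilizesBlock_of_mem_centralizer Q f hc⟩
  have hTN : T ≤ Subgroup.normalizer
      ((Subgroup.centralizer (Q : Set G) : Subgroup G) : Set G) := fun y hy =>
    Helper75.normalizer_le_normalizer_centralizer' Q ((hT y).1 hy).1
  haveI : ((Subgroup.centralizer (Q : Set G)).subgroupOf T).Normal :=
    Subgroup.normal_subgroupOf_of_le_normalizer hTN
  have hidx : ∃ k : ℕ, ((Subgroup.centralizer (Q : Set G)).subgroupOf T).index = p ^ k :=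
    index_eq_pow_of_forall_pRegular_mem _ (fun x hx => Subgroup.mem_subgroupOf.mpr
      (hnil x x.2 (by
        unfold Cfsg.IsPRegular
        rwa [Subgroup.orderOf_coe])))
  have hst : ∀ x : T, Cfsg.StabilizesBlock ((Subgroup.centralizer (Q : Set G)).subgroupOf T)
      (ofBlock hCT f) x := fun x => stabilizesBlock_ofBlock hCT f x ((hT x).1 x.2).2
  have key := (Cfsg.Agent.S4672.result p M hM _ hidx (ofBlock hCT f) (isPBlock_ofBlock hCT hf)
    hst).2 F hF (fun g => by rw [hFc, sbc_ofBlock]) D hD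
  have htop : t ∈ (Subgroup.centralizer (Q : Set G)).subgroupOf T ⊔ D := by
    rw [key.1]
    trivial
  obtain ⟨c, hc, d, hd, rfl⟩ := Subgroup.mem_sup_of_normal_left.mp htop
  exact ⟨c, Subgroup.mem_subgroupOf.mp hc, d, hd, rfl⟩

/-- For a maximal Brauer pair `(P, e)`, `P` is a defect group of the block of the stabilizer of
`e` in `N_G(P)` whose idempotent is that of `e`. -/
theorem isDefectGroup_stabilizer_of_isMaximalBrauerPair {p : ℕ} [Fact p.Prime]
    {M : Ideal Cfsg.AlgInt} (hM : Cfsg.IsPModular p M) {B : Set (Cfsg.IrrCharacter G)}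
    {P : Subgroup G} {e : Set (Cfsg.IrrCharacter (Subgroup.centralizer (P : Set G)))}
    (hmax : Cfsg.IsMaximalBrauerPair p M B P e) (T : Subgroup G)
    (hT : ∀ y : G, y ∈ T ↔ y ∈ Subgroup.normalizer (P : Set G) ∧
      Cfsg.StabilizesBlock (Subgroup.centralizer (P : Set G)) e y)
    {F : Set (Cfsg.IrrCharacter T)} (hF : Cfsg.IsPBlock M F)
    (hFc : ∀ t : T, Cfsg.blockCoeff F t
      = Cfsg.subgroupBlockCoeff (Subgroup.centralizer (P : Set G)) e (t : G)) :
    Cfsg.IsDefectGroup p M F (P.subgroupOf T) := by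
  classical
  obtain ⟨x₁, hle₁, hall⟩ := exists_conj_isDefectGroup_stabilizer hM B P P e e hmax
    Relation.ReflTransGen.refl T hT
  have hfix : (⟨P.map (MulAut.conj x₁).toMonoidHom, Cfsg.conjBlock P x₁ e⟩ :
      Cfsg.BrauerPairIdx G) = ⟨P, e⟩ :=
    eq_of_subpairLE_of_card_eq hM hmax.1.1 hle₁ (card_map_conj P x₁)
  obtain ⟨hx₁N, hx₁st⟩ := (conjPair_eq_self_iff P e x₁).1 hfix
  have hx₁T : x₁ ∈ T := (hT x₁).2 ⟨hx₁N, hx₁st⟩
  have hT' : ∀ y : G, y ∈ T ↔
      y ∈ Subgroup.normalizer ((P.map (MulAut.conj x₁).toMonoidHom : Subgroup G) : Set G) ∧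
      Cfsg.StabilizesBlock (Subgroup.centralizer
        ((P.map (MulAut.conj x₁).toMonoidHom : Subgroup G) : Set G)) (Cfsg.conjBlock P x₁ e) y := by
    intro y
    constructor
    · intro hy
      have h1 : x₁⁻¹ * y * x₁ ∈ T := T.mul_mem (T.mul_mem (T.inv_mem hx₁T) hy) hx₁T
      have h2 := (hT _).1 h1
      have h3 := (mem_normalizer_map_conj_iff P x₁ y).2 h2.1
      exact ⟨h3, (stabilizesBlock_conjBlock_iff P x₁ e y h3).2 h2.2⟩
    · rintro ⟨h1, h2⟩
      have h3 := (stabilizesBlock_conjBlock_iff P x₁ e y h1).1 h2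
      have h4 : x₁⁻¹ * y * x₁ ∈ T := (hT _).2 ⟨(mem_normalizer_map_conj_iff P x₁ y).1 h1, h3⟩
      have := T.mul_mem (T.mul_mem hx₁T h4) (T.inv_mem hx₁T)
      rwa [show x₁ * (x₁⁻¹ * y * x₁) * x₁⁻¹ = y by group] at this
  have hFc' : ∀ t : T, Cfsg.blockCoeff F t
      = Cfsg.subgroupBlockCoeff (Subgroup.centralizer
        ((P.map (MulAut.conj x₁).toMonoidHom : Subgroup G) : Set G)) (Cfsg.conjBlock P x₁ e)
          (t : G) := by
    intro t
    rw [hFc]
    have h1 := sbc_conjBlock P x₁ e (x₁⁻¹ * (t : G) * x₁)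
    rw [show x₁ * (x₁⁻¹ * (t : G) * x₁) * x₁⁻¹ = (t : G) by group] at h1
    rw [h1]
    have h2 := subgroupBlockCoeff_conj_of_stabilizes (Subgroup.centralizer (P : Set G)) e
      hx₁st (x₁⁻¹ * (t : G) * x₁)
    rw [show x₁ * (x₁⁻¹ * (t : G) * x₁) * x₁⁻¹ = (t : G) by group] at h2
    exact h2
  have hD := hall T hT' F hF hFc'
  have hQ := (map_conj_eq_self_iff P x₁).2 hx₁N
  rw [hQ, inf_eq_left.2 Subgroup.le_normalizer] at hD
  exact hD

end Cfsg.Agent.Helper77
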