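import Cfsg.Agent.Helper77.BlockFusion2

/-!
# Brauer pairs of a subgroup versus Brauer pairs of the group

For a subgroup `H` of `G`, a subgroup `R'` of `H` and a subgroup `R` of `G` with
`C_H(R') = C_G(R)` (`CentCompat H R' R`), blocks of `C_G(R)` correspond to blocks of `C_H(R')`
(`subBlock`).  This file transports the Brauer-pair notions along this correspondence.
-/

set_option autoImplicit false
set_option linter.style.haveILetI false
open Cfsg

namespace Cfsg.Agent.Helper77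

universe u

variable {G : Type u} [Group G]

/-- `C_H(R') = C_G(R)` as subsets of `G`. -/
def CentCompat (H : Subgroup G) (R' : Subgroup H) (R : Subgroup G) : Prop :=
  ∀ g : G, g ∈ Subgroup.centralizer (R : Set G) ↔
    ∃ hg : g ∈ H, (⟨g, hg⟩ : H) ∈ Subgroup.centralizer (R' : Set H)

/-- The identification `C_H(R') ≃ C_G(R)`. -/
def centEquiv {H : Subgroup G} {R' : Subgroup H} {R : Subgroup G} (h : CentCompat H R' R) :
    Subgroup.centralizer (R' : Set H) ≃* Subgroup.centralizer (R : Set G) where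
  toFun c := ⟨((c : H) : G), (h _).2 ⟨(c : H).2, c.2⟩⟩
  invFun c := ⟨⟨(c : G), ((h _).1 c.2).1⟩, ((h _).1 c.2).2⟩
  left_inv _ := rfl
  right_inv _ := rfl
  map_mul' _ _ := rfl

theorem centEquiv_apply {H : Subgroup G} {R' : Subgroup H} {R : Subgroup G}
    (h : CentCompat H R' R) (c : Subgroup.centralizer (R' : Set H)) :
    ((centEquiv h c : Subgroup.centralizer (R : Set G)) : G) = ((c : H) : G) := rfl

theorem centEquiv_symm_apply {H : Subgroup G} {R' : Subgroup H} {R : Subgroup G}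
    (h : CentCompat H R' R) (c : Subgroup.centralizer (R : Set G)) :
    ((((centEquiv h).symm c : Subgroup.centralizer (R' : Set H)) : H) : G) = (c : G) := rfl

/-- The block of `C_H(R')` corresponding to a block of `C_G(R)`. -/
def subBlock {H : Subgroup G} {R' : Subgroup H} {R : Subgroup G} (h : CentCompat H R' R)
    (e : Set (Cfsg.IrrCharacter (Subgroup.centralizer (R : Set G)))) :
    Set (Cfsg.IrrCharacter (Subgroup.centralizer (R' : Set H))) :=
  Helper75.irrComp (centEquiv h) '' e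

theorem mem_subBlock_iff {H : Subgroup G} {R' : Subgroup H} {R : Subgroup G}
    (h : CentCompat H R' R) (e : Set (Cfsg.IrrCharacter (Subgroup.centralizer (R : Set G))))
    (ξ : Cfsg.IrrCharacter (Subgroup.centralizer (R : Set G))) :
    Helper75.irrComp (centEquiv h) ξ ∈ subBlock h e ↔ ξ ∈ e :=
  (Helper75.irrComp_injective (centEquiv h)).mem_set_image

theorem exists_eq_irrComp_centEquiv {H : Subgroup G} {R' : Subgroup H} {R : Subgroup G}
    (h : CentCompat H R' R) (ξ' : Cfsg.IrrCharacter (Subgroup.centralizer (R' : Set H))) :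
    ∃ ξ : Cfsg.IrrCharacter (Subgroup.centralizer (R : Set G)),
      ξ' = Helper75.irrComp (centEquiv h) ξ :=
  ⟨Helper75.irrComp (centEquiv h).symm ξ', (Helper75.irrComp_irrComp_symm_gen _ _).symm⟩

theorem isPBlock_subBlock_iff {M : Ideal Cfsg.AlgInt} {H : Subgroup G} {R' : Subgroup H}
    {R : Subgroup G} (h : CentCompat H R' R)
    (e : Set (Cfsg.IrrCharacter (Subgroup.centralizer (R : Set G)))) :
    Cfsg.IsPBlock M (subBlock h e) ↔ Cfsg.IsPBlock M e := by
  constructor
  · intro he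
    have := Helper75.isPBlock_image_irrComp (centEquiv h).symm he
    rwa [subBlock, Helper75.image_irrComp_symm_image] at this
  · exact fun he => Helper75.isPBlock_image_irrComp (centEquiv h) he

theorem sbc_subBlock {H : Subgroup G} {R' : Subgroup H} {R : Subgroup G}
    (h : CentCompat H R' R) (e : Set (Cfsg.IrrCharacter (Subgroup.centralizer (R : Set G))))
    (x : H) :
    Cfsg.subgroupBlockCoeff (Subgroup.centralizer (R' : Set H)) (subBlock h e) x
      = Cfsg.subgroupBlockCoeff (Subgroup.centralizer (R : Set G)) e (x : G) := by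
  by_cases hx : x ∈ Subgroup.centralizer (R' : Set H)
  · have hx' : (x : G) ∈ Subgroup.centralizer (R : Set G) := (h _).2 ⟨x.2, hx⟩
    rw [sbc_of_mem _ _ hx, sbc_of_mem _ _ hx', subBlock, Helper75.blockCoeff_image_irrComp]
    rfl
  · have hx' : (x : G) ∉ Subgroup.centralizer (R : Set G) := fun h' => hx ((h _).1 h').2
    rw [sbc_of_not_mem _ _ hx, sbc_of_not_mem _ _ hx']

/-- The Brauer-map central character is compatible with the identification. -/
theorem brauerOmega_centEquiv {H : Subgroup G} {R' : Subgroup H} {R : Subgroup G}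
    (h : CentCompat H R' R) (β' : H → ℂ) (β : G → ℂ)
    (hβ : ∀ c : Subgroup.centralizer (R' : Set H), β' (c : H) = β ((c : H) : G))
    (ξ : Cfsg.IrrCharacter (Subgroup.centralizer (R : Set G))) :
    Cfsg.brauerOmega R' β' (Helper75.irrComp (centEquiv h) ξ : _ → ℂ)
      = Cfsg.brauerOmega R β (ξ : _ → ℂ) := by
  show (∑ᶠ c' : Subgroup.centralizer (R' : Set H), β' c' * ξ.1 (centEquiv h c')
        / ξ.1 (centEquiv h 1))
      = ∑ᶠ c : Subgroup.centralizer (R : Set G), β c * ξ.1 c / ξ.1 1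
  rw [← finsum_comp_equiv (centEquiv h).toEquiv]
  refine finsum_congr fun c' => ?_
  rw [hβ c', map_one]
  rfl

/-- Brauer pairs of a block `b` of `H` whose idempotent is given by `β`. -/
theorem isBrauerPairOf_subBlock_iff {p : ℕ} {M : Ideal Cfsg.AlgInt} {H : Subgroup G}
    {R' : Subgroup H} {R : Subgroup G} (h : CentCompat H R' R) {b : Set (Cfsg.IrrCharacter H)}
    {β : G → ℂ} (hβ : ∀ x : H, Cfsg.blockCoeff b x = β (x : G))
    (e : Set (Cfsg.IrrCharacter (Subgroup.centralizer (R : Set G)))) :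
    Cfsg.IsBrauerPairOf p M b R' (subBlock h e) ↔
      (IsPGroup p R' ∧ Cfsg.IsPBlock M e) ∧ Cfsg.IsPBlock M b ∧
        ∀ ξ ∈ e, Cfsg.MemLocalIdeal M (Cfsg.brauerOmega R β (ξ : _ → ℂ) - 1) := by
  unfold Cfsg.IsBrauerPairOf Cfsg.IsBrauerPair
  rw [isPBlock_subBlock_iff]
  refine and_congr Iff.rfl (and_congr Iff.rfl ?_)
  constructor
  · intro hh ξ hξ
    have := hh _ ((mem_subBlock_iff h e ξ).2 hξ)
    rwa [brauerOmega_centEquiv h _ β (fun c => hβ c) ξ] at this
  · rintro hh ξ' ⟨ξ, hξ, rfl⟩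
    rw [brauerOmega_centEquiv h _ β (fun c => hβ c) ξ]
    exact hh ξ hξ

/-- Conjugate characters correspond. -/
theorem isConjCharOf_centEquiv_iff {H : Subgroup G} {R' : Subgroup H} {R : Subgroup G}
    (h : CentCompat H R' R) (x : H)
    (χ χ₂ : Cfsg.IrrCharacter (Subgroup.centralizer (R : Set G))) :
    Cfsg.IsConjCharOf (Subgroup.centralizer (R' : Set H)) x
        (Helper75.irrComp (centEquiv h) χ : _ → ℂ) (Helper75.irrComp (centEquiv h) χ₂ : _ → ℂ)
      ↔ Cfsg.IsConjCharOf (Subgroup.centralizer (R : Set G)) (x : G) (χ : _ → ℂ) (χ₂ : _ → ℂ) := by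
  constructor
  · intro hh k k' hk
    have := hh ((centEquiv h).symm k) ((centEquiv h).symm k') (Subtype.ext (by
      show (k' : G) = (x : G) * (k : G) * (x : G)⁻¹
      exact hk))
    simpa [Helper75.irrComp_apply] using this
  · intro hh k k' hk
    have := hh (centEquiv h k) (centEquiv h k') (by
      show ((k' : H) : G) = (x : G) * ((k : H) : G) * (x : G)⁻¹
      rw [hk]
      rfl)
    simpa [Helper75.irrComp_apply] using this

theorem mem_normalizer_centralizer_iff {H : Subgroup G} {R' : Subgroup H} {R : Subgroup G}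
    (h : CentCompat H R' R) (x : H) :
    x ∈ Subgroup.normalizer ((Subgroup.centralizer (R' : Set H) : Subgroup H) : Set H) ↔
      (x : G) ∈ Subgroup.normalizer ((Subgroup.centralizer (R : Set G) : Subgroup G) : Set G) := by
  rw [Subgroup.mem_normalizer_iff, Subgroup.mem_normalizer_iff]
  constructor
  · intro hh g
    constructor
    · intro hg
      obtain ⟨hgH, hg'⟩ := (h g).1 hg
      exact (h _).2 ⟨H.mul_mem (H.mul_mem x.2 hgH) (H.inv_mem x.2), (hh ⟨g, hgH⟩).1 hg'⟩
    · intro hg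
      obtain ⟨hgH, hg'⟩ := (h _).1 hg
      have hgH' : g ∈ H := by
        have := H.mul_mem (H.mul_mem (H.inv_mem x.2) hgH) x.2
        have e : (x : G)⁻¹ * ((x : G) * g * (x : G)⁻¹) * (x : G) = g := by group
        rwa [e] at this
      exact (h g).2 ⟨hgH', (hh ⟨g, hgH'⟩).2 hg'⟩
  · intro hh c
    constructor
    · intro hc
      exact ((h _).1 ((hh (c : G)).1 ((h _).2 ⟨c.2, hc⟩))).2
    · intro hc
      exact ((h _).1 ((hh (c : G)).2 ((h _).2 ⟨(x * c * x⁻¹).2, hc⟩))).2

/-- Stabilizing a block corresponds. -/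
theorem stabilizesBlock_subBlock_iff {H : Subgroup G} {R' : Subgroup H} {R : Subgroup G}
    (h : CentCompat H R' R) (e : Set (Cfsg.IrrCharacter (Subgroup.centralizer (R : Set G))))
    (x : H) :
    Cfsg.StabilizesBlock (Subgroup.centralizer (R' : Set H)) (subBlock h e) x ↔
      Cfsg.StabilizesBlock (Subgroup.centralizer (R : Set G)) e (x : G) := by
  unfold Cfsg.StabilizesBlock
  rw [mem_normalizer_centralizer_iff h x]
  refine and_congr Iff.rfl ?_
  constructor
  · intro hh χ hχ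
    obtain ⟨χ', hχ', hc⟩ := hh _ ((mem_subBlock_iff h e χ).2 hχ)
    obtain ⟨χ₂, rfl⟩ := exists_eq_irrComp_centEquiv h χ'
    exact ⟨χ₂, (mem_subBlock_iff h e χ₂).1 hχ', (isConjCharOf_centEquiv_iff h x χ χ₂).1 hc⟩
  · rintro hh χ' ⟨χ, hχ, rfl⟩
    obtain ⟨χ₂, hχ₂, hc⟩ := hh χ hχ
    exact ⟨_, (mem_subBlock_iff h e χ₂).2 hχ₂, (isConjCharOf_centEquiv_iff h x χ χ₂).2 hc⟩

/-- A normal inclusion of Brauer pairs of `H` gives one of the corresponding pairs of `G`. -/
theorem isNormalSubpair_of_subBlock {p : ℕ} {M : Ideal Cfsg.AlgInt} {H : Subgroup G}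
    {R₁' R₂' : Subgroup H} {R₁ R₂ : Subgroup G} (h₁ : CentCompat H R₁' R₁)
    (h₂ : CentCompat H R₂' R₂)
    {e₁ : Set (Cfsg.IrrCharacter (Subgroup.centralizer (R₁ : Set G)))}
    {e₂ : Set (Cfsg.IrrCharacter (Subgroup.centralizer (R₂ : Set G)))}
    (hsub : Cfsg.IsNormalSubpair p M R₁' (subBlock h₁ e₁) R₂' (subBlock h₂ e₂))
    (hR₁ : IsPGroup p R₁) (hR₂ : IsPGroup p R₂) (hle : R₁ ≤ R₂)
    (hN : R₂ ≤ Subgroup.normalizer (R₁ : Set G))
    (hst : ∀ x ∈ R₂, Cfsg.StabilizesBlock (Subgroup.centralizer (R₁ : Set G)) e₁ x) :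
    Cfsg.IsNormalSubpair p M R₁ e₁ R₂ e₂ := by
  obtain ⟨⟨-, hb₁⟩, ⟨-, hb₂⟩, -, -, -, hω⟩ := hsub
  refine ⟨⟨hR₁, (isPBlock_subBlock_iff h₁ e₁).1 hb₁⟩, ⟨hR₂, (isPBlock_subBlock_iff h₂ e₂).1 hb₂⟩,
    hle, hN, hst, ?_⟩
  intro ξ hξ
  have := hω _ ((mem_subBlock_iff h₂ e₂ ξ).2 hξ)
  rwa [brauerOmega_centEquiv h₂ _
    (Cfsg.subgroupBlockCoeff (Subgroup.centralizer (R₁ : Set G)) e₁)
    (fun c => sbc_subBlock h₁ e₁ c) ξ] at this

end Cfsg.Agent.Helper77
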