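import Cfsg.Agent.Helper77.StablePair
import Cfsg.Agent.Helper75.PrincipalSubpair

/-!
# Inclusion of Brauer pairs (Alperin–Broué)

* `brauerOmega_sub_of_isNormalSubpair`: through a normal subpair `(Q, f) ⊴ (P, e)` the Brauer maps
  at `P` and at `Q` agree on functions invariant under `P` and `C_G(Q)`.
* `isBrauerPairOf_iff_of_isNormalSubpair`, `isBrauerPairOf_iff_of_reflTransGen`: a pair and a pair
  below it belong to the same blocks of `G`.
* `isNormalSubpair_refl`, `isNormalSubpair_conj`, `isNormalSubpair_trans`.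
* `isNormalSubpair_of_reflTransGen`: an inclusion `(Q, f) ≤ (P, e)` with `P ≤ N_G(Q)` is normal.
* `exists_subpairLE`, `subpairLE_unique`: below a Brauer pair `(P, e)` there is exactly one pair
  on each subgroup `Q ≤ P`.
-/

set_option autoImplicit false
set_option linter.style.haveILetI false
open Cfsg

namespace Cfsg.Agent.Helper77

universe u

variable {G : Type u} [Group G]

open Classical in
/-- Cut a function on `G` down to the subgroup `K`. -/
noncomputable def truncTo (K : Subgroup G) (a : G → ℂ) : G → ℂ :=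
  fun x => if x ∈ K then a x else 0

theorem truncTo_of_mem (K : Subgroup G) (a : G → ℂ) {x : G} (hx : x ∈ K) :
    truncTo K a x = a x := if_pos hx

theorem truncTo_of_not_mem (K : Subgroup G) (a : G → ℂ) {x : G} (hx : x ∉ K) :
    truncTo K a x = 0 := if_neg hx

theorem suppIn_truncTo (K : Subgroup G) (a : G → ℂ) : SuppIn K (truncTo K a) :=
  fun _ hx => truncTo_of_not_mem K a hx

theorem invUnder_truncTo {K L : Subgroup G} (hL : L ≤ Subgroup.normalizer (K : Set G))
    {a : G → ℂ} (ha : InvUnder L a) : InvUnder L (truncTo K a) := by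
  intro d hd x
  have hmem : d * x * d⁻¹ ∈ K ↔ x ∈ K := (Subgroup.mem_normalizer_iff.mp (hL hd) x).symm
  by_cases hx : x ∈ K
  · rw [truncTo_of_mem K a hx, truncTo_of_mem K a (hmem.mpr hx)]
    exact ha d hd x
  · rw [truncTo_of_not_mem K a hx, truncTo_of_not_mem K a (fun h => hx (hmem.mp h))]

theorem truncTo_memLocalRing {M : Ideal Cfsg.AlgInt} (hM : M.IsMaximal) (K : Subgroup G)
    {a : G → ℂ} (haS : ∀ g, Cfsg.MemLocalRing M (a g)) (x : G) :
    Cfsg.MemLocalRing M (truncTo K a x) := by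
  by_cases hx : x ∈ K
  · rw [truncTo_of_mem K a hx]; exact haS x
  · rw [truncTo_of_not_mem K a hx]; exact memLocalRing_zero hM

theorem truncTo_restrict (K : Subgroup G) (a : G → ℂ) :
    (fun k : K => truncTo K a (k : G)) = fun k : K => a k :=
  funext fun k => truncTo_of_mem K a k.2

theorem mem_normalizer_inf {R R' : Subgroup G} {x : G}
    (h : x ∈ Subgroup.normalizer (R : Set G)) (h' : x ∈ Subgroup.normalizer (R' : Set G)) :
    x ∈ Subgroup.normalizer ((R ⊓ R' : Subgroup G) : Set G) := by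
  rw [Subgroup.mem_normalizer_iff] at h h' ⊢
  intro y
  rw [Subgroup.mem_inf, Subgroup.mem_inf, h y, h' y]

/-- `brauerOmega` and conjugation by an element normalizing `C_G(R)`. -/
theorem brauerOmega_conjIrr [Finite G] (R : Subgroup G)
    (x : Subgroup.normalizer ((Subgroup.centralizer (R : Set G) : Subgroup G) : Set G))
    {a b : G → ℂ} (hab : ∀ c, b ((x : G) * c * (x : G)⁻¹) = a c)
    (η₀ : Cfsg.IrrCharacter (Subgroup.centralizer (R : Set G))) :
    Cfsg.brauerOmega R b
        (conjIrr (Subgroup.centralizer (R : Set G)) x η₀ : Subgroup.centralizer (R : Set G) → ℂ)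
      = Cfsg.brauerOmega R a (η₀ : Subgroup.centralizer (R : Set G) → ℂ) := by
  classical
  letI : Fintype (Subgroup.centralizer (R : Set G)) := Fintype.ofFinite _
  rw [brauerOmega_eq_restrict, brauerOmega_eq_restrict]
  show (∑ c : Subgroup.centralizer (R : Set G), b c *
        (conjIrr (Subgroup.centralizer (R : Set G)) x η₀ : Subgroup.centralizer (R : Set G) → ℂ) c)
      / (conjIrr (Subgroup.centralizer (R : Set G)) x η₀ : Subgroup.centralizer (R : Set G) → ℂ) 1
    = (∑ c : Subgroup.centralizer (R : Set G), a c *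
        (η₀ : Subgroup.centralizer (R : Set G) → ℂ) c)
      / (η₀ : Subgroup.centralizer (R : Set G) → ℂ) 1
  rw [conjIrr_apply _ x η₀ 1 1 (by simp)]
  congr 1
  refine Fintype.sum_bijective (Helper75.conjEquivOfNormalizer _ (x : G) x.2)
    (MulEquiv.bijective _) _ _ ?_
  intro c
  have hc : (c : G) = (x : G) *
      ((Helper75.conjEquivOfNormalizer (Subgroup.centralizer (R : Set G)) (x : G) x.2 c :
        Subgroup.centralizer (R : Set G)) : G) * (x : G)⁻¹ := by
    rw [Helper75.conjEquivOfNormalizer_apply]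
    group
  rw [conjIrr_apply _ x η₀ _ c hc, ← hab]
  congr 2

variable [Fintype G]

/-- **Comparison through a normal subpair.**  For `(Q, f) ⊴ (P, e)`, the Brauer maps at `P` and
at `Q` agree, modulo the local ideal, on functions with local values invariant under `P` and
`C_G(Q)`. -/
theorem brauerOmega_sub_of_isNormalSubpair {p : ℕ} [Fact p.Prime] {M : Ideal Cfsg.AlgInt}
    (hM : Cfsg.IsPModular p M) {P Q : Subgroup G}
    {e : Set (Cfsg.IrrCharacter (Subgroup.centralizer (P : Set G)))}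
    {f : Set (Cfsg.IrrCharacter (Subgroup.centralizer (Q : Set G)))}
    (h : Cfsg.IsNormalSubpair p M Q f P e) {a : G → ℂ}
    (ha1 : InvUnder (Subgroup.centralizer (Q : Set G)) a) (ha2 : InvUnder P a)
    (haS : ∀ g, Cfsg.MemLocalRing M (a g))
    {ξ : Cfsg.IrrCharacter (Subgroup.centralizer (P : Set G))} (hξ : ξ ∈ e)
    {η : Cfsg.IrrCharacter (Subgroup.centralizer (Q : Set G))} (hη : η ∈ f) :
    Cfsg.MemLocalIdeal M
      (Cfsg.brauerOmega P a (ξ : Subgroup.centralizer (P : Set G) → ℂ)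
        - Cfsg.brauerOmega Q a (η : Subgroup.centralizer (Q : Set G) → ℂ)) := by
  classical
  have hMm := hM.2.1
  letI : Fintype (Subgroup.centralizer (Q : Set G)) := Fintype.ofFinite _
  obtain ⟨⟨hQ, hf⟩, ⟨hP, he⟩, hQP, hPN, hfP, hfξ⟩ := h
  have hCK : Subgroup.centralizer (P : Set G) ≤ Subgroup.centralizer (Q : Set G) :=
    Subgroup.centralizer_le hQP
  have hPK : P ≤ Subgroup.normalizer ((Subgroup.centralizer (Q : Set G) : Subgroup G) : Set G) :=
    fun x hx => Helper75.normalizer_le_normalizer_centralizer' Q (hPN hx)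
  have h1 := brauerOmega_sub_omega_memLocalIdeal hM P (Subgroup.centralizer (Q : Set G)) hP hCK ξ
    f hf hfP (hfξ ξ hξ) (suppIn_truncTo _ a) (invUnder_truncTo Subgroup.le_normalizer ha1)
    (invUnder_truncTo hPK ha2) (truncTo_memLocalRing hMm _ haS) η hη
  rw [truncTo_restrict, ← brauerOmega_eq_restrict Q a,
    brauerOmega_congr P (a := truncTo (Subgroup.centralizer (Q : Set G)) a) (b := a) _
      (fun c hc => truncTo_of_mem _ a (hCK hc))] at h1
  exact h1

/-- A normal subpair and the pair above it belong to the same blocks of `G`. -/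
theorem isBrauerPairOf_iff_of_isNormalSubpair {p : ℕ} [Fact p.Prime] {M : Ideal Cfsg.AlgInt}
    (hM : Cfsg.IsPModular p M) {P Q : Subgroup G}
    {e : Set (Cfsg.IrrCharacter (Subgroup.centralizer (P : Set G)))}
    {f : Set (Cfsg.IrrCharacter (Subgroup.centralizer (Q : Set G)))}
    (h : Cfsg.IsNormalSubpair p M Q f P e) (B : Set (Cfsg.IrrCharacter G))
    (hB : Cfsg.IsPBlock M B) :
    Cfsg.IsBrauerPairOf p M B P e ↔ Cfsg.IsBrauerPairOf p M B Q f := by
  have hMm := hM.2.1
  have hcmp : ∀ ξ ∈ e, ∀ η ∈ f, Cfsg.MemLocalIdeal M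
      (Cfsg.brauerOmega P (Cfsg.blockCoeff B) (ξ : Subgroup.centralizer (P : Set G) → ℂ)
        - Cfsg.brauerOmega Q (Cfsg.blockCoeff B) (η : Subgroup.centralizer (Q : Set G) → ℂ)) :=
    fun ξ hξ η hη => brauerOmega_sub_of_isNormalSubpair hM h
      (invUnder_of_isClassFunction (blockCoeff_isClassFunction B) _)
      (invUnder_of_isClassFunction (blockCoeff_isClassFunction B) _)
      (blockCoeff_memLocalRing hMm hB) hξ hη
  obtain ⟨ξ₀, hξ₀⟩ := Helper16.exists_mem_of_isPBlock hMm h.2.1.2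
  obtain ⟨η₀, hη₀⟩ := Helper16.exists_mem_of_isPBlock hMm h.1.2
  constructor
  · rintro ⟨-, -, h3⟩
    refine ⟨h.1, hB, fun η hη => ?_⟩
    have := memLocalIdeal_sub hMm (h3 ξ₀ hξ₀) (hcmp ξ₀ hξ₀ η hη)
    rwa [sub_sub_sub_cancel_left] at this
  · rintro ⟨-, -, h3⟩
    refine ⟨h.2.1, hB, fun ξ hξ => ?_⟩
    have := memLocalIdeal_add hMm (hcmp ξ hξ η₀ hη₀) (h3 η₀ hη₀)
    rwa [sub_add_sub_cancel] at this

/-- A pair and a pair below it belong to the same blocks of `G`. -/
theorem isBrauerPairOf_iff_of_reflTransGen {p : ℕ} [Fact p.Prime] {M : Ideal Cfsg.AlgInt}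
    (hM : Cfsg.IsPModular p M) {a b : Cfsg.BrauerPairIdx G}
    (h : Relation.ReflTransGen (Cfsg.NormalSubpairRel p M) a b) (B : Set (Cfsg.IrrCharacter G))
    (hB : Cfsg.IsPBlock M B) :
    Cfsg.IsBrauerPairOf p M B b.1 b.2 ↔ Cfsg.IsBrauerPairOf p M B a.1 a.2 := by
  induction h with
  | refl => exact Iff.rfl
  | tail _ hstep ih => exact (isBrauerPairOf_iff_of_isNormalSubpair hM hstep B hB).trans ih

/-- Every Brauer pair is a normal subpair of itself. -/
theorem isNormalSubpair_refl {p : ℕ} {M : Ideal Cfsg.AlgInt} (hM : M.IsMaximal)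
    {P : Subgroup G} {e : Set (Cfsg.IrrCharacter (Subgroup.centralizer (P : Set G)))}
    (hPe : Cfsg.IsBrauerPair p M P e) : Cfsg.IsNormalSubpair p M P e P e := by
  classical
  letI : Fintype (Subgroup.centralizer (P : Set G)) := Fintype.ofFinite _
  refine ⟨hPe, hPe, le_rfl, Subgroup.le_normalizer, fun x hx =>
    ⟨Helper75.normalizer_le_normalizer_centralizer' P (Subgroup.le_normalizer hx),
      fun χ hχ => ⟨χ, hχ, ?_⟩⟩, fun ξ hξ => ?_⟩
  · intro k k' hk
    have hkk : k' = k := by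
      apply Subtype.ext
      rw [hk]
      have h1 := Subgroup.mem_centralizer_iff.mp k.2 x hx
      calc x * (k : G) * x⁻¹ = (k : G) * x * x⁻¹ := by rw [h1]
        _ = k := by group
    rw [hkk]
  · rw [brauerOmega_eq_restrict, sbc_restrict, omega_blockCoeff_of_mem hξ, sub_self]
    exact memLocalIdeal_zero hM

/-- Conjugating the lower pair of a normal subpair by an element that normalizes both subgroups
and stabilizes the upper block gives a normal subpair again. -/
theorem isNormalSubpair_conj {p : ℕ} [Fact p.Prime] {M : Ideal Cfsg.AlgInt}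
    {Q R : Subgroup G}
    {f : Set (Cfsg.IrrCharacter (Subgroup.centralizer (Q : Set G)))}
    {g : Set (Cfsg.IrrCharacter (Subgroup.centralizer (R : Set G)))}
    (h1 : Cfsg.IsNormalSubpair p M Q f R g) (x : G)
    (hxQ : x ∈ Subgroup.normalizer (Q : Set G)) (hxR : x ∈ Subgroup.normalizer (R : Set G))
    (hxg : Cfsg.StabilizesBlock (Subgroup.centralizer (R : Set G)) g x) :
    Cfsg.IsNormalSubpair p M Q
      (conjIrr (Subgroup.centralizer (Q : Set G))
        ⟨x, Helper75.normalizer_le_normalizer_centralizer' Q hxQ⟩ '' f) R g := by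
  classical
  obtain ⟨⟨hQ, hf⟩, ⟨hR, hg⟩, hQR, hRN, hfR, hfη⟩ := h1
  refine ⟨⟨hQ, isPBlock_image_conjIrr _ _ hf⟩, ⟨hR, hg⟩, hQR, hRN, ?_, ?_⟩
  · intro r hr
    have hrK := Helper75.normalizer_le_normalizer_centralizer' Q (hRN hr)
    apply (stabilizesBlock_iff (Subgroup.centralizer (Q : Set G)) _ ⟨r, hrK⟩).mpr
    rintro _ ⟨χ, hχ, rfl⟩
    have e : (⟨r, hrK⟩ : Subgroup.normalizer
          ((Subgroup.centralizer (Q : Set G) : Subgroup G) : Set G))
          * ⟨x, Helper75.normalizer_le_normalizer_centralizer' Q hxQ⟩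
        = ⟨x, Helper75.normalizer_le_normalizer_centralizer' Q hxQ⟩
          * (⟨x, Helper75.normalizer_le_normalizer_centralizer' Q hxQ⟩⁻¹ * ⟨r, hrK⟩
            * ⟨x, Helper75.normalizer_le_normalizer_centralizer' Q hxQ⟩) := by group
    rw [← conjIrr_mul, e, conjIrr_mul]
    refine ⟨_, ?_, rfl⟩
    have hxr : x⁻¹ * r * x ∈ R := by
      rw [Subgroup.mem_normalizer_iff.mp hxR (x⁻¹ * r * x)]
      have e2 : x * (x⁻¹ * r * x) * x⁻¹ = r := by group
      rw [e2]
      exact hr
    have hs : Cfsg.StabilizesBlock (Subgroup.centralizer (Q : Set G)) f (x⁻¹ * r * x) :=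
      hfR _ hxr
    exact (stabilizesBlock_iff (Subgroup.centralizer (Q : Set G)) f
      (⟨x, Helper75.normalizer_le_normalizer_centralizer' Q hxQ⟩⁻¹ * ⟨r, hrK⟩
        * ⟨x, Helper75.normalizer_le_normalizer_centralizer' Q hxQ⟩)).mp hs χ hχ
  · intro η hη
    rw [← (image_conjIrr_eq_iff (Subgroup.centralizer (R : Set G)) g ⟨x, hxg.1⟩).mpr hxg] at hη
    obtain ⟨η₀, hη₀, rfl⟩ := hη
    rw [brauerOmega_conjIrr R ⟨x, hxg.1⟩
      (a := Cfsg.subgroupBlockCoeff (Subgroup.centralizer (Q : Set G)) f)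
      (fun c => subgroupBlockCoeff_image_conjIrr (Subgroup.centralizer (Q : Set G))
        ⟨x, Helper75.normalizer_le_normalizer_centralizer' Q hxQ⟩ f c) η₀]
    exact hfη η₀ hη₀

/-- **Transitivity of normal subpairs** when the bottom subgroup is normalized by the top one. -/
theorem isNormalSubpair_trans {p : ℕ} [Fact p.Prime] {M : Ideal Cfsg.AlgInt}
    (hM : Cfsg.IsPModular p M) {Q R P : Subgroup G}
    {f : Set (Cfsg.IrrCharacter (Subgroup.centralizer (Q : Set G)))}
    {g : Set (Cfsg.IrrCharacter (Subgroup.centralizer (R : Set G)))}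
    {e : Set (Cfsg.IrrCharacter (Subgroup.centralizer (P : Set G)))}
    (h1 : Cfsg.IsNormalSubpair p M Q f R g) (h2 : Cfsg.IsNormalSubpair p M R g P e)
    (hPQ : P ≤ Subgroup.normalizer (Q : Set G)) : Cfsg.IsNormalSubpair p M Q f P e := by
  classical
  have hMm := hM.2.1
  have h1' := h1
  have h2' := h2
  obtain ⟨⟨hQ, hf⟩, ⟨hR, hg⟩, hQR, hRN, hfR, hfη⟩ := h1
  obtain ⟨-, ⟨hP, he⟩, hRP, hPNR, hgP, hgξ⟩ := h2
  have hfP : ∀ x ∈ P, Cfsg.StabilizesBlock (Subgroup.centralizer (Q : Set G)) f x := by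
    intro x hx
    have h3 := isNormalSubpair_conj h1' x (hPQ hx) (hPNR hx) (hgP x hx)
    obtain ⟨f₀, -, huniq⟩ := existsUnique_isNormalSubpair hM R Q g ⟨hR, hg⟩ hQR hRN
    have h4 := (huniq _ h3).trans (huniq _ h1').symm
    exact (image_conjIrr_eq_iff (Subgroup.centralizer (Q : Set G)) f
      ⟨x, Helper75.normalizer_le_normalizer_centralizer' Q (hPQ hx)⟩).mp h4
  refine ⟨⟨hQ, hf⟩, ⟨hP, he⟩, hQR.trans hRP, hPQ, hfP, fun ξ hξ => ?_⟩
  obtain ⟨η, hη⟩ := Helper16.exists_mem_of_isPBlock hMm hg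
  have h5 := brauerOmega_sub_of_isNormalSubpair hM h2'
    (a := Cfsg.subgroupBlockCoeff (Subgroup.centralizer (Q : Set G)) f)
    ((invUnder_sbc_self _ f).mono (Subgroup.centralizer_le hQR))
    (invUnder_sbc_of_stabilizes _ f hfP) (sbc_memLocalRing hMm _ hf) hξ hη
  have := memLocalIdeal_add hMm h5 (hfη η hη)
  rwa [sub_add_sub_cancel] at this

/-- An inclusion of Brauer pairs whose top subgroup normalizes the bottom one is a normal
inclusion. -/
theorem isNormalSubpair_of_reflTransGen {p : ℕ} [Fact p.Prime] {M : Ideal Cfsg.AlgInt}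
    (hM : Cfsg.IsPModular p M) {a b : Cfsg.BrauerPairIdx G}
    (h : Relation.ReflTransGen (Cfsg.NormalSubpairRel p M) a b)
    (hb : Cfsg.IsBrauerPair p M b.1 b.2) (hN : b.1 ≤ Subgroup.normalizer (a.1 : Set G)) :
    Cfsg.IsNormalSubpair p M a.1 a.2 b.1 b.2 := by
  induction h with
  | refl => exact isNormalSubpair_refl hM.2.1 hb
  | tail hac hcd ih =>
    have hcd' : Cfsg.IsNormalSubpair p M _ _ _ _ := hcd
    exact isNormalSubpair_trans hM (ih hcd'.1 (hcd'.2.2.1.trans hN)) hcd' hN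

/-- A nontrivial inclusion of Brauer pairs ends with a normal step from a proper subgroup. -/
theorem exists_proper_step {p : ℕ} [Fact p.Prime] {M : Ideal Cfsg.AlgInt}
    (hM : Cfsg.IsPModular p M) {a b : Cfsg.BrauerPairIdx G}
    (h : Relation.ReflTransGen (Cfsg.NormalSubpairRel p M) a b)
    (hb : Cfsg.IsBrauerPair p M b.1 b.2) (hne : a.1 ≠ b.1) :
    ∃ c : Cfsg.BrauerPairIdx G, Relation.ReflTransGen (Cfsg.NormalSubpairRel p M) a c ∧
      Cfsg.NormalSubpairRel p M c b ∧ c.1 ≠ b.1 := by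
  induction h with
  | refl => exact absurd rfl hne
  | tail hac hcd ih =>
    rename_i c d
    by_cases hcd1 : c.1 = d.1
    · have hcd' : Cfsg.IsNormalSubpair p M c.1 c.2 d.1 d.2 := hcd
      obtain ⟨R, g⟩ := c
      obtain ⟨P, e⟩ := d
      simp only at hcd1 hcd' hb hne ih
      subst hcd1
      have hrefl := isNormalSubpair_refl hM.2.1 hb
      obtain ⟨f₀, -, huniq⟩ := existsUnique_isNormalSubpair hM R R e hb le_rfl
        Subgroup.le_normalizer
      have hge : g = e := (huniq _ hcd').trans (huniq _ hrefl).symm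
      subst hge
      exact ih hb hne
    · exact ⟨c, hac, hcd, hcd1⟩

/-- **Existence of subpairs.** -/
theorem exists_subpairLE {p : ℕ} [Fact p.Prime] {M : Ideal Cfsg.AlgInt}
    (hM : Cfsg.IsPModular p M) (P : Subgroup G)
    (e : Set (Cfsg.IrrCharacter (Subgroup.centralizer (P : Set G))))
    (hPe : Cfsg.IsBrauerPair p M P e) :
    ∀ Q : Subgroup G, Q ≤ P → ∃ f : Set (Cfsg.IrrCharacter (Subgroup.centralizer (Q : Set G))),
      Cfsg.IsPBlock M f ∧ Cfsg.SubpairLE p M Q f P e := by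
  intro Q
  induction Q using WellFoundedGT.induction with
  | _ Q ih =>
    intro hQP
    by_cases hQ : Q = P
    · subst hQ
      exact ⟨e, hPe.2, Relation.ReflTransGen.refl⟩
    · have hlt : Q < P := lt_of_le_of_ne hQP hQ
      obtain ⟨x, hxP, hxN, hxQ⟩ := Helper75.exists_normalizer_not_mem P Q hPe.1 hlt
      have hQQ₁ : Q ≤ P ⊓ Subgroup.normalizer (Q : Set G) := le_inf hQP Subgroup.le_normalizer
      have hlt₁ : Q < P ⊓ Subgroup.normalizer (Q : Set G) :=
        lt_of_le_of_ne hQQ₁ (fun h => hxQ (h ▸ Subgroup.mem_inf.mpr ⟨hxP, hxN⟩))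
      obtain ⟨f₁, hf₁, hle₁⟩ := ih _ hlt₁ inf_le_left
      obtain ⟨f, hf, -⟩ := existsUnique_isNormalSubpair hM (P ⊓ Subgroup.normalizer (Q : Set G))
        Q f₁ ⟨hPe.1.to_le inf_le_left, hf₁⟩ hQQ₁ inf_le_right
      exact ⟨f, hf.1.2, Relation.ReflTransGen.head
        (show Cfsg.NormalSubpairRel p M ⟨Q, f⟩ ⟨P ⊓ Subgroup.normalizer (Q : Set G), f₁⟩ from hf)
        hle₁⟩

/-- **Uniqueness of subpairs** (Alperin–Broué). -/
theorem subpairLE_unique {p : ℕ} [Fact p.Prime] {M : Ideal Cfsg.AlgInt}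
    (hM : Cfsg.IsPModular p M) :
    ∀ (n : ℕ) (P : Subgroup G) (e : Set (Cfsg.IrrCharacter (Subgroup.centralizer (P : Set G)))),
      Nat.card P = n → Cfsg.IsBrauerPair p M P e →
      ∀ (Q : Subgroup G) (f f' : Set (Cfsg.IrrCharacter (Subgroup.centralizer (Q : Set G)))),
        Cfsg.SubpairLE p M Q f P e → Cfsg.SubpairLE p M Q f' P e → f = f' := by
  intro n
  induction n using Nat.strong_induction_on with
  | _ n ih =>
    intro P e hn hPe Q f f' h h'
    by_cases hQ : Q = P
    · subst hQ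
      have h1 := isNormalSubpair_of_reflTransGen hM h hPe Subgroup.le_normalizer
      have h2 := isNormalSubpair_of_reflTransGen hM h' hPe Subgroup.le_normalizer
      obtain ⟨f₀, -, huniq⟩ := existsUnique_isNormalSubpair hM Q Q e hPe le_rfl
        Subgroup.le_normalizer
      exact (huniq _ h1).trans (huniq _ h2).symm
    · obtain ⟨⟨R, g⟩, hQR, hRP, hRne⟩ := exists_proper_step hM h hPe hQ
      obtain ⟨⟨R', g'⟩, hQR', hRP', hRne'⟩ := exists_proper_step hM h' hPe hQ
      have hRP2 : Cfsg.IsNormalSubpair p M R g P e := hRP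
      have hRP2' : Cfsg.IsNormalSubpair p M R' g' P e := hRP'
      have hRleP : R ≤ P := hRP2.2.2.1
      have hR'leP : R' ≤ P := hRP2'.2.2.1
      have hPNR : P ≤ Subgroup.normalizer (R : Set G) := hRP2.2.2.2.1
      have hPNR' : P ≤ Subgroup.normalizer (R' : Set G) := hRP2'.2.2.2.1
      have hcard : Nat.card R < n := by
        rw [← hn]
        by_contra hcon
        exact hRne (Subgroup.eq_of_le_of_card_ge hRleP (not_lt.mp hcon))
      have hcard' : Nat.card R' < n := by
        rw [← hn]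
        by_contra hcon
        exact hRne' (Subgroup.eq_of_le_of_card_ge hR'leP (not_lt.mp hcon))
      have hQT : Q ≤ R ⊓ R' :=
        le_inf (Helper75.subpairLE_fst_le hQR) (Helper75.subpairLE_fst_le hQR')
      have hPNT : P ≤ Subgroup.normalizer ((R ⊓ R' : Subgroup G) : Set G) :=
        fun x hx => mem_normalizer_inf (hPNR hx) (hPNR' hx)
      have key : ∀ (R₀ : Subgroup G)
          (g₀ : Set (Cfsg.IrrCharacter (Subgroup.centralizer (R₀ : Set G)))),
          Cfsg.IsNormalSubpair p M R₀ g₀ P e → Nat.card R₀ < n → R ⊓ R' ≤ R₀ →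
          ∀ f₀ : Set (Cfsg.IrrCharacter (Subgroup.centralizer (Q : Set G))),
            Cfsg.SubpairLE p M Q f₀ R₀ g₀ →
            ∃ t : Set (Cfsg.IrrCharacter (Subgroup.centralizer ((R ⊓ R' : Subgroup G) : Set G))),
              Cfsg.IsNormalSubpair p M (R ⊓ R') t P e ∧ Cfsg.SubpairLE p M Q f₀ (R ⊓ R') t := by
        intro R₀ g₀ hR₀ hc hTR f₀ hle
        have hR₀' := hR₀
        obtain ⟨hR₀g, -, hR₀P, hPN₀, -, -⟩ := hR₀
        obtain ⟨t, ht, -⟩ := existsUnique_isNormalSubpair hM R₀ (R ⊓ R') g₀ hR₀g hTR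
          (hR₀P.trans hPNT)
        obtain ⟨f₁, hf₁, hle₁⟩ := exists_subpairLE hM (R ⊓ R') t ht.1 Q hQT
        have hle₂ : Cfsg.SubpairLE p M Q f₁ R₀ g₀ := Relation.ReflTransGen.tail hle₁ ht
        have hf₁f₀ : f₁ = f₀ := ih (Nat.card R₀) hc R₀ g₀ rfl hR₀g Q f₁ f₀ hle₂ hle
        subst hf₁f₀
        exact ⟨t, isNormalSubpair_trans hM ht hR₀' hPNT, hle₁⟩
      obtain ⟨t, ht, hQt⟩ := key R g hRP2 hcard inf_le_left f hQR
      obtain ⟨t', ht', hQt'⟩ := key R' g' hRP2' hcard' inf_le_right f' hQR'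
      obtain ⟨t₀, -, huniq⟩ := existsUnique_isNormalSubpair hM P (R ⊓ R') e hPe
        (inf_le_left.trans hRleP) hPNT
      have htt' : t = t' := (huniq _ ht).trans (huniq _ ht').symm
      subst htt'
      have hcT : Nat.card (R ⊓ R' : Subgroup G) < n :=
        lt_of_le_of_lt (Subgroup.card_le_of_le inf_le_left) hcard
      exact ih _ hcT (R ⊓ R') t rfl ht.1 Q f f' hQt hQt'

end Cfsg.Agent.Helper77
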